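import Cfsg.Agent.ChevU.CentDat
import Cfsg.Agent.ChevU.IvFG

set_option autoImplicit false
set_option linter.unusedSectionVars false
set_option linter.unusedVariables false

/-!
# Classes of involutions without rank data (helper17)
-/

namespace Cfsg.Agent.ChevU

open Cfsg.Lie Matrix Subgroup

variable {D : ChevalleyDatum} {F : Type*} [Field F] [CharP F 2] (R : RootFacts D) (G : Chev.Good D) (E : ChevGrp.DData D)

theorem tL_eq_pl (L : List ℕ) : tL G F L = pl R G L (fun _ => 1) := by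
  unfold tL pl
  congr 1

theorem pl_one_ne {S T : List ℕ} (Z : Supp D S T) (hS : S ≠ []) : pl R G S (fun _ => (1 : F)) ≠ 1 := by
  intro h
  obtain ⟨s, hs⟩ := List.exists_mem_of_ne_nil S hS
  have hsub : ∀ r ∈ S, r ∈ S ++ T := fun r hr => List.mem_append_left _ hr
  have h1 := pl_coord R G (List.nodup_append.1 Z.nd).1 (Z.half R hsub) List.nodup_nil (by simp) (Z.commL R G hsub (fun _ => 1))
    (f' := fun _ => (1 : F)) (by intro r hr; simp at hr) (by rw [pl_nil]; exact h) s
  rw [if_pos hs, if_neg (by simp)] at h1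
  exact one_ne_zero h1

theorem pl_one_sq {S T : List ℕ} (Z : Supp D S T) : pl R G S (fun _ => (1 : F)) * pl R G S (fun _ => 1) = 1 := by
  rw [pl_mul R G Z fun r hr => List.mem_append_left _ hr]
  have : (fun _ : ℕ => (1 : F) + 1) = fun _ => 0 := by funext _; exact CharTwo.add_self_eq_zero 1
  rw [this, pl_zero]

theorem pl_coe (L : List ℕ) : ((pl R G L (fun _ => (1 : F)) : GL D.Idx F) : Matrix D.Idx D.Idx F) = (L.map fun r => D.x F r 1).prod := by
  rw [← tL_eq_pl, tL_coe]

section three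

variable {Rs : List (List ℕ)} (Tf : List ℕ → List ℕ)

include R in
theorem three_parts (hZ : ∀ L ∈ Rs, Supp D L (Tf L) ∧ L ≠ [])
    (hall : ∀ t ∈ D.group F, t * t = 1 → t ≠ 1 → ∃ L ∈ Rs, Eqv D F t (tL G F L))
    (hne : ∀ L ∈ Rs, ∀ L' ∈ Rs, Eqv D F (tL G F L) (tL G F L') → L = L') :
    (∀ y : GL D.Idx F, (y : Matrix D.Idx D.Idx F) ∈ (Rs.map fun L => (L.map fun r => D.x F r 1).prod) → y ∈ D.group F ∧ orderOf y = 2) ∧
    (∀ g ∈ D.group F, orderOf g = 2 → ∃ y ∈ D.group F, (y : Matrix D.Idx D.Idx F) ∈ (Rs.map fun L => (L.map fun r => D.x F r 1).prod) ∧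
      ∃ h ∈ D.group F, h * g * h⁻¹ = y) ∧
    (∀ y₁ ∈ D.group F, ∀ y₂ ∈ D.group F, (y₁ : Matrix D.Idx D.Idx F) ∈ (Rs.map fun L => (L.map fun r => D.x F r 1).prod) →
      (y₂ : Matrix D.Idx D.Idx F) ∈ (Rs.map fun L => (L.map fun r => D.x F r 1).prod) →
      (∃ h ∈ D.group F, h * y₁ * h⁻¹ = y₂) → (y₁ : Matrix D.Idx D.Idx F) = y₂) := by
  have hlt : ∀ L ∈ Rs, ∀ r ∈ L, r < D.nroots := fun L hL r hr => ((hZ L hL).1.pos r (List.mem_append_left _ hr)).1
  refine ⟨?_, ?_, ?_⟩
  · intro y hy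
    rw [List.mem_map] at hy
    obtain ⟨L, hL, hy⟩ := hy
    have e : y = tL G F L := by apply Units.ext; rw [← hy, tL_coe]
    subst e
    refine ⟨tL_mem G (hlt L hL), ?_⟩
    apply orderOf_eq_prime
    · rw [pow_two, tL_eq_pl R G]; exact pl_one_sq R G (hZ L hL).1
    · rw [tL_eq_pl R G]; exact pl_one_ne R G (hZ L hL).1 (hZ L hL).2
  · intro g hg h2
    have h3 : g * g = 1 := by rw [← pow_two, ← h2]; exact pow_orderOf_eq_one g
    have h4 : g ≠ 1 := by rintro rfl; rw [orderOf_one] at h2; omega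
    obtain ⟨L, hL, h5⟩ := hall g hg h3 h4
    exact ⟨tL G F L, tL_mem G (hlt L hL), List.mem_map.2 ⟨L, hL, (tL_coe G L).symm⟩, h5⟩
  · intro y₁ _ y₂ _ h1 h2 h3
    rw [List.mem_map] at h1 h2
    obtain ⟨L1, hL1, e1⟩ := h1
    obtain ⟨L2, hL2, e2⟩ := h2
    have f1 : y₁ = tL G F L1 := by apply Units.ext; rw [← e1, tL_coe]
    have f2 : y₂ = tL G F L2 := by apply Units.ext; rw [← e2, tL_coe]
    rw [f1, f2] at h3
    rw [← e1, ← e2, hne L1 hL1 L2 hL2 h3]

end three

/-! ### weaker bookkeeping -/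

/-- bookkeeping -/
def chkBook' (D : ChevalleyDatum) (nodes : List (List ℕ)) (assoc : List (List ℕ × List ℕ × List ℕ × List ℕ)) (reps : List (List ℕ)) : Bool :=
  nodes.contains [] && (nodes.all fun L => L == [] || assoc.any fun a => a.1 == L) && (assoc.all fun a => reps.contains a.2.2.2)

theorem exists_rep' [Fintype F] {nodes : List (List ℕ)} {leafs : List (List ℕ × List ℕ × List ℕ)}
    {assoc : List (List ℕ × List ℕ × List ℕ × List ℕ)} {reps : List (List ℕ)} (h1 : chkOC D = true)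
    (h2 : nodes.all (chkNodeF D nodes leafs) = true) (h3 : leafs.all (chkLeafF D) = true) (h4 : assoc.all (chkAssoc D) = true)
    (h5 : chkBook' D nodes assoc reps = true) (E : ChevGrp.DData D) (R : RootFacts D) {t : GL D.Idx F} (ht : t ∈ D.group F) (htt : t * t = 1) (ht1 : t ≠ 1) :
    ∃ L ∈ reps, Eqv D F t (tL G F L) := by
  unfold chkBook' at h5
  rw [Bool.and_eq_true, Bool.and_eq_true, List.contains_iff_mem, List.all_eq_true, List.all_eq_true] at h5
  obtain ⟨⟨h50, h51⟩, h52⟩ := h5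
  have h2' : nodes.all (chkNode D nodes leafs) = true := by
    rw [List.all_eq_true] at h2 ⊢
    exact fun L hL => chkNode_of_fast G.toFast (h2 L hL)
  have h3' : leafs.all (chkLeaf D) = true := by
    rw [List.all_eq_true] at h3 ⊢
    exact fun L hL => chkLeaf_of_fast G.toFast (h3 L hL)
  obtain ⟨L, hL, hO, hE⟩ := exists_tL G E h1 (fun h hh => diag_pow R G hh) ht htt
  obtain ⟨L', hL', hE'⟩ := canon (F := F) G h1 h50 h2' h3' L hL hO
  have h6 := h51 L' hL'
  rw [Bool.or_eq_true, beq_iff_eq, List.any_eq_true] at h6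
  rcases h6 with h6 | ⟨a, ha, h6⟩
  · exfalso
    apply ht1
    obtain ⟨g, hg, e⟩ := hE.trans hE'
    rw [h6] at e
    have : tL G F [] = 1 := by simp [tL]
    rw [this, mul_inv_eq_one] at e
    exact mul_left_cancel (e.trans (mul_one g).symm)
  · rw [beq_iff_eq] at h6
    rw [List.all_eq_true] at h4
    have h7 := eqv_of_assoc (F := F) G (h4 a ha)
    rw [h6] at h7
    have h8 := h52 a ha
    rw [List.contains_iff_mem] at h8
    exact ⟨_, h8, (hE.trans hE').trans h7.symm⟩

theorem bookF : chkBook' chevF4 IvF4.nodes IvF4.assoc IvF4.reps = true := by decide +kernel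
theorem bookG : chkBook' chevG2 IvG2.nodes IvG2.assoc IvG2.reps = true := by decide +kernel

/-! ### Weyl group facts -/

theorem nf_inj {u : Equiv.Perm (Fin D.nroots)} {a b : ℕ} (ha : a < D.nroots) (hb : b < D.nroots) (h : nf u a = nf u b) : a = b := by
  rw [← nf_inv u ha, h, nf_inv u hb]

include G E in
theorem pr_nf {u : Equiv.Perm (Fin D.nroots)} (hu : u ∈ E.rp.wsys.W) {a b : ℕ} (ha : a < D.nroots) (hb : b < D.nroots) :
    Chev.pr D (nf u a) (nf u b) = Chev.pr D a b := by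
  have := pr_W G E hu ⟨a, ha⟩ ⟨b, hb⟩
  unfold nf
  rw [dif_pos ha, dif_pos hb]
  exact this

/-! ### `F4` -/

section F4

variable (RF : RootFacts chevF4) (GF : Chev.Good chevF4) (EF : ChevGrp.DData chevF4)

theorem notlong44 : (44 : ℕ) ∉ [0, 1, 2, 4, 5, 6, 15, 16, 17, 21, 22, 23, 24, 25, 26, 30, 31, 32, 41, 42, 43, 45, 46, 47] := by decide

include EF in
theorem F4_long {u : Equiv.Perm (Fin chevF4.nroots)} (hu : u ∈ EF.rp.wsys.W) {r : ℕ}
    (hr : r ∈ [0, 1, 2, 4, 5, 6, 15, 16, 17, 21, 22, 23, 24, 25, 26, 30, 31, 32, 41, 42, 43, 45, 46, 47]) :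
    nf u r ∈ [0, 1, 2, 4, 5, 6, 15, 16, 17, 21, 22, 23, 24, 25, 26, 30, 31, 32, 41, 42, 43, 45, 46, 47] :=
  mem_of_stab EF CentDat.longF hu hr

include EF in
theorem F4_short {u : Equiv.Perm (Fin chevF4.nroots)} (hu : u ∈ EF.rp.wsys.W) {r : ℕ}
    (hr : r ∈ [3, 7, 8, 9, 10, 11, 12, 13, 14, 18, 19, 20, 27, 28, 29, 33, 34, 35, 36, 37, 38, 39, 40, 44]) :
    nf u r ∈ [3, 7, 8, 9, 10, 11, 12, 13, 14, 18, 19, 20, 27, 28, 29, 33, 34, 35, 36, 37, 38, 39, 40, 44] :=
  mem_of_stab EF CentDat.shortF hu hr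

theorem prF_v : (decide (Chev.pr chevF4 39 45 = 0) && decide (Chev.pr chevF4 39 46 ≠ 0) && decide (Chev.pr chevF4 39 47 ≠ 0) &&
    decide (Chev.pr chevF4 40 45 ≠ 0) && decide (Chev.pr chevF4 40 46 ≠ 0) && decide (Chev.pr chevF4 40 47 ≠ 0) &&
    decide (Chev.pr chevF4 44 45 ≠ 0) && decide (Chev.pr chevF4 44 46 ≠ 0) && decide (Chev.pr chevF4 44 47 ≠ 0)) = true := by
  decide +kernel

theorem F4n : chevF4.nroots = 48 := by decide +kernel

include EF GF in
theorem F4_fixw {u : Equiv.Perm (Fin chevF4.nroots)} (hu : u ∈ EF.rp.wsys.W) (h : ∀ s ∈ [47, 44], nf u s ∈ [47, 44] ++ []) :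
    ∀ s ∈ [47, 44], nf u s = s := by
  have h1 := h 47 (by simp)
  have h2 := h 44 (by simp)
  have h3 := F4_long EF hu (r := 47) (by decide)
  have h4 := F4_short EF hu (r := 44) (by decide)
  intro s hs
  simp only [List.append_nil, List.mem_cons, List.not_mem_nil, or_false] at h1 h2 hs
  rcases hs with rfl | rfl
  · rcases h1 with h1 | h1
    · exact h1
    · rw [h1] at h3; exact absurd h3 (by decide)
  · rcases h2 with h2 | h2
    · rw [h2] at h4; exact absurd h4 (by decide)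
    · exact h2

include EF GF in
theorem F4_fixv {u : Equiv.Perm (Fin chevF4.nroots)} (hu : u ∈ EF.rp.wsys.W) (h : ∀ s ∈ [39, 45], nf u s ∈ [39, 45] ++ [40, 44, 46, 47]) :
    ∀ s ∈ [39, 45], nf u s = s := by
  have h1 := h 39 (by simp)
  have h2 := h 45 (by simp)
  have h3 := F4_long EF hu (r := 45) (by decide)
  have h4 := F4_short EF hu (r := 39) (by decide)
  have h5 := pr_nf GF EF hu (a := 39) (b := 45) (by rw [F4n]; norm_num) (by rw [F4n]; norm_num)
  have hp := prF_v
  simp only [Bool.and_eq_true, decide_eq_true_eq] at hp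
  obtain ⟨⟨⟨⟨⟨⟨⟨⟨p0, p1⟩, p2⟩, p3⟩, p4⟩, p5⟩, p6⟩, p7⟩, p8⟩ := hp
  rw [p0] at h5
  simp only [List.cons_append, List.nil_append, List.mem_cons, List.not_mem_nil, or_false] at h1 h2
  have key : nf u 39 = 39 ∧ nf u 45 = 45 := by
    rcases h1 with h1 | h1 | h1 | h1 | h1 | h1 <;> rcases h2 with h2 | h2 | h2 | h2 | h2 | h2 <;>
      rw [h1] at h4 h5 <;> rw [h2] at h3 h5 <;>
      first
      | exact ⟨h1, h2⟩
      | exact absurd h3 (by decide)
      | exact absurd h4 (by decide)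
      | exact absurd h5 p1
      | exact absurd h5 p2
      | exact absurd h5 p3
      | exact absurd h5 p4
      | exact absurd h5 p5
      | exact absurd h5 p6
      | exact absurd h5 p7
      | exact absurd h5 p8
  intro s hs
  simp only [List.mem_cons, List.not_mem_nil, or_false] at hs
  rcases hs with rfl | rfl
  · exact key.1
  · exact key.2

/-- further roots of the conjugates -/
def TfF (L : List ℕ) : List ℕ := if L = [39, 45] then [40, 44, 46, 47] else []

include RF GF EF in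
theorem F4_noconj : ∀ L ∈ IvF4.reps, ∀ L' ∈ IvF4.reps, Eqv chevF4 F (tL GF F L) (tL GF F L') → L = L' := by
  have hZ : ∀ L ∈ IvF4.reps, Supp chevF4 L (TfF L) := by
    intro L hL
    simp only [IvF4.reps, List.mem_cons, List.not_mem_nil, or_false] at hL
    rcases hL with rfl | rfl | rfl | rfl
    · exact CentDat.c47.supp
    · exact CentDat.c44.supp
    · exact CentDat.cw.supp
    · exact CentDat.cv.supp
  have hp := prF_v
  simp only [Bool.and_eq_true, decide_eq_true_eq] at hp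
  obtain ⟨⟨⟨⟨⟨⟨⟨⟨p0, -⟩, -⟩, -⟩, -⟩, -⟩, -⟩, -⟩, p8⟩ := hp
  intro L hL L' hL' h
  have e1 : ∃ u ∈ EF.rp.wsys.W, ∀ s ∈ L, nf u s ∈ L' ++ TfF L' := by
    obtain ⟨g, hg, e⟩ := h
    rw [tL_eq_pl RF GF, tL_eq_pl RF GF] at e
    exact exists_W_of_conj RF GF EF (hZ L hL) (hZ L' hL') hg e
  have e2 : ∃ u ∈ EF.rp.wsys.W, ∀ s ∈ L', nf u s ∈ L ++ TfF L := by
    obtain ⟨g, hg, e⟩ := h.symm
    rw [tL_eq_pl RF GF, tL_eq_pl RF GF] at e
    exact exists_W_of_conj RF GF EF (hZ L' hL') (hZ L hL) hg e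
  obtain ⟨u, hu, h1⟩ := e1
  obtain ⟨v, hv, h2⟩ := e2
  -- images
  have a47 := F4_long EF hu (r := 47) (by decide)
  have a44 := F4_short EF hu (r := 44) (by decide)
  have a39 := F4_short EF hu (r := 39) (by decide)
  have a45 := F4_long EF hu (r := 45) (by decide)
  have b47 := F4_long EF hv (r := 47) (by decide)
  have b44 := F4_short EF hv (r := 44) (by decide)
  have b39 := F4_short EF hv (r := 39) (by decide)
  have b45 := F4_long EF hv (r := 45) (by decide)
  have ap := pr_nf GF EF hu (a := 39) (b := 45) (by rw [F4n]; norm_num) (by rw [F4n]; norm_num)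
  have bp := pr_nf GF EF hv (a := 39) (b := 45) (by rw [F4n]; norm_num) (by rw [F4n]; norm_num)
  rw [p0] at ap bp
  have one : ∀ {w : Equiv.Perm (Fin chevF4.nroots)} {s r : ℕ}, nf w s = r →
      nf w s ∈ [0, 1, 2, 4, 5, 6, 15, 16, 17, 21, 22, 23, 24, 25, 26, 30, 31, 32, 41, 42, 43, 45, 46, 47] →
      r ∉ [0, 1, 2, 4, 5, 6, 15, 16, 17, 21, 22, 23, 24, 25, 26, 30, 31, 32, 41, 42, 43, 45, 46, 47] → False := by
    rintro w s r rfl h h'; exact h' h
  have two : ∀ {w : Equiv.Perm (Fin chevF4.nroots)} {s r : ℕ}, nf w s = r →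
      nf w s ∈ [3, 7, 8, 9, 10, 11, 12, 13, 14, 18, 19, 20, 27, 28, 29, 33, 34, 35, 36, 37, 38, 39, 40, 44] →
      r ∉ [3, 7, 8, 9, 10, 11, 12, 13, 14, 18, 19, 20, 27, 28, 29, 33, 34, 35, 36, 37, 38, 39, 40, 44] → False := by
    rintro w s r rfl h h'; exact h' h
  have m1 : ∀ {a b : ℕ}, a ∈ [b] ++ TfF [b] → TfF [b] = [] → a = b := by
    intro a b h h'; rw [h'] at h; simpa using h
  have m2 : ∀ {a : ℕ}, a ∈ [47, 44] ++ TfF [47, 44] → a = 47 ∨ a = 44 := by
    intro a h
    have h' : TfF [47, 44] = [] := rfl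
    rw [h'] at h; simpa using h
  simp only [IvF4.reps, List.mem_cons, List.not_mem_nil, or_false] at hL hL'
  rcases hL with rfl | rfl | rfl | rfl <;> rcases hL' with rfl | rfl | rfl | rfl
  · rfl
  · exact (one (m1 (h1 47 (by simp)) rfl) a47 (by decide)).elim
  · exact (two (m1 (h2 44 (by simp)) rfl) b44 (by decide)).elim
  · exact (two (m1 (h2 39 (by simp)) rfl) b39 (by decide)).elim
  · exact (two (m1 (h1 44 (by simp)) rfl) a44 (by decide)).elim
  · rfl
  · exact (one (m1 (h2 47 (by simp)) rfl) b47 (by decide)).elim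
  · exact (one (m1 (h2 45 (by simp)) rfl) b45 (by decide)).elim
  · exact (two (m1 (h1 44 (by simp)) rfl) a44 (by decide)).elim
  · exact (one (m1 (h1 47 (by simp)) rfl) a47 (by decide)).elim
  · rfl
  · exfalso
    have q1 : nf v 39 = 44 := by
      rcases m2 (h2 39 (by simp)) with h | h
      · exact (two h b39 (by decide)).elim
      · exact h
    have q2 : nf v 45 = 47 := by
      rcases m2 (h2 45 (by simp)) with h | h
      · exact h
      · exact (one h b45 (by decide)).elim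
    rw [q1, q2] at bp
    exact p8 bp
  · exact (two (m1 (h1 39 (by simp)) rfl) a39 (by decide)).elim
  · exact (one (m1 (h1 45 (by simp)) rfl) a45 (by decide)).elim
  · exfalso
    have q1 : nf u 39 = 44 := by
      rcases m2 (h1 39 (by simp)) with h | h
      · exact (two h a39 (by decide)).elim
      · exact h
    have q2 : nf u 45 = 47 := by
      rcases m2 (h1 45 (by simp)) with h | h
      · exact h
      · exact (one h a45 (by decide)).elim
    rw [q1, q2] at ap
    exact p8 ap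
  · rfl

end F4

/-! ### `G2` -/

section G2

variable (RF : RootFacts chevG2) (GF : Chev.Good chevG2) (EF : ChevGrp.DData chevG2)

include EF in
theorem G2_fix {u : Equiv.Perm (Fin chevG2.nroots)} (hu : u ∈ EF.rp.wsys.W) (h : ∀ s ∈ [9], nf u s ∈ [9] ++ [10, 11]) :
    ∀ s ∈ [9], nf u s = s := by
  have h1 := h 9 (by simp)
  have h2 := mem_of_stab EF CentDat.shortG hu (r := 9) (by decide)
  simp only [List.cons_append, List.nil_append, List.mem_cons, List.not_mem_nil, or_false] at h1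
  intro s hs
  rw [List.mem_singleton] at hs
  subst hs
  rcases h1 with h1 | h1 | h1
  · exact h1
  · rw [h1] at h2; exact absurd h2 (by decide)
  · rw [h1] at h2; exact absurd h2 (by decide)

/-- further roots of the conjugates -/
def TfG (L : List ℕ) : List ℕ := if L = [9] then [10, 11] else []

include RF GF EF in
theorem G2_noconj : ∀ L ∈ IvG2.reps, ∀ L' ∈ IvG2.reps, Eqv chevG2 F (tL GF F L) (tL GF F L') → L = L' := by
  have key : ¬ Eqv chevG2 F (tL GF F [9]) (tL GF F [11]) := by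
    rintro ⟨g, hg, e⟩
    rw [tL_eq_pl RF GF, tL_eq_pl RF GF] at e
    obtain ⟨u, hu, h⟩ := exists_W_of_conj RF GF EF CentDat.ct.supp CentDat.cz.supp hg e
    have h1 := h 9 (by simp)
    have h2 := mem_of_stab EF CentDat.shortG hu (r := 9) (by decide)
    simp only [List.append_nil, List.mem_singleton] at h1
    rw [h1] at h2
    exact absurd h2 (by decide)
  intro L hL L' hL' h
  simp only [IvG2.reps, List.mem_cons, List.not_mem_nil, or_false] at hL hL'
  rcases hL with rfl | rfl <;> rcases hL' with rfl | rfl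
  · rfl
  · exact absurd h.symm key
  · exact absurd h key
  · rfl

end G2

end Cfsg.Agent.ChevU
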