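import Cfsg.Agent.ChevU.IvE6A
import Cfsg.Agent.ChevU.IvE6R

set_option autoImplicit false
set_option maxRecDepth 100000

/-! Classes of involutions of `E6` in characteristic two: data (helper17) -/

namespace Cfsg.Agent.ChevU.IvE6

open Cfsg.Lie Cfsg.Agent.ChevU

theorem ok_nodes (H : Cfsg.Agent.Chev.Fast chevE6) : nodes.all (chkNode chevE6 nodes leafs) = true := by
  show ([[], [71], [71, 60], [71, 60, 44]] : List (List ℕ)).all (chkNode chevE6 nodes leafs) = true
  rw [List.all_cons, chkNode_of_fast H node0, Bool.true_and]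
  rw [List.all_cons, chkNode_of_fast H node1, Bool.true_and]
  rw [List.all_cons, chkNode_of_fast H node2, Bool.true_and]
  rw [List.all_cons, chkNode_of_fast H node3, Bool.true_and]
  rfl

theorem ok_leafs (H : Cfsg.Agent.Chev.Fast chevE6) : leafs.all (chkLeaf chevE6) = true := by
  show ([([71, 60, 44, 39], [60, 44, 39, 46, 60, 44, 39, 46], [60, 44, 39])] : List (List ℕ × List ℕ × List ℕ)).all (chkLeaf chevE6) = true
  rw [List.all_cons, chkLeaf_of_fast H leaf0, Bool.true_and]
  rfl

theorem ok_assoc : assoc.all (chkAssoc chevE6) = true := by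
  show ([([71], [], [], [71]), ([71, 60], [1, 3, 4], [], [68, 66]), ([71, 60, 44], [0, 1, 3, 2, 0], [], [55, 65, 67])] : List (List ℕ × List ℕ × List ℕ × List ℕ)).all (chkAssoc chevE6) = true
  rw [List.all_cons, assoc0, Bool.true_and]
  rw [List.all_cons, assoc1, Bool.true_and]
  rw [List.all_cons, assoc2, Bool.true_and]
  rfl

def rk (L : List ℕ) : ℕ :=
  if L = [71] then 22 else
  if L = [68, 66] then 32 else
  if L = [55, 65, 67] then 38 else 0

theorem ok_oc (H : Cfsg.Agent.Chev.Good chevE6) : chkOC chevE6 = true := chkOC_of_fast H.toFast ocF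

theorem classes (F : Type*) [Field F] [CharP F 2] [Fintype F] (H : Cfsg.Agent.Chev.Good chevE6) (E : Cfsg.Agent.ChevGrp.DData chevE6)
    (R : RootFacts chevE6) : ClassData H F reps rk := by
  refine classData H E R (ok_oc H) (ok_nodes H.toFast) (ok_leafs H.toFast) ok_assoc ok_book rk ?_ ?_ ?_
  · intro L hL
    simp only [reps, List.mem_cons, List.not_mem_nil, or_false] at hL
    rcases hL with rfl | rfl | rfl
    · exact rank_of_chkL rank0
    · exact rank_of_chkL rank1
    · exact rank_of_chkL rank2
  · decide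
  · decide

end Cfsg.Agent.ChevU.IvE6
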