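import Cfsg.Agent.ChevU.CentChk

set_option autoImplicit false

/-! Centralisers of involutions in `F4` and `G2`, characteristic two: data (helper17) -/

namespace Cfsg.Agent.ChevU.CentDat

open Cfsg.Lie Cfsg.Agent.ChevU

theorem c47 : CData chevF4 [47] [] [0, 1, 2] [24, 26, 29, 31, 32, 36, 38, 39, 40, 42, 43, 44, 45, 46, 47] [] (fun s => if s = 47 then 1 else 0) :=
  cdata_of_chk (K := fun i s => if i = 3 ∧ s = 47 then 1 else 0) (by decide +kernel)

theorem c44 : CData chevF4 [44] [] [1, 2, 3] [33, 34, 35, 36, 37, 38, 39, 40, 41, 42, 43, 44, 45, 46, 47] [] (fun s => if s = 44 then 1 else 0) :=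
  cdata_of_chk (K := fun i s => if i = 0 ∧ s = 44 then 1 else 0) (by decide +kernel)

theorem cw : CData chevF4 [47, 44] [] [1, 2] [24, 26, 29, 31, 32, 33, 34, 35, 36, 37, 38, 39, 40, 41, 42, 43, 44, 45, 46, 47] [] (fun s => if s = 47 then 1 else if s = 44 then 1 else 0) :=
  cdata_of_chk (K := fun i s => if i = 0 ∧ s = 44 then 1 else if i = 3 ∧ s = 47 then 1 else 0) (by decide +kernel)

theorem cv : CData chevF4 [39, 45] [40, 44, 46, 47] [0, 3] [28, 29, 30, 31, 32, 35, 36, 37, 38, 39, 40, 41, 42, 43, 44, 45, 46, 47] [(27, 39, 40), (34, 39, 44), (25, 45, 46), (26, 45, 47)] (fun s => if s = 39 then 2 else if s = 45 then 3 else 0) :=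
  cdata_of_chk (K := fun i s => if i = 1 ∧ s = 39 then 1 else if i = 1 ∧ s = 45 then 1 else if i = 2 ∧ s = 39 then 2 else if i = 2 ∧ s = 45 then 1 else 0) (by decide +kernel)

theorem cz : CData chevG2 [11] [] [0] [6, 8, 9, 10, 11] [] (fun s => if s = 11 then 1 else 0) :=
  cdata_of_chk (K := fun i s => if i = 1 ∧ s = 11 then 1 else 0) (by decide +kernel)

theorem ct : CData chevG2 [9] [10, 11] [1] [9, 10, 11] [(7, 9, 10), (8, 9, 11)] (fun s => if s = 9 then 1 else 0) :=
  cdata_of_chk (K := fun i s => if i = 0 ∧ s = 9 then 1 else 0) (by decide +kernel)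

theorem longF : chkStab chevF4 [0, 1, 2, 4, 5, 6, 15, 16, 17, 21, 22, 23, 24, 25, 26, 30, 31, 32, 41, 42, 43, 45, 46, 47] = true := by decide +kernel
theorem shortF : chkStab chevF4 [3, 7, 8, 9, 10, 11, 12, 13, 14, 18, 19, 20, 27, 28, 29, 33, 34, 35, 36, 37, 38, 39, 40, 44] = true := by decide +kernel
theorem longG : chkStab chevG2 [0, 1, 5, 6, 10, 11] = true := by decide +kernel
theorem shortG : chkStab chevG2 [2, 3, 4, 7, 8, 9] = true := by decide +kernel

end Cfsg.Agent.ChevU.CentDat
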