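import Cfsg.Agent.ChevU.CertUse

set_option autoImplicit false
set_option linter.unusedSectionVars false
set_option linter.unusedVariables false

/-!
# Commutators of root subgroups in unipotent radicals, type `G₂` (helper17)
-/

namespace Cfsg.Agent.ChevU

open Cfsg.Lie Matrix Subgroup

theorem g2c76 : chevG2.commTerms 7 6 = [(8, -1, 1, 1), (9, 1, 2, 1), (10, 1, 3, 1), (11, 1, 3, 2)] := by decide +kernel
theorem g2c78 : chevG2.commTerms 7 8 = [(9, -2, 1, 1), (10, -3, 2, 1), (11, 3, 1, 2)] := by decide +kernel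
theorem g2c79 : chevG2.commTerms 7 9 = [(10, 3, 1, 1)] := by decide +kernel
theorem g2c610 : chevG2.commTerms 6 10 = [(11, 1, 1, 1)] := by decide +kernel
theorem g2rank : chevG2.rank = 2 := by decide +kernel
theorem g2n : chevG2.nroots = 12 := by decide +kernel
theorem g2s0 : chevG2.simple 0 = 7 := by decide +kernel
theorem g2s1 : chevG2.simple 1 = 6 := by decide +kernel

variable {F : Type*} [Field F] (R : RootFacts chevG2) (G : Chev.Good chevG2)

section
variable {J : Set ℕ} {Y : Subgroup (GL chevG2.Idx F)}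
  (hY1 : ∀ a ∈ chevG2.unipotentRadical F J, ∀ b ∈ chevG2.posUnipotent F, a * b * a⁻¹ * b⁻¹ ∈ Y)
  (hY2 : chevG2.posUnipotent F ≤ normalizer (Y : Set (GL chevG2.Idx F)))

include R in
theorem g2_outs (h : ∃ i < 2, i ∉ J) : (Out chevG2 J 7 ∨ Out chevG2 J 6) ∧ Out chevG2 J 8 ∧ Out chevG2 J 9 ∧ Out chevG2 J 10 := by
  obtain ⟨i, hi, hiJ⟩ := h
  have hn := g2n
  have hr := g2rank
  have v7 := R.vec_simple 0 (by rw [hr]; norm_num)
  have v6 := R.vec_simple 1 (by rw [hr]; norm_num)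
  rw [g2s0] at v7
  rw [g2s1] at v6
  obtain ⟨-, -, -, v8⟩ := R.commTerms_vec (r := 7) (s := 6) (by rw [hn]; norm_num) (by rw [hn]; norm_num) (8, -1, 1, 1) (by rw [g2c76]; simp)
  obtain ⟨-, -, -, v9⟩ := R.commTerms_vec (r := 7) (s := 6) (by rw [hn]; norm_num) (by rw [hn]; norm_num) (9, 1, 2, 1) (by rw [g2c76]; simp)
  obtain ⟨-, -, -, v10⟩ := R.commTerms_vec (r := 7) (s := 6) (by rw [hn]; norm_num) (by rw [hn]; norm_num) (10, 1, 3, 1) (by rw [g2c76]; simp)
  simp only at v8 v9 v10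
  have hi2 : i < chevG2.rank := by rw [hr]; exact hi
  refine ⟨?_, ?_, ?_, ?_⟩
  · have hi' : i = 0 ∨ i = 1 := by omega
    rcases hi' with rfl | rfl
    · exact Or.inl ((out_iff R (by rw [hn]; norm_num)).mpr ⟨0, hi2, hiJ, by rw [v7]; norm_num⟩)
    · exact Or.inr ((out_iff R (by rw [hn]; norm_num)).mpr ⟨1, hi2, hiJ, by rw [v6]; norm_num⟩)
  all_goals
    rw [out_iff R (by rw [hn]; norm_num)]
    refine ⟨i, hi2, hiJ, ?_⟩
    have hi' : i = 0 ∨ i = 1 := by omega
    first
      | (rw [v8, v7, v6]; rcases hi' with rfl | rfl <;> norm_num)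
      | (rw [v9, v7, v6]; rcases hi' with rfl | rfl <;> norm_num)
      | (rw [v10, v7, v6]; rcases hi' with rfl | rfl <;> norm_num)

include hY1 hY2 in
theorem g2_mem (ha : ∃ a : F, a ≠ 0 ∧ a ^ 2 ≠ 1) (hJ : ∃ i < 2, i ∉ J) (t : F) :
    xr R (elemOfGood G F) 8 t ∈ Y ∧ xr R (elemOfGood G F) 9 t ∈ Y ∧ xr R (elemOfGood G F) 10 t ∈ Y ∧ xr R (elemOfGood G F) 11 t ∈ Y := by
  obtain ⟨h76, h8, h9, h10⟩ := g2_outs R hJ
  have hn := g2n
  have hhalf : R.half = 6 := by have := R.n_eq; omega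
  have lt : ∀ k, k < 12 → k < chevG2.nroots := fun k hk => by rw [hn]; exact hk
  have hh : ∀ k, 6 ≤ k → R.half ≤ k := fun k hk => by rw [hhalf]; exact hk
  set E := elemOfGood G F
  obtain ⟨a, ha0, ha2⟩ := ha
  have ha1 : a ≠ 1 := by rintro rfl; simp at ha2
  have ha1' : a - 1 ≠ 0 := sub_ne_zero.mpr ha1
  -- the words
  have w76 : ∀ t u : F, xr R E 8 (t * u) * (xr R E 9 (t ^ 2 * u) * (xr R E 10 (-(t ^ 3 * u)) * xr R E 11 (-(t ^ 3 * u ^ 2)))) ∈ Y := by
    intro t u
    have h := word_mem R G hY1 (lt 7 (by norm_num)) (hh 7 (by norm_num)) (lt 6 (by norm_num)) (hh 6 (by norm_num)) (by norm_num) h76 t u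
    unfold ChevalleyDatum.commWord at h
    rw [g2c76] at h
    simp only [List.map_cons, List.map_nil] at h
    rw [wu_cons R G, wu_cons R G, wu_cons R G, wu_cons R G, wu_nil R G, mul_one] at h
    have e1 : ((-1 : ℤ) : F) * (-t) ^ 1 * u ^ 1 = t * u := by push_cast; ring
    have e2 : ((1 : ℤ) : F) * (-t) ^ 2 * u ^ 1 = t ^ 2 * u := by push_cast; ring
    have e3 : ((1 : ℤ) : F) * (-t) ^ 3 * u ^ 1 = -(t ^ 3 * u) := by push_cast; ring
    have e4 : ((1 : ℤ) : F) * (-t) ^ 3 * u ^ 2 = -(t ^ 3 * u ^ 2) := by push_cast; ring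
    simp only [e1, e2, e3, e4] at h
    exact h
  have w78 : ∀ t u : F, xr R E 9 (2 * t * u) * (xr R E 10 (-(3 * t ^ 2 * u)) * xr R E 11 (-(3 * t * u ^ 2))) ∈ Y := by
    intro t u
    have h := word_mem R G hY1 (lt 7 (by norm_num)) (hh 7 (by norm_num)) (lt 8 (by norm_num)) (hh 8 (by norm_num)) (by norm_num) (Or.inr h8) t u
    unfold ChevalleyDatum.commWord at h
    rw [g2c78] at h
    simp only [List.map_cons, List.map_nil] at h
    rw [wu_cons R G, wu_cons R G, wu_cons R G, wu_nil R G, mul_one] at h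
    have e1 : ((-2 : ℤ) : F) * (-t) ^ 1 * u ^ 1 = 2 * t * u := by push_cast; ring
    have e2 : ((-3 : ℤ) : F) * (-t) ^ 2 * u ^ 1 = -(3 * t ^ 2 * u) := by push_cast; ring
    have e3 : ((3 : ℤ) : F) * (-t) ^ 1 * u ^ 2 = -(3 * t * u ^ 2) := by push_cast; ring
    simp only [e1, e2, e3] at h
    exact h
  have w79 : ∀ t u : F, xr R E 10 (-(3 * t * u)) ∈ Y := by
    intro t u
    have h := word_mem R G hY1 (lt 7 (by norm_num)) (hh 7 (by norm_num)) (lt 9 (by norm_num)) (hh 9 (by norm_num)) (by norm_num) (Or.inr h9) t u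
    unfold ChevalleyDatum.commWord at h
    rw [g2c79] at h
    simp only [List.map_cons, List.map_nil] at h
    rw [wu_cons R G, wu_nil R G, mul_one] at h
    have e1 : ((3 : ℤ) : F) * (-t) ^ 1 * u ^ 1 = -(3 * t * u) := by push_cast; ring
    simp only [e1] at h
    exact h
  have m11 : ∀ t : F, xr R E 11 t ∈ Y := by
    intro t
    have h := word_mem R G hY1 (lt 6 (by norm_num)) (hh 6 (by norm_num)) (lt 10 (by norm_num)) (hh 10 (by norm_num)) (by norm_num) (Or.inr h10) (-t) 1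
    unfold ChevalleyDatum.commWord at h
    rw [g2c610] at h
    simp only [List.map_cons, List.map_nil] at h
    rw [wu_cons R G, wu_nil R G, mul_one] at h
    have e1 : ((1 : ℤ) : F) * (- -t) ^ 1 * 1 ^ 1 = t := by push_cast; ring
    simp only [e1] at h
    exact h
  have hquot : ∀ x y z : GL chevG2.Idx F, (x * y)⁻¹ * (x * z) = y⁻¹ * z := by intro x y z; group
  have mem3 : ∀ x y z w : GL chevG2.Idx F, x * (y * (z * w)) ∈ Y → w ∈ Y → x * (y * z) ∈ Y := by
    intro x y z w h hw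
    have := mul_mem h (inv_mem hw)
    have e : x * (y * (z * w)) * w⁻¹ = x * (y * z) := by group
    rwa [e] at this
  have mem2 : ∀ x y z w : GL chevG2.Idx F, x * (y * (z * w)) ∈ Y → z ∈ Y → w ∈ Y → x * y ∈ Y := by
    intro x y z w h hz hw
    have := mul_mem h (inv_mem (mul_mem hz hw))
    have e : x * (y * (z * w)) * (z * w)⁻¹ = x * y := by group
    rwa [e] at this
  -- `X_9` and `X_10`
  have m910 : (∀ t : F, xr R E 9 t ∈ Y) ∧ (∀ t : F, xr R E 10 t ∈ Y) := by
    by_cases h3 : (3 : F) = 0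
    · -- characteristic 3
      have h2 : (2 : F) ≠ 0 := by
        intro h2
        have : (1 : F) = 0 := by
          calc (1 : F) = 3 - 2 := by norm_num
            _ = 0 := by rw [h3, h2]; simp
        exact one_ne_zero this
      have m9 : ∀ t : F, xr R E 9 t ∈ Y := by
        intro t
        have h := w78 (t / 2) 1
        have e1 : 2 * (t / 2) * 1 = t := by field_simp
        have e2 : -(3 * (t / 2) ^ 2 * 1) = (0 : F) := by rw [h3]; ring
        have e3 : -(3 * (t / 2) * 1 ^ 2) = (0 : F) := by rw [h3]; ring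
        rw [e1, e2, e3, xr_zero, xr_zero, mul_one, mul_one] at h
        exact h
      refine ⟨m9, fun t => ?_⟩
      have ha3 : 1 - a ^ 2 ≠ 0 := sub_ne_zero.mpr (Ne.symm ha2)
      set w := t / (1 - a ^ 2) with hw
      have h1 := mem3 _ _ _ _ (w76 1 w) (m11 _)
      have h2' := mem3 _ _ _ _ (w76 a (w / a)) (m11 _)
      have e1 : (1 : F) * w = a * (w / a) := by field_simp
      rw [e1] at h1
      have h4 := mul_mem (inv_mem h1) h2'
      rw [hquot] at h4
      -- conjugate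
      have h5 : (xr R E 10 (-(1 ^ 3 * w)))⁻¹ * ((xr R E 9 (1 ^ 2 * w))⁻¹ * xr R E 9 (a ^ 2 * (w / a))) * ((xr R E 10 (-(1 ^ 3 * w)))⁻¹)⁻¹ ∈ Y := by
        have h6 : (xr R E 10 (-(1 ^ 3 * w)))⁻¹ ∈ chevG2.posUnipotent F := inv_mem (xr_mem_pos R G (lt 10 (by norm_num)) (hh 10 (by norm_num)) _)
        exact (mem_normalizer_iff.mp (hY2 h6) _).mp (mul_mem (inv_mem (m9 _)) (m9 _))
      have h6 := mul_mem (inv_mem h5) h4
      have h7 : ∀ p q r s : GL chevG2.Idx F, (p⁻¹ * (q⁻¹ * r) * p⁻¹⁻¹)⁻¹ * ((q * p)⁻¹ * (r * s)) = p⁻¹ * s := by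
        intro p q r s; group
      rw [h7, xr_inv, xr_add] at h6
      have e2 : - -(1 ^ 3 * w) + -(a ^ 3 * (w / a)) = t := by
        rw [hw]; field_simp; ring
      rw [e2] at h6
      exact h6
    · have m10 : ∀ t : F, xr R E 10 t ∈ Y := by
        intro t
        have h := w79 (-(t / 3)) 1
        have e1 : -(3 * -(t / 3) * 1) = t := by field_simp
        rw [e1] at h
        exact h
      refine ⟨fun t => ?_, m10⟩
      by_cases h2 : (2 : F) = 0
      · set w := t / (a - 1) with hw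
        have h1 := mem2 _ _ _ _ (w76 1 w) (m10 _) (m11 _)
        have h2' := mem2 _ _ _ _ (w76 a (w / a)) (m10 _) (m11 _)
        have e1 : (1 : F) * w = a * (w / a) := by field_simp
        rw [e1] at h1
        have h4 := mul_mem (inv_mem h1) h2'
        rw [hquot, xr_inv, xr_add] at h4
        have e2 : -(1 ^ 2 * w) + a ^ 2 * (w / a) = t := by
          rw [hw]; field_simp; ring
        rw [e2] at h4
        exact h4
      · have h := w78 (t / 2) 1
        have e1 : 2 * (t / 2) * 1 = t := by field_simp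
        rw [e1] at h
        exact (Subgroup.mul_mem_cancel_right Y (mul_mem (m10 _) (m11 _))).mp h
  obtain ⟨m9, m10⟩ := m910
  refine ⟨?_, m9 t, m10 t, m11 t⟩
  have h := w76 1 t
  rw [one_mul] at h
  exact (Subgroup.mul_mem_cancel_right Y (mul_mem (m9 _) (mul_mem (m10 _) (m11 _)))).mp h

end

end Cfsg.Agent.ChevU
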