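import Cfsg.Agent.ChevU.InvRow
import Cfsg.Agent.ChevU.BRank2

set_option autoImplicit false
set_option maxRecDepth 100000

/-! Classes of involutions of `E6` in characteristic two: data (helper17) -/

namespace Cfsg.Agent.ChevU.IvE6

open Cfsg.Lie Cfsg.Agent.ChevU

def nodes : List (List ℕ) := [[], [71], [71, 60], [71, 60, 44]]

def leafs : List (List ℕ × List ℕ × List ℕ) := [([71, 60, 44, 39], [60, 44, 39, 46, 60, 44, 39, 46], [60, 44, 39])]

def assoc : List (List ℕ × List ℕ × List ℕ × List ℕ) := [([71], [], [], [71]), ([71, 60], [1, 3, 4], [], [68, 66]), ([71, 60, 44], [0, 1, 3, 2, 0], [], [55, 65, 67])]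

def reps : List (List ℕ) := [[71], [68, 66], [55, 65, 67]]

theorem ocF : chkOCF chevE6 = true := by decide +kernel
theorem node0 : chkNodeF chevE6 nodes leafs [] = true := by decide +kernel

theorem node1 : chkNodeF chevE6 nodes leafs [71] = true := by decide +kernel

theorem node2 : chkNodeF chevE6 nodes leafs [71, 60] = true := by decide +kernel

theorem node3 : chkNodeF chevE6 nodes leafs [71, 60, 44] = true := by decide +kernel

theorem leaf0 : chkLeafF chevE6 ([71, 60, 44, 39], [60, 44, 39, 46, 60, 44, 39, 46], [60, 44, 39]) = true := by decide +kernel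

theorem assoc0 : chkAssoc chevE6 ([71], [], [], [71]) = true := by decide +kernel

theorem assoc1 : chkAssoc chevE6 ([71, 60], [1, 3, 4], [], [68, 66]) = true := by decide +kernel

theorem assoc2 : chkAssoc chevE6 ([71, 60, 44], [0, 1, 3, 2, 0], [], [55, 65, 67]) = true := by decide +kernel

theorem ok_book : chkBook chevE6 nodes assoc reps = true := by decide +kernel

end Cfsg.Agent.ChevU.IvE6
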