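import Cfsg.Agent.ChevU.OddF
import Cfsg.Agent.ChevU.OddG

set_option autoImplicit false
set_option linter.unusedSectionVars false
set_option linter.unusedVariables false

/-!
# Centralisers of involutions of the torus: counting with subsystems (helper17)
-/

namespace Cfsg.Agent.ChevU

open Cfsg.Lie Cfsg.Agent.Chev Cfsg.Agent.ChevGrp Cfsg.Agent.ChevWeyl Matrix

/-- an embedding of root permutation data -/
structure Emb {l n l' n' : ℕ} (A : RootPerm l n) (B : RootPerm l' n') where
  e : Fin n' → Fin n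
  inj : Function.Injective e
  pos : ∀ r, A.Pos (e r) ↔ B.Pos r
  w : ∀ i r, sg A.wsys (e (B.p i)) (e r) = e (B.w i r)

theorem PoinJ_univ_eq {l' n' : ℕ} (B : RootPerm l' n') [Fintype B.W] (q : ℕ) :
    B.PoinJ Finset.univ q = ∑ x : B.W, q ^ B.N (x : Equiv.Perm (Fin n')) := by
  classical
  unfold RootPerm.PoinJ
  symm
  refine Finset.sum_bij (fun (x : B.W) _ => (x : Equiv.Perm (Fin n'))) ?_ ?_ ?_ ?_
  · intro x _
    rw [Set.Finite.mem_toFinset, B.WJ_univ]; exact x.2
  · intro x _ y _ e; exact Subtype.ext e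
  · intro x hx
    rw [Set.Finite.mem_toFinset, B.WJ_univ] at hx
    exact ⟨⟨x, hx⟩, Finset.mem_univ _, rfl⟩
  · intro x _; rfl

section cnt

variable {D : ChevalleyDatum} {F : Type*} [Field F] [Fintype F] (R : RootFacts D) (H : Good D) (E : DData D)

theorem cen_iff {h : GL D.Idx F} {χ : Fin D.nroots → Fˣ} (hh : NA H E h 1 χ) (r : Fin D.nroots) :
    Cen (chev E H F) h r ↔ χ r = 1 := by
  have key : ∀ t : F, h * xU H.toGood2 (r : ℕ) t * h⁻¹ = xU H.toGood2 (r : ℕ) ((χ r : F) * t) := fun t => by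
    have := hh.x r t
    rwa [Equiv.Perm.one_apply] at this
  constructor
  · intro hc
    have h1 : xU H.toGood2 (r : ℕ) (1 : F) ∈ (chev E H F).X r := by
      rw [chev_X]; exact Inst.xU_mem H.toGood2 _ _
    have h2 := hc _ h1
    have h3 := key 1
    rw [← h2, mul_inv_cancel_right] at h3
    have h4 := xU_inj H r.2 h3
    rw [mul_one] at h4
    exact Units.ext (by rw [← h4, Units.val_one])
  · intro hχ x hx
    rw [chev_X] at hx
    obtain ⟨t, ht⟩ := (Inst.mem_rootSubgroup H.toGood2 r.2).1 hx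
    have hx' : x = xU H.toGood2 (r : ℕ) t := ht
    have h3 := key t
    rw [hχ, Units.val_one, one_mul, ← hx', mul_inv_eq_iff_eq_mul] at h3
    exact h3.symm

theorem card_X (r : Fin D.nroots) : Nat.card ((chev E H F).X r) = Fintype.card F := by
  rw [chev_X, ← Nat.card_eq_fintype_card]
  refine Nat.card_congr (Equiv.ofBijective (fun t : F => (⟨xU H.toGood2 (r : ℕ) t, Inst.xU_mem H.toGood2 _ _⟩ : D.rootSubgroup F r)) ⟨?_, ?_⟩).symm
  · intro t u e
    exact xU_inj H r.2 (congrArg Subtype.val e)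
  · rintro ⟨x, hx⟩
    obtain ⟨t, ht⟩ := (Inst.mem_rootSubgroup H.toGood2 r.2).1 hx
    exact ⟨t, Subtype.ext ht.symm⟩

theorem chev_CX {h : GL D.Idx F} (hh : h ∈ (chev E H F).H) (R : RootFacts D) : CX (chev E H F) (Fintype.card F) h := by
  classical
  obtain ⟨w, χ, hχ⟩ := exists_NA (E := E) (H := H) R ((chev E H F).H_le_N hh)
  have hw1 : w = 1 := RGrp.Act.unique hχ.act (RGrp.act_H hh)
  subst hw1
  intro r
  split_ifs with hc
  · have : cIn ((chev E H F).X r) h = (chev E H F).X r := by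
      apply le_antisymm inf_le_left
      intro x hx
      exact mem_cIn.2 ⟨hx, hc x hx⟩
    rw [this, card_X]
  · rw [Subgroup.card_eq_one, Subgroup.eq_bot_iff_forall]
    intro x hx
    obtain ⟨hx1, hx2⟩ := mem_cIn.1 hx
    rw [chev_X] at hx1
    obtain ⟨t, rfl⟩ := (Inst.mem_rootSubgroup H.toGood2 r.2).1 hx1
    have h3 := hχ.x r t
    rw [Equiv.Perm.one_apply, ← hx2, mul_inv_cancel_right] at h3
    have h4 := xU_inj H r.2 h3
    have h5 : (χ r : F) ≠ 1 := by
      intro h6
      apply hc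
      rw [cen_iff H E hχ r]
      exact Units.ext (by rw [h6, Units.val_one])
    have h6 : t = 0 := by
      by_contra ht
      apply h5
      have : ((χ r : F) - 1) * t = 0 := by linear_combination -h4
      rcases mul_eq_zero.1 this with h7 | h7
      · linear_combination h7
      · exact absurd h7 ht
    rw [h6, Inst.xU_zero]

theorem diag_comm' (R : RootFacts D) : ∀ a ∈ (chev E H F).H, ∀ b ∈ (chev E H F).H, a * b = b * a := by
  intro a ha b hb
  rw [chev_H] at ha hb
  exact diagonal_comm R H ha hb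

/-- reflections in centralised roots stabilise `h` -/
theorem sg_mem_stW {h : GL D.Idx F} (hh : h ∈ (chev E H F).H) (R : RootFacts D) {r : Fin D.nroots} (hc : Cen (chev E H F) h r) :
    sg E.rp.wsys r ∈ stW (chev E H F) h (diag_comm' H E R) hh := by
  obtain ⟨w, χ, hχ⟩ := exists_NA (E := E) (H := H) R ((chev E H F).H_le_N hh)
  have hw1 : w = 1 := RGrp.Act.unique hχ.act (RGrp.act_H hh)
  subst hw1
  obtain ⟨h1, h2⟩ := act_nU' (F := F) (R := R) (H := H) (E := E) r
  rw [stW_iff (diag_comm' H E R) hh h2 h1]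
  have h3 := conj_nr (R := R) hχ r
  rw [(cen_iff H E hχ r).1 hc, phi_w] at h3
  have h4 : (dg 1 : SpecialLinearGroup (Fin 2) F) = 1 := by
    apply sl_ext <;> simp [dg00, dg01, dg10, dg11]
  rw [h4, map_one, one_mul, mul_inv_eq_iff_eq_mul] at h3
  exact h3.symm

variable {l' n' : ℕ} {B : RootPerm l' n'} (M : Emb E.rp B)

theorem exists_lift {h : GL D.Idx F} (hh : h ∈ (chev E H F).H) (R : RootFacts D) (hM : ∀ r, Cen (chev E H F) h (M.e r))
    {x : Equiv.Perm (Fin n')} (hx : x ∈ B.W) :
    ∃ w ∈ stW (chev E H F) h (diag_comm' H E R) hh, ∀ r, w (M.e r) = M.e (x r) := by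
  refine B.W_induction (Q := fun x => ∃ w ∈ stW (chev E H F) h (diag_comm' H E R) hh, ∀ r, w (M.e r) = M.e (x r)) ?_ ?_ hx
  · exact ⟨1, one_mem _, fun r => rfl⟩
  · rintro i u ⟨w, hw, e⟩
    refine ⟨sg E.rp.wsys (M.e (B.p i)) * w, mul_mem (sg_mem_stW H E hh R (hM _)) hw, fun r => ?_⟩
    rw [Equiv.Perm.mul_apply, e, M.w, Equiv.Perm.mul_apply]

set_option maxHeartbeats 1000000 in
/-- **the order of the centraliser of an involution of the torus** -/
theorem card_cent (R : RootFacts D) (hinj : Function.Injective (hHom D F)) (h2 : (2 : F) ≠ 0) {v : ℕ} {T : List (ℕ × ℕ × ℕ)}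
    (hT : chkT D [v] T = true) (hnd : (orbL v T).Nodup) (hlt : ∀ b ∈ orbL v T, b < 2 ^ D.rank)
    (hM : ∀ r, Cen (chev E H F) (hHom D F (sv D F v)) r ↔ ∃ r', M.e r' = r)
    (hcard : Nat.card B.W * (orbL v T).length = Nat.card E.rp.wsys.W) :
    Nat.card (cIn (D.group F) (hHom D F (sv D F v))) =
      Nat.card (D.diagonalSubgroup F) * Fintype.card F ^ (Nat.card {r // B.Pos r}) * B.PoinJ Finset.univ (Fintype.card F) := by
  classical
  set q := Fintype.card F with hq
  set h := hHom D F (sv D F v) with hh0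
  have hh : h ∈ (chev E H F).H := by
    rw [chev_H, diag_eq_range R H]; exact ⟨_, rfl⟩
  have hcomm := diag_comm' (F := F) H E R
  set St := stW (chev E H F) h hcomm hh with hSt
  have hfin : Finite (GL D.Idx F) := inferInstance
  have h3 := card_cGrp (R := chev E H F) hcomm hh
  rw [chev_Grp, chev_H] at h3
  rw [h3]
  have hCX : ∀ k ∈ (chev E H F).H, CX (chev E H F) q k := fun k hk => chev_CX H E hk R
  -- the lift
  have hlift : ∀ x : B.W, ∃ w : St, ∀ r, (w : Equiv.Perm (Fin D.nroots)) (M.e r) = M.e ((x : Equiv.Perm (Fin n')) r) := by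
    intro x
    obtain ⟨w, hw, e⟩ := exists_lift H E M hh R (fun r => (hM _).2 ⟨r, rfl⟩) x.2
    exact ⟨⟨w, hw⟩, e⟩
  choose f hf using hlift
  have hfinj : Function.Injective f := by
    intro x y hxy
    apply Subtype.ext
    apply Equiv.ext
    intro r
    apply M.inj
    rw [← hf, ← hf, hxy]
  -- the orbit
  have horb : ∀ b : {b // b ∈ orbL v T}, ∃ m : (chev E H F).N, (m : GL D.Idx F) * h * (m : GL D.Idx F)⁻¹ = hHom D F (sv D F b) := by
    intro b
    obtain ⟨m, hm, e⟩ := orbL_reach (F := F) R H E hT b b.2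
    exact ⟨⟨m, hm⟩, e⟩
  choose mb hmb using horb
  have hact : ∀ b, ∃ w, (chev E H F).Act (mb b : GL D.Idx F) w := fun b => RGrp.exists_act (mb b).2
  choose wb hwb using hact
  have hle : Nat.card St * (orbL v T).length ≤ Nat.card E.rp.wsys.W := by
    have h4 : (orbL v T).length = Nat.card {b // b ∈ orbL v T} := by
      rw [Nat.card_eq_fintype_card, Fintype.card_of_subtype (orbL v T).toFinset (fun x => List.mem_toFinset),
        List.toFinset_card_of_nodup hnd]
    rw [h4, ← Nat.card_prod]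
    refine Nat.card_le_card_of_injective (fun p : St × {b // b ∈ orbL v T} =>
      (⟨wb p.2 * p.1, mul_mem (hwb p.2).1 (stW_le hcomm hh p.1.2)⟩ : E.rp.wsys.W)) ?_
    rintro ⟨⟨w, hw⟩, b⟩ ⟨⟨w', hw'⟩, b'⟩ e
    simp only [Subtype.mk.injEq] at e
    have hbb : b = b' := by
      obtain ⟨m, hm, hmw, hmh⟩ := hw
      obtain ⟨m', hm', hmw', hmh'⟩ := hw'
      have h5 := (hwb b).mul hmw
      have h6 := (hwb b').mul hmw'
      rw [e] at h5
      have h7 := RGrp.inv_mul_mem_H (mul_mem (mb b').2 hm') (mul_mem (mb b).2 hm) h6 h5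
      have h8 := hcomm _ h7 _ hh
      have e1 : (mb b : GL D.Idx F) * m * h = hHom D F (sv D F b) * ((mb b : GL D.Idx F) * m) := by
        rw [mul_assoc, hmh, ← mul_assoc, ← mul_assoc, mul_inv_eq_iff_eq_mul.1 (hmb b)]
      have e2 : (mb b' : GL D.Idx F) * m' * h = hHom D F (sv D F b') * ((mb b' : GL D.Idx F) * m') := by
        rw [mul_assoc, hmh', ← mul_assoc, ← mul_assoc, mul_inv_eq_iff_eq_mul.1 (hmb b')]
      have e3 : hHom D F (sv D F b) = hHom D F (sv D F b') := by
        have h9 : (mb b : GL D.Idx F) * m = (mb b' : GL D.Idx F) * m' * (((mb b' : GL D.Idx F) * m')⁻¹ * ((mb b : GL D.Idx F) * m)) := by group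
        set k := ((mb b' : GL D.Idx F) * m')⁻¹ * ((mb b : GL D.Idx F) * m)
        have h10 : (mb b : GL D.Idx F) * m * h = hHom D F (sv D F b') * ((mb b : GL D.Idx F) * m) := by
          rw [h9, mul_assoc, h8, ← mul_assoc, e2, mul_assoc]
        rw [e1] at h10
        exact mul_right_cancel h10
      exact Subtype.ext (sv_inj h2 (hlt b b.2) (hlt b' b'.2) (hinj e3))
    subst hbb
    have : w = w' := mul_left_cancel e
    subst this; rfl
  have hlen : 0 < (orbL v T).length := by unfold orbL; simp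
  have hSB : Nat.card St ≤ Nat.card B.W := by
    rw [← hcard] at hle
    exact Nat.le_of_mul_le_mul_right hle hlen
  have hBS : Nat.card B.W = Nat.card St := le_antisymm (Nat.card_le_card_of_injective f hfinj) hSB
  have hfbij : Function.Bijective f := (Nat.bijective_iff_injective_and_card f).2 ⟨hfinj, hBS⟩
  -- the sum
  have hsum : ∑ᶠ w : St, Nat.card (cIn ((chev E H F).Um (w : Equiv.Perm (Fin D.nroots))) h) = B.PoinJ Finset.univ q := by
    have hFS : Fintype St := Fintype.ofFinite _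
    have hFB : Fintype B.W := Fintype.ofFinite _
    rw [finsum_eq_sum_of_fintype]
    rw [← Function.Bijective.sum_comp hfbij (fun w : St => Nat.card (cIn ((chev E H F).Um (w : Equiv.Perm (Fin D.nroots))) h))]
    have h4 : ∀ x : B.W, Nat.card (cIn ((chev E H F).Um (f x : Equiv.Perm (Fin D.nroots))) h) = q ^ B.N (x : Equiv.Perm (Fin n')) := by
      intro x
      rw [card_cUm hCX (stW_le hcomm hh (f x).2) hh]
      congr 1
      unfold RootPerm.N
      symm
      refine Finset.card_bij (fun r _ => M.e r) ?_ ?_ ?_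
      · intro r hr
        rw [RootPerm.mem_inv] at hr
        rw [mem_cset]
        refine ⟨(M.pos r).2 hr.1, ?_, (hM _).2 ⟨r, rfl⟩⟩
        rw [hf]
        intro h5; exact hr.2 ((M.pos _).1 h5)
      · intro r _ s _ e; exact M.inj e
      · intro s hs
        rw [mem_cset] at hs
        obtain ⟨r, rfl⟩ := (hM s).1 hs.2.2
        refine ⟨r, ?_, rfl⟩
        rw [RootPerm.mem_inv]
        refine ⟨(M.pos r).1 hs.1, ?_⟩
        intro h5
        apply hs.2.1
        rw [hf]; exact (M.pos _).2 h5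
    rw [Finset.sum_congr rfl fun x _ => h4 x]
    rw [PoinJ_univ_eq]
  rw [hsum]
  -- the unipotent part
  have hU : Nat.card (cIn (chev E H F).U h) = q ^ Nat.card {r // B.Pos r} := by
    obtain ⟨w0, hw0, hneg⟩ := E.rp.wsys.exists_longest'
    have h4 : (chev E H F).U = (chev E H F).Um w0 := by
      apply le_antisymm
      · exact gen_mono fun r hr => ⟨hr, hneg r hr⟩
      · exact gen_mono fun r hr => hr.1
    rw [h4, card_cUm hCX hw0 hh]
    congr 1
    rw [Nat.card_eq_fintype_card, Fintype.card_subtype]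
    symm
    refine Finset.card_bij (fun r _ => M.e r) ?_ ?_ ?_
    · intro r hr
      rw [Finset.mem_filter] at hr
      rw [mem_cset]
      exact ⟨(M.pos r).2 hr.2, hneg _ ((M.pos r).2 hr.2), (hM _).2 ⟨r, rfl⟩⟩
    · intro r _ s _ e; exact M.inj e
    · intro s hs
      rw [mem_cset] at hs
      obtain ⟨r, rfl⟩ := (hM s).1 hs.2.2
      refine ⟨r, ?_, rfl⟩
      rw [Finset.mem_filter]
      exact ⟨Finset.mem_univ _, (M.pos r).1 hs.1⟩
  rw [hU]

end cnt

end Cfsg.Agent.ChevU
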