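import Cfsg.Agent.ChevU.OddH
import Cfsg.Agent.ChevWeyl.Data

set_option autoImplicit false
set_option linter.unusedSectionVars false
set_option linter.unusedVariables false

/-!
# Embeddings of root tables (helper17)
-/

namespace Cfsg.Agent.ChevU

open Cfsg.Lie Cfsg.Agent.Chev Cfsg.Agent.ChevGrp Cfsg.Agent.ChevWeyl Matrix

/-- coordinates of a reflected coroot -/
theorem c_sg' {l n : ℕ} (A : RootPerm l n) (r s : Fin n) (k : Fin l) :
    A.c (sg A.wsys r s) k = A.c s k - A.P s r * A.c r k := by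
  obtain ⟨a, ha, i, hai⟩ := A.wsys.exists_conj_p r
  have ha' : a ∈ A.W := ha
  rw [sg_eq A.wsys ha hai, Equiv.Perm.mul_apply, Equiv.Perm.mul_apply]
  have h1 : A.c (a (A.w i (a⁻¹ s))) k = ∑ j, A.c (A.w i (a⁻¹ s)) j * A.c (a (A.p j)) k := A.lin ha' _ k
  have h2 : A.c s k = ∑ j, A.c (a⁻¹ s) j * A.c (a (A.p j)) k := by
    have := A.lin ha' (a⁻¹ s) k
    rwa [app_inv] at this
  have h3 : A.P (a⁻¹ s) (A.p i) = A.P s r := by
    have := A.P_W ha' (a⁻¹ s) (A.p i)
    rw [app_inv] at this
    have h4 : a (A.p i) = r := hai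
    rw [← this, h4]
  show A.c (a (A.w i (a⁻¹ s))) k = _
  rw [h1, h2]
  have h5 : ∀ j, A.c (A.w i (a⁻¹ s)) j * A.c (a (A.p j)) k =
      A.c (a⁻¹ s) j * A.c (a (A.p j)) k - (if j = i then A.P s r * A.c r k else 0) := by
    intro j
    rw [A.c_w', h3]
    by_cases hj : j = i
    · subst hj
      rw [if_pos rfl, if_pos rfl]
      have h4 : a (A.p j) = r := hai
      rw [h4]; ring
    · rw [if_neg hj, if_neg hj]; ring
  rw [Finset.sum_congr rfl fun j _ => h5 j, Finset.sum_sub_distrib, Finset.sum_ite_eq' Finset.univ i, if_pos (Finset.mem_univ _)]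

namespace SubT

variable (T T' : RTab) (eN : ℕ)

noncomputable def ef (eN r : ℕ) : ℕ := lkn 8 eN r

noncomputable def s1 : Bool := allB T'.n fun r => Nat.blt (ef eN r) T.n
noncomputable def s2 : Bool := allB (Nat.sub T'.n 1) fun r => Nat.blt (ef eN r) (ef eN (Nat.succ r))
noncomputable def s3 : Bool := allB T'.l fun i => allB T'.n fun r => allB T.l fun k =>
  decide (T.cf (ef eN (T'.wf i r)) k = Int.sub (T.cf (ef eN r) k)
    (Int.mul (sumB T.l fun t => Int.mul (T.cf (ef eN r) t) (T.mf t (ef eN (T'.pf i)))) (T.cf (ef eN (T'.pf i)) k)))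
noncomputable def s4 : Bool := allB T'.n fun r =>
  ((allB T'.l fun j => decide (0 ≤ T'.cf r j)) == (allB T.l fun j => decide (0 ≤ T.cf (ef eN r) j)))
noncomputable def s5 (v : ℕ) : Bool := allB T.n fun s =>
  ((Nat.beq (Nat.mod (cntB T.l fun j => bitB v j && decide (T.mf j s % 2 ≠ 0)) 2) 0) == !(allB T'.n fun r => !(Nat.beq (ef eN r) s)))
noncomputable def ok (v : ℕ) : Bool := s1 T T' eN && (s2 T' eN && (s3 T T' eN && (s4 T T' eN && s5 T T' eN v)))

variable {T T' eN}

theorem ok_parts {v : ℕ} (h : ok T T' eN v = true) : s1 T T' eN = true ∧ s2 T' eN = true ∧ s3 T T' eN = true ∧ s4 T T' eN = true ∧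
    s5 T T' eN v = true := by
  simpa only [ok, Bool.and_eq_true] using h

theorem ef_lt (h : s1 T T' eN = true) {r : ℕ} (hr : r < T'.n) : ef eN r < T.n := by
  rw [s1, allB_iff] at h
  have := h r hr
  simpa using this

theorem ef_mono (h : s2 T' eN = true) {r s : ℕ} (hrs : r < s) (hs : s < T'.n) : ef eN r < ef eN s := by
  rw [s2, allB_iff] at h
  induction s with
  | zero => omega
  | succ s ih =>
    have h1 : s < Nat.sub T'.n 1 := by change s < T'.n - 1; omega
    have h2 : ef eN s < ef eN (s + 1) := by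
      have := h s h1
      simpa using this
    rcases Nat.lt_succ_iff_lt_or_eq.1 hrs with h3 | rfl
    · exact lt_trans (ih h3 (by omega)) h2
    · exact h2

/-- the embedding read off the tables -/
noncomputable def emb (hT : T.ok = true) (hT' : T'.ok = true) {v : ℕ} (h : ok T T' eN v = true) : Emb (T.datum hT) (T'.datum hT') where
  e r := ⟨ef eN r, ef_lt (ok_parts h).1 r.2⟩
  inj := by
    intro r s e
    have e' : ef eN r = ef eN s := congrArg Fin.val e
    apply Fin.ext
    rcases lt_trichotomy (r : ℕ) s with h1 | h1 | h1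
    · have := ef_mono (ok_parts h).2.1 h1 s.2; omega
    · exact h1
    · have := ef_mono (ok_parts h).2.1 h1 r.2; omega
  pos := by
    intro r
    have h4 := (ok_parts h).2.2.2.1
    rw [s4, allB_iff] at h4
    have h5 := h4 r r.2
    rw [beq_iff_eq] at h5
    have hA : (T.datum hT).Pos ⟨ef eN r, ef_lt (ok_parts h).1 r.2⟩ ↔ (allB T.l fun j => decide (0 ≤ T.cf (ef eN r) j)) = true := by
      rw [allB_iff]
      constructor
      · intro h6 j hj; exact decide_eq_true (h6 ⟨j, hj⟩)
      · intro h6 j; exact of_decide_eq_true (h6 j j.2)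
    have hB : (T'.datum hT').Pos r ↔ (allB T'.l fun j => decide (0 ≤ T'.cf r j)) = true := by
      rw [allB_iff]
      constructor
      · intro h6 j hj; exact decide_eq_true (h6 ⟨j, hj⟩)
      · intro h6 j; exact of_decide_eq_true (h6 j j.2)
    rw [hA, hB, h5]
  w := by
    intro i r
    apply (T.datum hT).c_inj
    funext k
    rw [c_sg']
    have h4 := (ok_parts h).2.2.1
    rw [s3, allB_iff] at h4
    have h5 := h4 i i.2
    rw [allB_iff] at h5
    have h6 := h5 r r.2
    rw [allB_iff] at h6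
    have h7 := of_decide_eq_true (h6 k k.2)
    rw [sumB_eq] at h7
    exact h7.symm

theorem mem_of_s5 {v : ℕ} (h : ok T T' eN v = true) (s : Fin T.n) :
    (cntB T.l fun j => bitB v j && decide (T.mf j s % 2 ≠ 0)) % 2 = 0 ↔ ∃ r : Fin T'.n, ef eN r = s := by
  have h4 := (ok_parts h).2.2.2.2
  rw [s5, allB_iff] at h4
  have h5 := h4 s s.2
  rw [beq_iff_eq] at h5
  have hA : (cntB T.l fun j => bitB v j && decide (T.mf j s % 2 ≠ 0)) % 2 = 0 ↔
      Nat.beq (Nat.mod (cntB T.l fun j => bitB v j && decide (T.mf j s % 2 ≠ 0)) 2) 0 = true := by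
    rw [Nat.beq_eq]; exact Iff.rfl
  rw [hA, h5, Bool.not_eq_true', ← Bool.not_eq_true, allB_iff]
  push Not
  constructor
  · rintro ⟨r, hr, h6⟩
    refine ⟨⟨r, hr⟩, ?_⟩
    simpa using h6
  · rintro ⟨r, hr⟩
    exact ⟨r, r.2, by simp [hr]⟩

/-- sign products -/
theorem prod_cnt (F : Type*) [Field F] (l : ℕ) (m : ℕ → ℤ) (v : ℕ) :
    (∏ j : Fin l, (if v.testBit j then (-1 : Fˣ) else 1) ^ m j) = (-1) ^ (cntB l fun j => bitB v j && decide (m j % 2 ≠ 0)) := by
  rw [cntB_eq]
  have h1 : ∀ n : ℕ, (∏ j ∈ Finset.range n, (if v.testBit j then (-1 : Fˣ) else 1) ^ m j) =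
      (-1) ^ ((Finset.range n).filter fun j => (bitB v j && decide (m j % 2 ≠ 0)) = true).card := by
    intro n
    induction n with
    | zero => simp
    | succ n ih =>
      rw [Finset.prod_range_succ, ih, Finset.range_add_one, Finset.filter_insert]
      have hb : bitB v n = v.testBit n := by
        rw [Bool.eq_iff_iff]
        unfold bitB
        rw [Nat.beq_eq, Nat.testBit_eq_decide_div_mod_eq, decide_eq_true_iff, ← Nat.shiftRight_eq_div_pow]
        rfl
      rw [hb]
      cases h2 : v.testBit n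
      · simp
      · by_cases hp : m n % 2 = 0
        · have h3 : Even (m n) := Int.even_iff.2 hp
          simp [hp, h3.neg_one_zpow]
        · have h3 : Odd (m n) := by
            rw [← Int.not_even_iff_odd, Int.even_iff]; exact hp
          have h4 : (true && decide (m n % 2 ≠ 0)) = true := by simp [hp]
          rw [if_pos h4, Finset.card_insert_of_notMem (by simp), pow_succ, if_pos rfl, h3.neg_one_zpow]
  rw [← h1, Finset.prod_range]

theorem neg_one_pow_eq {F : Type*} [Field F] (h2 : (2 : F) ≠ 0) (n : ℕ) : ((-1 : Fˣ)) ^ n = 1 ↔ n % 2 = 0 := by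
  have h3 : (-1 : Fˣ) ≠ 1 := by
    intro h4
    have h5 := congrArg (fun u : Fˣ => (u : F)) h4
    simp only [Units.val_neg, Units.val_one] at h5
    apply h2
    linear_combination -h5
  rcases Nat.even_or_odd n with h | h
  · rw [h.neg_one_pow]; simp [Nat.even_iff.1 h]
  · rw [h.neg_one_pow]
    have := Nat.odd_iff.1 h
    constructor
    · intro h4; exact absurd h4 h3
    · intro h4; omega

/-- the number of positive roots -/
noncomputable def npos (T' : RTab) : ℕ := cntB T'.n fun r => allB T'.l fun j => decide (0 ≤ T'.cf r j)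

theorem card_pos (hT' : T'.ok = true) : Nat.card {r // (T'.datum hT').Pos r} = npos T' := by
  classical
  unfold npos
  rw [cntB_eq, Nat.card_eq_fintype_card, Fintype.card_subtype]
  refine Finset.card_bij (fun r _ => (r : ℕ)) ?_ ?_ ?_
  · intro r hr
    rw [Finset.mem_filter] at hr ⊢
    refine ⟨Finset.mem_range.2 r.2, ?_⟩
    rw [allB_iff]
    intro j hj; exact decide_eq_true (hr.2 ⟨j, hj⟩)
  · intro r _ s _ e; exact Fin.ext e
  · intro r hr
    rw [Finset.mem_filter, Finset.mem_range, allB_iff] at hr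
    refine ⟨⟨r, hr.1⟩, ?_, rfl⟩
    rw [Finset.mem_filter]
    exact ⟨Finset.mem_univ _, fun j => of_decide_eq_true (hr.2 j j.2)⟩

end SubT

theorem PoinJ_cast {l' n' : ℕ} (B : RootPerm l' n') (J : Finset (Fin l')) (q : ℕ) : ((B.PoinJ J q : ℕ) : ℤ) = B.PoinJ J (q : ℤ) := by
  unfold RootPerm.PoinJ
  rw [Nat.cast_sum]
  exact Finset.sum_congr rfl fun x _ => by push_cast; rfl

theorem card_W_eq {l' n' : ℕ} (B : RootPerm l' n') : Nat.card B.W = B.PoinJ Finset.univ (1 : ℕ) := by
  rw [← RootPerm.card_WJ, B.WJ_univ]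

end Cfsg.Agent.ChevU
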