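import Cfsg.Agent.ChevWeyl.RTab
import Cfsg.Agent.ChevWeyl.Poin

set_option autoImplicit false
set_option maxRecDepth 100000

/-! Root subsystems of centralisers of involutions: tables (helper17) -/

namespace Cfsg.Agent.ChevU.SubTab

open Cfsg.Agent.ChevWeyl

noncomputable def rtF4a : RTab where
  l := 4
  n := 32
  C := 8097264393783951104057840492744027186724943149454178874990500655472429992348167596186040700794324700435883586286843552365415535564419358337712388163729014
  M := 7151036328887673728815474966928497577339878717506014100808679450572706583662731628775601039672866828036828726546142594059514641989811486589022011590805639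
  W := 21854308656304968185336440080911936351741378086183793674604321256727845061412714542263282695402864229126152712916342005391876036441222881442810462797295176495421077254270435273369290193083761313504119459652344139409302631635723221402199359295140461333058918928452430037982692557274804378866895274069404418049
  P := 370348304

theorem rtF4a_ok : rtF4a.ok = true := by decide +kernel

noncomputable def rpF4a : RootPerm 4 32 := rtF4a.datum rtF4a_ok

def cmF4a : Fin 4 → Fin 4 → ℤ := ![![2, -1, -1, 0], ![-1, 2, 0, 0], ![-1, 0, 2, -1], ![0, 0, -2, 2]]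

theorem rpF4a_cartan : ∀ i j : Fin 4, rpF4a.m i (rpF4a.p j) = cmF4a i j := by
  have : ∀ i j : Fin 4, rtF4a.mf i (rtF4a.pf j) = cmF4a i j := by decide +kernel
  exact this

def eNF4a : ℕ := 21340290590696683777370959347573139401708491063537787580255586834543745827072

noncomputable def tbF4a_0 : STab where
  l := 4
  m := 8
  A := 11999975929660540794
  J := 15
  J' := 13
  k := 1
  wt := 222690017097033690134368002165059447176
  a := 10649583967487553547796059717056661219774641363058729266664468649896640512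
  x0 := 5
  d := 216735757854246148
  cs := [1, 1, 1, 1, 1, 1, 1, 1]

theorem tbF4a_0_ok : tbF4a_0.ok = true := by decide +kernel

theorem tbF4a_0_A : ∀ i j : Fin 4, cmF4a i j = tbF4a_0.Af i j := by decide +kernel

theorem tbF4a_0_h {n : ℕ} (D : RootPerm 4 n) (hA : ∀ i j : Fin 4, D.m i (D.p j) = cmF4a i j)
    {R : Type*} [CommSemiring R] (q : R) :
    D.PoinJ (STab.maskSet 4 15) q = horner q [1, 1, 1, 1, 1, 1, 1, 1] * D.PoinJ (STab.maskSet 4 13) q := by
  have h := STab.poin tbF4a_0_ok D (fun i j => (hA i j).trans (tbF4a_0_A i j)) q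
  rw [horner_eq] at h
  exact h

theorem tbF4a_0_q {n : ℕ} (D : RootPerm 4 n) (hA : ∀ i j : Fin 4, D.m i (D.p j) = cmF4a i j)
    {R : Type*} [CommRing R] (q : R) :
    (q - 1) * D.PoinJ (STab.maskSet 4 15) q = ((q ^ 8 - 1)) * D.PoinJ (STab.maskSet 4 13) q := by
  rw [tbF4a_0_h D hA q, ← mul_assoc]
  congr 1
  simp only [horner]
  push_cast
  ring

noncomputable def tbF4a_1 : STab where
  l := 4
  m := 6
  A := 11999975929660540794
  J := 13
  J' := 12
  k := 0
  wt := 51868403124259547617666099608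
  a := 383131215672126362960183787508824467626465474415493120
  x0 := 2
  d := 2203402109955
  cs := [1, 1, 1, 1, 1, 1]

theorem tbF4a_1_ok : tbF4a_1.ok = true := by decide +kernel

theorem tbF4a_1_A : ∀ i j : Fin 4, cmF4a i j = tbF4a_1.Af i j := by decide +kernel

theorem tbF4a_1_h {n : ℕ} (D : RootPerm 4 n) (hA : ∀ i j : Fin 4, D.m i (D.p j) = cmF4a i j)
    {R : Type*} [CommSemiring R] (q : R) :
    D.PoinJ (STab.maskSet 4 13) q = horner q [1, 1, 1, 1, 1, 1] * D.PoinJ (STab.maskSet 4 12) q := by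
  have h := STab.poin tbF4a_1_ok D (fun i j => (hA i j).trans (tbF4a_1_A i j)) q
  rw [horner_eq] at h
  exact h

theorem tbF4a_1_q {n : ℕ} (D : RootPerm 4 n) (hA : ∀ i j : Fin 4, D.m i (D.p j) = cmF4a i j)
    {R : Type*} [CommRing R] (q : R) :
    (q - 1) * D.PoinJ (STab.maskSet 4 13) q = ((q ^ 6 - 1)) * D.PoinJ (STab.maskSet 4 12) q := by
  rw [tbF4a_1_h D hA q, ← mul_assoc]
  congr 1
  simp only [horner]
  push_cast
  ring

noncomputable def tbF4a_2 : STab where
  l := 4
  m := 4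
  A := 11999975929660540794
  J := 12
  J' := 8
  k := 2
  wt := 12072331495625877897
  a := 10384594339666452430652611720445952
  x0 := 2
  d := 16777986
  cs := [1, 1, 1, 1]

theorem tbF4a_2_ok : tbF4a_2.ok = true := by decide +kernel

theorem tbF4a_2_A : ∀ i j : Fin 4, cmF4a i j = tbF4a_2.Af i j := by decide +kernel

theorem tbF4a_2_h {n : ℕ} (D : RootPerm 4 n) (hA : ∀ i j : Fin 4, D.m i (D.p j) = cmF4a i j)
    {R : Type*} [CommSemiring R] (q : R) :
    D.PoinJ (STab.maskSet 4 12) q = horner q [1, 1, 1, 1] * D.PoinJ (STab.maskSet 4 8) q := by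
  have h := STab.poin tbF4a_2_ok D (fun i j => (hA i j).trans (tbF4a_2_A i j)) q
  rw [horner_eq] at h
  exact h

theorem tbF4a_2_q {n : ℕ} (D : RootPerm 4 n) (hA : ∀ i j : Fin 4, D.m i (D.p j) = cmF4a i j)
    {R : Type*} [CommRing R] (q : R) :
    (q - 1) * D.PoinJ (STab.maskSet 4 12) q = ((q ^ 4 - 1)) * D.PoinJ (STab.maskSet 4 8) q := by
  rw [tbF4a_2_h D hA q, ← mul_assoc]
  congr 1
  simp only [horner]
  push_cast
  ring

noncomputable def tbF4a_3 : STab where
  l := 4
  m := 2
  A := 11999975929660540794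
  J := 8
  J' := 0
  k := 3
  wt := 2559080840
  a := 16777216
  x0 := 1
  d := 1
  cs := [1, 1]

theorem tbF4a_3_ok : tbF4a_3.ok = true := by decide +kernel

theorem tbF4a_3_A : ∀ i j : Fin 4, cmF4a i j = tbF4a_3.Af i j := by decide +kernel

theorem tbF4a_3_h {n : ℕ} (D : RootPerm 4 n) (hA : ∀ i j : Fin 4, D.m i (D.p j) = cmF4a i j)
    {R : Type*} [CommSemiring R] (q : R) :
    D.PoinJ (STab.maskSet 4 8) q = horner q [1, 1] * D.PoinJ (STab.maskSet 4 0) q := by
  have h := STab.poin tbF4a_3_ok D (fun i j => (hA i j).trans (tbF4a_3_A i j)) q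
  rw [horner_eq] at h
  exact h

theorem tbF4a_3_q {n : ℕ} (D : RootPerm 4 n) (hA : ∀ i j : Fin 4, D.m i (D.p j) = cmF4a i j)
    {R : Type*} [CommRing R] (q : R) :
    (q - 1) * D.PoinJ (STab.maskSet 4 8) q = ((q ^ 2 - 1)) * D.PoinJ (STab.maskSet 4 0) q := by
  rw [tbF4a_3_h D hA q, ← mul_assoc]
  congr 1
  simp only [horner]
  push_cast
  ring

theorem msF4a_top : STab.maskSet 4 15 = Finset.univ := by
  ext i; rw [STab.mem_maskSet]; simp only [Finset.mem_univ, iff_true]; revert i; decide +kernel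
theorem msF4a_bot : STab.maskSet 4 0 = ∅ := by
  ext i; rw [STab.mem_maskSet]; simp only [Finset.notMem_empty, iff_false]; revert i; decide +kernel

theorem poinF4a {n : ℕ} (D : RootPerm 4 n) (hA : ∀ i j : Fin 4, D.m i (D.p j) = cmF4a i j)
    {R : Type*} [CommRing R] (q : R) :
    (q - 1) ^ 4 * D.PoinJ Finset.univ q = (q ^ 2 - 1) * (q ^ 4 - 1) * (q ^ 6 - 1) * (q ^ 8 - 1) := by
  have h0 := tbF4a_0_q D hA q
  have h1 := tbF4a_1_q D hA q
  have h2 := tbF4a_2_q D hA q
  have h3 := tbF4a_3_q D hA q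
  rw [msF4a_top] at h0
  rw [msF4a_bot, RootPerm.PoinJ_empty, mul_one] at h3
  generalize D.PoinJ Finset.univ q = P0 at *
  generalize D.PoinJ (STab.maskSet 4 13) q = P1 at *
  generalize D.PoinJ (STab.maskSet 4 12) q = P2 at *
  generalize D.PoinJ (STab.maskSet 4 8) q = P3 at *
  calc (q - 1) ^ 4 * P0 = (q - 1) ^ 3 * ((q - 1) * P0) := by ring
    _ = (((q ^ 8 - 1))) * (q - 1) ^ 2 * ((q - 1) * P1) := by rw [h0]; ring
    _ = (((q ^ 8 - 1)) * ((q ^ 6 - 1))) * (q - 1) ^ 1 * ((q - 1) * P2) := by rw [h1]; ring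
    _ = (((q ^ 8 - 1)) * ((q ^ 6 - 1)) * ((q ^ 4 - 1))) * (q - 1) ^ 0 * ((q - 1) * P3) := by rw [h2]; ring
    _ = ((q ^ 8 - 1)) * ((q ^ 6 - 1)) * ((q ^ 4 - 1)) * ((q ^ 2 - 1)) := by rw [h3]; ring
    _ = (q ^ 2 - 1) * (q ^ 4 - 1) * (q ^ 6 - 1) * (q ^ 8 - 1) := by ring

theorem cdF4a {n : ℕ} (D : RootPerm 4 n) (hA : ∀ i j : Fin 4, D.m i (D.p j) = cmF4a i j) :
    D.PoinJ Finset.univ (1 : ℕ) = 384 := by
  have h0 := tbF4a_0_h D hA (1 : ℕ)
  have h1 := tbF4a_1_h D hA (1 : ℕ)
  have h2 := tbF4a_2_h D hA (1 : ℕ)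
  have h3 := tbF4a_3_h D hA (1 : ℕ)
  rw [msF4a_top] at h0
  rw [msF4a_bot, RootPerm.PoinJ_empty, mul_one] at h3
  rw [h0, h1, h2, h3]
  simp [horner]

end Cfsg.Agent.ChevU.SubTab
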