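import Cfsg.Agent.ChevWeyl.RTab
import Cfsg.Agent.ChevWeyl.Poin

set_option autoImplicit false
set_option maxRecDepth 100000

/-! Root subsystems of centralisers of involutions: tables (helper17) -/

namespace Cfsg.Agent.ChevU.SubTab

open Cfsg.Agent.ChevWeyl

noncomputable def rtF4b : RTab where
  l := 4
  n := 20
  C := 1281561792830197340812593406853055901914754774880863594863159064887815968585409511562444017268600
  M := 1140238085342267096790770640490034232249547253101655929358888511507161397229346143326446343981160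
  W := 339946011925060768285158689640686806009538989344652994957541777552547641054204499946521990283174291469461590983669090139370881039762360972459603316980240278959585405807472905894808401098048000
  P := 218893066

theorem rtF4b_ok : rtF4b.ok = true := by decide +kernel

noncomputable def rpF4b : RootPerm 4 20 := rtF4b.datum rtF4b_ok

def cmF4b : Fin 4 → Fin 4 → ℤ := ![![2, 0, 0, 0], ![0, 2, 0, -1], ![0, 0, 2, -1], ![0, -1, -2, 2]]

theorem rpF4b_cartan : ∀ i j : Fin 4, rpF4b.m i (rpF4b.p j) = cmF4b i j := by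
  have : ∀ i j : Fin 4, rtF4b.mf i (rtF4b.pf j) = cmF4b i j := by decide +kernel
  exact this

def eNF4b : ℕ := 269307384281842714301152713656129912887298097920

noncomputable def tbF4b_0 : STab where
  l := 4
  m := 2
  A := 11995472334059767946
  J := 15
  J' := 14
  k := 0
  wt := 2290714759
  a := 72340168526266369
  x0 := 1
  d := 1
  cs := [1, 1]

theorem tbF4b_0_ok : tbF4b_0.ok = true := by decide +kernel

theorem tbF4b_0_A : ∀ i j : Fin 4, cmF4b i j = tbF4b_0.Af i j := by decide +kernel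

theorem tbF4b_0_h {n : ℕ} (D : RootPerm 4 n) (hA : ∀ i j : Fin 4, D.m i (D.p j) = cmF4b i j)
    {R : Type*} [CommSemiring R] (q : R) :
    D.PoinJ (STab.maskSet 4 15) q = horner q [1, 1] * D.PoinJ (STab.maskSet 4 14) q := by
  have h := STab.poin tbF4b_0_ok D (fun i j => (hA i j).trans (tbF4b_0_A i j)) q
  rw [horner_eq] at h
  exact h

theorem tbF4b_0_q {n : ℕ} (D : RootPerm 4 n) (hA : ∀ i j : Fin 4, D.m i (D.p j) = cmF4b i j)
    {R : Type*} [CommRing R] (q : R) :
    (q - 1) * D.PoinJ (STab.maskSet 4 15) q = ((q ^ 2 - 1)) * D.PoinJ (STab.maskSet 4 14) q := by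
  rw [tbF4b_0_h D hA q, ← mul_assoc]
  congr 1
  simp only [horner]
  push_cast
  ring

noncomputable def tbF4b_1 : STab where
  l := 4
  m := 6
  A := 11995472334059767946
  J := 14
  J' := 12
  k := 1
  wt := 47187508187137080324692408472
  a := 24999955943654931333757336265068825108602902950526845440
  x0 := 3
  d := 1112396857860
  cs := [1, 1, 1, 1, 1, 1]

theorem tbF4b_1_ok : tbF4b_1.ok = true := by decide +kernel

theorem tbF4b_1_A : ∀ i j : Fin 4, cmF4b i j = tbF4b_1.Af i j := by decide +kernel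

theorem tbF4b_1_h {n : ℕ} (D : RootPerm 4 n) (hA : ∀ i j : Fin 4, D.m i (D.p j) = cmF4b i j)
    {R : Type*} [CommSemiring R] (q : R) :
    D.PoinJ (STab.maskSet 4 14) q = horner q [1, 1, 1, 1, 1, 1] * D.PoinJ (STab.maskSet 4 12) q := by
  have h := STab.poin tbF4b_1_ok D (fun i j => (hA i j).trans (tbF4b_1_A i j)) q
  rw [horner_eq] at h
  exact h

theorem tbF4b_1_q {n : ℕ} (D : RootPerm 4 n) (hA : ∀ i j : Fin 4, D.m i (D.p j) = cmF4b i j)
    {R : Type*} [CommRing R] (q : R) :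
    (q - 1) * D.PoinJ (STab.maskSet 4 14) q = ((q ^ 6 - 1)) * D.PoinJ (STab.maskSet 4 12) q := by
  rw [tbF4b_1_h D hA q, ← mul_assoc]
  congr 1
  simp only [horner]
  push_cast
  ring

noncomputable def tbF4b_2 : STab where
  l := 4
  m := 4
  A := 11995472334059767946
  J := 12
  J' := 8
  k := 2
  wt := 12072050020651133352
  a := 10384594339666452430652611720445952
  x0 := 2
  d := 16777986
  cs := [1, 1, 1, 1]

theorem tbF4b_2_ok : tbF4b_2.ok = true := by decide +kernel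

theorem tbF4b_2_A : ∀ i j : Fin 4, cmF4b i j = tbF4b_2.Af i j := by decide +kernel

theorem tbF4b_2_h {n : ℕ} (D : RootPerm 4 n) (hA : ∀ i j : Fin 4, D.m i (D.p j) = cmF4b i j)
    {R : Type*} [CommSemiring R] (q : R) :
    D.PoinJ (STab.maskSet 4 12) q = horner q [1, 1, 1, 1] * D.PoinJ (STab.maskSet 4 8) q := by
  have h := STab.poin tbF4b_2_ok D (fun i j => (hA i j).trans (tbF4b_2_A i j)) q
  rw [horner_eq] at h
  exact h

theorem tbF4b_2_q {n : ℕ} (D : RootPerm 4 n) (hA : ∀ i j : Fin 4, D.m i (D.p j) = cmF4b i j)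
    {R : Type*} [CommRing R] (q : R) :
    (q - 1) * D.PoinJ (STab.maskSet 4 12) q = ((q ^ 4 - 1)) * D.PoinJ (STab.maskSet 4 8) q := by
  rw [tbF4b_2_h D hA q, ← mul_assoc]
  congr 1
  simp only [horner]
  push_cast
  ring

noncomputable def tbF4b_3 : STab where
  l := 4
  m := 2
  A := 11995472334059767946
  J := 8
  J' := 0
  k := 3
  wt := 2559080856
  a := 16777216
  x0 := 1
  d := 1
  cs := [1, 1]

theorem tbF4b_3_ok : tbF4b_3.ok = true := by decide +kernel

theorem tbF4b_3_A : ∀ i j : Fin 4, cmF4b i j = tbF4b_3.Af i j := by decide +kernel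

theorem tbF4b_3_h {n : ℕ} (D : RootPerm 4 n) (hA : ∀ i j : Fin 4, D.m i (D.p j) = cmF4b i j)
    {R : Type*} [CommSemiring R] (q : R) :
    D.PoinJ (STab.maskSet 4 8) q = horner q [1, 1] * D.PoinJ (STab.maskSet 4 0) q := by
  have h := STab.poin tbF4b_3_ok D (fun i j => (hA i j).trans (tbF4b_3_A i j)) q
  rw [horner_eq] at h
  exact h

theorem tbF4b_3_q {n : ℕ} (D : RootPerm 4 n) (hA : ∀ i j : Fin 4, D.m i (D.p j) = cmF4b i j)
    {R : Type*} [CommRing R] (q : R) :
    (q - 1) * D.PoinJ (STab.maskSet 4 8) q = ((q ^ 2 - 1)) * D.PoinJ (STab.maskSet 4 0) q := by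
  rw [tbF4b_3_h D hA q, ← mul_assoc]
  congr 1
  simp only [horner]
  push_cast
  ring

theorem msF4b_top : STab.maskSet 4 15 = Finset.univ := by
  ext i; rw [STab.mem_maskSet]; simp only [Finset.mem_univ, iff_true]; revert i; decide +kernel
theorem msF4b_bot : STab.maskSet 4 0 = ∅ := by
  ext i; rw [STab.mem_maskSet]; simp only [Finset.notMem_empty, iff_false]; revert i; decide +kernel

theorem poinF4b {n : ℕ} (D : RootPerm 4 n) (hA : ∀ i j : Fin 4, D.m i (D.p j) = cmF4b i j)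
    {R : Type*} [CommRing R] (q : R) :
    (q - 1) ^ 4 * D.PoinJ Finset.univ q = (q ^ 2 - 1) ^ 2 * (q ^ 4 - 1) * (q ^ 6 - 1) := by
  have h0 := tbF4b_0_q D hA q
  have h1 := tbF4b_1_q D hA q
  have h2 := tbF4b_2_q D hA q
  have h3 := tbF4b_3_q D hA q
  rw [msF4b_top] at h0
  rw [msF4b_bot, RootPerm.PoinJ_empty, mul_one] at h3
  generalize D.PoinJ Finset.univ q = P0 at *
  generalize D.PoinJ (STab.maskSet 4 14) q = P1 at *
  generalize D.PoinJ (STab.maskSet 4 12) q = P2 at *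
  generalize D.PoinJ (STab.maskSet 4 8) q = P3 at *
  calc (q - 1) ^ 4 * P0 = (q - 1) ^ 3 * ((q - 1) * P0) := by ring
    _ = (((q ^ 2 - 1))) * (q - 1) ^ 2 * ((q - 1) * P1) := by rw [h0]; ring
    _ = (((q ^ 2 - 1)) * ((q ^ 6 - 1))) * (q - 1) ^ 1 * ((q - 1) * P2) := by rw [h1]; ring
    _ = (((q ^ 2 - 1)) * ((q ^ 6 - 1)) * ((q ^ 4 - 1))) * (q - 1) ^ 0 * ((q - 1) * P3) := by rw [h2]; ring
    _ = ((q ^ 2 - 1)) * ((q ^ 6 - 1)) * ((q ^ 4 - 1)) * ((q ^ 2 - 1)) := by rw [h3]; ring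
    _ = (q ^ 2 - 1) ^ 2 * (q ^ 4 - 1) * (q ^ 6 - 1) := by ring

theorem cdF4b {n : ℕ} (D : RootPerm 4 n) (hA : ∀ i j : Fin 4, D.m i (D.p j) = cmF4b i j) :
    D.PoinJ Finset.univ (1 : ℕ) = 96 := by
  have h0 := tbF4b_0_h D hA (1 : ℕ)
  have h1 := tbF4b_1_h D hA (1 : ℕ)
  have h2 := tbF4b_2_h D hA (1 : ℕ)
  have h3 := tbF4b_3_h D hA (1 : ℕ)
  rw [msF4b_top] at h0
  rw [msF4b_bot, RootPerm.PoinJ_empty, mul_one] at h3
  rw [h0, h1, h2, h3]
  simp [horner]

end Cfsg.Agent.ChevU.SubTab
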