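import Cfsg.Agent.ChevWeyl.RTab
import Cfsg.Agent.ChevWeyl.Poin

set_option autoImplicit false
set_option maxRecDepth 100000

/-! Root subsystems of centralisers of involutions: tables (helper17) -/

namespace Cfsg.Agent.ChevU.SubTab

open Cfsg.Agent.ChevWeyl

noncomputable def rtG2a : RTab where
  l := 2
  n := 4
  C := 2559149944
  M := 2827650664
  W := 846628265263872
  P := 770

theorem rtG2a_ok : rtG2a.ok = true := by decide +kernel

noncomputable def rpG2a : RootPerm 2 4 := rtG2a.datum rtG2a_ok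

def cmG2a : Fin 2 → Fin 2 → ℤ := ![![2, 0], ![0, 2]]

theorem rpG2a_cartan : ∀ i j : Fin 2, rpG2a.m i (rpG2a.p j) = cmG2a i j := by
  have : ∀ i j : Fin 2, rtG2a.mf i (rtG2a.pf j) = cmG2a i j := by decide +kernel
  exact this

def eNG2a : ℕ := 185009152

noncomputable def tbG2a_0 : STab where
  l := 2
  m := 2
  A := 43146
  J := 3
  J' := 2
  k := 0
  wt := 35207
  a := 16777217
  x0 := 1
  d := 1
  cs := [1, 1]

theorem tbG2a_0_ok : tbG2a_0.ok = true := by decide +kernel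

theorem tbG2a_0_A : ∀ i j : Fin 2, cmG2a i j = tbG2a_0.Af i j := by decide +kernel

theorem tbG2a_0_h {n : ℕ} (D : RootPerm 2 n) (hA : ∀ i j : Fin 2, D.m i (D.p j) = cmG2a i j)
    {R : Type*} [CommSemiring R] (q : R) :
    D.PoinJ (STab.maskSet 2 3) q = horner q [1, 1] * D.PoinJ (STab.maskSet 2 2) q := by
  have h := STab.poin tbG2a_0_ok D (fun i j => (hA i j).trans (tbG2a_0_A i j)) q
  rw [horner_eq] at h
  exact h

theorem tbG2a_0_q {n : ℕ} (D : RootPerm 2 n) (hA : ∀ i j : Fin 2, D.m i (D.p j) = cmG2a i j)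
    {R : Type*} [CommRing R] (q : R) :
    (q - 1) * D.PoinJ (STab.maskSet 2 3) q = ((q ^ 2 - 1)) * D.PoinJ (STab.maskSet 2 2) q := by
  rw [tbG2a_0_h D hA q, ← mul_assoc]
  congr 1
  simp only [horner]
  push_cast
  ring

noncomputable def tbG2a_1 : STab where
  l := 2
  m := 2
  A := 43146
  J := 2
  J' := 0
  k := 1
  wt := 39032
  a := 256
  x0 := 1
  d := 1
  cs := [1, 1]

theorem tbG2a_1_ok : tbG2a_1.ok = true := by decide +kernel

theorem tbG2a_1_A : ∀ i j : Fin 2, cmG2a i j = tbG2a_1.Af i j := by decide +kernel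

theorem tbG2a_1_h {n : ℕ} (D : RootPerm 2 n) (hA : ∀ i j : Fin 2, D.m i (D.p j) = cmG2a i j)
    {R : Type*} [CommSemiring R] (q : R) :
    D.PoinJ (STab.maskSet 2 2) q = horner q [1, 1] * D.PoinJ (STab.maskSet 2 0) q := by
  have h := STab.poin tbG2a_1_ok D (fun i j => (hA i j).trans (tbG2a_1_A i j)) q
  rw [horner_eq] at h
  exact h

theorem tbG2a_1_q {n : ℕ} (D : RootPerm 2 n) (hA : ∀ i j : Fin 2, D.m i (D.p j) = cmG2a i j)
    {R : Type*} [CommRing R] (q : R) :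
    (q - 1) * D.PoinJ (STab.maskSet 2 2) q = ((q ^ 2 - 1)) * D.PoinJ (STab.maskSet 2 0) q := by
  rw [tbG2a_1_h D hA q, ← mul_assoc]
  congr 1
  simp only [horner]
  push_cast
  ring

theorem msG2a_top : STab.maskSet 2 3 = Finset.univ := by
  ext i; rw [STab.mem_maskSet]; simp only [Finset.mem_univ, iff_true]; revert i; decide +kernel
theorem msG2a_bot : STab.maskSet 2 0 = ∅ := by
  ext i; rw [STab.mem_maskSet]; simp only [Finset.notMem_empty, iff_false]; revert i; decide +kernel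

theorem poinG2a {n : ℕ} (D : RootPerm 2 n) (hA : ∀ i j : Fin 2, D.m i (D.p j) = cmG2a i j)
    {R : Type*} [CommRing R] (q : R) :
    (q - 1) ^ 2 * D.PoinJ Finset.univ q = (q ^ 2 - 1) ^ 2 := by
  have h0 := tbG2a_0_q D hA q
  have h1 := tbG2a_1_q D hA q
  rw [msG2a_top] at h0
  rw [msG2a_bot, RootPerm.PoinJ_empty, mul_one] at h1
  generalize D.PoinJ Finset.univ q = P0 at *
  generalize D.PoinJ (STab.maskSet 2 2) q = P1 at *
  calc (q - 1) ^ 2 * P0 = (q - 1) ^ 1 * ((q - 1) * P0) := by ring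
    _ = (((q ^ 2 - 1))) * (q - 1) ^ 0 * ((q - 1) * P1) := by rw [h0]; ring
    _ = ((q ^ 2 - 1)) * ((q ^ 2 - 1)) := by rw [h1]; ring
    _ = (q ^ 2 - 1) ^ 2 := by ring

theorem cdG2a {n : ℕ} (D : RootPerm 2 n) (hA : ∀ i j : Fin 2, D.m i (D.p j) = cmG2a i j) :
    D.PoinJ Finset.univ (1 : ℕ) = 4 := by
  have h0 := tbG2a_0_h D hA (1 : ℕ)
  have h1 := tbG2a_1_h D hA (1 : ℕ)
  rw [msG2a_top] at h0
  rw [msG2a_bot, RootPerm.PoinJ_empty, mul_one] at h1
  rw [h0, h1]
  simp [horner]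

end Cfsg.Agent.ChevU.SubTab
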