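import Cfsg.Agent.ChevU.OddI
import Cfsg.Agent.ChevU.OddCls
import Cfsg.Agent.ChevU.SubTabG2a
import Cfsg.Agent.ChevU.SubTabF4a
import Cfsg.Agent.ChevU.SubTabF4b
import Cfsg.Agent.ChevU.SubTabE8a
import Cfsg.Agent.ChevU.SubTabE8b

set_option autoImplicit false
set_option maxRecDepth 100000

/-! Orders of the centralisers of involutions in odd characteristic (helper17) -/

namespace Cfsg.Agent.ChevU

open Cfsg.Lie Cfsg.Agent.Chev Cfsg.Agent.ChevGrp Cfsg.Agent.ChevWeyl SubTab Matrix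

theorem two_ne {F : Type*} [Field F] [Fintype F] (hF : Odd (Fintype.card F)) : (2 : F) ≠ 0 := Ring.two_ne_zero (ringChar_ne_two hF)

theorem pm_cast (q k : ℕ) (hq : 1 ≤ q) : ((q ^ k - 1 : ℕ) : ℤ) = (q : ℤ) ^ k - 1 := by
  rw [Nat.cast_sub (Nat.one_le_pow _ _ hq)]; push_cast; rfl

theorem fin_form {l N P q X : ℕ} (hq : 1 ≤ q) (h : ((q : ℤ) - 1) ^ l * (P : ℤ) = (X : ℤ)) : (q - 1) ^ l * q ^ N * P = q ^ N * X := by
  have h1 : (q - 1) ^ l * P = X := by
    zify [hq]
    exact h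
  rw [← h1]; ring

theorem card_diag1 {D : ChevalleyDatum} {F : Type*} [Field F] [Fintype F] (R : RootFacts D) (H : Good D) (S : SmithData D.rank) (hS : S.OK)
    (hC : cmat D = Matrix.of S.C) (hd : ∀ k, S.d k = 1) : Nat.card (D.diagonalSubgroup F) = (Fintype.card F - 1) ^ D.rank := by
  have h := card_diagonal (F := F) R H S hS hC
  have h1 : ∏ k, (Fintype.card F - 1).gcd (S.d k) = 1 := Finset.prod_eq_one fun k _ => by rw [hd k, Nat.gcd_one_right]
  rwa [h1, one_mul] at h

theorem okG2a : SubT.ok rtG2 rtG2a eNG2a 1 = true := by decide +kernel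
theorem npG2a : SubT.npos rtG2a = 2 := by decide +kernel
theorem ndG2a : (orbL 1 OddDat.foG2_0).Nodup := by decide +kernel
theorem ltG2a : ∀ b ∈ orbL 1 OddDat.foG2_0, b < 2 ^ chevG2.rank := by decide +kernel

theorem centG2a {F : Type*} [Field F] [Fintype F] (hF : Odd (Fintype.card F)) (R : RootFacts chevG2) (H : Good chevG2) :
    Nat.card (cIn (chevG2.group F) (hHom chevG2 F (sv chevG2 F 1))) =
      Nat.card (chevG2.diagonalSubgroup F) * Fintype.card F ^ 2 * rpG2a.PoinJ Finset.univ (Fintype.card F) := by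
  have h2 := two_ne hF
  have hm : ∀ (i : Fin 2) (s : Fin 12), chevG2.cartan i s = rtG2.mf i s := fun i s => (DData.dG2.hm i s).symm
  have h := card_cent (F := F) H DData.dG2 (B := rpG2a) (SubT.emb rtG2_ok rtG2a_ok okG2a) R
    (hHom_inj H smG2 smG2_ok (by funext i j; exact smG2_cartan i j) (by decide)) h2 (v := 1) OddDat.foG2_0_ok ndG2a ltG2a ?_ ?_
  · rw [h]
    congr 2
    have h3 : Nat.card {r // rpG2a.Pos r} = 2 := (SubT.card_pos rtG2a_ok).trans npG2a
    rw [h3]
  · intro r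
    rw [cen_iff H DData.dG2 (NA.torus R) r]
    have e1 : (∏ i : Fin chevG2.rank, sv chevG2 F 1 i ^ chevG2.cartan i r) =
        (-1) ^ (cntB 2 fun j => bitB 1 j && decide (rtG2.mf j r % 2 ≠ 0)) := by
      rw [← SubT.prod_cnt F 2 (fun j => rtG2.mf j r) 1]
      refine Finset.prod_congr rfl fun i _ => ?_
      rw [hm i r]; rfl
    rw [e1, SubT.neg_one_pow_eq h2]
    refine (SubT.mem_of_s5 okG2a r).trans ?_
    constructor
    · rintro ⟨r', h⟩; exact ⟨r', Fin.ext h⟩
    · rintro ⟨r', h⟩; exact ⟨r', congrArg Fin.val h⟩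
  · rw [card_W_eq]
    have h4 : Nat.card (DData.dG2).rp.wsys.W = 12 := by
      have : Nat.card (rpG2).W = 12 := by rw [card_W_eq]; exact cardG2_aux rpG2 rpG2_cartan
      exact this
    rw [h4, cdG2a rpG2a rpG2a_cartan]
    rfl

theorem centG2a' {F : Type*} [Field F] [Fintype F] (hF : Odd (Fintype.card F)) (R : RootFacts chevG2) (H : Good chevG2) :
    Nat.card (cIn (chevG2.group F) (hHom chevG2 F (sv chevG2 F 1))) = Fintype.card F ^ 2 * (Fintype.card F ^ 2 - 1) ^ 2 := by
  have hq : 1 ≤ Fintype.card F := Fintype.card_pos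
  rw [centG2a hF R H, card_diag1 R H smG2 smG2_ok (by funext i j; exact smG2_cartan i j) (by decide)]
  have hr : chevG2.rank = 2 := rfl
  rw [hr]
  apply fin_form hq
  rw [PoinJ_cast, poinG2a rpG2a rpG2a_cartan]
  simp only [Nat.cast_mul, Nat.cast_pow, pm_cast _ _ hq]

theorem okF4a : SubT.ok rtF4 rtF4a eNF4a 1 = true := by decide +kernel
theorem npF4a : SubT.npos rtF4a = 16 := by decide +kernel
theorem ndF4a : (orbL 1 OddDat.foF4_0).Nodup := by decide +kernel
theorem ltF4a : ∀ b ∈ orbL 1 OddDat.foF4_0, b < 2 ^ chevF4.rank := by decide +kernel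

theorem centF4a {F : Type*} [Field F] [Fintype F] (hF : Odd (Fintype.card F)) (R : RootFacts chevF4) (H : Good chevF4) :
    Nat.card (cIn (chevF4.group F) (hHom chevF4 F (sv chevF4 F 1))) =
      Nat.card (chevF4.diagonalSubgroup F) * Fintype.card F ^ 16 * rpF4a.PoinJ Finset.univ (Fintype.card F) := by
  have h2 := two_ne hF
  have hm : ∀ (i : Fin 4) (s : Fin 48), chevF4.cartan i s = rtF4.mf i s := fun i s => (DData.dF4.hm i s).symm
  have h := card_cent (F := F) H DData.dF4 (B := rpF4a) (SubT.emb rtF4_ok rtF4a_ok okF4a) R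
    (hHom_inj H smF4 smF4_ok (by funext i j; exact smF4_cartan i j) (by decide)) h2 (v := 1) OddDat.foF4_0_ok ndF4a ltF4a ?_ ?_
  · rw [h]
    congr 2
    have h3 : Nat.card {r // rpF4a.Pos r} = 16 := (SubT.card_pos rtF4a_ok).trans npF4a
    rw [h3]
  · intro r
    rw [cen_iff H DData.dF4 (NA.torus R) r]
    have e1 : (∏ i : Fin chevF4.rank, sv chevF4 F 1 i ^ chevF4.cartan i r) =
        (-1) ^ (cntB 4 fun j => bitB 1 j && decide (rtF4.mf j r % 2 ≠ 0)) := by
      rw [← SubT.prod_cnt F 4 (fun j => rtF4.mf j r) 1]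
      refine Finset.prod_congr rfl fun i _ => ?_
      rw [hm i r]; rfl
    rw [e1, SubT.neg_one_pow_eq h2]
    refine (SubT.mem_of_s5 okF4a r).trans ?_
    constructor
    · rintro ⟨r', h⟩; exact ⟨r', Fin.ext h⟩
    · rintro ⟨r', h⟩; exact ⟨r', congrArg Fin.val h⟩
  · rw [card_W_eq]
    have h4 : Nat.card (DData.dF4).rp.wsys.W = 1152 := by
      have : Nat.card (rpF4).W = 1152 := by rw [card_W_eq]; exact cardF4_aux rpF4 rpF4_cartan
      exact this
    rw [h4, cdF4a rpF4a rpF4a_cartan]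
    rfl

theorem centF4a' {F : Type*} [Field F] [Fintype F] (hF : Odd (Fintype.card F)) (R : RootFacts chevF4) (H : Good chevF4) :
    Nat.card (cIn (chevF4.group F) (hHom chevF4 F (sv chevF4 F 1))) = Fintype.card F ^ 16 * ((Fintype.card F ^ 2 - 1) * (Fintype.card F ^ 4 - 1) * (Fintype.card F ^ 6 - 1) * (Fintype.card F ^ 8 - 1)) := by
  have hq : 1 ≤ Fintype.card F := Fintype.card_pos
  rw [centF4a hF R H, card_diag1 R H smF4 smF4_ok (by funext i j; exact smF4_cartan i j) (by decide)]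
  have hr : chevF4.rank = 4 := rfl
  rw [hr]
  apply fin_form hq
  rw [PoinJ_cast, poinF4a rpF4a rpF4a_cartan]
  simp only [Nat.cast_mul, Nat.cast_pow, pm_cast _ _ hq]

theorem okF4b : SubT.ok rtF4 rtF4b eNF4b 4 = true := by decide +kernel
theorem npF4b : SubT.npos rtF4b = 10 := by decide +kernel
theorem ndF4b : (orbL 4 OddDat.foF4_1).Nodup := by decide +kernel
theorem ltF4b : ∀ b ∈ orbL 4 OddDat.foF4_1, b < 2 ^ chevF4.rank := by decide +kernel

theorem centF4b {F : Type*} [Field F] [Fintype F] (hF : Odd (Fintype.card F)) (R : RootFacts chevF4) (H : Good chevF4) :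
    Nat.card (cIn (chevF4.group F) (hHom chevF4 F (sv chevF4 F 4))) =
      Nat.card (chevF4.diagonalSubgroup F) * Fintype.card F ^ 10 * rpF4b.PoinJ Finset.univ (Fintype.card F) := by
  have h2 := two_ne hF
  have hm : ∀ (i : Fin 4) (s : Fin 48), chevF4.cartan i s = rtF4.mf i s := fun i s => (DData.dF4.hm i s).symm
  have h := card_cent (F := F) H DData.dF4 (B := rpF4b) (SubT.emb rtF4_ok rtF4b_ok okF4b) R
    (hHom_inj H smF4 smF4_ok (by funext i j; exact smF4_cartan i j) (by decide)) h2 (v := 4) OddDat.foF4_1_ok ndF4b ltF4b ?_ ?_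
  · rw [h]
    congr 2
    have h3 : Nat.card {r // rpF4b.Pos r} = 10 := (SubT.card_pos rtF4b_ok).trans npF4b
    rw [h3]
  · intro r
    rw [cen_iff H DData.dF4 (NA.torus R) r]
    have e1 : (∏ i : Fin chevF4.rank, sv chevF4 F 4 i ^ chevF4.cartan i r) =
        (-1) ^ (cntB 4 fun j => bitB 4 j && decide (rtF4.mf j r % 2 ≠ 0)) := by
      rw [← SubT.prod_cnt F 4 (fun j => rtF4.mf j r) 4]
      refine Finset.prod_congr rfl fun i _ => ?_
      rw [hm i r]; rfl
    rw [e1, SubT.neg_one_pow_eq h2]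
    refine (SubT.mem_of_s5 okF4b r).trans ?_
    constructor
    · rintro ⟨r', h⟩; exact ⟨r', Fin.ext h⟩
    · rintro ⟨r', h⟩; exact ⟨r', congrArg Fin.val h⟩
  · rw [card_W_eq]
    have h4 : Nat.card (DData.dF4).rp.wsys.W = 1152 := by
      have : Nat.card (rpF4).W = 1152 := by rw [card_W_eq]; exact cardF4_aux rpF4 rpF4_cartan
      exact this
    rw [h4, cdF4b rpF4b rpF4b_cartan]
    rfl

theorem centF4b' {F : Type*} [Field F] [Fintype F] (hF : Odd (Fintype.card F)) (R : RootFacts chevF4) (H : Good chevF4) :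
    Nat.card (cIn (chevF4.group F) (hHom chevF4 F (sv chevF4 F 4))) = Fintype.card F ^ 10 * ((Fintype.card F ^ 2 - 1) ^ 2 * (Fintype.card F ^ 4 - 1) * (Fintype.card F ^ 6 - 1)) := by
  have hq : 1 ≤ Fintype.card F := Fintype.card_pos
  rw [centF4b hF R H, card_diag1 R H smF4 smF4_ok (by funext i j; exact smF4_cartan i j) (by decide)]
  have hr : chevF4.rank = 4 := rfl
  rw [hr]
  apply fin_form hq
  rw [PoinJ_cast, poinF4b rpF4b rpF4b_cartan]
  simp only [Nat.cast_mul, Nat.cast_pow, pm_cast _ _ hq]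

theorem okE8a : SubT.ok rtE8 rtE8a eNE8a 1 = true := by decide +kernel
theorem npE8a : SubT.npos rtE8a = 64 := by decide +kernel
theorem ndE8a : (orbL 1 OddDat.foE8_0).Nodup := by decide +kernel
theorem ltE8a : ∀ b ∈ orbL 1 OddDat.foE8_0, b < 2 ^ chevE8.rank := by decide +kernel

theorem centE8a {F : Type*} [Field F] [Fintype F] (hF : Odd (Fintype.card F)) (R : RootFacts chevE8) (H : Good chevE8) :
    Nat.card (cIn (chevE8.group F) (hHom chevE8 F (sv chevE8 F 1))) =
      Nat.card (chevE8.diagonalSubgroup F) * Fintype.card F ^ 64 * rpE8a.PoinJ Finset.univ (Fintype.card F) := by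
  have h2 := two_ne hF
  have hm : ∀ (i : Fin 8) (s : Fin 240), chevE8.cartan i s = rtE8.mf i s := fun i s => (DData.dE8.hm i s).symm
  have h := card_cent (F := F) H DData.dE8 (B := rpE8a) (SubT.emb rtE8_ok rtE8a_ok okE8a) R
    (hHom_inj H smE8 smE8_ok (by funext i j; exact smE8_cartan i j) (by decide)) h2 (v := 1) OddDat.foE8_0_ok ndE8a ltE8a ?_ ?_
  · rw [h]
    congr 2
    have h3 : Nat.card {r // rpE8a.Pos r} = 64 := (SubT.card_pos rtE8a_ok).trans npE8a
    rw [h3]
  · intro r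
    rw [cen_iff H DData.dE8 (NA.torus R) r]
    have e1 : (∏ i : Fin chevE8.rank, sv chevE8 F 1 i ^ chevE8.cartan i r) =
        (-1) ^ (cntB 8 fun j => bitB 1 j && decide (rtE8.mf j r % 2 ≠ 0)) := by
      rw [← SubT.prod_cnt F 8 (fun j => rtE8.mf j r) 1]
      refine Finset.prod_congr rfl fun i _ => ?_
      rw [hm i r]; rfl
    rw [e1, SubT.neg_one_pow_eq h2]
    refine (SubT.mem_of_s5 okE8a r).trans ?_
    constructor
    · rintro ⟨r', h⟩; exact ⟨r', Fin.ext h⟩
    · rintro ⟨r', h⟩; exact ⟨r', congrArg Fin.val h⟩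
  · rw [card_W_eq]
    have h4 : Nat.card (DData.dE8).rp.wsys.W = 696729600 := by
      have : Nat.card (rpE8).W = 696729600 := by rw [card_W_eq]; exact cardE8_aux rpE8 rpE8_cartan
      exact this
    rw [h4, cdE8a rpE8a rpE8a_cartan]
    rfl

theorem centE8a' {F : Type*} [Field F] [Fintype F] (hF : Odd (Fintype.card F)) (R : RootFacts chevE8) (H : Good chevE8) :
    Nat.card (cIn (chevE8.group F) (hHom chevE8 F (sv chevE8 F 1))) = Fintype.card F ^ 64 * ((Fintype.card F ^ 2 - 1) ^ 2 * (Fintype.card F ^ 6 - 1) * (Fintype.card F ^ 8 - 1) * (Fintype.card F ^ 10 - 1) * (Fintype.card F ^ 12 - 1) * (Fintype.card F ^ 14 - 1) * (Fintype.card F ^ 18 - 1)) := by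
  have hq : 1 ≤ Fintype.card F := Fintype.card_pos
  rw [centE8a hF R H, card_diag1 R H smE8 smE8_ok (by funext i j; exact smE8_cartan i j) (by decide)]
  have hr : chevE8.rank = 8 := rfl
  rw [hr]
  apply fin_form hq
  rw [PoinJ_cast, poinE8a rpE8a rpE8a_cartan]
  simp only [Nat.cast_mul, Nat.cast_pow, pm_cast _ _ hq]

theorem okE8b : SubT.ok rtE8 rtE8b eNE8b 3 = true := by decide +kernel
theorem npE8b : SubT.npos rtE8b = 56 := by decide +kernel
theorem ndE8b : (orbL 3 OddDat.foE8_1).Nodup := by decide +kernel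
theorem ltE8b : ∀ b ∈ orbL 3 OddDat.foE8_1, b < 2 ^ chevE8.rank := by decide +kernel

theorem centE8b {F : Type*} [Field F] [Fintype F] (hF : Odd (Fintype.card F)) (R : RootFacts chevE8) (H : Good chevE8) :
    Nat.card (cIn (chevE8.group F) (hHom chevE8 F (sv chevE8 F 3))) =
      Nat.card (chevE8.diagonalSubgroup F) * Fintype.card F ^ 56 * rpE8b.PoinJ Finset.univ (Fintype.card F) := by
  have h2 := two_ne hF
  have hm : ∀ (i : Fin 8) (s : Fin 240), chevE8.cartan i s = rtE8.mf i s := fun i s => (DData.dE8.hm i s).symm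
  have h := card_cent (F := F) H DData.dE8 (B := rpE8b) (SubT.emb rtE8_ok rtE8b_ok okE8b) R
    (hHom_inj H smE8 smE8_ok (by funext i j; exact smE8_cartan i j) (by decide)) h2 (v := 3) OddDat.foE8_1_ok ndE8b ltE8b ?_ ?_
  · rw [h]
    congr 2
    have h3 : Nat.card {r // rpE8b.Pos r} = 56 := (SubT.card_pos rtE8b_ok).trans npE8b
    rw [h3]
  · intro r
    rw [cen_iff H DData.dE8 (NA.torus R) r]
    have e1 : (∏ i : Fin chevE8.rank, sv chevE8 F 3 i ^ chevE8.cartan i r) =
        (-1) ^ (cntB 8 fun j => bitB 3 j && decide (rtE8.mf j r % 2 ≠ 0)) := by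
      rw [← SubT.prod_cnt F 8 (fun j => rtE8.mf j r) 3]
      refine Finset.prod_congr rfl fun i _ => ?_
      rw [hm i r]; rfl
    rw [e1, SubT.neg_one_pow_eq h2]
    refine (SubT.mem_of_s5 okE8b r).trans ?_
    constructor
    · rintro ⟨r', h⟩; exact ⟨r', Fin.ext h⟩
    · rintro ⟨r', h⟩; exact ⟨r', congrArg Fin.val h⟩
  · rw [card_W_eq]
    have h4 : Nat.card (DData.dE8).rp.wsys.W = 696729600 := by
      have : Nat.card (rpE8).W = 696729600 := by rw [card_W_eq]; exact cardE8_aux rpE8 rpE8_cartan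
      exact this
    rw [h4, cdE8b rpE8b rpE8b_cartan]
    rfl

theorem centE8b' {F : Type*} [Field F] [Fintype F] (hF : Odd (Fintype.card F)) (R : RootFacts chevE8) (H : Good chevE8) :
    Nat.card (cIn (chevE8.group F) (hHom chevE8 F (sv chevE8 F 3))) = Fintype.card F ^ 56 * ((Fintype.card F ^ 8 - 1) * ((Fintype.card F ^ 2 - 1) * (Fintype.card F ^ 4 - 1) * (Fintype.card F ^ 6 - 1) * (Fintype.card F ^ 8 - 1) * (Fintype.card F ^ 10 - 1) * (Fintype.card F ^ 12 - 1) * (Fintype.card F ^ 14 - 1))) := by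
  have hq : 1 ≤ Fintype.card F := Fintype.card_pos
  rw [centE8b hF R H, card_diag1 R H smE8 smE8_ok (by funext i j; exact smE8_cartan i j) (by decide)]
  have hr : chevE8.rank = 8 := rfl
  rw [hr]
  apply fin_form hq
  rw [PoinJ_cast, poinE8b rpE8b rpE8b_cartan]
  simp only [Nat.cast_mul, Nat.cast_pow, pm_cast _ _ hq]

end Cfsg.Agent.ChevU
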