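import Cfsg.Agent.ChevU.OddJ
import Cfsg.Agent.ChevU.OddK
import Cfsg.Agent.ChevU.OddL

set_option autoImplicit false
set_option linter.unusedSectionVars false
set_option linter.unusedVariables false

/-!
# The centraliser of an involution of `G₂(q)`, `q` odd (helper17)
-/

namespace Cfsg.Agent.ChevU

open Cfsg.Lie Cfsg.Agent.Chev Cfsg.Agent.ChevGrp Cfsg.Agent.ChevWeyl Matrix

/-- the commuting pair of `SL₂` with the same centre -/
theorem so7 : so chevG2 7 11 = true := by decide +kernel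

theorem cc7 : cc chevG2 7 0 = 1 ∧ cc chevG2 7 1 = 0 := by decide +kernel
theorem cc11 : cc chevG2 11 0 = 1 ∧ cc chevG2 11 1 = 2 := by decide +kernel

theorem g2_cent {F : Type*} [Field F] [Fintype F] (hF : Odd (Fintype.card F)) (t : ↥(Cfsg.Lie.chevG2.group F)) (ht : orderOf t = 2) :
    Nat.card (Subgroup.centralizer ({t} : Set ↥(Cfsg.Lie.chevG2.group F))) = Fintype.card F ^ 2 * (Fintype.card F ^ 2 - 1) ^ 2 ∧
    ∃ L₁ L₂ : Subgroup ↥(Cfsg.Lie.chevG2.group F), Nonempty (L₁ ≃* Matrix.SpecialLinearGroup (Fin 2) F) ∧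
      Nonempty (L₂ ≃* Matrix.SpecialLinearGroup (Fin 2) F) ∧ (∀ x ∈ L₁, ∀ y ∈ L₂, x * y = y * x) ∧
      L₁ ⊓ L₂ = Subgroup.zpowers t ∧ L₁ ⊔ L₂ ≤ Subgroup.centralizer ({t} : Set ↥(Cfsg.Lie.chevG2.group F)) ∧
      (L₁ ⊔ L₂).relIndex (Subgroup.centralizer ({t} : Set ↥(Cfsg.Lie.chevG2.group F))) = 2 := by
  have hD : chevG2 ∈ [chevG2, chevB2, chevD4, chevF4, chevE6, chevE7, chevE8] := by simp
  obtain ⟨E⟩ := DData.nonempty_of_mem hD
  have H := good_of_mem hD
  have R := rootFacts hD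
  have h2 := two_ne hF
  have c1 := (card_cent_iv (F := F) R H E 1).trans (centG2a' hF R H)
  let O := oddG2 H
  have hconj : IsConj (iv (F := F) R H E 1) t := by
    obtain ⟨x, hx, e⟩ := OddData.cls' R H E O hF ht
    have hx' : x = (1, OddDat.foG2_0) := List.mem_singleton.1 hx
    subst hx'
    exact e.symm
  have hct := (card_cent_conj hconj).symm.trans c1
  refine ⟨hct, ?_⟩
  obtain ⟨g, hg⟩ := isConj_iff.1 hconj
  have hinj : Function.Injective (hHom chevG2 F) := hHom_inj H O.S O.hS O.hC O.hd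
  have hh : ∀ r : Fin chevG2.nroots, cc chevG2 r 0 = 1 → Function.Injective (phiG (F := F) R H r) := by
    intro r hr
    have h1 : Function.Injective (phi (F := F) R H r) := by
      apply phi_inj R H E
      intro a ha
      rw [hU_eq_hHom R H r.2, ← map_one (hHom chevG2 F)] at ha
      have h3 := congrFun (hinj ha) (⟨0, by decide⟩ : Fin chevG2.rank)
      have h4 : a ^ cc chevG2 r 0 = 1 := h3
      rwa [hr, zpow_one] at h4
    intro x y hxy
    exact h1 (congrArg (fun z : ↥(chevG2.group F) => (z : GL chevG2.Idx F)) hxy)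
  have hz : ∀ r : Fin chevG2.nroots, cc chevG2 r 0 = 1 → (-1 : Fˣ) ^ cc chevG2 r 1 = 1 → phiG (F := F) R H r (dg (-1)) = iv R H E 1 := by
    intro r hr hr'
    apply Subtype.ext
    show phi R H r (dg (-1)) = hHom chevG2 F (sv chevG2 F 1)
    rw [phi_dg, hU_eq_hHom R H r.2]
    congr 1
    funext i
    have hi : i = (0 : Fin 2) ∨ i = (1 : Fin 2) := by
      have h3 : ∀ i : Fin 2, i = 0 ∨ i = 1 := by decide
      exact h3 i
    rcases hi with rfl | rfl
    · show (-1 : Fˣ) ^ cc chevG2 r 0 = -1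
      rw [hr, zpow_one]
    · show (-1 : Fˣ) ^ cc chevG2 r 1 = 1
      exact hr'
  let r7 : Fin chevG2.nroots := ⟨7, by decide⟩
  let r11 : Fin chevG2.nroots := ⟨11, by decide⟩
  have i7 := hh r7 cc7.1
  have i11 := hh r11 cc11.1
  have z7 : phiG (F := F) R H r7 (dg (-1)) = iv R H E 1 := hz r7 cc7.1 (by rw [show cc chevG2 (r7 : ℕ) 1 = 0 from cc7.2, zpow_zero])
  have z11 : phiG (F := F) R H r11 (dg (-1)) = iv R H E 1 := hz r11 cc11.1 (by
    rw [show cc chevG2 (r11 : ℕ) 1 = 2 from cc11.2]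
    norm_num)
  have hcm : ∀ x y, phiG (F := F) R H r7 x * phiG R H r11 y = phiG R H r11 y * phiG R H r7 x := fun x y =>
    Subtype.ext (phi_comm (R := R) (H := H) so7 x y)
  refine sl2_pair hF ((MulAut.conj g).toMonoidHom.comp (phiG R H r7)) ((MulAut.conj g).toMonoidHom.comp (phiG R H r11))
    ((MulAut.conj g).injective.comp i7) ((MulAut.conj g).injective.comp i11) ?_ ?_ ?_ hct
  · intro x y
    show MulAut.conj g (phiG R H r7 x) * MulAut.conj g (phiG R H r11 y) = MulAut.conj g (phiG R H r11 y) * MulAut.conj g (phiG R H r7 x)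
    rw [← map_mul, ← map_mul, hcm]
  · show g * phiG R H r7 (dg (-1)) * g⁻¹ = t
    rw [z7, hg]
  · show g * phiG R H r11 (dg (-1)) * g⁻¹ = t
    rw [z11, hg]

end Cfsg.Agent.ChevU
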