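import Mathlib

set_option autoImplicit false
set_option linter.unusedSectionVars false
set_option linter.unusedVariables false

/-!
# Isolating coordinates (helper17)
-/

namespace Cfsg.Agent.ChevU

variable {n : ℕ} {F : Type*} [Field F]

theorem exists_sq_sub_sq [Finite F] (y : F) : ∃ a b : F, y = a ^ 2 - b ^ 2 := by
  have := Fintype.ofFinite F
  by_cases h : ringChar F = 2
  · obtain ⟨a, ha⟩ := FiniteField.isSquare_of_char_two h y
    exact ⟨a, 0, by rw [ha]; ring⟩
  · have h2 : (2 : F) ≠ 0 := Ring.two_ne_zero h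
    refine ⟨(y + 1) / 2, (y - 1) / 2, ?_⟩
    field_simp
    ring

theorem act_two (A : Fin n → Fin n → ℤ) (j j' x : Fin n) (t : Fˣ) (a b : ℤ) :
    ∏ i, (Pi.mulSingle j (t ^ a) * Pi.mulSingle j' (t ^ b) : Fin n → Fˣ) i ^ A i x = t ^ (a * A j x + b * A j' x) := by
  have h1 : ∀ i, (Pi.mulSingle j (t ^ a) * Pi.mulSingle j' (t ^ b) : Fin n → Fˣ) i ^ A i x =
      (Pi.mulSingle j (t ^ a) : Fin n → Fˣ) i ^ A i x * (Pi.mulSingle j' (t ^ b) : Fin n → Fˣ) i ^ A i x := by
    intro i; rw [Pi.mul_apply, mul_zpow]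
  rw [Finset.prod_congr rfl fun i _ => h1 i, Finset.prod_mul_distrib]
  have h2 : ∀ (j : Fin n) (s : Fˣ), ∏ i, (Pi.mulSingle j s : Fin n → Fˣ) i ^ A i x = s ^ A j x := by
    intro j s
    rw [Finset.prod_eq_single j]
    · rw [Pi.mulSingle_eq_same]
    · intro i _ hi
      rw [Pi.mulSingle_eq_of_ne hi, one_zpow]
    · intro h; exact absurd (Finset.mem_univ _) h
  rw [h2, h2, ← zpow_mul, ← zpow_mul, ← zpow_add]

variable (S : AddSubgroup (Fin n → F)) (A : Fin n → Fin n → ℤ)

theorem isolate [Finite F] (hA : ∀ k, A k k = 2)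
    (hS : ∀ (c : Fin n → Fˣ) (v : Fin n → F), v ∈ S → (fun k => ((∏ i, c i ^ A i k : Fˣ) : F) * v k) ∈ S)
    (hsep : ∀ k k', k ≠ k' → ∃ j j', ∃ t : Fˣ, t ^ (A j' k' * A j k + -A j k' * A j' k) ≠ 1)
    (k : Fin n) (v : Fin n → F) (hv : v ∈ S) (hvk : v k ≠ 0) (y : F) : Pi.single k y ∈ S := by
  classical
  -- a vector supported at `k`
  obtain ⟨s, hs0, hs⟩ : ∃ s : F, s ≠ 0 ∧ Pi.single k s ∈ S := by
    have key : ∀ m : ℕ, ∀ v : Fin n → F, v ∈ S → v k ≠ 0 → (Finset.univ.filter fun i => v i ≠ 0).card = m →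
        ∃ s : F, s ≠ 0 ∧ Pi.single k s ∈ S := by
      intro m
      induction m using Nat.strong_induction_on with
      | _ m ih =>
        intro v hv hvk hm
        by_cases h : ∃ k', k' ≠ k ∧ v k' ≠ 0
        · obtain ⟨k', hk', hvk'⟩ := h
          obtain ⟨j, j', t, ht⟩ := hsep k k' (Ne.symm hk')
          have h1 := S.sub_mem (hS (Pi.mulSingle j (t ^ A j' k') * Pi.mulSingle j' (t ^ (-A j k'))) v hv) hv
          set w : Fin n → F := (fun x => ((∏ i, (Pi.mulSingle j (t ^ A j' k') * Pi.mulSingle j' (t ^ (-A j k')) : Fin n → Fˣ) i ^ A i x : Fˣ) : F) * v x) - v with hw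
          have hwx : ∀ x, w x = (((t ^ (A j' k' * A j x + -A j k' * A j' x) : Fˣ) : F) - 1) * v x := by
            intro x
            rw [hw, Pi.sub_apply, act_two A j j' x t]
            ring
          have hwk' : w k' = 0 := by
            rw [hwx]
            have : A j' k' * A j k' + -A j k' * A j' k' = 0 := by ring
            rw [this, zpow_zero]; simp
          have hwk : w k ≠ 0 := by
            rw [hwx]
            refine mul_ne_zero (sub_ne_zero.mpr fun h => ht ?_) hvk
            exact Units.ext h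
          refine ih _ ?_ w h1 hwk rfl
          rw [← hm]
          apply Finset.card_lt_card
          rw [Finset.ssubset_iff_of_subset]
          · exact ⟨k', by simp [hvk'], by simp [hwk']⟩
          · intro x hx
            rw [Finset.mem_filter] at hx ⊢
            refine ⟨Finset.mem_univ _, fun h0 => hx.2 ?_⟩
            rw [hwx, h0, mul_zero]
        · push Not at h
          refine ⟨v k, hvk, ?_⟩
          have : Pi.single k (v k) = v := by
            funext x
            by_cases hx : x = k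
            · subst hx; rw [Pi.single_eq_same]
            · rw [Pi.single_eq_of_ne hx, h x hx]
          rw [this]; exact hv
    exact key _ v hv hvk rfl
  -- squares
  have hsq : ∀ a : F, ∀ s : F, Pi.single k s ∈ S → Pi.single k (a ^ 2 * s) ∈ S := by
    intro a s hs
    by_cases ha : a = 0
    · rw [ha]; simp
    · have h1 := hS (Pi.mulSingle k (Units.mk0 a ha)) _ hs
      have h2 : (fun x => ((∏ i, (Pi.mulSingle k (Units.mk0 a ha) : Fin n → Fˣ) i ^ A i x : Fˣ) : F) * (Pi.single k s : Fin n → F) x) = Pi.single k (a ^ 2 * s) := by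
        funext x
        by_cases hx : x = k
        · subst hx
          rw [Pi.single_eq_same, Pi.single_eq_same]
          rw [Finset.prod_eq_single x]
          · rw [Pi.mulSingle_eq_same, hA]
            have : (Units.mk0 a ha) ^ (2 : ℤ) = (Units.mk0 a ha) ^ (2 : ℕ) := by rfl
            rw [this, Units.val_pow_eq_pow_val, Units.val_mk0]
          · intro i _ hi
            rw [Pi.mulSingle_eq_of_ne hi, one_zpow]
          · intro h; exact absurd (Finset.mem_univ _) h
        · rw [Pi.single_eq_of_ne hx, Pi.single_eq_of_ne hx, mul_zero]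
      rw [h2] at h1
      exact h1
  obtain ⟨a, b, hab⟩ := exists_sq_sub_sq (y / s)
  have h1 := S.sub_mem (hsq a s hs) (hsq b s hs)
  rw [← Pi.single_sub, ← sub_mul, ← hab, div_mul_cancel₀ _ hs0] at h1
  exact h1

end Cfsg.Agent.ChevU
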