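import Cfsg.Agent.ChevU.RegB

set_option autoImplicit false
set_option linter.unusedSectionVars false
set_option linter.unusedVariables false

/-!
# Overgroups of the fixed points of an automorphism preserving all root subgroups (helper17)
-/

namespace Cfsg.Agent.ChevGrp

open Cfsg.Agent.ChevWeyl

namespace RGrp

variable {l n : ℕ} {S : WSys l n} {G : Type*} [Group G] {R : RGrp S G}

theorem X_inf_Ui {i : Fin l} {x : G} (hx : x ∈ R.X (S.p i)) (h : x ∈ R.Ui i) : x = 1 := by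
  by_contra h1
  have := not_mem_Ui hx h1 (one_mem (R.Ui i))
  rw [mul_one] at this
  exact this h

/-- root subgroups of different roots meet trivially -/
theorem X_inf {a b : Fin n} (hab : a ≠ b) {x : G} (hx : x ∈ R.X a) (hx' : x ∈ R.X b) : x = 1 := by
  obtain ⟨u, hu, j, hj⟩ := S.exists_conj_p a
  obtain ⟨g, hg, hgu⟩ := exists_act_of_mem (R := R) hu
  have h1 := hgu.conj' hx
  have h2 := hgu.conj' hx'
  rw [← hj] at h1
  have e0 : u⁻¹ (u (S.p j)) = S.p j := by simp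
  rw [e0] at h1
  have hne : u⁻¹ b ≠ S.p j := by
    intro h; apply hab
    rw [← hj, ← h]; simp
  have h3 : g⁻¹ * x * g = 1 := by
    by_cases hp : S.Pos (u⁻¹ b)
    · exact X_inf_Ui h1 (R.X_le_Ui hp hne h2)
    · exact R.U_inf_V (R.X_le_U (S.pos_p j) h1) (R.X_le_V hp h2)
  have : x = g * (g⁻¹ * x * g) * g⁻¹ := by group
  rw [this, h3]; group

/-- the transposed canonical form -/
theorem exists_unb {g : G} {u : Equiv.Perm (Fin n)} (hg : R.Act g u) (hgN : g ∈ R.N) {b : G} (hb : b ∈ R.B) :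
    ∃ b' ∈ R.B, ∃ x ∈ R.Um u⁻¹, b * g = x * g * b' := by
  obtain ⟨b', hb', x, hx, e⟩ := exists_bnu hg.inv (inv_mem hgN) (inv_mem hb)
  refine ⟨b'⁻¹, inv_mem hb', x⁻¹, inv_mem hx, ?_⟩
  have : b * g = (g⁻¹ * b⁻¹)⁻¹ := by group
  rw [this, e]; group

/-- the hypotheses -/
structure SubHyp (R : RGrp S G) (θ : G →* G) (Y : Subgroup G) where
  θX : ∀ r, ∀ x ∈ R.X r, θ x ∈ R.X r
  θn : ∀ i, θ (R.nn i) = R.nn i
  θH : ∀ h ∈ R.H, θ h ∈ R.H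
  YG : Y ≤ R.Grp
  FY : ∀ g ∈ R.Grp, θ g = g → g ∈ Y
  YU : ∀ u ∈ Y, u ∈ R.U → θ u = u
  x : Fin l → G
  xX : ∀ i, x i ∈ R.X (S.p i)
  x1 : ∀ i, x i ≠ 1
  θx : ∀ i, θ (x i) = x i
  xc : ∀ i, ∀ z ∈ R.X (S.p i), z * x i = x i * z
  xT : ∀ h ∈ R.H, (∀ i, h * x i * h⁻¹ = x i) → h = 1
  ρ : Fin n
  ρpos : S.Pos ρ
  Z1 : ∀ u ∈ R.U, ∀ z ∈ R.X ρ, u * z * u⁻¹ = z
  Lv : Fin n → Prop
  VV : Subgroup G
  LL : Subgroup G
  NN : Subgroup G
  PP : Subgroup G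
  V1 : ∀ r, S.Pos r → ¬ Lv r → R.X r ≤ VV
  V2 : ∀ r, Lv r → R.X r ≤ LL
  V3 : ∀ r, ¬ S.Pos r → ¬ Lv r → R.X r ≤ NN
  VH : R.H ≤ LL
  Vn : ∀ j, S.w j ρ = ρ → R.nn j ∈ LL
  VP : VV ≤ PP
  LP : LL ≤ PP
  LV : ∀ a ∈ LL, ∀ v ∈ VV, a * v * a⁻¹ ∈ VV
  LVi : ∀ g ∈ LL, g ∈ VV → g = 1
  PN : ∀ g ∈ PP, g ∈ NN → g = 1
  V6 : ∀ g ∈ R.Grp, g ∈ VV → g ∈ R.U
  θV : ∀ g ∈ VV, θ g ∈ VV
  θL : ∀ g ∈ LL, θ g ∈ LL
  Lp : ∀ j, S.w j ρ = ρ → Lv (S.p j)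
  Lp' : ∀ j, Lv (S.p j) → S.w j ρ = ρ
  Ln : ∀ r, Lv r ↔ Lv (S.neg r)
  W1 : ∀ w ∈ S.W, w ρ = ρ → ∀ j, ¬ S.Pos (w (S.p j)) → S.w j ρ = ρ
  W2 : ∀ w ∈ S.W, (∀ j, S.w j ρ = ρ → S.Pos (w (S.p j))) → ∀ s, S.Pos s → Lv s → S.Pos (w s)
  W3 : ∀ w ∈ S.W, (∀ j, S.w j ρ = ρ → ¬ S.Pos (w (S.p j))) → ∀ s, S.Pos s → Lv s → ¬ S.Pos (w s)
  k : ℕ
  γ : ℕ → Fin n
  γ0 : γ 0 = ρ
  γV : ∀ i, i ≤ k → S.Pos (γ i) ∧ ¬ Lv (γ i)
  C2 : ∀ i, 1 ≤ i → i ≤ k → ∀ u ∈ R.U, ∀ z ∈ R.X (γ i), u * z * u⁻¹ * z⁻¹ ∈ gen R.X (fun r => ∃ m < i, r = γ m)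
  C3 : ∀ i, 1 ≤ i → i ≤ k → ∀ A, (∀ m ≤ i, A ≠ γ m) → ∀ z ∈ R.X A, ∀ z' ∈ R.X (γ i), ∀ ζ ∈ gen R.X (fun r => ∃ m < i, r = γ m),
    z = z' * ζ → z = 1
  C4 : ∀ w ∈ S.W, (∀ i, i ≤ k → w (γ i) = γ i) → w = 1
  Z2 : ∀ w ∈ S.W, w ρ = S.neg ρ ∨ (∀ z ∈ R.X (w ρ), ∀ z' ∈ R.X ρ, z * z' = z' * z) ∨
    ∃ v ∈ S.W, ∀ z ∈ R.X (w ρ), ∀ z' ∈ R.X ρ, z' * z * z'⁻¹ * z⁻¹ ∈ R.X (v ρ) ∧
      (∀ t ∈ R.X (v ρ), t * z = z * t ∧ t * z' = z' * t)
  j0 : Fin l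
  J1 : ∀ z ∈ R.X (S.p j0), θ z = z
  J2 : S.w j0 ρ ≠ ρ
  J3 : S.w j0 (S.neg ρ) ≠ S.neg ρ

namespace SubHyp

variable {θ : G →* G} {Y : Subgroup G} (h : SubHyp R θ Y)

include h

theorem θgen (P : Fin n → Prop) {g : G} (hg : g ∈ gen R.X P) : θ g ∈ gen R.X P := by
  have : gen R.X P ≤ (gen R.X P).comap θ := by
    rw [gen_le]
    intro r hr x hx
    exact mem_gen hr (h.θX r x hx)
  exact this hg

theorem θU {g : G} (hg : g ∈ R.U) : θ g ∈ R.U := h.θgen _ hg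

theorem θB {g : G} (hg : g ∈ R.B) : θ g ∈ R.B := by
  obtain ⟨u, hu, k, hk, rfl⟩ := mem_B.1 hg
  rw [map_mul]
  exact mem_B.2 ⟨_, h.θU hu, _, h.θH k hk, rfl⟩

theorem θnd (L : List (Fin l)) : θ (R.nd L) = R.nd L := by
  induction L with
  | nil => rw [nd_nil, map_one]
  | cons i L ih => rw [nd_cons, map_mul, h.θn, ih]

theorem θact {g : G} {w : Equiv.Perm (Fin n)} (hg : g ∈ R.N) (hw : R.Act g w) : θ g ∈ R.N ∧ R.Act (θ g) w := by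
  obtain ⟨L, k, hk, rfl⟩ := exists_nd hg
  have hwL : S.wd L = w := by
    have h1 := (act_nd (R := R) L).mul (act_H hk)
    rw [mul_one] at h1
    exact h1.unique hw
  rw [map_mul, h.θnd]
  refine ⟨mul_mem (nd_mem_N L) (R.H_le_N (h.θH k hk)), ?_⟩
  have h1 := (act_nd (R := R) L).mul (act_H (h.θH k hk))
  rw [mul_one, hwL] at h1
  exact h1

theorem θGrp {g : G} (hg : g ∈ R.Grp) : θ g ∈ R.Grp := by
  obtain ⟨b, hb, m, hm, b', hb', rfl⟩ := exists_bnb hg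
  obtain ⟨w, hw⟩ := exists_act hm
  rw [map_mul, map_mul]
  exact mul_mem (mul_mem (B_le_Grp (h.θB hb)) (N_le_Grp (h.θact hm hw).1)) (B_le_Grp (h.θB hb'))

theorem xG (i : Fin l) : h.x i ∈ R.Grp := X_le_Grp _ (h.xX i)

theorem xY (i : Fin l) : h.x i ∈ Y := h.FY _ (h.xG i) (h.θx i)

theorem ndY (L : List (Fin l)) : R.nd L ∈ Y := h.FY _ (N_le_Grp (nd_mem_N L)) (h.θnd L)

/-- every root subgroup contains a fixed element -/
theorem exists_fix (r : Fin n) : ∃ z ∈ R.X r, z ≠ 1 ∧ θ z = z := by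
  obtain ⟨u, hu, i, hi⟩ := S.exists_conj_p r
  obtain ⟨L, rfl⟩ := S.exists_wd hu
  refine ⟨R.nd L * h.x i * (R.nd L)⁻¹, ?_, ?_, ?_⟩
  · rw [← hi]; exact (act_nd L).conj (h.xX i)
  · intro h1
    apply h.x1 i
    have : h.x i = (R.nd L)⁻¹ * (R.nd L * h.x i * (R.nd L)⁻¹) * R.nd L := by group
    rw [this, h1]; group
  · rw [map_mul, map_mul, map_inv, h.θnd, h.θx]

/-- **Step 2.** -/
theorem fix_B {y : G} (hy : y ∈ Y) (hB : y ∈ R.B) : θ y = y := by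
  obtain ⟨u, hu, k, hk, rfl⟩ := mem_B.1 hB
  set y := u * k with hyd
  have hc : y⁻¹ * θ y ∈ R.B := mul_mem (inv_mem hB) (h.θB hB)
  have hcx : ∀ i, (y⁻¹ * θ y) * h.x i * (y⁻¹ * θ y)⁻¹ = h.x i := by
    intro i
    have h1 : θ (y * h.x i * y⁻¹) = y * h.x i * y⁻¹ :=
      h.YU _ (mul_mem (mul_mem hy (h.xY i)) (inv_mem hy)) (B_norm_U hB (R.X_le_U (S.pos_p i) (h.xX i)))
    rw [map_mul, map_mul, map_inv, h.θx] at h1
    have : (y⁻¹ * θ y) * h.x i * (y⁻¹ * θ y)⁻¹ = y⁻¹ * (θ y * h.x i * (θ y)⁻¹) * y := by group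
    rw [this, h1]; group
  obtain ⟨u', hu', k', hk', e⟩ := mem_B.1 hc
  have hk1 : k' = 1 := by
    apply h.xT k' hk'
    intro i
    have h2 := hcx i
    rw [e] at h2
    obtain ⟨z, hz, v, hv, rfl⟩ := mem_U i hu'
    set x' := k' * h.x i * k'⁻¹ with hx'
    have hx'X : x' ∈ R.X (S.p i) := R.H_X k' hk' _ _ (h.xX i)
    have h3 : z * x' * z⁻¹ * (z * (x'⁻¹ * v * x' * v⁻¹) * z⁻¹) = h.x i := by
      rw [← h2, hx']; group
    have hxU : x'⁻¹ * v * x' ∈ R.Ui i := by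
      have := B_norm_Ui i (R.U_le_B (R.X_le_U (S.pos_p i) (inv_mem hx'X))) hv
      rwa [inv_inv] at this
    have h4 : z * (x'⁻¹ * v * x' * v⁻¹) * z⁻¹ ∈ R.Ui i :=
      B_norm_Ui i (R.U_le_B (R.X_le_U (S.pos_p i) hz)) (mul_mem hxU (inv_mem hv))
    have h5 : (h.x i)⁻¹ * (z * x' * z⁻¹) = 1 := by
      apply X_inf_Ui (R := R) (i := i)
      · exact mul_mem (inv_mem (h.xX i)) (mul_mem (mul_mem hz hx'X) (inv_mem hz))
      · have : (h.x i)⁻¹ * (z * x' * z⁻¹) = (z * (x'⁻¹ * v * x' * v⁻¹) * z⁻¹)⁻¹ := by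
          rw [← h3]; group
        rw [this]; exact inv_mem h4
    have h6 : z * x' * z⁻¹ = h.x i := (inv_mul_eq_one.1 h5).symm
    have h7 := h.xc i z hz
    have : x' = z⁻¹ * (z * x' * z⁻¹) * z := by group
    rw [this, h6, mul_assoc, ← h7]; group
  rw [hk1, mul_one] at e
  have h3 : θ k * k⁻¹ = (θ u)⁻¹ * u * (k * u' * k⁻¹) := by
    have h4 : θ u * θ k = u * k * u' := by rw [← map_mul, ← hyd, ← e]; group
    have h5 : θ k = (θ u)⁻¹ * (u * k * u') := by rw [← h4]; group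
    rw [h5]; group
  have h4 : θ k * k⁻¹ = 1 := by
    apply R.UH
    · rw [h3]
      exact mul_mem (mul_mem (inv_mem (h.θU hu)) hu) (H_norm_gen (R := R) _ k hk _ hu')
    · exact mul_mem (h.θH k hk) (inv_mem hk)
  have hθk : θ k = k := mul_inv_eq_one.1 h4
  have hkY : k ∈ Y := h.FY _ (B_le_Grp (R.H_le_B hk)) hθk
  have huY : u ∈ Y := by
    have : u = y * k⁻¹ := by rw [hyd]; group
    rw [this]; exact mul_mem hy (inv_mem hkY)
  rw [hyd, map_mul, hθk, h.YU u huY hu]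

theorem B_norm_ρ {b : G} (hb : b ∈ R.B) {z : G} (hz : z ∈ R.X h.ρ) : b * z * b⁻¹ ∈ R.X h.ρ := by
  obtain ⟨u, hu, k, hk, rfl⟩ := mem_B.1 hb
  have h1 := R.H_X k hk _ _ hz
  have h2 := h.Z1 u hu _ h1
  have : u * k * z * (u * k)⁻¹ = u * (k * z * k⁻¹) * u⁻¹ := by group
  rw [this, h2]; exact h1

theorem X_ne_B {b : G} {z : G} (hz : z ≠ 1) : b * z * b⁻¹ ≠ 1 := by
  intro h1
  apply hz
  have : z = b⁻¹ * (b * z * b⁻¹) * b := by group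
  rw [this, h1]; group

/-- an element moving a non-trivial element of `X ρ` into `X ρ` -/
theorem stab_w {b m b' : G} (hb : b ∈ R.B) (hb' : b' ∈ R.B) {w : Equiv.Perm (Fin n)} (hw : R.Act m w) {z : G}
    (hz : z ∈ R.X h.ρ) (hz1 : z ≠ 1) (hc : (b * m * b') * z * (b * m * b')⁻¹ ∈ R.X h.ρ) : w h.ρ = h.ρ := by
  by_contra hne
  have h1 := h.B_norm_ρ hb' hz
  have h2 := hw.conj h1
  have h3 := h.B_norm_ρ (inv_mem hb) hc
  have e : b⁻¹ * (b * m * b' * z * (b * m * b')⁻¹) * b⁻¹⁻¹ = m * (b' * z * b'⁻¹) * m⁻¹ := by group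
  rw [e] at h3
  have h4 := X_inf (R := R) hne h2 h3
  exact h.X_ne_B (h.X_ne_B hz1) h4

/-- elements of `N` fixing `ρ` lie in the Levi subgroup -/
theorem N_LL {m : G} (hm : m ∈ R.N) {w : Equiv.Perm (Fin n)} (hw : R.Act m w) (hρ : w h.ρ = h.ρ) : m ∈ h.LL := by
  have key : ∀ k, ∀ w ∈ S.W, S.N w = k → w h.ρ = h.ρ → ∃ L, S.wd L = w ∧ R.nd L ∈ h.LL := by
    intro k
    induction k with
    | zero =>
      intro w hw hN _
      exact ⟨[], by rw [S.N_eq_zero hw hN]; rfl, one_mem _⟩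
    | succ k ih =>
      intro w hw hN hρ
      have hne : w ≠ 1 := by
        rintro rfl
        rw [S.N_one] at hN; omega
      obtain ⟨j, hj⟩ := S.descent w hw hne
      have h1 := h.W1 w hw hρ j hj
      have h2 := S.N_neg hw hj
      have h3 : (w * S.w j) h.ρ = h.ρ := by rw [Equiv.Perm.mul_apply, h1, hρ]
      obtain ⟨L, hL, hL2⟩ := ih _ (mul_mem hw (S.w_mem j)) (by omega) h3
      refine ⟨L ++ [j], ?_, ?_⟩
      · rw [S.wd_append, hL, S.wd_cons, S.wd_nil, mul_one, mul_assoc, S.w_mul_w, mul_one]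
      · rw [nd_append, nd_cons, nd_nil, mul_one]
        exact mul_mem hL2 (h.Vn j h1)
  obtain ⟨L, hL, hL2⟩ := key _ w hw.1 rfl hρ
  have h1 : (R.nd L)⁻¹ * m ∈ R.H := by
    apply inv_mul_mem_H (nd_mem_N L) hm (u := w)
    · rw [← hL]; exact act_nd L
    · exact hw
  have : m = R.nd L * ((R.nd L)⁻¹ * m) := by group
  rw [this]
  exact mul_mem hL2 (h.VH h1)

/-- decomposition of `U` -/
theorem U_dec {u : G} (hu : u ∈ R.U) : ∃ v ∈ h.VV ⊓ R.U, ∃ a ∈ gen R.X (fun r => S.Pos r ∧ h.Lv r), u = v * a := by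
  have hAU : gen R.X (fun r => S.Pos r ∧ h.Lv r) ≤ R.U := gen_mono fun _ hr => hr.1
  have hAL : gen R.X (fun r => S.Pos r ∧ h.Lv r) ≤ h.LL := by
    rw [gen_le]; intro r hr; exact h.V2 r hr.2
  apply mem_sup_of_normalizes' (A := gen R.X (fun r => S.Pos r ∧ h.Lv r)) (C := h.VV ⊓ R.U)
  · intro a ha c hc
    exact ⟨h.LV a (hAL ha) c hc.1, R.U.mul_mem (R.U.mul_mem (hAU ha) hc.2) (R.U.inv_mem (hAU ha))⟩
  · have : R.U ≤ gen R.X (fun r => S.Pos r ∧ h.Lv r) ⊔ (h.VV ⊓ R.U) := by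
      rw [RGrp.U, gen_le]
      intro r hr
      by_cases hL : h.Lv r
      · exact (le_gen (P := fun r => S.Pos r ∧ h.Lv r) ⟨hr, hL⟩).trans le_sup_left
      · exact (le_inf (h.V1 r hr hL) (le_gen hr)).trans le_sup_right
    exact this hu

/-- decomposition of the parabolic subgroup -/
theorem P_dec {b m b' : G} (hb : b ∈ R.B) (hm : m ∈ R.N) (hb' : b' ∈ R.B) {w : Equiv.Perm (Fin n)} (hw : R.Act m w)
    (hρ : w h.ρ = h.ρ) : ∃ v ∈ h.VV ⊓ R.U, ∃ a ∈ h.LL ⊓ R.Grp, b * m * b' = v * a := by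
  have hBd : ∀ b ∈ R.B, ∃ v ∈ h.VV ⊓ R.U, ∃ a ∈ h.LL ⊓ R.Grp, b = v * a := by
    intro b hb
    obtain ⟨u, hu, k, hk, rfl⟩ := mem_B.1 hb
    obtain ⟨v, hv, a, ha, rfl⟩ := h.U_dec hu
    refine ⟨v, hv, a * k, mul_mem ⟨?_, ?_⟩ ⟨h.VH hk, B_le_Grp (R.H_le_B hk)⟩, by group⟩
    · have hAL : gen R.X (fun r => S.Pos r ∧ h.Lv r) ≤ h.LL := by
        rw [gen_le]; intro r hr; exact h.V2 r hr.2
      exact hAL ha
    · exact B_le_Grp (R.U_le_B (gen_mono (fun _ hr => hr.1) ha))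
  obtain ⟨v, hv, a, ha, rfl⟩ := hBd b hb
  obtain ⟨v', hv', a', ha', rfl⟩ := hBd b' hb'
  have hmL : m ∈ h.LL ⊓ R.Grp := ⟨h.N_LL hm hw hρ, N_le_Grp hm⟩
  have ham := mul_mem ha hmL
  refine ⟨v * ((a * m) * v' * (a * m)⁻¹), mul_mem hv ?_, a * m * a', mul_mem ham ha', by group⟩
  have h1 : (a * m) * v' * (a * m)⁻¹ ∈ h.VV := h.LV _ ham.1 _ hv'.1
  exact ⟨h1, h.V6 _ (mul_mem (mul_mem ham.2 (B_le_Grp (R.U_le_B hv'.2))) (inv_mem ham.2)) h1⟩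

/-- **Step 3a**: elements centralising the fixed points of the radical are in `B` -/
theorem cent_B {c : G} (hc : c ∈ R.Grp) (hcent : ∀ z ∈ h.VV, z ∈ R.U → θ z = z → c * z * c⁻¹ = z) : c ∈ R.B := by
  obtain ⟨b, hb, m, hm, b', hb', rfl⟩ := exists_bnb hc
  obtain ⟨w, hw⟩ := exists_act hm
  have hfix : ∀ i, i ≤ h.k → ∀ m' ≤ i, w (h.γ m') = h.γ m' := by
    intro i
    induction i with
    | zero =>
      intro _ m' hm'
      have : m' = 0 := by omega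
      subst this
      rw [h.γ0]
      obtain ⟨z, hz, hz1, hθz⟩ := h.exists_fix h.ρ
      refine h.stab_w hb hb' hw hz hz1 ?_
      have h1 := (h.γV 0 (Nat.zero_le _))
      rw [h.γ0] at h1
      rw [hcent z (h.V1 _ h1.1 h1.2 hz) (R.X_le_U h1.1 hz) hθz]
      exact hz
    | succ i ih =>
      intro hi m' hm'
      have hprev := ih (by omega)
      by_cases hmi : m' ≤ i
      · exact hprev m' hmi
      have : m' = i + 1 := by omega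
      subst this
      set Z := gen R.X (fun r => ∃ m < i + 1, r = h.γ m) with hZ
      obtain ⟨hγp, hγL⟩ := h.γV (i + 1) hi
      obtain ⟨z, hz, hz1, hθz⟩ := h.exists_fix (h.γ (i + 1))
      have hzc := hcent z (h.V1 _ hγp hγL hz) (R.X_le_U hγp hz) hθz
      have hstep : ∀ b ∈ R.B, ∃ z' ∈ R.X (h.γ (i + 1)), z' ≠ 1 ∧ ∃ ζ ∈ Z, b * z * b⁻¹ = ζ * z' := by
        intro b hb
        obtain ⟨u, hu, k, hk, rfl⟩ := mem_B.1 hb
        have h1 := R.H_X k hk _ _ hz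
        have h2 := h.C2 (i + 1) (by omega) hi u hu _ h1
        refine ⟨k * z * k⁻¹, h1, h.X_ne_B hz1, _, h2, by group⟩
      obtain ⟨z1, hz1X, hz11, ζ1, hζ1, e1⟩ := hstep b' hb'
      obtain ⟨z2, hz2X, hz21, ζ2, hζ2, e2⟩ := hstep b⁻¹ (inv_mem hb)
      have hmζ : m * ζ1 * m⁻¹ ∈ Z := by
        refine act_gen hw (P := fun r => ∃ m < i + 1, r = h.γ m) (Q := fun r => ∃ m < i + 1, r = h.γ m) ?_ _ hζ1
        rintro r ⟨m', hm', rfl⟩
        exact ⟨m', hm', hprev m' (by omega)⟩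
      have hmz := hw.conj hz1X
      have e3 : (m * ζ1 * m⁻¹) * (m * z1 * m⁻¹) = ζ2 * z2 := by
        rw [← e2]
        have h4 : b⁻¹ * z * b⁻¹⁻¹ = m * (b' * z * b'⁻¹) * m⁻¹ := by
          nth_rewrite 1 [← hzc]; group
        rw [h4, e1]; group
      by_contra hne
      apply h.X_ne_B (b := m) hz11
      -- move the elements of `Z` to the right
      have hzZ : z2⁻¹ * (m * ζ1 * m⁻¹)⁻¹ * ζ2 * z2 ∈ Z := by
        have h5 : (m * ζ1 * m⁻¹)⁻¹ * ζ2 ∈ Z := mul_mem (inv_mem hmζ) hζ2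
        have hZn : ∀ ζ ∈ Z, z2⁻¹ * ζ * z2 ∈ Z := by
          intro ζ hζ
          have : ∀ ζ ∈ Z, z2⁻¹ * ζ * (z2⁻¹)⁻¹ ∈ Z := by
            refine conj_gen ?_
            rintro r ⟨m', hm', rfl⟩ x hx
            have hm'k : m' ≤ h.k := by omega
            obtain ⟨hp, hL⟩ := h.γV m' hm'k
            by_cases h0 : m' = 0
            · subst h0
              rw [h.γ0] at hx
              have := h.Z1 z2⁻¹ (R.U.inv_mem (R.X_le_U hγp hz2X)) x hx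
              rw [this]
              exact mem_gen (P := fun r => ∃ m < i + 1, r = h.γ m) ⟨0, by omega, h.γ0.symm⟩ hx
            · have h6 := h.C2 m' (by omega) hm'k z2⁻¹ (R.U.inv_mem (R.X_le_U hγp hz2X)) x hx
              have h7 : z2⁻¹ * x * z2⁻¹⁻¹ * x⁻¹ ∈ Z := gen_mono (by rintro r ⟨m'', hm'', rfl⟩; exact ⟨m'', by omega, rfl⟩) h6
              have h8 : x ∈ Z := mem_gen (P := fun r => ∃ m < i + 1, r = h.γ m) ⟨m', hm', rfl⟩ hx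
              have := mul_mem h7 h8
              rwa [inv_mul_cancel_right] at this
          have := this ζ hζ
          rwa [inv_inv] at this
        have := hZn _ h5
        rwa [← mul_assoc] at this
      refine h.C3 (i + 1) (by omega) hi (w (h.γ (i + 1))) ?_ _ hmz z2 hz2X _ hzZ ?_
      · intro m'' hm''
        by_cases h9 : m'' = i + 1
        · rw [h9]; exact hne
        · intro h10
          have h11 := hprev m'' (by omega)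
          rw [← h11] at h10
          have h12 := w.injective h10
          apply hne
          rw [h12, h11]
      · have : m * z1 * m⁻¹ = (m * ζ1 * m⁻¹)⁻¹ * ((m * ζ1 * m⁻¹) * (m * z1 * m⁻¹)) := by group
        rw [this, e3]; group
  have hw1 : w = 1 := h.C4 w hw.1 fun i hi => hfix i hi i le_rfl
  subst hw1
  exact mul_mem (mul_mem hb (R.H_le_B (mem_H_of_act_one hm hw))) hb'

/-- the longest element of the Levi subgroup -/
theorem exists_wJ : ∃ L : List (Fin l), R.nd L ∈ h.LL ∧ S.wd L h.ρ = h.ρ ∧ ∀ r, S.Pos r → h.Lv r → ¬ S.Pos (S.wd L r) := by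
  classical
  obtain ⟨w, ⟨hw, hρ⟩, hmax⟩ := Set.exists_max_image {w : Equiv.Perm (Fin n) | w ∈ S.W ∧ w h.ρ = h.ρ} S.N (Set.toFinite _)
    ⟨1, one_mem _, rfl⟩
  have h1 : ∀ j, S.w j h.ρ = h.ρ → ¬ S.Pos (w (S.p j)) := by
    intro j hj hp
    have h2 := S.N_pos w hw j hp
    have h3 := hmax (w * S.w j) ⟨mul_mem hw (S.w_mem j), by rw [Equiv.Perm.mul_apply, hj, hρ]⟩
    omega
  obtain ⟨L, rfl⟩ := S.exists_wd hw
  exact ⟨L, h.N_LL (nd_mem_N L) (act_nd L) hρ, hρ, h.W3 _ hw h1⟩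

/-- **Step 3b** -/
theorem cent_VV {c : G} (hc : c ∈ R.Grp) (hcent : ∀ z ∈ h.VV, z ∈ R.U → θ z = z → c * z * c⁻¹ = z) : c ∈ h.VV := by
  -- the property is inherited by conjugates
  have hconj : ∀ c ∈ R.Grp, (∀ z ∈ h.VV, z ∈ R.U → θ z = z → c * z * c⁻¹ = z) → ∀ a ∈ h.LL, a ∈ R.Grp → θ a = a →
      ∀ z ∈ h.VV, z ∈ R.U → θ z = z → (a * c * a⁻¹) * z * (a * c * a⁻¹)⁻¹ = z := by
    intro c hc hcent a ha haG hθa z hz hzU hθz
    have h1 : a⁻¹ * z * a ∈ h.VV := by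
      have := h.LV a⁻¹ (inv_mem ha) z hz
      rwa [inv_inv] at this
    have h2 : a⁻¹ * z * a ∈ R.U := h.V6 _ (mul_mem (mul_mem (inv_mem haG) (B_le_Grp (R.U_le_B hzU))) haG) h1
    have h3 : θ (a⁻¹ * z * a) = a⁻¹ * z * a := by rw [map_mul, map_mul, map_inv, hθa, hθz]
    have h4 := hcent _ h1 h2 h3
    have : a * c * a⁻¹ * z * (a * c * a⁻¹)⁻¹ = a * (c * (a⁻¹ * z * a) * c⁻¹) * a⁻¹ := by group
    rw [this, h4]; group
  -- such elements are in `VV H`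
  obtain ⟨L, hL1, hL2, hL3⟩ := h.exists_wJ
  have hVH : ∀ c ∈ R.Grp, (∀ z ∈ h.VV, z ∈ R.U → θ z = z → c * z * c⁻¹ = z) → ∃ v ∈ h.VV ⊓ R.U, ∃ k ∈ R.H, c = v * k := by
    intro c hc hcent
    have hB := h.cent_B hc hcent
    obtain ⟨u, hu, k, hk, rfl⟩ := mem_B.1 hB
    obtain ⟨v, hv, a, ha, rfl⟩ := h.U_dec hu
    have hnG : R.nd L ∈ R.Grp := N_le_Grp (nd_mem_N L)
    have h1 := h.cent_B (mul_mem (mul_mem hnG hc) (inv_mem hnG)) (hconj _ hc hcent (R.nd L) hL1 hnG (h.θnd L))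
    have h2 : R.nd L * v * (R.nd L)⁻¹ ∈ R.U :=
      h.V6 _ (mul_mem (mul_mem hnG (B_le_Grp (R.U_le_B hv.2))) (inv_mem hnG)) (h.LV _ hL1 _ hv.1)
    have h3 : R.nd L * a * (R.nd L)⁻¹ ∈ R.V := act_gen (act_nd L) (P := fun r => S.Pos r ∧ h.Lv r) (Q := fun r => ¬ S.Pos r)
      (fun r hr => hL3 r hr.1 hr.2) a ha
    have h4 : R.nd L * k * (R.nd L)⁻¹ ∈ R.H := nd_H L hk
    have h5 : R.nd L * a * (R.nd L)⁻¹ = 1 := by
      apply R.B_inf_V _ h3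
      have : R.nd L * a * (R.nd L)⁻¹ = (R.nd L * v * (R.nd L)⁻¹)⁻¹ * (R.nd L * (v * a * k) * (R.nd L)⁻¹) *
        (R.nd L * k * (R.nd L)⁻¹)⁻¹ := by group
      rw [this]
      exact mul_mem (mul_mem (inv_mem (R.U_le_B h2)) h1) (inv_mem (R.H_le_B h4))
    have ha1 : a = 1 := by
      have : a = (R.nd L)⁻¹ * (R.nd L * a * (R.nd L)⁻¹) * R.nd L := by group
      rw [this, h5]; group
    exact ⟨v, hv, k, hk, by rw [ha1, mul_one]⟩
  obtain ⟨v, hv, k, hk, rfl⟩ := hVH c hc hcent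
  have hk1 : k = 1 := by
    apply h.xT k hk
    intro i
    by_cases hi : S.w i h.ρ = h.ρ
    · have hxL : h.x i ∈ h.LL := h.V2 _ (h.Lp i hi) (h.xX i)
      obtain ⟨v', hv', k', hk', e⟩ := hVH _ (mul_mem (mul_mem (h.xG i) hc) (inv_mem (h.xG i)))
        (hconj _ hc hcent (h.x i) hxL (h.xG i) (h.θx i))
      -- `x v k x⁻¹ = v' k'`
      have h1 : h.x i * v * (h.x i)⁻¹ ∈ h.VV := h.LV _ hxL _ hv.1
      have h2 : h.x i * (k * (h.x i)⁻¹ * k⁻¹) = (h.x i * v * (h.x i)⁻¹)⁻¹ * v' * (k' * k⁻¹) := by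
        have : h.x i * (k * (h.x i)⁻¹ * k⁻¹) = (h.x i * v * (h.x i)⁻¹)⁻¹ * (h.x i * (v * k) * (h.x i)⁻¹) * k⁻¹ := by group
        rw [this, e]; group
      have h3 : h.x i * (k * (h.x i)⁻¹ * k⁻¹) ∈ R.X (S.p i) := mul_mem (h.xX i) (R.H_X k hk _ _ (inv_mem (h.xX i)))
      have h4 : (h.x i * v * (h.x i)⁻¹)⁻¹ * v' = 1 := by
        apply h.LVi
        · have : (h.x i * v * (h.x i)⁻¹)⁻¹ * v' = h.x i * (k * (h.x i)⁻¹ * k⁻¹) * (k' * k⁻¹)⁻¹ := by rw [h2]; group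
          rw [this]
          exact mul_mem (h.V2 _ (h.Lp i hi) h3) (inv_mem (h.VH (mul_mem hk' (inv_mem hk))))
        · exact mul_mem (inv_mem h1) hv'.1
      rw [h4, one_mul] at h2
      have h5 : h.x i * (k * (h.x i)⁻¹ * k⁻¹) = 1 := by
        apply R.UH _ (R.X_le_U (S.pos_p i) h3)
        rw [h2]; exact mul_mem hk' (inv_mem hk)
      have : k * h.x i * k⁻¹ = (k * (h.x i)⁻¹ * k⁻¹)⁻¹ := by group
      rw [this]
      exact (eq_inv_of_mul_eq_one_left h5).symm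
    · -- the simple root outside
      by_cases hLi : h.Lv (S.p i)
      · exfalso
        -- not needed: simple roots of level zero fix `ρ`
        exact hi (h.Lp' i hLi)
      · have h1 := hcent (h.x i) (h.V1 _ (S.pos_p i) hLi (h.xX i)) (R.X_le_U (S.pos_p i) (h.xX i)) (h.θx i)
        obtain ⟨z, hz, v1, hv1, rfl⟩ := mem_U i hv.2
        set x' := k * h.x i * k⁻¹ with hx'
        have hx'X : x' ∈ R.X (S.p i) := R.H_X k hk _ _ (h.xX i)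
        have h3 : z * x' * z⁻¹ * (z * (x'⁻¹ * v1 * x' * v1⁻¹) * z⁻¹) = h.x i := by
          rw [← h1, hx']; group
        have hxU : x'⁻¹ * v1 * x' ∈ R.Ui i := by
          have := B_norm_Ui i (R.U_le_B (R.X_le_U (S.pos_p i) (inv_mem hx'X))) hv1
          rwa [inv_inv] at this
        have h4 : z * (x'⁻¹ * v1 * x' * v1⁻¹) * z⁻¹ ∈ R.Ui i :=
          B_norm_Ui i (R.U_le_B (R.X_le_U (S.pos_p i) hz)) (mul_mem hxU (inv_mem hv1))
        have h5 : (h.x i)⁻¹ * (z * x' * z⁻¹) = 1 := by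
          apply X_inf_Ui (R := R) (i := i)
          · exact mul_mem (inv_mem (h.xX i)) (mul_mem (mul_mem hz hx'X) (inv_mem hz))
          · have : (h.x i)⁻¹ * (z * x' * z⁻¹) = (z * (x'⁻¹ * v1 * x' * v1⁻¹) * z⁻¹)⁻¹ := by
              rw [← h3]; group
            rw [this]; exact inv_mem h4
        have h6 : z * x' * z⁻¹ = h.x i := (inv_mul_eq_one.1 h5).symm
        have h7 := h.xc i z hz
        have : x' = z⁻¹ * (z * x' * z⁻¹) * z := by group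
        rw [this, h6, mul_assoc, ← h7]; group
  rw [hk1, mul_one]
  exact hv.1

/-- **Step 3c**: `Y ∩ P` is fixed -/
theorem fix_P {b m b' : G} (hb : b ∈ R.B) (hm : m ∈ R.N) (hb' : b' ∈ R.B) {w : Equiv.Perm (Fin n)} (hw : R.Act m w)
    (hρ : w h.ρ = h.ρ) (hy : b * m * b' ∈ Y) : θ (b * m * b') = b * m * b' := by
  obtain ⟨v, hv, a, ha, e⟩ := h.P_dec hb hm hb' hw hρ
  set y := b * m * b' with hyd
  have hyG := h.YG hy
  have hcV : y⁻¹ * θ y ∈ h.VV := by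
    apply h.cent_VV (mul_mem (inv_mem hyG) (h.θGrp hyG))
    intro z hz hzU hθz
    have hzY : z ∈ Y := h.FY z (B_le_Grp (R.U_le_B hzU)) hθz
    have h1 : y * z * y⁻¹ ∈ h.VV := by
      rw [e]
      have h2 := h.LV a ha.1 z hz
      have h3 := h.VV.mul_mem (h.VV.mul_mem hv.1 h2) (h.VV.inv_mem hv.1)
      have : v * a * z * (v * a)⁻¹ = v * (a * z * a⁻¹) * v⁻¹ := by group
      rw [this]; exact h3
    have h2 : y * z * y⁻¹ ∈ Y := mul_mem (mul_mem hy hzY) (inv_mem hy)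
    have h3 : θ (y * z * y⁻¹) = y * z * y⁻¹ := h.YU _ h2 (h.V6 _ (h.YG h2) h1)
    rw [map_mul, map_mul, map_inv, hθz] at h3
    have : y⁻¹ * θ y * z * (y⁻¹ * θ y)⁻¹ = y⁻¹ * (θ y * z * (θ y)⁻¹) * y := by group
    rw [this, h3]; group
  have h1 : θ a * a⁻¹ = (θ v)⁻¹ * v * (a * (y⁻¹ * θ y) * a⁻¹) := by
    have h2 : θ v * θ a = y * (y⁻¹ * θ y) := by rw [← map_mul, ← e]; group
    have h3 : θ a = (θ v)⁻¹ * (y * (y⁻¹ * θ y)) := by rw [← h2]; group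
    rw [h3, e]; group
  have h2 : θ a * a⁻¹ = 1 := by
    apply h.LVi
    · exact mul_mem (h.θL a ha.1) (inv_mem ha.1)
    · rw [h1]
      exact mul_mem (mul_mem (inv_mem (h.θV v hv.1)) hv.1) (h.LV a ha.1 _ hcV)
  have hθa : θ a = a := mul_inv_eq_one.1 h2
  have haY : a ∈ Y := h.FY a ha.2 hθa
  have hvY : v ∈ Y := by
    have : v = y * a⁻¹ := by rw [e]; group
    rw [this]; exact mul_mem hy (inv_mem haY)
  rw [e, map_mul, hθa, h.YU v hvY hv.2]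

/-- **Step 4**: elements of `Y` moving a non-trivial element of `X ρ` into `X ρ` are fixed -/
theorem fix_cent {y : G} (hy : y ∈ Y) {z : G} (hz : z ∈ R.X h.ρ) (hz1 : z ≠ 1) (hc : y * z * y⁻¹ ∈ R.X h.ρ) : θ y = y := by
  obtain ⟨b, hb, m, hm, b', hb', rfl⟩ := exists_bnb (h.YG hy)
  obtain ⟨w, hw⟩ := exists_act hm
  exact h.fix_P hb hm hb' hw (h.stab_w hb hb' hw hz hz1 hc) hy

/-- conjugating `X ρ` into itself -/
theorem P_norm {b m b' : G} (hb : b ∈ R.B) (hb' : b' ∈ R.B) {w : Equiv.Perm (Fin n)} (hw : R.Act m w)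
    (hρ : w h.ρ = h.ρ) {z : G} (hz : z ∈ R.X h.ρ) : (b * m * b') * z * (b * m * b')⁻¹ ∈ R.X h.ρ := by
  have h1 := hw.conj (h.B_norm_ρ hb' hz)
  rw [hρ] at h1
  have h2 := h.B_norm_ρ hb h1
  have : b * m * b' * z * (b * m * b')⁻¹ = b * (m * (b' * z * b'⁻¹) * m⁻¹) * b⁻¹ := by group
  rw [this]; exact h2

/-- the stabiliser of `X ρ` -/
def PS : Subgroup G where
  carrier := {g | g ∈ R.Grp ∧ (∀ z ∈ R.X h.ρ, g * z * g⁻¹ ∈ R.X h.ρ) ∧ (∀ z ∈ R.X h.ρ, g⁻¹ * z * g ∈ R.X h.ρ)}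
  one_mem' := ⟨one_mem _, fun z hz => by simpa using hz, fun z hz => by simpa using hz⟩
  mul_mem' := by
    rintro a b ⟨ha, ha1, ha2⟩ ⟨hb, hb1, hb2⟩
    refine ⟨mul_mem ha hb, fun z hz => ?_, fun z hz => ?_⟩
    · have := ha1 _ (hb1 z hz)
      have e : a * b * z * (a * b)⁻¹ = a * (b * z * b⁻¹) * a⁻¹ := by group
      rw [e]; exact this
    · have := hb2 _ (ha2 z hz)
      have e : (a * b)⁻¹ * z * (a * b) = b⁻¹ * (a⁻¹ * z * a) * b := by group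
      rw [e]; exact this
  inv_mem' := by
    rintro a ⟨ha, ha1, ha2⟩
    refine ⟨inv_mem ha, fun z hz => ?_, fun z hz => ?_⟩
    · rw [inv_inv]; exact ha2 z hz
    · rw [inv_inv]; exact ha1 z hz

theorem B_le_PS : R.B ≤ h.PS := by
  intro b hb
  refine ⟨B_le_Grp hb, fun z hz => h.B_norm_ρ hb hz, fun z hz => ?_⟩
  have := h.B_norm_ρ (inv_mem hb) hz
  rwa [inv_inv] at this

theorem N_mem_PS {m : G} (hm : m ∈ R.N) {w : Equiv.Perm (Fin n)} (hw : R.Act m w) (hρ : w h.ρ = h.ρ) : m ∈ h.PS := by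
  refine ⟨N_le_Grp hm, fun z hz => ?_, fun z hz => ?_⟩
  · have := hw.conj hz
    rwa [hρ] at this
  · have := hw.conj' hz
    have e : w⁻¹ h.ρ = h.ρ := by
      nth_rewrite 1 [← hρ]; simp
    rwa [e] at this

theorem PS_form {g : G} (hg : g ∈ h.PS) : ∃ b ∈ R.B, ∃ m ∈ R.N, ∃ b' ∈ R.B, ∃ w, R.Act m w ∧ w h.ρ = h.ρ ∧ g = b * m * b' := by
  obtain ⟨b, hb, m, hm, b', hb', rfl⟩ := exists_bnb hg.1
  obtain ⟨w, hw⟩ := exists_act hm
  obtain ⟨z, hz, hz1, -⟩ := h.exists_fix h.ρ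
  exact ⟨b, hb, m, hm, b', hb', w, hw, h.stab_w hb hb' hw hz hz1 (hg.2.1 z hz), rfl⟩

theorem θPS {g : G} (hg : g ∈ h.PS) : θ g ∈ h.PS := by
  obtain ⟨b, hb, m, hm, b', hb', w, hw, hρ, rfl⟩ := h.PS_form hg
  rw [map_mul, map_mul]
  have h1 := h.θact hm hw
  exact mul_mem (mul_mem (h.B_le_PS (h.θB hb)) (h.N_mem_PS h1.1 h1.2 hρ)) (h.B_le_PS (h.θB hb'))

theorem PS_le_PP {g : G} (hg : g ∈ h.PS) : g ∈ h.PP := by
  obtain ⟨b, hb, m, hm, b', hb', w, hw, hρ, rfl⟩ := h.PS_form hg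
  obtain ⟨v, hv, a, ha, e⟩ := h.P_dec hb hm hb' hw hρ
  rw [e]; exact mul_mem (h.VP hv.1) (h.LP ha.1)

/-- **fixed cosets contain fixed elements** -/
theorem fixed_coset {g : G} (hg : g ∈ R.Grp) (hfix : g⁻¹ * θ g ∈ h.PS) : ∃ m ∈ R.Grp, θ m = m ∧ m⁻¹ * g ∈ h.PS := by
  classical
  -- representatives
  have hex : ∃ k, ∃ b ∈ R.B, ∃ L : List (Fin l), ∃ q ∈ h.PS, g = b * R.nd L * q ∧ S.N (S.wd L) = k := by
    obtain ⟨b, hb, m, hm, b', hb', rfl⟩ := exists_bnb hg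
    obtain ⟨L, k, hk, rfl⟩ := exists_nd hm
    exact ⟨_, b, hb, L, k * b', mul_mem (h.B_le_PS (R.H_le_B hk)) (h.B_le_PS hb'), by group, rfl⟩
  obtain ⟨b, hb, L, q, hq, e, hN⟩ := Nat.find_spec hex
  have hmin : ∀ k' < Nat.find hex, ¬ ∃ b ∈ R.B, ∃ L : List (Fin l), ∃ q ∈ h.PS, g = b * R.nd L * q ∧ S.N (S.wd L) = k' :=
    fun k' hk' => Nat.find_min hex hk'
  have hpos : ∀ j, S.w j h.ρ = h.ρ → S.Pos (S.wd L (S.p j)) := by
    intro j hj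
    by_contra hneg
    have h1 := S.N_neg (S.wd_mem L) hneg
    refine hmin (S.N (S.wd L * S.w j)) (by omega) ⟨b, hb, L ++ [j], (R.nn j)⁻¹ * q, ?_, ?_, ?_⟩
    · exact mul_mem (inv_mem (h.N_mem_PS (R.nn_mem_N j) (act_nn j) hj)) hq
    · rw [nd_append, nd_cons, nd_nil, mul_one, e]; group
    · rw [S.wd_append, S.wd_cons, S.wd_nil, mul_one]
  have hLpos := h.W2 _ (S.wd_mem L) hpos
  obtain ⟨b1, hb1, x, hx, e1⟩ := exists_unb (act_nd (R := R) L) (nd_mem_N L) hb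
  have e2 : g = x * R.nd L * (b1 * q) := by rw [e, e1]; group
  have hq1 : b1 * q ∈ h.PS := mul_mem (h.B_le_PS hb1) hq
  have hv : (R.nd L)⁻¹ * (x⁻¹ * θ x) * R.nd L ∈ h.PS := by
    have h1 : θ g = θ x * R.nd L * θ (b1 * q) := by rw [e2, map_mul, map_mul, h.θnd]
    have h2 : (R.nd L)⁻¹ * (x⁻¹ * θ x) * R.nd L = (b1 * q) * (g⁻¹ * θ g) * (θ (b1 * q))⁻¹ := by
      rw [h1]; nth_rewrite 1 [e2]; group
    rw [h2]
    exact mul_mem (mul_mem hq1 hfix) (inv_mem (h.θPS hq1))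
  have hvN : (R.nd L)⁻¹ * (x⁻¹ * θ x) * R.nd L ∈ h.NN := by
    have h1 : x⁻¹ * θ x ∈ R.Um (S.wd L)⁻¹ := mul_mem (inv_mem hx) (h.θgen _ hx)
    have h2 : gen R.X (fun r => ¬ S.Pos r ∧ ¬ h.Lv r) ≤ h.NN := by
      rw [gen_le]; intro r hr; exact h.V3 r hr.1 hr.2
    apply h2
    refine act_gen' (act_nd (R := R) L) (P := fun r => S.Pos r ∧ ¬ S.Pos ((S.wd L)⁻¹ r)) (Q := fun r => ¬ S.Pos r ∧ ¬ h.Lv r) ?_ _ h1
    rintro r ⟨hr1, hr2⟩
    refine ⟨hr2, fun hLr => ?_⟩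
    have h3 := hLpos (S.neg ((S.wd L)⁻¹ r)) ((S.pos_neg_iff _).2 hr2) ((h.Ln _).1 hLr)
    rw [S.W_neg (S.wd_mem L), S.pos_neg_iff] at h3
    apply h3
    have : (S.wd L) ((S.wd L)⁻¹ r) = r := by simp
    rw [this]; exact hr1
  have h1 := h.PN _ (h.PS_le_PP hv) hvN
  have h2 : x⁻¹ * θ x = 1 := by
    have : x⁻¹ * θ x = R.nd L * ((R.nd L)⁻¹ * (x⁻¹ * θ x) * R.nd L) * (R.nd L)⁻¹ := by group
    rw [this, h1]; group
  have hθx : θ x = x := (inv_mul_eq_one.1 h2).symm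
  refine ⟨x * R.nd L, mul_mem (B_le_Grp (R.U_le_B (Um_le_U _ hx))) (N_le_Grp (nd_mem_N L)), ?_, ?_⟩
  · rw [map_mul, hθx, h.θnd]
  · have : (x * R.nd L)⁻¹ * g = b1 * q := by rw [e2]; group
    rw [this]; exact hq1

/-- a fixed element in a conjugate of `X ρ` -/
theorem conj_fixed {g : G} (hg : g ∈ R.Grp) {z : G} (hz : z ∈ R.X h.ρ) (hz1 : z ≠ 1) (hf : θ (g * z * g⁻¹) = g * z * g⁻¹) :
    ∃ m ∈ R.Grp, θ m = m ∧ m⁻¹ * g ∈ h.PS := by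
  apply h.fixed_coset hg
  have h1 : (g⁻¹ * θ g) * θ z * (g⁻¹ * θ g)⁻¹ = z := by
    rw [map_mul, map_mul, map_inv] at hf
    have : (g⁻¹ * θ g) * θ z * (g⁻¹ * θ g)⁻¹ = g⁻¹ * (θ g * θ z * (θ g)⁻¹) * g := by group
    rw [this, hf]; group
  have hθz : θ z ∈ R.X h.ρ := h.θX _ _ hz
  have hθz1 : θ z ≠ 1 := by
    intro h2; apply hz1
    rw [h2] at h1; rw [← h1]; group
  have hgG : g⁻¹ * θ g ∈ R.Grp := mul_mem (inv_mem hg) (h.θGrp hg)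
  obtain ⟨b, hb, m, hm, b', hb', e⟩ := exists_bnb hgG
  obtain ⟨w, hw⟩ := exists_act hm
  have hρ : w h.ρ = h.ρ := by
    refine h.stab_w hb hb' hw hθz hθz1 ?_
    rw [← e, h1]; exact hz
  rw [e]
  exact mul_mem (mul_mem (h.B_le_PS hb) (h.N_mem_PS hm hw hρ)) (h.B_le_PS hb')

/-- **Lemma F** -/
theorem fix_of_conj {y : G} (hy : y ∈ Y) {z : G} (hz : z ∈ R.X h.ρ) (hz1 : z ≠ 1) (hf : θ (y * z * y⁻¹) = y * z * y⁻¹) :
    θ y = y := by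
  obtain ⟨m, hm, hθm, hmy⟩ := h.conj_fixed (h.YG hy) hz hz1 hf
  have hmY : m ∈ Y := h.FY m hm hθm
  have h1 : θ (m⁻¹ * y) = m⁻¹ * y := h.fix_cent (mul_mem (inv_mem hmY) hy) hz hz1 (hmy.2.1 z hz)
  have : y = m * (m⁻¹ * y) := by group
  rw [this, map_mul, h1, hθm]

/-- **positions** -/
theorem opp {b m b' : G} (hb : b ∈ R.B) (hm : m ∈ R.N) (hb' : b' ∈ R.B) {w : Equiv.Perm (Fin n)} (hw : R.Act m w)
    (hy : b * m * b' ∈ Y) (hne : w h.ρ ≠ S.neg h.ρ) : θ (b * m * b') = b * m * b' := by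
  set y := b * m * b' with hyd
  obtain ⟨z, hz, hz1, hθz⟩ := h.exists_fix h.ρ
  have hzG : z ∈ R.Grp := X_le_Grp _ hz
  have hzY : z ∈ Y := h.FY z hzG hθz
  -- `r' = y z y⁻¹ = b t b⁻¹` with `t ∈ X (w ρ)`
  set t := m * (b' * z * b'⁻¹) * m⁻¹ with ht
  have htX : t ∈ R.X (w h.ρ) := hw.conj (h.B_norm_ρ hb' hz)
  have ht1 : t ≠ 1 := h.X_ne_B (h.X_ne_B hz1)
  have er : y * z * y⁻¹ = b * t * b⁻¹ := by rw [ht, hyd]; group
  have hrY : y * z * y⁻¹ ∈ Y := mul_mem (mul_mem hy hzY) (inv_mem hy)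
  set z0 := b⁻¹ * z * b with hz0
  have hz0X : z0 ∈ R.X h.ρ := by
    have := h.B_norm_ρ (inv_mem hb) hz
    rwa [inv_inv] at this
  have ez : z = b * z0 * b⁻¹ := by rw [hz0]; group
  -- an element of `Y` commuting with `z` is fixed
  have hcomm : ∀ c ∈ Y, c * z = z * c → θ c = c := by
    intro c hc hcz
    refine h.fix_cent hc hz hz1 ?_
    rw [hcz, mul_inv_cancel_right]; exact hz
  rcases h.Z2 w hw.1 with h1 | h1 | ⟨v, hv, h1⟩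
  · exact absurd h1 hne
  · -- commuting
    apply h.fix_of_conj hy hz hz1
    apply hcomm _ hrY
    rw [er]
    have h2 := h1 t htX z0 hz0X
    calc b * t * b⁻¹ * z = b * t * b⁻¹ * (b * z0 * b⁻¹) := by rw [← ez]
      _ = b * (t * z0) * b⁻¹ := by group
      _ = b * (z0 * t) * b⁻¹ := by rw [h2]
      _ = (b * z0 * b⁻¹) * (b * t * b⁻¹) := by group
      _ = z * (b * t * b⁻¹) := by rw [← ez]
  · obtain ⟨h2, h3⟩ := h1 t htX z0 hz0X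
    by_cases hc1 : z0 * t * z0⁻¹ * t⁻¹ = 1
    · apply h.fix_of_conj hy hz hz1
      apply hcomm _ hrY
      rw [er]
      have h4 : t * z0 = z0 * t := by
        have : z0 * t * z0⁻¹ * t⁻¹ = (z0 * t) * (t * z0)⁻¹ := by group
        rw [this, mul_inv_eq_one] at hc1
        exact hc1.symm
      calc b * t * b⁻¹ * z = b * t * b⁻¹ * (b * z0 * b⁻¹) := by rw [← ez]
        _ = b * (t * z0) * b⁻¹ := by group
        _ = b * (z0 * t) * b⁻¹ := by rw [h4]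
        _ = (b * z0 * b⁻¹) * (b * t * b⁻¹) := by group
        _ = z * (b * t * b⁻¹) := by rw [← ez]
    · -- the commutator
      set s := z0 * t * z0⁻¹ * t⁻¹ with hs
      have hsX : s ∈ R.X (v h.ρ) := h2
      have hsY : b * s * b⁻¹ ∈ Y := by
        have : b * s * b⁻¹ = z * (y * z * y⁻¹) * z⁻¹ * (y * z * y⁻¹)⁻¹ := by
          rw [er, ez, hs]; group
        rw [this]
        exact mul_mem (mul_mem (mul_mem hzY hrY) (inv_mem hzY)) (inv_mem hrY)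
      obtain ⟨h4, h5⟩ := h3 s hsX
      have hsz : (b * s * b⁻¹) * z = z * (b * s * b⁻¹) := by
        calc b * s * b⁻¹ * z = b * s * b⁻¹ * (b * z0 * b⁻¹) := by rw [← ez]
          _ = b * (s * z0) * b⁻¹ := by group
          _ = b * (z0 * s) * b⁻¹ := by rw [h5]
          _ = (b * z0 * b⁻¹) * (b * s * b⁻¹) := by group
          _ = z * (b * s * b⁻¹) := by rw [← ez]
      have hsf := hcomm _ hsY hsz
      obtain ⟨nv, hnv, hnv'⟩ := exists_act_of_mem (R := R) hv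
      -- `s = nv z' nv⁻¹`
      have hz'X : nv⁻¹ * s * nv ∈ R.X h.ρ := by
        have := hnv'.conj' hsX
        have e : v⁻¹ (v h.ρ) = h.ρ := by simp
        rwa [e] at this
      have hz'1 : nv⁻¹ * s * nv ≠ 1 := by
        intro h6; apply hc1
        have : s = nv * (nv⁻¹ * s * nv) * nv⁻¹ := by group
        rw [this, h6]; group
      have hgG : b * nv ∈ R.Grp := mul_mem (B_le_Grp hb) (N_le_Grp hnv)
      have e6 : (b * nv) * (nv⁻¹ * s * nv) * (b * nv)⁻¹ = b * s * b⁻¹ := by group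
      obtain ⟨k, hk, hθk, hkg⟩ := h.conj_fixed hgG hz'X hz'1 (by rw [e6]; exact hsf)
      have hkY : k ∈ Y := h.FY k hk hθk
      -- `k⁻¹ (b s b⁻¹) k ∈ X ρ`
      have h7 : k⁻¹ * (b * s * b⁻¹) * k ∈ R.X h.ρ := by
        have := hkg.2.1 _ hz'X
        have e7 : k⁻¹ * (b * nv) * (nv⁻¹ * s * nv) * (k⁻¹ * (b * nv))⁻¹ = k⁻¹ * (b * s * b⁻¹) * k := by group
        rwa [e7] at this
      have h71 : k⁻¹ * (b * s * b⁻¹) * k ≠ 1 := by
        intro h8; apply hc1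
        have : s = b⁻¹ * k * (k⁻¹ * (b * s * b⁻¹) * k) * k⁻¹ * b := by group
        rw [this, h8]; group
      -- `k⁻¹ r' k` commutes with it
      have hrs : (y * z * y⁻¹) * (b * s * b⁻¹) = (b * s * b⁻¹) * (y * z * y⁻¹) := by
        rw [er]
        calc b * t * b⁻¹ * (b * s * b⁻¹) = b * (t * s) * b⁻¹ := by group
          _ = b * (s * t) * b⁻¹ := by rw [h4]
          _ = b * s * b⁻¹ * (b * t * b⁻¹) := by group
      have h9 : θ (k⁻¹ * (y * z * y⁻¹) * k) = k⁻¹ * (y * z * y⁻¹) * k := by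
        refine h.fix_cent (mul_mem (mul_mem (inv_mem hkY) hrY) hkY) h7 h71 ?_
        have e9 : k⁻¹ * (y * z * y⁻¹) * k * (k⁻¹ * (b * s * b⁻¹) * k) * (k⁻¹ * (y * z * y⁻¹) * k)⁻¹ =
            k⁻¹ * (((y * z * y⁻¹) * (b * s * b⁻¹)) * (y * z * y⁻¹)⁻¹) * k := by group
        rw [e9, hrs]
        have e10 : k⁻¹ * (b * s * b⁻¹ * (y * z * y⁻¹) * (y * z * y⁻¹)⁻¹) * k = k⁻¹ * (b * s * b⁻¹) * k := by group
        rw [e10]; exact h7
      apply h.fix_of_conj hy hz hz1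
      have e11 : y * z * y⁻¹ = k * (k⁻¹ * (y * z * y⁻¹) * k) * k⁻¹ := by group
      rw [e11, map_mul, map_mul, map_inv, h9, hθk]

/-- **Main theorem.** -/
theorem fix_all {y : G} (hy : y ∈ Y) : θ y = y := by
  obtain ⟨b, hb, m, hm, b', hb', e⟩ := exists_bnb (h.YG hy)
  obtain ⟨w, hw⟩ := exists_act hm
  subst e
  by_cases hne : w h.ρ = S.neg h.ρ
  swap
  · exact h.opp hb hm hb' hw hy hne
  -- move to a non-opposite position
  obtain ⟨u, hu, k, hk, rfl⟩ := mem_B.1 hb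
  obtain ⟨z, hz, v, hv, rfl⟩ := mem_U h.j0 hu
  have hzG : z ∈ R.Grp := X_le_Grp _ hz
  have hzY : z ∈ Y := h.FY z hzG (h.J1 z hz)
  have hnY : R.nn h.j0 ∈ Y := h.FY _ (N_le_Grp (R.nn_mem_N _)) (h.θn _)
  have hy' : (R.nn h.j0 * v * (R.nn h.j0)⁻¹ * (R.nn h.j0 * k * (R.nn h.j0)⁻¹)) * (R.nn h.j0 * m) * b' ∈ Y := by
    have : (R.nn h.j0 * v * (R.nn h.j0)⁻¹ * (R.nn h.j0 * k * (R.nn h.j0)⁻¹)) * (R.nn h.j0 * m) * b' =
      R.nn h.j0 * z⁻¹ * (z * v * k * m * b') := by group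
    rw [this]
    exact mul_mem (mul_mem hnY (inv_mem hzY)) hy
  have hB : R.nn h.j0 * v * (R.nn h.j0)⁻¹ * (R.nn h.j0 * k * (R.nn h.j0)⁻¹) ∈ R.B :=
    mul_mem (R.U_le_B (R.Ui_le_U _ (nn_Ui _ v hv))) (R.H_le_B (R.nn_H _ k hk))
  have h1 := h.opp hB (mul_mem (R.nn_mem_N _) hm) hb' ((act_nn h.j0).mul hw) hy' (by
    rw [Equiv.Perm.mul_apply, hne]; exact h.J3)
  have e2 : z * v * k * m * b' = z * (R.nn h.j0)⁻¹ *
      ((R.nn h.j0 * v * (R.nn h.j0)⁻¹ * (R.nn h.j0 * k * (R.nn h.j0)⁻¹)) * (R.nn h.j0 * m) * b') := by group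
  rw [e2, map_mul, h1, map_mul, map_inv, h.θn, h.J1 z hz]

end SubHyp

end RGrp

end Cfsg.Agent.ChevGrp
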