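import Cfsg.Agent.ChevU.SubD4

set_option autoImplicit false
set_option linter.unusedSectionVars false
set_option linter.unusedVariables false
set_option maxRecDepth 100000

/-!
# The triality groups: the instance (helper17)
-/

namespace Cfsg.Agent.ChevU.SubD4

open Cfsg.Lie Cfsg.Agent.Chev Cfsg.Agent.ChevGrp Cfsg.Agent.ChevWeyl Cfsg.Agent.ChevTw Matrix

theorem fz4 {r : ℕ} (hr : r < 24) : fz rfD4 f4 r = fc4 r := by
  unfold fz fc4
  have h : chevD4.rank = 4 := rfl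
  rw [h]
  simp only [Finset.sum_range_succ, Finset.sum_range_zero, zero_add]
  rw [vec4 r hr 0 (by norm_num), vec4 r hr 1 (by norm_num), vec4 r hr 2 (by norm_num), vec4 r hr 3 (by norm_num)]
  rfl

theorem fdata4 : FData rfD4 f4 iT4 where
  pos r hp hr := by
    rw [fz4 hr]; exact t_pos r hr hp
  iT_lt r hp hr := (t_iT r hr hp).1
  cor_iT r hp hr := (t_iT r hr hp).2
  lvl r s hrp hr hsp hs hne h := by
    rw [fz4 hr, fz4 hs] at h
    have h1 := t_lvl r hr hrp s hs hsp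
    unfold lvB at h1
    rw [if_pos ⟨hne, h⟩] at h1
    exact List.isEmpty_iff.1 h1

theorem slaced4 : SLaced rfD4 := by
  intro r s hr hrp hs hsp hne
  have h := t_sl r hr hrp s hs hsp hne
  unfold slB at h
  split at h
  · next h1 => exact Or.inl h1
  · next w n h1 =>
    rw [Bool.and_eq_true, Nat.blt_eq, Nat.ble_eq] at h
    exact Or.inr ⟨w, n, h.1, h.2, h1⟩
  · exact absurd h (by simp)

theorem lv4_eq (c : ℤ) : TwF.lvL rfD4 f4 c = lv4 c := by
  unfold TwF.lvL lv4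
  have h : chevD4.nroots = 24 := rfl
  rw [h]
  apply List.filter_congr
  intro r hr
  rw [List.mem_range] at hr
  rw [fz4 hr]
  rfl

section inst

variable {K : Type*} [Field K] (φ : K ≃+* K) (h3 : ∀ t, φ (φ (φ t)) = t) {q : ℕ} (hφ : ∀ t : K, φ t = t ^ q)

/-- the instance -/
noncomputable def A4 : TwInst chevD4 K DData.dG2.rp.wsys (twistedD4 K q) :=
  ⟨Tw3.goodD4, DData.dD4, rinst Tw3.goodD4 DData.dD4 K, Tw3.tD4 φ, Tw3.hle_D4, Tw3.hG_D4 φ hφ h3⟩

theorem fAut_nG {D : ChevalleyDatum} (H : Good2 D) (r : ℕ) : fAut D φ (nG H r (1 : K)) = nG H r 1 := by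
  unfold nG
  simp only [map_mul, fAut_xG, map_neg, map_inv₀, map_one]

theorem nn_fix (i : Fin chevD4.rank) : fAut chevD4 φ ((rinst Tw3.goodD4 DData.dD4 K).R.nn i) = (rinst Tw3.goodD4 DData.dD4 K).R.nn i := by
  rw [(rinst Tw3.goodD4 DData.dD4 K).nn_eq, fAut_nG]

theorem nd_fix (L : List (Fin chevD4.rank)) : fAut chevD4 φ ((rinst Tw3.goodD4 DData.dD4 K).R.nd L) = (rinst Tw3.goodD4 DData.dD4 K).R.nd L := by
  induction L with
  | nil => rw [RGrp.nd_nil, map_one]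
  | cons i L ih => rw [RGrp.nd_cons, map_mul, nn_fix, ih]

theorem sigX4 : SigX (A4 φ h3 hφ) φ (wv gpD4_1) (fun r => ((gs gpD4_1 r : ℤ) : K)) where
  sr_eq r := rfl
  σx r t := sgm_xG Tw3.goodD4 gok_D4_1 piok_D4_1 pj_D4_1 φ r.2 t
  εφ r := map_intCast φ _
  εε r := by rw [gs_sq_cast]
  nnφ j := nd_fix φ (Tw3.LD4 j)

theorem Pos_iff (a : Fin chevG2.nroots) : DData.dG2.rp.Pos a ↔ 6 ≤ (a : ℕ) := Tw3.posG2_iff DData.dG2 a

noncomputable def twF4 : TwF (A4 φ h3 hφ) rfD4 φ f4 iT4 (wv gpD4_1) (fun r => ((gs gpD4_1 r : ℤ) : K)) where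
  Q := fdata4
  Z := sigX4 φ h3 hφ
  fr a := fr4 a
  fr_cls r hp := by
    rw [fz4 r.2]; exact t_fr r r.2
  fr_inj a b ha hb h := Fin.ext (t_inj a a.2 ((Pos_iff a).1 ha) b b.2 ((Pos_iff b).1 hb) h)

theorem gs_one {r : ℕ} (h : wb gpD4_1 r = 0) : ((gs gpD4_1 r : ℤ) : K) = 1 := by
  have h1 : gs gpD4_1 r = 1 := by unfold gs; rw [h]; rfl
  rw [h1, Int.cast_one]

theorem cG (a : Fin chevG2.nroots) (j : Fin chevG2.rank) : DData.dG2.rp.c a j = cc chevG2 a j := DData.dG2.hc a j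

theorem sum_c (b : Fin chevG2.nroots) : ∑ k, DData.dG2.rp.c b k = sumG b := by
  have h : ∑ k, DData.dG2.rp.c b k = ∑ k : Fin 2, cc chevG2 b k := Finset.sum_congr rfl fun k _ => cG b k
  rw [h, Fin.sum_univ_two]
  rfl

noncomputable def twC4 : TwC (A4 φ h3 hφ) rfD4 φ f4 iT4 (wv gpD4_1) (fun r => ((gs gpD4_1 r : ℤ) : K)) where
  T := twF4 φ h3 hφ
  Qr a := (a : ℕ) ∈ QL
  ρ := ⟨11, by decide⟩
  ρpos := (Pos_iff _).2 (by norm_num)
  frmax a ha := t_max a a.2 ((Pos_iff a).1 ha)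
  Qρ := by show (11 : ℕ) ∈ QL; decide
  Qw i b hb := by
    show ((DData.dG2.rp.w i b : Fin _) : ℕ) ∈ QL
    rw [DData.dG2.hw]
    exact t_Qw i i.2 b hb
  Qmax b hb k := by
    rw [cG, cG]
    exact t_Qmax b hb k k.2
  Qup b hb := by
    rcases t_Qup b hb with h | ⟨i, hi, h⟩
    · left; exact Fin.ext h
    · right
      refine ⟨⟨i, hi⟩, ?_⟩
      rw [sum_c, sum_c, DData.dG2.hw]
      exact h
  uni a ha := by
    obtain ⟨r, hr, h1, h2, h3⟩ := t_uni a ha
    refine ⟨r, hr, fun s => ?_, h2, gs_one h3⟩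
    rw [← h1 s s.2, Fin.ext_iff]
    rfl
  rρ := 23
  hrρ := ⟨by decide, fun s => by rw [← t_rρ s s.2, Fin.ext_iff]; rfl⟩
  Z2h b hb := by
    rcases t_Z b hb with h | ⟨s, hs, h1, h2⟩
    · left
      apply Fin.ext
      rw [DData.dG2.hneg]
      exact h.trans t_neg.symm
    · right
      refine ⟨s, hs, fun r => ?_, ?_⟩
      · rw [← h1 r r.2, Fin.ext_iff]; rfl
      · rcases h2 with h2 | ⟨h2, h3⟩
        · exact Or.inl h2
        · right
          refine ⟨h2, ?_⟩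
          unfold zB at h3
          split at h3
          · next h4 => exact Or.inl h4
          · next v m h4 =>
            right
            obtain ⟨k1, k2, k3, k4, k5, k6, k7, k8⟩ := of_decide_eq_true h3
            exact ⟨v, m, k1, h4, k2, k3, k4, k5, k6, k7, k8⟩
          · exact absurd h3 (by simp)
  j0 := ⟨1, by decide⟩
  h0 j hj := by
    apply Fin.ext
    rw [DData.dG2.hw]
    exact t_h0 j j.2 fun h => hj (Fin.ext h)
  hP := by
    have h : DData.dG2.rp.P ⟨11, by decide⟩ (DData.dG2.rp.p ⟨1, by decide⟩) = ∑ k : Fin 2, cc chevG2 11 k * chevG2.cartan k (chevG2.simple 1) := by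
      unfold RootPerm.P
      refine Finset.sum_congr rfl fun k _ => ?_
      rw [cG, DData.dG2.hm, DData.dG2.hp]
    rw [h, Fin.sum_univ_two]
    have h2 := t_P
    show 0 < cc chevG2 11 0 * chevG2.cartan 0 (chevG2.simple 1) + cc chevG2 11 1 * chevG2.cartan 1 (chevG2.simple 1)
    rw [h2]; norm_num
  Qj0 := by
    show ((DData.dG2.rp.p ⟨1, _⟩ : Fin _) : ℕ) ∈ QL
    rw [DData.dG2.hp]
    show chevG2.simple 1 ∈ QL
    rw [t_p.2]; decide
  k := 1
  γ i := ⟨11 - i, by show 11 - i < 12; omega⟩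
  γ0 := rfl
  γpos i hi := by
    refine ⟨(Pos_iff _).2 (by show 6 ≤ 11 - i; omega), ?_⟩
    rw [cG]
    exact t_γ i (by omega)
  Ctop i hi a ha h := by
    obtain ⟨m, hm, h1⟩ := t_top i (by omega) a a.2 ((Pos_iff a).1 ha) h
    exact ⟨m, by omega, Fin.ext h1⟩
  Cmono i hi m hm := t_mono i (by omega) m (by omega)
  Cspan a := by
    refine ⟨1, fun i => spB a i, one_ne_zero, fun j => ?_⟩
    have h := t_span a a.2 j j.2
    rw [one_mul, DData.dG2.rp.c_p]
    have h2 : (if j = a then (1 : ℤ) else 0) = if (j : ℕ) = a then 1 else 0 := by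
      by_cases hja : j = a
      · rw [if_pos hja, if_pos (by rw [hja])]
      · rw [if_neg hja, if_neg (fun h => hja (Fin.ext h))]
    rw [h2, h]
    simp only [Finset.sum_range_succ, Finset.sum_range_zero, zero_add, cG]
  i0 := ⟨1, by decide⟩
  lv r := by
    rw [cG]
    have h := t_lv r r.2
    rw [vec4 r r.2 1 (by norm_num)]
    exact h
  pcls i := by
    obtain ⟨j, hj, h⟩ := t_pcls i i.2
    refine ⟨⟨j, hj⟩, ?_⟩
    apply Fin.ext
    rw [DData.dG2.hp]
    show Tw3.cD4 ((DData.dD4.rp.p i : Fin _) : ℕ) = _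
    rw [DData.dD4.hp]
    exact h
  ε1 r h := by
    obtain ⟨j, hj⟩ := h
    apply gs_one
    refine t_ε1 r r.2 ⟨j, j.2, ?_⟩
    have := congrArg Fin.val hj
    rw [DData.dG2.hp] at this
    exact this

end inst

end Cfsg.Agent.ChevU.SubD4
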