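import Cfsg.Agent.ChevU.SubPush

set_option autoImplicit false
set_option linter.unusedSectionVars false
set_option linter.unusedVariables false

/-!
# Twisted groups: moving coordinates by words of reflections (helper17)
-/

namespace Cfsg.Agent.ChevU

open Cfsg.Lie Cfsg.Agent.Chev Cfsg.Agent.ChevGrp Cfsg.Agent.ChevWeyl Cfsg.Agent.ChevTw Matrix

section

variable {D : ChevalleyDatum} {F : Type*} [Field F] {R : RootFacts D} {f : ℕ → ℤ} (G : Chev.Good D) {iT : ℕ → ℕ} (Q : FData R f iT)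

include G Q in
/-- leading coordinates of products of root elements -/
theorem Tc_prod {c : ℤ} (hc : 0 ≤ c) (P : List (ℕ × F)) (hP : ∀ p ∈ P, p.1 < D.nroots ∧ R.half ≤ p.1 ∧ c ≤ fz R f p.1) {v : ℕ} (hv : v < D.nroots)
    (hvp : R.half ≤ v) (hvc : fz R f v < 2 * c) :
    Tc iT v ((P.map fun p => xr R (elemOfGood G F) p.1 p.2).prod) = (P.map fun p => if p.1 = v then p.2 else 0).sum ∧
      (P.map fun p => xr R (elemOfGood G F) p.1 p.2).prod ∈ FF R f F c := by
  induction P with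
  | nil => exact ⟨by simpa using Tc_one G Q hv hvp, by simp⟩
  | cons p P ih =>
    have h1 := hP p List.mem_cons_self
    obtain ⟨h2, h3⟩ := ih fun p hp => hP p (List.mem_cons_of_mem _ hp)
    have h4 := xr_mem_FF (F := F) G h1.1 h1.2.1 h1.2.2 p.2
    rw [List.map_cons, List.prod_cons]
    refine ⟨?_, mul_mem h4 h3⟩
    rw [Tc_mul G Q hv hvp hvc hc h4 h3, h2, Tc_xr G Q hv hvp h1.1 h1.2.1, List.map_cons, List.sum_cons]

/-- words of reflections with signs -/
def wrd' (D : ChevalleyDatum) (L : List ℕ) (r : ℕ) : ℕ × ℤ := L.foldr (fun i p => (D.reflectRoot i p.1, eta D i p.1 * p.2)) (r, 1)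

/-- the corresponding element -/
noncomputable def wG' (G : Chev.Good D) (F : Type*) [Field F] (L : List ℕ) : ↥(D.group F) := (L.map fun i => nG G.toGood2 (D.simple i) (1 : F)).prod

include R in
theorem wrd_conj (L : List ℕ) (hL : ∀ i ∈ L, i < D.rank) {r : ℕ} (hr : r < D.nroots) (t : F) :
    (wrd' D L r).1 < D.nroots ∧ wG' G F L * xG G.toGood2 r t * (wG' G F L)⁻¹ = xG G.toGood2 (wrd' D L r).1 (((wrd' D L r).2 : ℤ) * t) := by
  induction L with
  | nil =>
    refine ⟨hr, ?_⟩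
    show (1 : ↥(D.group F)) * xG G.toGood2 r t * (1 : ↥(D.group F))⁻¹ = xG G.toGood2 r (((1 : ℤ) : F) * t)
    rw [Int.cast_one, one_mul, one_mul, inv_one, mul_one]
  | cons i L ih =>
    obtain ⟨h1, h2⟩ := ih fun i hi => hL i (List.mem_cons_of_mem _ hi)
    have h3 : wrd' D (i :: L) r = (D.reflectRoot i (wrd' D L r).1, eta D i (wrd' D L r).1 * (wrd' D L r).2) := rfl
    have h4 : wG' G F (i :: L) = nG G.toGood2 (D.simple i) 1 * wG' G F L := by simp [wG']
    refine ⟨by rw [h3]; exact R.refl_lt i (hL i List.mem_cons_self) _ h1, ?_⟩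
    rw [h3, h4]
    have e : nG G.toGood2 (D.simple i) 1 * wG' G F L * xG G.toGood2 r t * (nG G.toGood2 (D.simple i) 1 * wG' G F L)⁻¹ =
      nG G.toGood2 (D.simple i) 1 * (wG' G F L * xG G.toGood2 r t * (wG' G F L)⁻¹) * (nG G.toGood2 (D.simple i) 1)⁻¹ := by group
    rw [e, h2, nG_conj G.toGood2 (hL i List.mem_cons_self) h1]
    push_cast
    congr 1
    ring

end

section

variable {D : ChevalleyDatum} {K : Type*} [Field K] {l' n' : ℕ} {Dr : RootPerm l' n'} {Γ : Subgroup (GL D.Idx K)}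
variable {A : TwInst D K Dr.wsys Γ} {R : RootFacts D} {φ : K ≃+* K} {f : ℕ → ℤ} {iT sr : ℕ → ℕ} {ε : ℕ → K} (C : TwC A R φ f iT sr ε)

namespace TwC

theorem AS_move {Y : Subgroup (GL D.Idx K)} {a b : Fin n'} (ha : Dr.Pos a) (hb : Dr.Pos b) (L : List ℕ) (hL : ∀ i ∈ L, i < D.rank)
    (hgY : ((wG' A.H K L : ↥(D.group K)) : GL D.Idx K) ∈ Y) {w : Equiv.Perm (Fin n')} (hga : A.R.Act ((wG' A.H K L : ↥(D.group K)) : GL D.Idx K) w)
    (hw : w a = b) {r r' : ℕ} (hr : r ∈ TwF.lvL R f (C.T.fr a)) (hr' : r' ∈ TwF.lvL R f (C.T.fr b))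
    (hmap : ∀ r1 ∈ TwF.lvL R f (C.T.fr a), (wrd' D L r1).1 ∈ TwF.lvL R f (C.T.fr b) ∧ ((wrd' D L r1).1 = r' ↔ r1 = r))
    (he : (wrd' D L r).2 = 1 ∨ (wrd' D L r).2 = -1) {s : K} (hs : s ∈ C.AS Y a r) : s ∈ C.AS Y b r' := by
  obtain ⟨z, hz, hzX, hzs⟩ := hs
  obtain ⟨t, ht, -⟩ := C.T.RX_pl ha hzX
  have htr : t r = s := by rw [← hzs, ht, C.Tc_RX ha t hr]
  have hzY := mul_mem (mul_mem hgY hz) (inv_mem hgY)
  have hzX' := hga.conj hzX
  rw [hw] at hzX'
  set g : GL D.Idx K := ((wG' A.H K L : ↥(D.group K)) : GL D.Idx K) with hg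
  have hconj : ∀ M : List ℕ, (∀ r ∈ M, r < D.nroots) → g * pl R A.H M t * g⁻¹ =
      ((M.map fun r1 => ((wrd' D L r1).1, (((wrd' D L r1).2 : ℤ) : K) * t r1)).map fun p => xr R (elemOfGood A.H K) p.1 p.2).prod := by
    intro M
    induction M with
    | nil => intro _; rw [pl_nil]; simp
    | cons r1 M ih =>
      intro hM
      rw [pl_cons, List.map_cons, List.map_cons, List.prod_cons, ← ih fun r hr => hM r (List.mem_cons_of_mem _ hr)]
      have h1 := congrArg (fun x : ↥(D.group K) => (x : GL D.Idx K)) (wrd_conj (R := R) A.H L hL (hM r1 List.mem_cons_self) (t r1)).2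
      have h2 : g * xr R (elemOfGood A.H K) r1 (t r1) * g⁻¹ = xr R (elemOfGood A.H K) (wrd' D L r1).1 ((((wrd' D L r1).2 : ℤ) : K) * t r1) := h1
      rw [← h2]; group
  have hlt : ∀ r ∈ TwF.lvL R f (C.T.fr a), r < D.nroots := fun r hr => ((TwF.mem_lvL r).1 hr).1
  have hfb := C.fr_pos hb
  have h3 := (Tc_prod A.H C.T.Q (c := C.T.fr b) (by omega)
    ((TwF.lvL R f (C.T.fr a)).map fun r1 => ((wrd' D L r1).1, (((wrd' D L r1).2 : ℤ) : K) * t r1)) (by
      intro p hp
      obtain ⟨r1, hr1, rfl⟩ := List.mem_map.mp hp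
      have := (TwF.mem_lvL _).1 (hmap r1 hr1).1
      exact ⟨this.1, this.2.1, this.2.2.ge⟩) ((TwF.mem_lvL r').1 hr').1 ((TwF.mem_lvL r').1 hr').2.1 (by rw [((TwF.mem_lvL r').1 hr').2.2]; omega)).1
  rw [← hconj _ hlt, ← ht, List.map_map] at h3
  have h4 : ((TwF.lvL R f (C.T.fr a)).map ((fun p : ℕ × K => if p.1 = r' then p.2 else 0) ∘ fun r1 => ((wrd' D L r1).1, (((wrd' D L r1).2 : ℤ) : K) * t r1))).sum =
      (((wrd' D L r).2 : ℤ) : K) * s := by
    have key : ∀ M : List ℕ, M.Nodup → (∀ r ∈ M, r ∈ TwF.lvL R f (C.T.fr a)) → r ∈ M →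
        (M.map ((fun p : ℕ × K => if p.1 = r' then p.2 else 0) ∘ fun r1 => ((wrd' D L r1).1, (((wrd' D L r1).2 : ℤ) : K) * t r1))).sum =
          (((wrd' D L r).2 : ℤ) : K) * s := by
      intro M
      induction M with
      | nil => intro _ _ h; simp at h
      | cons r1 M ih =>
        intro hnd hM hrM
        rw [List.nodup_cons] at hnd
        rw [List.map_cons, List.sum_cons]
        by_cases h5 : r1 = r
        · subst h5
          have h6 : (M.map ((fun p : ℕ × K => if p.1 = r' then p.2 else 0) ∘ fun r1 => ((wrd' D L r1).1, (((wrd' D L r1).2 : ℤ) : K) * t r1))).sum = 0 := by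
            apply List.sum_eq_zero
            intro x hx
            obtain ⟨r2, hr2, rfl⟩ := List.mem_map.mp hx
            show (if (wrd' D L r2).1 = r' then _ else 0) = (0 : K)
            rw [if_neg]
            intro h7
            have h8 := ((hmap r2 (hM r2 (List.mem_cons_of_mem _ hr2))).2).1 h7
            subst h8
            exact hnd.1 hr2
          rw [h6, add_zero]
          show (if (wrd' D L r1).1 = r' then (((wrd' D L r1).2 : ℤ) : K) * t r1 else 0) = _
          rw [if_pos (((hmap r1 hr).2).2 rfl), htr]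
        · rw [ih hnd.2 (fun r hr => hM r (List.mem_cons_of_mem _ hr)) ?_]
          · show (if (wrd' D L r1).1 = r' then (((wrd' D L r1).2 : ℤ) : K) * t r1 else 0) + _ = _
            rw [if_neg, zero_add]
            intro h7
            exact h5 (((hmap r1 (hM r1 List.mem_cons_self)).2).1 h7)
          · rcases List.mem_cons.mp hrM with h8 | h8
            · exact absurd h8.symm h5
            · exact h8
    exact key _ TwF.nodup_lvL (fun r hr => hr) hr
  rw [h4] at h3
  have h5 : (((wrd' D L r).2 : ℤ) : K) * s ∈ C.AS Y b r' := ⟨_, hzY, hzX', h3⟩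
  rcases he with h6 | h6
  · rw [h6, Int.cast_one, one_mul] at h5; exact h5
  · rw [h6, Int.cast_neg, Int.cast_one, neg_one_mul] at h5
    have := C.AS_neg hb hr' h5
    rwa [_root_.neg_neg] at this

end TwC

end

end Cfsg.Agent.ChevU
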