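import Cfsg.Agent.ChevU.SubD4I
import Cfsg.Agent.ChevU.SubMove

set_option autoImplicit false
set_option linter.unusedSectionVars false
set_option linter.unusedVariables false
set_option maxRecDepth 100000

/-!
# The triality groups: maximality of the subgroup over the subfield (helper17)
-/

namespace Cfsg.Agent.ChevU.SubD4

open Cfsg.Lie Cfsg.Agent.Chev Cfsg.Agent.ChevGrp Cfsg.Agent.ChevWeyl Cfsg.Agent.ChevTw Matrix

/-- three elements spanning a cubic extension -/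
theorem span3 {K : Type*} [Field K] [Fintype K] {q : ℕ} (hq : 2 ≤ q) (hK : Fintype.card K = q ^ 3) {φ : K ≃+* K} (hφ : ∀ t : K, φ t = t ^ q)
    (h3 : ∀ t, φ (φ (φ t)) = t) {s : K} (hs : φ s ≠ s) (x : K) :
    ∃ a b c : K, φ a = a ∧ φ b = b ∧ φ c = c ∧ x = a + b * s + c * (φ s * φ (φ s)) := by
  have hs0 : s ≠ 0 := by rintro rfl; exact hs (map_zero φ)
  have hss : φ (φ s) ≠ s := by
    intro h
    apply hs
    have := h3 s
    rw [h] at this
    exact this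
  have hindep : ∀ a b c : K, φ a = a → φ b = b → φ c = c → a + b * s + c * (φ s * φ (φ s)) = 0 → a = 0 ∧ b = 0 ∧ c = 0 := by
    intro a b c ha hb hc h
    have hc0 : c = 0 := by
      by_contra hc0
      -- multiply by `s`
      have h1 : a * s + b * s ^ 2 + c * (s * φ s * φ (φ s)) = 0 := by linear_combination s * h
      have h2 := congrArg φ h1
      simp only [map_add, map_mul, map_pow, map_zero, ha, hb, hc, h3] at h2
      have h4 : (s - φ s) * (a + b * (s + φ s)) = 0 := by linear_combination h1 - h2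
      have h5 : a + b * (s + φ s) = 0 := (mul_eq_zero.1 h4).resolve_left (sub_ne_zero.2 (Ne.symm hs))
      have h6 := congrArg φ h5
      simp only [map_add, map_mul, map_zero, ha, hb] at h6
      have h7 : b * (s - φ (φ s)) = 0 := by linear_combination h5 - h6
      have hb0 : b = 0 := (mul_eq_zero.1 h7).resolve_right (sub_ne_zero.2 (Ne.symm hss))
      rw [hb0, zero_mul, add_zero] at h5
      rw [h5, hb0, zero_mul, add_zero, zero_add] at h
      have h8 := (mul_eq_zero.1 h).resolve_left hc0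
      rcases mul_eq_zero.1 h8 with h9 | h9
      · exact hs0 ((map_eq_zero φ).1 h9)
      · exact hs0 ((map_eq_zero φ).1 ((map_eq_zero φ).1 h9))
    rw [hc0, zero_mul, add_zero] at h
    have h1 := congrArg φ h
    simp only [map_add, map_mul, map_zero, ha, hb] at h1
    have h2 : b * (s - φ s) = 0 := by linear_combination h - h1
    have hb0 : b = 0 := (mul_eq_zero.1 h2).resolve_right (sub_ne_zero.2 (Ne.symm hs))
    rw [hb0, zero_mul, add_zero] at h
    exact ⟨h, hb0, hc0⟩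
  let k := {c : K // c ^ q = c}
  have hk : Nat.card k = q := Tw3.card_fix hq hK
  let Fm : k × k × k → K := fun p => p.1.1 + p.2.1.1 * s + p.2.2.1 * (φ s * φ (φ s))
  have hinj : Function.Injective Fm := by
    intro p p' h
    have h1 : (p.1.1 - p'.1.1) + (p.2.1.1 - p'.2.1.1) * s + (p.2.2.1 - p'.2.2.1) * (φ s * φ (φ s)) = 0 := by
      have h2 : p.1.1 + p.2.1.1 * s + p.2.2.1 * (φ s * φ (φ s)) = p'.1.1 + p'.2.1.1 * s + p'.2.2.1 * (φ s * φ (φ s)) := h
      linear_combination h2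
    have hf : ∀ c : k, φ c.1 = c.1 := fun c => by rw [hφ]; exact c.2
    obtain ⟨e1, e2, e3⟩ := hindep _ _ _ (by rw [map_sub, hf, hf]) (by rw [map_sub, hf, hf]) (by rw [map_sub, hf, hf]) h1
    refine Prod.ext (Subtype.ext (sub_eq_zero.1 e1)) (Prod.ext (Subtype.ext (sub_eq_zero.1 e2)) (Subtype.ext (sub_eq_zero.1 e3)))
  have hcard : Nat.card (k × k × k) = Nat.card K := by
    rw [Nat.card_prod, Nat.card_prod, hk, Nat.card_eq_fintype_card (α := K), hK]; ring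
  have hbij : Function.Bijective Fm := (Nat.bijective_iff_injective_and_card Fm).2 ⟨hinj, hcard⟩
  obtain ⟨⟨a, b, c⟩, h⟩ := hbij.2 x
  exact ⟨a.1, b.1, c.1, by rw [hφ]; exact a.2, by rw [hφ]; exact b.2, by rw [hφ]; exact c.2, h.symm⟩

section inst

variable {K : Type*} [Field K] (φ : K ≃+* K) (h3 : ∀ t, φ (φ (φ t)) = t) {q : ℕ} (hφ : ∀ t : K, φ t = t ^ q)

/-- the classes -/
def c7 : Fin chevG2.nroots := ⟨7, by decide⟩
def c8 : Fin chevG2.nroots := ⟨8, by decide⟩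
def c9 : Fin chevG2.nroots := ⟨9, by decide⟩
def c6 : Fin chevG2.nroots := ⟨6, by decide⟩

theorem P7 : DData.dG2.rp.Pos c7 := (Pos_iff _).2 (by decide)
theorem P8 : DData.dG2.rp.Pos c8 := (Pos_iff _).2 (by decide)
theorem P9 : DData.dG2.rp.Pos c9 := (Pos_iff _).2 (by decide)
theorem P6 : DData.dG2.rp.Pos c6 := (Pos_iff _).2 (by decide)

theorem fr7 : (twC4 φ h3 hφ).T.fr c7 = 1 := t_lists.2.2.2.2.1
theorem fr6 : (twC4 φ h3 hφ).T.fr c6 = 4 := t_lists.2.2.2.2.2.1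
theorem fr8 : (twC4 φ h3 hφ).T.fr c8 = 5 := t_lists.2.2.2.2.2.2.1
theorem fr9 : (twC4 φ h3 hφ).T.fr c9 = 6 := t_lists.2.2.2.2.2.2.2.1

theorem l7 : TwF.lvL rfD4 f4 ((twC4 φ h3 hφ).T.fr c7) = [12, 13, 18] := by rw [fr7, lv4_eq]; exact t_lists.1
theorem l6 : TwF.lvL rfD4 f4 ((twC4 φ h3 hφ).T.fr c6) = [14] := by rw [fr6, lv4_eq]; exact t_lists.2.1
theorem l8 : TwF.lvL rfD4 f4 ((twC4 φ h3 hφ).T.fr c8) = [15, 16, 19] := by rw [fr8, lv4_eq]; exact t_lists.2.2.1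
theorem l9 : TwF.lvL rfD4 f4 ((twC4 φ h3 hφ).T.fr c9) = [17, 20, 21] := by rw [fr9, lv4_eq]; exact t_lists.2.2.2.1

theorem gsc {r : ℕ} {m : ℤ} (h : gs gpD4_1 r = m) : ((gs gpD4_1 r : ℤ) : K) = (m : K) := by rw [h]

theorem push7 : (twC4 φ h3 hφ).Push c7 := by
  obtain ⟨s1, s2, s3, s4, s5, s6⟩ := t_sr
  obtain ⟨k1, k2, k3, k4, k5, k6⟩ := t_kap
  refine TwC.push_one (twC4 φ h3 hφ) (b := c6) (v := 15) P6 (by decide) (by rw [half4]; norm_num) ?_ ?_ (by decide) 12 ?_ ?_ ?_ ?_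
  · rw [fr7, fr6, fz4 (by norm_num), t_fc.2.1]; norm_num
  · intro r hr
    rw [l6] at hr
    simp only [List.mem_cons, List.not_mem_nil, or_false] at hr
    subst hr
    rw [t_gs.2.2.2.1, Int.cast_one]
  · rw [l7]; simp
  · intro r hr
    rw [l7] at hr
    simp only [List.mem_cons, List.not_mem_nil, or_false] at hr
    rcases hr with rfl | rfl | rfl
    · exact ⟨0, rfl⟩
    · refine ⟨2, ?_⟩
      show 13 = wv gpD4_1 (wv gpD4_1 12)
      rw [s1, s2]
    · exact ⟨1, s1.symm⟩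
  · intro r hr hne
    rw [l7] at hr
    rw [l6]
    simp only [List.mem_cons, List.not_mem_nil, or_false] at hr
    rcases hr with rfl | rfl | rfl
    · exact absurd rfl hne
    · exact k2
    · exact k3
  · rw [l6]
    right; exact k1

theorem push8 : (twC4 φ h3 hφ).Push c8 := by
  obtain ⟨s1, s2, s3, s4, s5, s6⟩ := t_sr
  obtain ⟨k1, k2, k3, k4, k5, k6⟩ := t_kap
  obtain ⟨g1, g2, g3, g4, g5, g6, g7⟩ := t_gs
  refine ⟨c7, 17, P7, by decide, by rw [half4]; norm_num, ?_, ?_, by decide, ?_⟩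
  · rw [fr8, fr7, fz4 (by norm_num), t_fc.2.2.2.2.1]; norm_num
  · intro r hr
    rw [l7] at hr
    simp only [List.mem_cons, List.not_mem_nil, or_false] at hr
    rcases hr with rfl | rfl | rfl
    · show ((gs gpD4_1 12 : ℤ) : K) = 1
      rw [g1, Int.cast_one]
    · show ((gs gpD4_1 13 : ℤ) : K) = 1
      rw [g3, Int.cast_one]
    · show ((gs gpD4_1 18 : ℤ) : K) = 1
      rw [g2, Int.cast_one]
  · intro t ht h
    rw [l8] at ht
    have e1 : t (wv gpD4_1 15) = ((gs gpD4_1 15 : ℤ) : K) * φ (t 15) := ht 15 (by simp)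
    have e2 : t (wv gpD4_1 16) = ((gs gpD4_1 16 : ℤ) : K) * φ (t 16) := ht 16 (by simp)
    have e3 : t (wv gpD4_1 19) = ((gs gpD4_1 19 : ℤ) : K) * φ (t 19) := ht 19 (by simp)
    rw [s4, g5] at e1
    rw [s6, g7] at e2
    rw [s5, g6] at e3
    rw [l8, l7, cs_kap] at h
    simp only [List.map_cons, List.map_nil, List.sum_cons, List.sum_nil, k4, k5, k6] at h
    push_cast at h e1 e2 e3
    have h1 : φ (φ (t 16)) = t 16 := by
      have h2 : φ (t 15) + φ (t 16) = t 15 + t 16 := by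
        have h4 := h
        simp only [neg_mul, one_mul, neg_zero, zero_mul, add_zero, map_add, map_neg] at h4
        linear_combination -h4
      rw [e2, one_mul] at h2
      linear_combination h2
    have h2 : φ (t 16) = t 16 := by
      have := h3 (t 16)
      rw [h1] at this
      exact this
    have h5 : t 15 = t 16 := by rw [e2, one_mul, h2]
    have h6 : t 19 = -t 16 := by rw [e1, h5, h2]; ring
    intro r hr
    rw [l8] at hr
    simp only [List.mem_cons, List.not_mem_nil, or_false] at hr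
    rcases hr with rfl | rfl | rfl
    · rw [h5, h2]
    · exact h2
    · rw [h6, map_neg, h2]

theorem p_val (j : Fin chevG2.rank) : ((DData.dG2.rp.p j : Fin _) : ℕ) = chevG2.simple j := DData.dG2.hp j
theorem p0 : DData.dG2.rp.p ⟨0, by decide⟩ = c7 := Fin.ext (by rw [p_val]; exact t_p.1)
theorem p1 : DData.dG2.rp.p ⟨1, by decide⟩ = c6 := Fin.ext (by rw [p_val]; exact t_p.2)

/-- splitting at a given class -/
theorem split_at {a : Fin chevG2.nroots} (ha : DData.dG2.rp.Pos a) {u : GL chevD4.Idx K} (hu : u ∈ twistedD4 K q)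
    (huF : u ∈ FF rfD4 f4 K ((twC4 φ h3 hφ).T.fr a)) :
    ∃ z ∈ (A4 φ h3 hφ).R.X a, ∃ v ∈ twistedD4 K q, v ∈ FF rfD4 f4 K ((twC4 φ h3 hφ).T.fr a + 1) ∧ u = z * v := by
  rcases (twC4 φ h3 hφ).T.split ((twC4 φ h3 hφ).fr_pos ha) hu huF with h | ⟨b, hb, hbc, z, hz, v, hv, hvF, e⟩
  · exact ⟨1, one_mem _, u, hu, h, (one_mul u).symm⟩
  · have hba : b = a := (twC4 φ h3 hφ).T.fr_inj b a hb ha hbc
    subst hba
    exact ⟨z, hz, v, hv, hvF, e⟩

/-- the Weyl group elements -/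
theorem act1 : ∃ w, (A4 φ h3 hφ).R.Act ((wG' Tw3.goodD4 K [1] : ↥(chevD4.group K)) : GL chevD4.Idx K) w ∧ w c7 = c8 ∧
    ((wG' Tw3.goodD4 K [1] : ↥(chevD4.group K)) : GL chevD4.Idx K) ∈ twistedD4 K q ∧
    thet chevD4 φ ((wG' Tw3.goodD4 K [1] : ↥(chevD4.group K)) : GL chevD4.Idx K) = ((wG' Tw3.goodD4 K [1] : ↥(chevD4.group K)) : GL chevD4.Idx K) := by
  have e : ((wG' Tw3.goodD4 K [1] : ↥(chevD4.group K)) : GL chevD4.Idx K) = (A4 φ h3 hφ).R.nd [⟨1, by decide⟩] := by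
    rw [RGrp.nd_cons, RGrp.nd_nil, mul_one]
    have h1 : (A4 φ h3 hφ).R.nn ⟨1, by decide⟩ = (((rinst Tw3.goodD4 DData.dD4 K).R.nd [⟨1, by decide⟩] : ↥(chevD4.group K)) : GL chevD4.Idx K) := rfl
    rw [h1, RGrp.nd_cons, RGrp.nd_nil, mul_one, (rinst Tw3.goodD4 DData.dD4 K).nn_eq]
    simp [wG']
  refine ⟨_, by rw [e]; exact RGrp.act_nd _, ?_, by rw [e]; exact (twC4 φ h3 hφ).nd_Γ _, by rw [e]; exact (twC4 φ h3 hφ).thet_nd _⟩
  apply Fin.ext
  rw [wd_val]
  exact t_w.2.2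

theorem act2 : ∃ w, (A4 φ h3 hφ).R.Act ((wG' Tw3.goodD4 K [1, 0, 2, 3] : ↥(chevD4.group K)) : GL chevD4.Idx K) w ∧ w c9 = c7 ∧
    ((wG' Tw3.goodD4 K [1, 0, 2, 3] : ↥(chevD4.group K)) : GL chevD4.Idx K) ∈ twistedD4 K q ∧
    thet chevD4 φ ((wG' Tw3.goodD4 K [1, 0, 2, 3] : ↥(chevD4.group K)) : GL chevD4.Idx K) =
      ((wG' Tw3.goodD4 K [1, 0, 2, 3] : ↥(chevD4.group K)) : GL chevD4.Idx K) := by
  have e : ((wG' Tw3.goodD4 K [1, 0, 2, 3] : ↥(chevD4.group K)) : GL chevD4.Idx K) = (A4 φ h3 hφ).R.nd [⟨1, by decide⟩, ⟨0, by decide⟩] := by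
    rw [RGrp.nd_cons, RGrp.nd_cons, RGrp.nd_nil, mul_one]
    have h1 : (A4 φ h3 hφ).R.nn ⟨1, by decide⟩ = (((rinst Tw3.goodD4 DData.dD4 K).R.nd [⟨1, by decide⟩] : ↥(chevD4.group K)) : GL chevD4.Idx K) := rfl
    have h2 : (A4 φ h3 hφ).R.nn ⟨0, by decide⟩ =
      (((rinst Tw3.goodD4 DData.dD4 K).R.nd [⟨0, by decide⟩, ⟨2, by decide⟩, ⟨3, by decide⟩] : ↥(chevD4.group K)) : GL chevD4.Idx K) := rfl
    rw [h1, h2]
    simp only [RGrp.nd_cons, RGrp.nd_nil, mul_one, (rinst Tw3.goodD4 DData.dD4 K).nn_eq]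
    simp [wG']
  refine ⟨_, by rw [e]; exact RGrp.act_nd _, ?_, by rw [e]; exact (twC4 φ h3 hφ).nd_Γ _, by rw [e]; exact (twC4 φ h3 hφ).thet_nd _⟩
  apply Fin.ext
  rw [wd_val]
  show chevG2.reflectRoot 1 (chevG2.reflectRoot 0 9) = 7
  rw [t_w.1, t_w.2.1]

/-- the commutator of a short and a long root element -/
theorem comm_expl (a b c : K) :
    (xr rfD4 (elemOfGood Tw3.goodD4 K) 12 a * (xr rfD4 (elemOfGood Tw3.goodD4 K) 13 b * xr rfD4 (elemOfGood Tw3.goodD4 K) 18 c))⁻¹ *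
      (xr rfD4 (elemOfGood Tw3.goodD4 K) 14 1)⁻¹ *
      (xr rfD4 (elemOfGood Tw3.goodD4 K) 12 a * (xr rfD4 (elemOfGood Tw3.goodD4 K) 13 b * xr rfD4 (elemOfGood Tw3.goodD4 K) 18 c)) *
      (xr rfD4 (elemOfGood Tw3.goodD4 K) 14 1) =
    ([(15, a), (20, a * c), (17, -(a * b)), (22, -(a * b * c)), (16, b), (21, b * c), (19, -c)].map
      fun p : ℕ × K => xr rfD4 (elemOfGood Tw3.goodD4 K) p.1 p.2).prod := by
  have key : ∀ {r s w : ℕ} {n : ℤ}, r < 24 → s < 24 → 12 ≤ r → 12 ≤ s → s ≠ r → chevD4.commTerms r s = [(w, n, 1, 1)] → ∀ t u : K,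
      (xr rfD4 (elemOfGood Tw3.goodD4 K) s u)⁻¹ * (xr rfD4 (elemOfGood Tw3.goodD4 K) r t)⁻¹ * xr rfD4 (elemOfGood Tw3.goodD4 K) s u *
        xr rfD4 (elemOfGood Tw3.goodD4 K) r t = xr rfD4 (elemOfGood Tw3.goodD4 K) w ((n : K) * (-t) * u) := by
    intro r s w n hr hs hrp hsp hne h t u
    have h1 := comm_xr Tw3.goodD4 fdata4 (show r < chevD4.nroots from hr) (show s < chevD4.nroots from hs) hrp hsp hne t u
    rw [h1]
    unfold ChevalleyDatum.commWord
    rw [h]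
    simp only [List.map_cons, List.map_nil, wu, List.prod_cons, List.prod_nil, mul_one, pow_one]
  set X := fun (r : ℕ) (t : K) => xr rfD4 (elemOfGood Tw3.goodD4 K) r t with hX
  have c1 : (X 12 a)⁻¹ * (X 14 1)⁻¹ * X 12 a * X 14 1 = X 15 a := by
    have := key (by norm_num) (by norm_num) (by norm_num) (by norm_num) (by norm_num) t_c1 1 a
    rw [hX]; simp only
    rw [this]; congr 1; push_cast; ring
  have c2 : (X 13 b)⁻¹ * (X 14 1)⁻¹ * X 13 b * X 14 1 = X 16 b := by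
    have := key (by norm_num) (by norm_num) (by norm_num) (by norm_num) (by norm_num) t_c2 1 b
    rw [hX]; simp only
    rw [this]; congr 1; push_cast; ring
  have c3 : (X 18 c)⁻¹ * (X 14 1)⁻¹ * X 18 c * X 14 1 = X 19 (-c) := by
    have := key (by norm_num) (by norm_num) (by norm_num) (by norm_num) (by norm_num) t_c3 1 c
    rw [hX]; simp only
    rw [this]; congr 1; push_cast; ring
  have c4 : (X 15 a)⁻¹ * (X 13 b)⁻¹ * X 15 a * X 13 b = X 17 (-(a * b)) := by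
    have := key (by norm_num) (by norm_num) (by norm_num) (by norm_num) (by norm_num) t_c4 b a
    rw [hX]; simp only
    rw [this]; congr 1; push_cast; ring
  have c5 : (X 15 a)⁻¹ * (X 18 c)⁻¹ * X 15 a * X 18 c = X 20 (a * c) := by
    have := key (by norm_num) (by norm_num) (by norm_num) (by norm_num) (by norm_num) t_c5 c a
    rw [hX]; simp only
    rw [this]; congr 1; push_cast; ring
  have c6 : (X 16 b)⁻¹ * (X 18 c)⁻¹ * X 16 b * X 18 c = X 21 (b * c) := by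
    have := key (by norm_num) (by norm_num) (by norm_num) (by norm_num) (by norm_num) t_c6 c b
    rw [hX]; simp only
    rw [this]; congr 1; push_cast; ring
  have c7 : (X 17 (-(a * b)))⁻¹ * (X 18 c)⁻¹ * X 17 (-(a * b)) * X 18 c = X 22 (-(a * b * c)) := by
    have := key (by norm_num) (by norm_num) (by norm_num) (by norm_num) (by norm_num) t_c7 c (-(a * b))
    rw [hX]; simp only
    rw [this]; congr 1; push_cast; ring
  show (X 12 a * (X 13 b * X 18 c))⁻¹ * (X 14 1)⁻¹ * (X 12 a * (X 13 b * X 18 c)) * (X 14 1) = _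
  have e : ([(15, a), (20, a * c), (17, -(a * b)), (22, -(a * b * c)), (16, b), (21, b * c), (19, -c)].map
      fun p : ℕ × K => xr rfD4 (elemOfGood Tw3.goodD4 K) p.1 p.2).prod =
      X 15 a * X 20 (a * c) * (X 17 (-(a * b)) * X 22 (-(a * b * c))) * (X 16 b * X 21 (b * c)) * X 19 (-c) := by
    simp only [List.map_cons, List.map_nil, List.prod_cons, List.prod_nil, mul_one, hX]
    group
  rw [e, ← c7, ← c6, ← c5, ← c3]
  have e2 : X 17 (-(a * b)) * ((X 17 (-(a * b)))⁻¹ * (X 18 c)⁻¹ * X 17 (-(a * b)) * X 18 c) = (X 18 c)⁻¹ * X 17 (-(a * b)) * X 18 c := by group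
  rw [e2, ← c4, ← c2, ← c1]
  group


theorem t_five : ∀ r ∈ [15, 20, 17, 22, 16, 21, 19], r < 24 ∧ 12 ≤ r ∧ 5 ≤ fc4 r := by decide +kernel

theorem wrd_eq (L : List ℕ) (r : ℕ) : wrd' chevD4 L r = wrd chevD4 L r := rfl

/-- closure of the coordinates under the map `s ↦ φ s * φ (φ s)` -/
theorem sharp {Y : Subgroup (GL chevD4.Idx K)} (YG : Y ≤ twistedD4 K q) (FY : ∀ g ∈ twistedD4 K q, thet chevD4 φ g = g → g ∈ Y) {s : K}
    (hs : s ∈ (twC4 φ h3 hφ).AS Y c7 18) : φ s * φ (φ s) ∈ (twC4 φ h3 hφ).AS Y c7 18 := by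
  obtain ⟨s1, s2, s3, s4, s5, s6⟩ := t_sr
  obtain ⟨g1, g2, g3, g4, g5, g6, g7⟩ := t_gs
  obtain ⟨f14, f15, f16, f19, f17, f20, f21, f22, f23, f12, f13, f18⟩ := t_fc
  obtain ⟨w1, w2, w3, w4, w5, w6⟩ := t_wrd
  have hhalf : rfD4.half = 12 := half4
  obtain ⟨y, hy, hyX, hys⟩ := hs
  obtain ⟨t, ht, hrel⟩ := (twC4 φ h3 hφ).T.RX_pl P7 hyX
  have h18 : 18 ∈ TwF.lvL rfD4 f4 ((twC4 φ h3 hφ).T.fr c7) := by rw [l7]; simp
  have h12 : 12 ∈ TwF.lvL rfD4 f4 ((twC4 φ h3 hφ).T.fr c7) := by rw [l7]; simp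
  have h13 : 13 ∈ TwF.lvL rfD4 f4 ((twC4 φ h3 hφ).T.fr c7) := by rw [l7]; simp
  have e18 : t 18 = s := by rw [← hys, ht, (twC4 φ h3 hφ).Tc_RX P7 t h18]
  have r1 : t (wv gpD4_1 18) = ((gs gpD4_1 18 : ℤ) : K) * φ (t 18) := hrel 18 h18
  have r2 : t (wv gpD4_1 13) = ((gs gpD4_1 13 : ℤ) : K) * φ (t 13) := hrel 13 h13
  rw [s2, g2, Int.cast_one, one_mul, e18] at r1
  rw [s3, g3, Int.cast_one, one_mul, r1] at r2
  have hy12 : t 12 ∈ (twC4 φ h3 hφ).AS Y c7 12 := ⟨y, hy, hyX, by rw [ht, (twC4 φ h3 hφ).Tc_RX P7 t h12]⟩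
  -- the commutator
  have hm := (twC4 φ h3 hφ).long_mem (a := c6) (r := 14) (by show (6 : ℕ) ∈ QL; decide) (by decide) (Fin.ext t_14.2.1) (t := 1) (map_one φ)
  set m : GL chevD4.Idx K := xr rfD4 (elemOfGood (A4 φ h3 hφ).H K) 14 1 with hmd
  have hmY : m ∈ Y := FY m ((twC4 φ h3 hφ).T.RX_Γ hm.1) hm.2
  set z : GL chevD4.Idx K := y⁻¹ * m⁻¹ * y * m with hz
  have hzY : z ∈ Y := mul_mem (mul_mem (mul_mem (inv_mem hy) (inv_mem hmY)) hy) hmY
  have hzP : z = ([(15, t 12), (20, t 12 * t 18), (17, -(t 12 * t 13)), (22, -(t 12 * t 13 * t 18)), (16, t 13), (21, t 13 * t 18), (19, -(t 18))].map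
      fun p : ℕ × K => xr rfD4 (elemOfGood Tw3.goodD4 K) p.1 p.2).prod := by
    rw [hz, ht, l7, pl_cons, pl_cons, pl_cons, pl_nil, mul_one]
    exact comm_expl (t 12) (t 13) (t 18)
  have hPP : ∀ p ∈ [((15 : ℕ), t 12), (20, t 12 * t 18), (17, -(t 12 * t 13)), (22, -(t 12 * t 13 * t 18)), (16, t 13), (21, t 13 * t 18), (19, -(t 18))],
      p.1 < chevD4.nroots ∧ rfD4.half ≤ p.1 ∧ (5 : ℤ) ≤ fz rfD4 f4 p.1 := by
    intro p hp
    have hp' : p.1 ∈ [15, 20, 17, 22, 16, 21, 19] := by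
      simp only [List.mem_cons, List.not_mem_nil, or_false] at hp ⊢
      rcases hp with rfl | rfl | rfl | rfl | rfl | rfl | rfl <;> simp
    have h1 := t_five p.1 hp'
    refine ⟨h1.1, by rw [half4]; exact h1.2.1, ?_⟩
    rw [fz4 h1.1]; exact h1.2.2
  have hz15 := (Tc_prod Tw3.goodD4 fdata4 (c := 5) (by norm_num) _ hPP (v := 15) (by decide) (by rw [half4]; norm_num)
    (by rw [fz4 (by norm_num), f15]; norm_num))
  have hz17 := (Tc_prod Tw3.goodD4 fdata4 (c := 5) (by norm_num) _ hPP (v := 17) (by decide) (by rw [half4]; norm_num)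
    (by rw [fz4 (by norm_num), f17]; norm_num)).1
  have hzF := hz15.2
  have hz15 := hz15.1
  rw [← hzP] at hz15 hz17 hzF
  simp at hz15 hz17
  -- the first component
  obtain ⟨z8, hz8, v, hv, hvF, e1⟩ := split_at φ h3 hφ P8 (YG hzY) (by rw [fr8]; exact hzF)
  rw [fr8] at hvF
  have h15L : 15 ∈ TwF.lvL rfD4 f4 ((twC4 φ h3 hφ).T.fr c8) := by rw [l8]; simp
  have hz8F := (twC4 φ h3 hφ).T.RX_FF P8 hz8
  rw [fr8] at hz8F
  have k15 : Tc iT4 15 z8 = t 12 := by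
    have h1 := Tc_mul Tw3.goodD4 fdata4 (r := 15) (by decide) (by rw [half4]; norm_num) (g := z8) (h := v) (c := 5)
      (by rw [fz4 (by norm_num), f15]; norm_num) (by norm_num) hz8F (FF_mono (by norm_num) hvF)
    rw [← e1, hz15, Tc_zero Tw3.goodD4 fdata4 (r := 15) (by decide) (by rw [half4]; norm_num) (c := 5 + 1)
      (by rw [fz4 (by norm_num), f15]; norm_num) hvF, add_zero] at h1
    exact h1.symm
  have hz8Y : z8 ∈ Y := by
    obtain ⟨w, hga, hw, hgG, hgf⟩ := act1 φ h3 hφ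
    have h1 := (twC4 φ h3 hφ).AS_move P7 P8 [1] (by decide) (FY _ hgG hgf) hga hw h12 h15L (by
      intro r1 hr1
      rw [l7] at hr1
      rw [l8, wrd_eq]
      simp only [List.mem_cons, List.not_mem_nil, or_false] at hr1
      rcases hr1 with rfl | rfl | rfl
      · rw [w1]; simp
      · rw [w2]; simp
      · rw [w3]; simp) (by rw [wrd_eq, w1]; right; rfl) hy12
    obtain ⟨z', hz'Y, hz'X, hz't⟩ := h1
    have h2 : z8 = z' := by
      refine (twC4 φ h3 hφ).det_coord P8 h15L ?_ hz8 hz'X (k15.trans hz't.symm)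
      intro r hr
      rw [l8] at hr
      simp only [List.mem_cons, List.not_mem_nil, or_false] at hr
      rcases hr with rfl | rfl | rfl
      · exact ⟨0, rfl⟩
      · refine ⟨2, ?_⟩
        show 16 = wv gpD4_1 (wv gpD4_1 15)
        rw [s4, s5]
      · exact ⟨1, s4.symm⟩
    rw [h2]; exact hz'Y
  have hvY : v ∈ Y := by
    have h1 : v = z8⁻¹ * z := by rw [e1]; group
    rw [h1]; exact mul_mem (inv_mem hz8Y) hzY
  -- the second component
  obtain ⟨z9, hz9, v', hv', hv'F, e2⟩ := split_at φ h3 hφ P9 hv (by rw [fr9]; exact hvF)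
  rw [fr9] at hv'F
  have hv'f : thet chevD4 φ v' = v' := by
    have h2 := (twC4 φ h3 hφ).T.FF_gen (c := 6 + 1) (by norm_num) hv' hv'F
    refine (twC4 φ h3 hφ).fix_gen (fun b hb => ?_) h2
    exact t_7 b b.2 ((Pos_iff b).1 hb.1) hb.2
  have hv'Y := FY v' hv' hv'f
  have hz9Y : z9 ∈ Y := by
    have h1 : z9 = v * v'⁻¹ := by rw [e2]; group
    rw [h1]; exact mul_mem hvY (inv_mem hv'Y)
  have hz9F := (twC4 φ h3 hφ).T.RX_FF P9 hz9
  rw [fr9] at hz9F
  have h17L : 17 ∈ TwF.lvL rfD4 f4 ((twC4 φ h3 hφ).T.fr c9) := by rw [l9]; simp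
  have k17 : Tc iT4 17 z9 = -(t 12 * t 13) := by
    obtain ⟨t', ht', -⟩ := (twC4 φ h3 hφ).T.RX_pl P8 hz8
    have h0 : Tc iT4 17 z8 = 0 := by
      rw [ht', Tc_pl Tw3.goodD4 fdata4 (c := (twC4 φ h3 hφ).T.fr c8) (by rw [fr8]; norm_num) ((twC4 φ h3 hφ).lvL_le) t' (v := 17) (by decide)
        (by rw [half4]; norm_num) (by rw [fz4 (by norm_num), f17, fr8]; norm_num), l8]
      simp
    have h1 := Tc_mul Tw3.goodD4 fdata4 (r := 17) (by decide) (by rw [half4]; norm_num) (g := z8) (h := v) (c := 5)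
      (by rw [fz4 (by norm_num), f17]; norm_num) (by norm_num) hz8F (FF_mono (by norm_num) hvF)
    rw [← e1, hz17, h0, zero_add] at h1
    have h2 := Tc_mul Tw3.goodD4 fdata4 (r := 17) (by decide) (by rw [half4]; norm_num) (g := z9) (h := v') (c := 5)
      (by rw [fz4 (by norm_num), f17]; norm_num) (by norm_num) (FF_mono (by norm_num) hz9F) (FF_mono (by norm_num) hv'F)
    rw [← e2, Tc_zero Tw3.goodD4 fdata4 (r := 17) (by decide) (by rw [half4]; norm_num) (c := 6 + 1)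
      (by rw [fz4 (by norm_num), f17]; norm_num) hv'F, add_zero, ← h1] at h2
    exact h2.symm
  obtain ⟨w, hga, hw, hgG, hgf⟩ := act2 φ h3 hφ
  have h1 := (twC4 φ h3 hφ).AS_move P9 P7 [1, 0, 2, 3] (by decide) (FY _ hgG hgf) hga hw h17L h18 (by
    intro r1 hr1
    rw [l9] at hr1
    rw [l7, wrd_eq]
    simp only [List.mem_cons, List.not_mem_nil, or_false] at hr1
    rcases hr1 with rfl | rfl | rfl
    · rw [w4]; simp
    · rw [w5]; simp
    · rw [w6]; simp) (by rw [wrd_eq, w4]; left; rfl) ⟨z9, hz9Y, hz9, k17⟩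
  have h2 := (twC4 φ h3 hφ).AS_neg P7 h18 h1
  rw [_root_.neg_neg, r2, r1, mul_comm] at h2
  exact h2


theorem w_word (L : List (Fin chevG2.rank)) {a b : ℕ} (h : (L.map Fin.val).foldr (fun i s => chevG2.reflectRoot i s) a = b)
    {x y : Fin chevG2.nroots} (hx : (x : ℕ) = a) (hy : (y : ℕ) = b) : ∃ w ∈ DData.dG2.rp.wsys.W, w x = y := by
  refine ⟨DData.dG2.rp.wsys.wd L, DData.dG2.rp.wsys.wd_mem L, ?_⟩
  apply Fin.ext
  rw [wd_val, hx, h, hy]

theorem word9 : ([1, 0] : List ℕ).foldr (fun i s => chevG2.reflectRoot i s) 9 = 7 := by decide +kernel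

end inst

theorem main {K : Type*} [Field K] [Fintype K] (p : ℕ) [Fact p.Prime] [CharP K p] (q : ℕ) (hq : ∃ a : ℕ, 1 ≤ a ∧ q = p ^ a)
    (hK : Fintype.card K = q ^ 3) (M : Subgroup (GL chevD4.Idx K))
    (hM : ∀ g : GL chevD4.Idx K, g ∈ M ↔ g ∈ twistedD4 K q ∧ ∀ i j : chevD4.Idx, ((g : Matrix chevD4.Idx chevD4.Idx K) i j) ^ q =
      (g : Matrix chevD4.Idx chevD4.Idx K) i j) :
    M ≠ twistedD4 K q ∧ ∀ H : Subgroup (GL chevD4.Idx K), M ≤ H → H ≤ twistedD4 K q → H = M ∨ H = twistedD4 K q := by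
  have hpp : IsPrimePow q := by
    obtain ⟨a, ha, rfl⟩ := hq
    exact (Fact.out : p.Prime).isPrimePow.pow (by omega)
  obtain ⟨φ, hφ, h3⟩ := Tw3.frob3 hpp hK
  have hq1 : 1 < q := hpp.one_lt
  have hM' : ∀ g, g ∈ M ↔ g ∈ twistedD4 K q ∧ thet chevD4 φ g = g := by
    intro g
    rw [hM]
    refine and_congr_right fun _ => ?_
    constructor
    · intro h
      apply Units.ext
      ext i j
      rw [thet_apply, hφ, h]
    · intro h i j
      rw [← hφ, ← thet_apply, h]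
  -- an element that is not fixed
  obtain ⟨s1, hs1⟩ : ∃ s : K, φ s ≠ s := by
    by_contra hc
    push Not at hc
    have h1 := Tw3.card_fix (K := K) (q := q) (by omega) hK
    have h2 : Nat.card {t : K // t ^ q = t} = q ^ 3 := by
      rw [← hK, ← Nat.card_eq_fintype_card]
      exact Nat.card_congr (Equiv.subtypeUnivEquiv fun t => by rw [← hφ]; exact hc t)
    rw [h1] at h2
    have h4 : q ^ 1 < q ^ 3 := Nat.pow_lt_pow_right hq1 (by norm_num)
    rw [pow_one, ← h2] at h4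
    exact absurd h4 (lt_irrefl _)
  have hP0 := P7
  have h18 : 18 ∈ TwF.lvL rfD4 f4 ((twC4 φ h3 hφ).T.fr c7) := by rw [l7]; simp
  obtain ⟨s1', s2, s3, s4, s5, s6⟩ := t_sr
  obtain ⟨g1, g2, g3, g4, g5, g6, g7⟩ := t_gs
  have hε : ∀ r ∈ TwF.lvL rfD4 f4 ((twC4 φ h3 hφ).T.fr c7), ((gs gpD4_1 r : ℤ) : K) = 1 := by
    intro r hr
    rw [l7] at hr
    simp only [List.mem_cons, List.not_mem_nil, or_false] at hr
    rcases hr with rfl | rfl | rfl
    · rw [g1, Int.cast_one]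
    · rw [g3, Int.cast_one]
    · rw [g2, Int.cast_one]
  have hp0 := p0
  refine (twC4 φ h3 hφ).final M hM' slaced4 c9 ?_ ⟨0, by decide⟩ ?_ 18 (by rw [hp0]; exact h18) ?_ ?_ ?_ ?_
  · intro a ha
    rcases t_cases a a.2 ((Pos_iff a).1 ha) with h | h | h | h
    · exact Or.inl h
    · right; right
      have : a = c7 := Fin.ext h
      rw [this]; exact push7 φ h3 hφ
    · right; right
      have : a = c8 := Fin.ext h
      rw [this]; exact push8 φ h3 hφ
    · right; left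
      have : a = c9 := Fin.ext h
      refine ⟨this, fun b hb hlt => ?_⟩
      exact t_9 b b.2 ((Pos_iff b).1 hb) hlt
  · rw [hp0]
    exact w_word [⟨1, by decide⟩, ⟨0, by decide⟩] word9 rfl rfl
  · intro r hr
    rw [hp0, l7] at hr
    simp only [List.mem_cons, List.not_mem_nil, or_false] at hr
    rcases hr with rfl | rfl | rfl
    · refine ⟨2, ?_⟩
      show 12 = wv gpD4_1 (wv gpD4_1 18)
      rw [s2, s3]
    · exact ⟨1, s2.symm⟩
    · exact ⟨0, rfl⟩
  · intro Y hYG FY s0 hs0 hs0' s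
    rw [hp0] at hs0 ⊢
    obtain ⟨a, b, c, ha, hb, hc, e⟩ := span3 (show 2 ≤ q by omega) hK hφ h3 hs0' s
    have hQ6 : (twC4 φ h3 hφ).Qr c6 := by show (6 : ℕ) ∈ QL; decide
    have hQ5 : (twC4 φ h3 hφ).Qr (DData.dG2.rp.neg c6) := by
      show ((DData.dG2.rp.neg c6 : Fin _) : ℕ) ∈ QL
      rw [DData.dG2.hneg]
      show chevG2.neg 6 ∈ QL
      rw [t_14.2.2.2]; decide
    have hcl1 : (A4 φ h3 hφ).T.cls ⟨14, by decide⟩ = c6 := Fin.ext t_14.2.1
    have hcl2 : (A4 φ h3 hφ).T.cls ⟨chevD4.neg 14, rfD4.neg_lt (show 14 < chevD4.nroots by decide)⟩ = DData.dG2.rp.neg c6 := by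
      apply Fin.ext
      rw [DData.dG2.hneg]
      show Tw3.cD4 (chevD4.neg 14) = chevG2.neg 6
      rw [t_14.2.2.2, t_14.1]; exact t_14.2.2.1
    have hpr : ∀ r ∈ TwF.lvL rfD4 f4 ((twC4 φ h3 hφ).T.fr c7), pr chevD4 14 r = -1 := by
      intro r hr
      rw [l7] at hr
      exact t_pr r hr
    have k1 := (twC4 φ h3 hφ).AS_fix FY hP0 h18 hε ha
    have k2 := (twC4 φ h3 hφ).AS_smul FY hP0 h18 hQ6 hQ5 (r1 := 14) (by decide) hcl1 hcl2 hpr hb hs0
    have k3 := (twC4 φ h3 hφ).AS_smul FY hP0 h18 hQ6 hQ5 (r1 := 14) (by decide) hcl1 hcl2 hpr hc (sharp φ h3 hφ hYG FY hs0)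
    have k4 := (twC4 φ h3 hφ).AS_add hP0 h18 ((twC4 φ h3 hφ).AS_add hP0 h18 k1 k2) k3
    rw [← e] at k4
    exact k4
  · intro j
    obtain ⟨j, hj⟩ := j
    have hj' : j < 2 := hj
    interval_cases j
    · right
      exact ⟨1, one_mem _, rfl⟩
    · left
      show ((DData.dG2.rp.p ⟨1, _⟩ : Fin _) : ℕ) ∈ QL
      rw [p_val]
      show chevG2.simple 1 ∈ QL
      rw [t_p.2]; decide
  · rw [hp0]
    have h := (twC4 φ h3 hφ).T.pl_mem_RX (c := (twC4 φ h3 hφ).T.fr c7) hP0 rfl (fun r => if r = 18 then s1 else if r = 13 then φ s1 else φ (φ s1)) (by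
      intro r hr
      rw [hε r hr, one_mul]
      rw [l7] at hr
      simp only [List.mem_cons, List.not_mem_nil, or_false] at hr
      rcases hr with rfl | rfl | rfl
      · rw [s1']; simp [h3]
      · rw [s3]; simp
      · rw [s2]; simp)
    refine ⟨_, h, ?_⟩
    have h5 := (twC4 φ h3 hφ).Tc_RX hP0 (fun r => if r = 18 then s1 else if r = 13 then φ s1 else φ (φ s1)) h18
    simp only [if_true] at h5
    rw [h5]
    exact hs1

end Cfsg.Agent.ChevU.SubD4
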