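import Cfsg.Agent.ChevU.SubE6

set_option autoImplicit false
set_option linter.unusedSectionVars false
set_option linter.unusedVariables false
set_option maxRecDepth 100000

/-!
# The twisted groups of type E6: the instance (helper17)
-/

namespace Cfsg.Agent.ChevU.SubE6

open Cfsg.Lie Cfsg.Agent.Chev Cfsg.Agent.ChevGrp Cfsg.Agent.ChevWeyl Cfsg.Agent.ChevTw Matrix

theorem fz6 {r : ℕ} (hr : r < 72) : fz rfE6 f6 r = fc6 r := by
  unfold fz fc6
  have h : chevE6.rank = 6 := rfl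
  rw [h]
  simp only [Finset.sum_range_succ, Finset.sum_range_zero, zero_add]
  rw [vec6 r hr 0 (by norm_num), vec6 r hr 1 (by norm_num), vec6 r hr 2 (by norm_num), vec6 r hr 3 (by norm_num), vec6 r hr 4 (by norm_num),
    vec6 r hr 5 (by norm_num)]
  rfl

theorem fdata6 : FData rfE6 f6 iT6 where
  pos r hp hr := by
    rw [fz6 hr]; exact t_pos r hr hp
  iT_lt r hp hr := (t_iT r hr hp).1
  cor_iT r hp hr := (t_iT r hr hp).2
  lvl r s hrp hr hsp hs hne h := by
    rw [fz6 hr, fz6 hs] at h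
    have h1 := t_lvl r hr hrp s hs hsp
    unfold lvB at h1
    rw [if_pos ⟨hne, h⟩] at h1
    exact List.isEmpty_iff.1 h1

theorem slaced6 : SLaced rfE6 := by
  intro r s hr hrp hs hsp hne
  have h := t_sl r hr hrp s hs hsp hne
  unfold slB at h
  split at h
  · next h1 => exact Or.inl h1
  · next w n h1 =>
    rw [Bool.and_eq_true, Nat.blt_eq, Nat.ble_eq] at h
    exact Or.inr ⟨w, n, h.1, h.2, h1⟩
  · exact absurd h (by simp)

theorem lv6_eq (c : ℤ) : TwF.lvL rfE6 f6 c = lv6 c := by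
  unfold TwF.lvL lv6
  have h : chevE6.nroots = 72 := rfl
  rw [h]
  apply List.filter_congr
  intro r hr
  rw [List.mem_range] at hr
  rw [fz6 hr]
  rfl

section inst

variable {K : Type*} [Field K] (φ : K ≃+* K) (hφφ : ∀ t, φ (φ t) = t) {q : ℕ} (hφ : ∀ t : K, φ t = t ^ q)

/-- the instance -/
noncomputable abbrev A6 : TwInst chevE6 K DData.dF4.rp.wsys (twistedE6 K q) := iE6 DData.dF4 (instE6 K) φ hφφ hφ

theorem fAut_nG {D : ChevalleyDatum} (H : Good2 D) (r : ℕ) : fAut D φ (nG H r (1 : K)) = nG H r 1 := by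
  unfold nG
  simp only [map_mul, fAut_xG, map_neg, map_inv₀, map_one]

theorem nn_fix (i : Fin chevE6.rank) : fAut chevE6 φ ((instE6 K).R.nn i) = (instE6 K).R.nn i := by
  rw [(instE6 K).nn_eq, fAut_nG]

theorem sigX6 : SigX (A6 φ hφφ hφ) φ (wv gpE6_1) (fun r => ((gs gpE6_1 r : ℤ) : K)) where
  sr_eq r := rfl
  σx r t := sgm_xG Cfsg.Agent.ChevTw.goodE6 gok_E6_1 piok_E6_1 pj_E6_1 φ r.2 t
  εφ r := map_intCast φ _
  εε r := by rw [gs_sq_cast]
  nnφ j := by
    have h : ∀ j : Fin chevF4.rank, fAut chevE6 φ (njE6 (instE6 K) j) = njE6 (instE6 K) j := by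
      intro j
      obtain ⟨j, hj⟩ := j
      have hj' : j < 4 := hj
      interval_cases j
      · show fAut chevE6 φ ((instE6 K).R.nn _ * (instE6 K).R.nn _) = (instE6 K).R.nn _ * (instE6 K).R.nn _
        rw [map_mul, nn_fix, nn_fix]
      · show fAut chevE6 φ ((instE6 K).R.nn _ * (instE6 K).R.nn _) = (instE6 K).R.nn _ * (instE6 K).R.nn _
        rw [map_mul, nn_fix, nn_fix]
      · exact nn_fix φ _
      · exact nn_fix φ _
    exact h j

theorem Pos_iff (a : Fin chevF4.nroots) : DData.dF4.rp.Pos a ↔ 24 ≤ (a : ℕ) := posF4_iff DData.dF4 a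

noncomputable def twF6 : TwF (A6 φ hφφ hφ) rfE6 φ f6 iT6 (wv gpE6_1) (fun r => ((gs gpE6_1 r : ℤ) : K)) where
  Q := fdata6
  Z := sigX6 φ hφφ hφ
  fr a := fr6 a
  fr_cls r hp := by
    rw [fz6 r.2]; exact t_fr r r.2
  fr_inj a b ha hb h := Fin.ext (t_inj a a.2 ((Pos_iff a).1 ha) b b.2 ((Pos_iff b).1 hb) h)

theorem gs_one {r : ℕ} (h : wb gpE6_1 r = 0) : ((gs gpE6_1 r : ℤ) : K) = 1 := by
  have h1 : gs gpE6_1 r = 1 := by unfold gs; rw [h]; rfl
  rw [h1, Int.cast_one]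

theorem cF (a : Fin chevF4.nroots) (j : Fin chevF4.rank) : DData.dF4.rp.c a j = cc chevF4 a j := DData.dF4.hc a j

theorem sum_c (b : Fin chevF4.nroots) : ∑ k, DData.dF4.rp.c b k = sumF b := by
  have h : ∑ k, DData.dF4.rp.c b k = ∑ k : Fin 4, cc chevF4 b k := Finset.sum_congr rfl fun k _ => cF b k
  rw [h, Fin.sum_univ_four]
  rfl

noncomputable def twC6 : TwC (A6 φ hφφ hφ) rfE6 φ f6 iT6 (wv gpE6_1) (fun r => ((gs gpE6_1 r : ℤ) : K)) where
  T := twF6 φ hφφ hφ
  Qr a := (a : ℕ) ∈ QL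
  ρ := ⟨47, by decide⟩
  ρpos := (Pos_iff _).2 (by norm_num)
  frmax a ha := t_max a a.2 ((Pos_iff a).1 ha)
  Qρ := by show (47 : ℕ) ∈ QL; decide
  Qw i b hb := by
    show ((DData.dF4.rp.w i b : Fin _) : ℕ) ∈ QL
    rw [DData.dF4.hw]
    exact t_Qw i i.2 b hb
  Qmax b hb k := by
    rw [cF, cF]
    exact t_Qmax b hb k k.2
  Qup b hb := by
    rcases t_Qup b hb with h | ⟨i, hi, h⟩
    · left; exact Fin.ext h
    · right
      refine ⟨⟨i, hi⟩, ?_⟩
      rw [sum_c, sum_c, DData.dF4.hw]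
      exact h
  uni a ha := by
    obtain ⟨r, hr, h1, h2, h3⟩ := t_uni a ha
    refine ⟨r, hr, fun s => ?_, h2, gs_one h3⟩
    rw [← h1 s s.2, Fin.ext_iff]
    rfl
  rρ := 71
  hrρ := ⟨by decide, fun s => by rw [← t_rρ s s.2, Fin.ext_iff]; rfl⟩
  Z2h b hb := by
    rcases t_Z b hb with h | ⟨s, hs, h1, h2⟩
    · left
      apply Fin.ext
      rw [DData.dF4.hneg]
      exact h.trans t_neg.symm
    · right
      refine ⟨s, hs, fun r => ?_, ?_⟩
      · rw [← h1 r r.2, Fin.ext_iff]; rfl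
      · rcases h2 with h2 | ⟨h2, h3⟩
        · exact Or.inl h2
        · right
          refine ⟨h2, ?_⟩
          unfold zB at h3
          split at h3
          · next h4 => exact Or.inl h4
          · next v m h4 =>
            right
            obtain ⟨k1, k2, k3, k4, k5, k6, k7, k8⟩ := of_decide_eq_true h3
            exact ⟨v, m, k1, h4, k2, k3, k4, k5, k6, k7, k8⟩
          · exact absurd h3 (by simp)
  j0 := ⟨3, by decide⟩
  h0 j hj := by
    apply Fin.ext
    rw [DData.dF4.hw]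
    exact t_h0 j j.2 fun h => hj (Fin.ext h)
  hP := by
    have h : DData.dF4.rp.P ⟨47, by decide⟩ (DData.dF4.rp.p ⟨3, by decide⟩) = ∑ k : Fin 4, cc chevF4 47 k * chevF4.cartan k (chevF4.simple 3) := by
      unfold RootPerm.P
      refine Finset.sum_congr rfl fun k _ => ?_
      rw [cF, DData.dF4.hm, DData.dF4.hp]
    rw [h, Fin.sum_univ_four]
    have h2 := t_P
    show 0 < cc chevF4 47 0 * chevF4.cartan 0 (chevF4.simple 3) + cc chevF4 47 1 * chevF4.cartan 1 (chevF4.simple 3) +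
      cc chevF4 47 2 * chevF4.cartan 2 (chevF4.simple 3) + cc chevF4 47 3 * chevF4.cartan 3 (chevF4.simple 3)
    rw [h2]; norm_num
  Qj0 := by
    show ((DData.dF4.rp.p ⟨3, _⟩ : Fin _) : ℕ) ∈ QL
    rw [DData.dF4.hp]
    show chevF4.simple 3 ∈ QL
    rw [t_p.2.2.2]; decide
  k := 3
  γ i := ⟨47 - i, by show 47 - i < 48; omega⟩
  γ0 := rfl
  γpos i hi := by
    refine ⟨(Pos_iff _).2 (by show 24 ≤ 47 - i; omega), ?_⟩
    rw [cF]
    exact t_γ i (by omega)
  Ctop i hi a ha h := by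
    obtain ⟨m, hm, h1⟩ := t_top i (by omega) a a.2 ((Pos_iff a).1 ha) h
    exact ⟨m, by omega, Fin.ext h1⟩
  Cmono i hi m hm := t_mono i (by omega) m (by omega)
  Cspan a := by
    refine ⟨1, fun i => spB a i, one_ne_zero, fun j => ?_⟩
    have h := t_span a a.2 j j.2
    rw [one_mul, DData.dF4.rp.c_p]
    have h2 : (if j = a then (1 : ℤ) else 0) = if (j : ℕ) = a then 1 else 0 := by
      by_cases hja : j = a
      · rw [if_pos hja, if_pos (by rw [hja])]
      · rw [if_neg hja, if_neg (fun h => hja (Fin.ext h))]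
    rw [h2, h]
    simp only [Finset.sum_range_succ, Finset.sum_range_zero, zero_add, cF]
  i0 := ⟨1, by decide⟩
  lv r := by
    rw [cF]
    have h := t_lv r r.2
    rw [vec6 r r.2 1 (by norm_num)]
    exact h
  pcls i := by
    obtain ⟨j, hj, h⟩ := t_pcls i i.2
    refine ⟨⟨j, hj⟩, ?_⟩
    apply Fin.ext
    rw [DData.dF4.hp]
    show cE6 ((DData.dE6.rp.p i : Fin _) : ℕ) = _
    rw [DData.dE6.hp]
    exact h
  ε1 r h := by
    obtain ⟨j, hj⟩ := h
    apply gs_one
    refine t_ε1 r r.2 ⟨j, j.2, ?_⟩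
    have := congrArg Fin.val hj
    rw [DData.dF4.hp] at this
    exact this

end inst

end Cfsg.Agent.ChevU.SubE6
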