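import Cfsg.Agent.ChevU.SubPush

set_option autoImplicit false
set_option linter.unusedSectionVars false
set_option linter.unusedVariables false

/-!
# Twisted groups: maximality of the subfield subgroup (helper17)
-/

namespace Cfsg.Agent.ChevU

open Cfsg.Lie Cfsg.Agent.Chev Cfsg.Agent.ChevGrp Cfsg.Agent.ChevWeyl Cfsg.Agent.ChevTw Matrix

section

variable {D : ChevalleyDatum} {K : Type*} [Field K] {l' n' : ℕ} {Dr : RootPerm l' n'} {Γ : Subgroup (GL D.Idx K)}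
variable {A : TwInst D K Dr.wsys Γ} {R : RootFacts D} {φ : K ≃+* K} {f : ℕ → ℤ} {iT sr : ℕ → ℕ} {ε : ℕ → K} (C : TwC A R φ f iT sr ε)

/-- words in the simple reflections, numerically -/
theorem wd_val {D' : ChevalleyDatum} (E' : DData D') (L : List (Fin D'.rank)) (r : Fin D'.nroots) :
    ((E'.rp.wsys.wd L r : Fin D'.nroots) : ℕ) = (L.map Fin.val).foldr (fun i s => D'.reflectRoot i s) r := by
  induction L with
  | nil => rfl
  | cons i L ih =>
    rw [WSys.wd_cons, Equiv.Perm.mul_apply, List.map_cons, List.foldr_cons, ← ih]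
    exact E'.hw i _

namespace TwC

include C in
theorem final (M : Subgroup (GL D.Idx K)) (hM : ∀ g, g ∈ M ↔ g ∈ Γ ∧ thet D φ g = g) (hSL : SLaced R) (a0 : Fin n')
    (hpush : ∀ a, Dr.Pos a → C.Qr a ∨ (a = a0 ∧ ∀ b, Dr.Pos b → C.T.fr a0 < C.T.fr b → C.Qr b) ∨ C.Push a) (j1 : Fin l')
    (hw0 : ∃ w ∈ Dr.wsys.W, w a0 = Dr.p j1) (r0 : ℕ) (hr0 : r0 ∈ TwF.lvL R f (C.T.fr (Dr.p j1)))
    (hgen : ∀ r ∈ TwF.lvL R f (C.T.fr (Dr.p j1)), ∃ k : ℕ, r = sr^[k] r0)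
    (hfull : ∀ Y : Subgroup (GL D.Idx K), Y ≤ Γ → (∀ g ∈ Γ, thet D φ g = g → g ∈ Y) → ∀ s0 ∈ C.AS Y (Dr.p j1) r0, φ s0 ≠ s0 →
      ∀ s, s ∈ C.AS Y (Dr.p j1) r0)
    (hsh : ∀ j, C.Qr (Dr.p j) ∨ ∃ w ∈ Dr.wsys.W, w (Dr.p j1) = Dr.p j)
    (hne : ∃ z ∈ A.R.X (Dr.p j1), φ (Tc iT r0 z) ≠ Tc iT r0 z) :
    M ≠ Γ ∧ ∀ H : Subgroup (GL D.Idx K), M ≤ H → H ≤ Γ → H = M ∨ H = Γ := by
  constructor
  · intro h
    obtain ⟨z, hz, hz1⟩ := hne
    have h1 : z ∈ M := by rw [h]; exact C.T.RX_Γ hz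
    have h2 := ((hM z).1 h1).2
    apply hz1
    rw [← thet_Tc, h2]
  · intro H hMH hHG
    have FY : ∀ g ∈ Γ, thet D φ g = g → g ∈ H := fun g hg hgf => hMH ((hM g).2 ⟨hg, hgf⟩)
    rcases C.dich hHG FY hSL a0 hpush with h1 | ⟨z, hz, hzX, hzf⟩
    · left
      refine le_antisymm (fun g hg => ?_) hMH
      rw [hM]
      exact ⟨hHG hg, (C.subHyp hHG FY h1).fix_all hg⟩
    · right
      obtain ⟨w, hw, hwa⟩ := hw0
      obtain ⟨g, hg, hgf, hga⟩ := C.conj_word hw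
      have hgH := FY g hg hgf
      have h1 := hga.conj hzX
      rw [hwa] at h1
      have h2 : thet D φ (g * z * g⁻¹) ≠ g * z * g⁻¹ := by
        intro h3
        rw [map_mul, map_mul, map_inv, hgf] at h3
        apply hzf
        have := mul_left_cancel (mul_right_cancel h3)
        exact this
      set z' := g * z * g⁻¹ with hz'
      have hz'H : z' ∈ H := mul_mem (mul_mem hgH hz) (inv_mem hgH)
      have h3 : φ (Tc iT r0 z') ≠ Tc iT r0 z' := by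
        intro h4
        apply h2
        apply C.det_coord (Dr.pos_p j1) hr0 hgen (C.T.Z.thet_X h1) h1
        rw [thet_Tc, h4]
      have h4 := hfull H hHG FY _ ⟨z', hz'H, h1, rfl⟩ h3
      have h5 := C.X_le_of_AS (Dr.pos_p j1) hr0 hgen h4
      exact le_antisymm hHG (C.top_of_X FY h5 hsh)

end TwC

end

end Cfsg.Agent.ChevU
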