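import Cfsg.Agent.ChevU.SubE6I
import Cfsg.Agent.ChevU.SubFin

set_option autoImplicit false
set_option linter.unusedSectionVars false
set_option linter.unusedVariables false
set_option maxRecDepth 100000

/-!
# The twisted groups of type E6: maximality of the subgroup over the subfield (helper17)
-/

namespace Cfsg.Agent.ChevU.SubE6

open Cfsg.Lie Cfsg.Agent.Chev Cfsg.Agent.ChevGrp Cfsg.Agent.ChevWeyl Cfsg.Agent.ChevTw Matrix

section inst

variable {K : Type*} [Field K] (φ : K ≃+* K) (hφφ : ∀ t, φ (φ t) = t) {q : ℕ} (hφ : ∀ t : K, φ t = t ^ q)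

theorem push6 (a : Fin chevF4.nroots) (ha : DData.dF4.rp.Pos a) (h44 : (a : ℕ) ≠ 44) (hQ : (a : ℕ) ∉ QL) : (twC6 φ hφφ hφ).Push a := by
  rcases t_cases a a.2 ((Pos_iff a).1 ha) with h | h | ⟨p, hp, hpa⟩
  · exact absurd h hQ
  · exact absurd h h44
  obtain ⟨h1, h2, h3, h4, h5, h6, h7, h8, h9, h10, h11, h12⟩ := t_push p hp
  rw [hpa] at h6 h8 h9 h10 h11
  have hfa : (twC6 φ hφφ hφ).T.fr a = fr6 a := rfl
  have hfb : (twC6 φ hφφ hφ).T.fr ⟨p.2.1, h2⟩ = fr6 p.2.1 := rfl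
  refine TwC.push_one (twC6 φ hφφ hφ) (b := ⟨p.2.1, h2⟩) (v := p.2.2.1) ((Pos_iff _).2 h3) h4 h5 ?_ ?_ ?_ p.2.2.2 ?_ ?_ ?_ ?_
  · rw [fz6 h4, h6]; rfl
  · intro r hr
    rw [hfb, lv6_eq] at hr
    exact gs_one (h7 r hr)
  · intro h
    exact h8 (congrArg Fin.val h)
  · rw [hfa, lv6_eq]; exact h9
  · intro r hr
    rw [hfa, lv6_eq] at hr
    rcases h10 r hr with h | h
    · exact ⟨0, h⟩
    · exact ⟨1, h⟩
  · intro r hr hne
    rw [hfa, lv6_eq] at hr
    rw [hfb, lv6_eq]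
    exact h11 r hr hne
  · rw [hfb, lv6_eq]
    exact h12

/-- the second simple root -/
def j1 : Fin chevF4.rank := ⟨1, by decide⟩

theorem p_val (j : Fin chevF4.rank) : ((DData.dF4.rp.p j : Fin _) : ℕ) = chevF4.simple j := DData.dF4.hp j

theorem p1_val : ((DData.dF4.rp.p j1 : Fin _) : ℕ) = 27 := by
  rw [p_val]; exact t_p.2.1

theorem lvL_p1 : TwF.lvL rfE6 f6 ((twC6 φ hφφ hφ).T.fr (DData.dF4.rp.p j1)) = [37, 42] := by
  have h : (twC6 φ hφφ hφ).T.fr (DData.dF4.rp.p j1) = fr6 ((DData.dF4.rp.p j1 : Fin _) : ℕ) := rfl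
  rw [h, p1_val, lv6_eq]
  exact t_27.1

theorem w_word (L : List (Fin chevF4.rank)) {a b : ℕ} (ha : a < 48) (hb : b < 48) (h : (L.map Fin.val).foldr (fun i s => chevF4.reflectRoot i s) a = b)
    {x y : Fin chevF4.nroots} (hx : (x : ℕ) = a) (hy : (y : ℕ) = b) : ∃ w ∈ DData.dF4.rp.wsys.W, w x = y := by
  refine ⟨DData.dF4.rp.wsys.wd L, DData.dF4.rp.wsys.wd_mem L, ?_⟩
  apply Fin.ext
  rw [wd_val, hx, h, hy]

theorem word1 : ([2, 0, 1, 3, 2, 1, 0] : List ℕ).foldr (fun i s => chevF4.reflectRoot i s) 44 = 27 := by decide +kernel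
theorem word2 : ([1, 0] : List ℕ).foldr (fun i s => chevF4.reflectRoot i s) 27 = 33 := by decide +kernel

end inst

variable {K : Type*} [Field K] [Fintype K]

theorem main (p : ℕ) [Fact p.Prime] [CharP K p] (q : ℕ) (hq : ∃ a : ℕ, 1 ≤ a ∧ q = p ^ a) (hK : Fintype.card K = q ^ 2) (M : Subgroup (GL chevE6.Idx K))
    (hM : ∀ g : GL chevE6.Idx K, g ∈ M ↔ g ∈ twistedE6 K q ∧ ∀ i j : chevE6.Idx, ((g : Matrix chevE6.Idx chevE6.Idx K) i j) ^ q =
      (g : Matrix chevE6.Idx chevE6.Idx K) i j) :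
    M ≠ twistedE6 K q ∧ ∀ H : Subgroup (GL chevE6.Idx K), M ≤ H → H ≤ twistedE6 K q → H = M ∨ H = twistedE6 K q := by
  have hpp : IsPrimePow q := by
    obtain ⟨a, ha, rfl⟩ := hq
    exact (Fact.out : p.Prime).isPrimePow.pow (by omega)
  obtain ⟨φ, hφ, hφφ⟩ := setup2 hpp hK
  have hq1 : 1 < q := hpp.one_lt
  have hM' : ∀ g, g ∈ M ↔ g ∈ twistedE6 K q ∧ thet chevE6 φ g = g := by
    intro g
    rw [hM]
    refine and_congr_right fun _ => ?_
    constructor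
    · intro h
      apply Units.ext
      ext i j
      rw [thet_apply, hφ, h]
    · intro h i j
      rw [← hφ, ← thet_apply, h]
  -- an element that is not fixed
  obtain ⟨s1, hs1⟩ : ∃ s : K, φ s ≠ s := by
    by_contra hc
    push Not at hc
    have h1 := card_fixed (K := K) hq1 two_ne_zero hK
    have h2 : Nat.card {t : K // t ^ q = t} = q ^ 2 := by
      rw [← hK, ← Nat.card_eq_fintype_card]
      exact Nat.card_congr (Equiv.subtypeUnivEquiv fun t => by rw [← hφ]; exact hc t)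
    rw [h1] at h2
    nlinarith
  obtain ⟨c1, c2, c3, c4, c5, c6, c7, c8⟩ := t_27
  have hL := lvL_p1 φ hφφ hφ
  have h42 : 42 ∈ TwF.lvL rfE6 f6 ((twC6 φ hφφ hφ).T.fr (DData.dF4.rp.p j1)) := by rw [hL]; simp
  have hP1 : DData.dF4.rp.Pos (DData.dF4.rp.p j1) := DData.dF4.rp.pos_p j1
  have hε : ∀ r ∈ TwF.lvL rfE6 f6 ((twC6 φ hφφ hφ).T.fr (DData.dF4.rp.p j1)), ((gs gpE6_1 r : ℤ) : K) = 1 := by
    intro r hr
    obtain ⟨h1, h2, h3⟩ := (TwF.mem_lvL r).1 hr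
    refine (twC6 φ hφφ hφ).ε1 ⟨r, h1⟩ ⟨j1, ?_⟩
    apply (twC6 φ hφφ hφ).T.fr_inj _ _ (((twC6 φ hφφ hφ).T.pos_iff ⟨r, h1⟩).2 h2) hP1
    rw [← (twC6 φ hφφ hφ).T.fr_cls ⟨r, h1⟩ h2]
    exact h3
  refine (twC6 φ hφφ hφ).final M hM' slaced6 ⟨44, by decide⟩ ?_ j1 ?_ 42 h42 ?_ ?_ ?_ ?_
  · intro a ha
    by_cases hQ : (a : ℕ) ∈ QL
    · exact Or.inl hQ
    by_cases h44 : (a : ℕ) = 44
    · right; left
      refine ⟨Fin.ext h44, fun b hb hlt => ?_⟩
      exact t_44 b b.2 ((Pos_iff b).1 hb) hlt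
    · right; right
      exact push6 φ hφφ hφ a ha h44 hQ
  · exact w_word [⟨2, by decide⟩, ⟨0, by decide⟩, ⟨1, by decide⟩, ⟨3, by decide⟩, ⟨2, by decide⟩, ⟨1, by decide⟩, ⟨0, by decide⟩] (a := 44) (b := 27)
      (by norm_num) (by norm_num) word1 rfl p1_val
  · intro r hr
    rw [hL] at hr
    simp only [List.mem_cons, List.not_mem_nil, or_false] at hr
    rcases hr with rfl | rfl
    · exact ⟨1, c2.symm⟩
    · exact ⟨0, rfl⟩
  · intro Y hYG FY s0 hs0 hs0' s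
    have hd : s0 - φ s0 ≠ 0 := sub_ne_zero.2 (Ne.symm hs0')
    set b : K := (s - φ s) / (s0 - φ s0) with hb
    have hbb : b * (s0 - φ s0) = s - φ s := div_mul_cancel₀ _ hd
    have hφb : φ b = b := by
      rw [hb, map_div₀, map_sub, map_sub, hφφ, hφφ]
      rw [← neg_sub s (φ s), ← neg_sub s0 (φ s0), neg_div_neg_eq]
    have hφa : φ (s - b * s0) = s - b * s0 := by
      rw [map_sub, map_mul, hφb]
      linear_combination hbb
    have h1 := (twC6 φ hφφ hφ).AS_fix FY hP1 h42 hε hφa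
    have h2 := (twC6 φ hφφ hφ).AS_smul FY hP1 h42 (b := ⟨25, by decide⟩) (by show (25 : ℕ) ∈ QL; decide) (by
      show ((DData.dF4.rp.neg ⟨25, by decide⟩ : Fin _) : ℕ) ∈ QL
      rw [DData.dF4.hneg]; exact c8) (r1 := 39) (by decide) (Fin.ext c6) (by
      apply Fin.ext
      rw [DData.dF4.hneg]; exact c7) (by
      intro r hr
      rw [hL] at hr
      simp only [List.mem_cons, List.not_mem_nil, or_false] at hr
      rcases hr with rfl | rfl
      · exact c4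
      · exact c5) hφb hs0
    have h3 := (twC6 φ hφφ hφ).AS_add hP1 h42 h1 h2
    rwa [sub_add_cancel] at h3
  · intro j
    obtain ⟨e0, e1, e2, e3⟩ := t_p
    obtain ⟨j, hj⟩ := j
    have hj' : j < 4 := hj
    interval_cases j
    · right
      refine w_word [⟨1, by decide⟩, ⟨0, by decide⟩] (a := 27) (b := 33) (by norm_num) (by norm_num) word2 p1_val ?_
      rw [p_val]; exact e0
    · right
      exact ⟨1, one_mem _, rfl⟩
    · left
      show ((DData.dF4.rp.p ⟨2, _⟩ : Fin _) : ℕ) ∈ QL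
      rw [p_val]
      show chevF4.simple 2 ∈ QL
      rw [e2]; decide
    · left
      show ((DData.dF4.rp.p ⟨3, _⟩ : Fin _) : ℕ) ∈ QL
      rw [p_val]
      show chevF4.simple 3 ∈ QL
      rw [e3]; decide
  · have h := (twC6 φ hφφ hφ).T.pl_mem_RX (c := (twC6 φ hφφ hφ).T.fr (DData.dF4.rp.p j1)) hP1 rfl (fun r => if r = 42 then s1 else φ s1) (by
      intro r hr
      rw [hε r hr, one_mul]
      rw [hL] at hr
      simp only [List.mem_cons, List.not_mem_nil, or_false] at hr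
      rcases hr with rfl | rfl
      · simp [c3, hφφ]
      · simp [c2])
    refine ⟨_, h, ?_⟩
    have h5 := (twC6 φ hφφ hφ).Tc_RX hP1 (fun r => if r = 42 then s1 else φ s1) h42
    simp only [if_true] at h5
    rw [h5]
    exact hs1

end Cfsg.Agent.ChevU.SubE6
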