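import Cfsg.Agent.ChevU.Par

set_option autoImplicit false
set_option linter.unusedSectionVars false
set_option linter.unusedVariables false

/-!
# Filtration of the unipotent subgroup by an integral functional (helper17)
-/

namespace Cfsg.Agent.ChevU

open Cfsg.Lie Matrix Subgroup

section gap

variable {ι : Type*} [Fintype ι] [DecidableEq ι] {K : Type*} [CommRing K]

/-- `M` raises the weight by at least `c` -/
def Gap (w : ι → ℤ) (c : ℤ) (M : Matrix ι ι K) : Prop := ∀ a b, M a b ≠ 0 → w b + c ≤ w a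

variable {w : ι → ℤ} {c d : ℤ} {M N : Matrix ι ι K}

theorem Gap.zero_apply (h : Gap w c M) {a b : ι} (hab : w a < w b + c) : M a b = 0 := by
  by_contra hc
  have := h a b hc
  omega

theorem Gap.add (h : Gap w c M) (h' : Gap w c N) : Gap w c (M + N) := by
  intro a b hab
  rcases add_ne hab with h1 | h1
  · exact h a b h1
  · exact h' a b h1

theorem Gap.neg (h : Gap w c M) : Gap w c (-M) := by
  intro a b hab
  apply h a b
  rw [Matrix.neg_apply] at hab
  exact neg_ne_zero.mp hab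

theorem Gap.sub (h : Gap w c M) (h' : Gap w c N) : Gap w c (M - N) := by
  rw [sub_eq_add_neg]; exact h.add h'.neg

theorem Gap.mul (h : Gap w c M) (h' : Gap w d N) : Gap w (c + d) (M * N) := by
  intro a b hab
  obtain ⟨e, h1, h2⟩ := exists_of_mul_ne hab
  have := h a e h1
  have := h' e b h2
  omega

theorem Gap.mono (h : Gap w c M) (hd : d ≤ c) : Gap w d M := by
  intro a b hab
  have := h a b hab
  omega

variable (K) in
/-- the subgroup of the elements raising the weight by at least `c` -/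
def GW (w : ι → ℤ) (c : ℤ) (hc : 0 ≤ c) : Subgroup (GL ι K) where
  carrier := {g | Gap w c ((g : Matrix ι ι K) - 1) ∧ Gap w c (((g⁻¹ : GL ι K) : Matrix ι ι K) - 1)}
  one_mem' := by
    constructor
    · rw [Units.val_one, sub_self]; intro a b h; exact absurd rfl h
    · rw [inv_one, Units.val_one, sub_self]; intro a b h; exact absurd rfl h
  mul_mem' := by
    have key : ∀ A B : Matrix ι ι K, Gap w c (A - 1) → Gap w c (B - 1) → Gap w c (A * B - 1) := by
      intro A B h1 h2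
      have e : A * B - 1 = (A - 1) + (B - 1) + (A - 1) * (B - 1) := by noncomm_ring
      rw [e]
      exact (h1.add h2).add ((h1.mul h2).mono (by omega))
    rintro a b ⟨h1, h2⟩ ⟨h3, h4⟩
    refine ⟨?_, ?_⟩
    · rw [Units.val_mul]; exact key _ _ h1 h3
    · rw [_root_.mul_inv_rev, Units.val_mul]; exact key _ _ h4 h2
  inv_mem' := by
    rintro a ⟨h1, h2⟩
    refine ⟨h2, ?_⟩
    rw [inv_inv]; exact h1

theorem GW.gap {hc : 0 ≤ c} {g : GL ι K} (h : g ∈ GW K w c hc) : Gap w c ((g : Matrix ι ι K) - 1) := h.1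

theorem GW.mono {hc : 0 ≤ c} {hd : 0 ≤ d} (h : d ≤ c) : GW K w c hc ≤ GW K w d hd :=
  fun _ hg => ⟨hg.1.mono h, hg.2.mono h⟩

/-- additivity of the entries of low degree -/
theorem GW.entry_mul {hc : 0 ≤ c} {g h : GL ι K} (hg : g ∈ GW K w c hc) (hh : h ∈ GW K w c hc) {a b : ι} (hab : a ≠ b)
    (hw : w a < w b + 2 * c) : ((g * h : GL ι K) : Matrix ι ι K) a b = (g : Matrix ι ι K) a b + (h : Matrix ι ι K) a b := by
  have e : ((g * h : GL ι K) : Matrix ι ι K) = ((g : Matrix ι ι K) - 1) * ((h : Matrix ι ι K) - 1) + g + h - 1 := by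
    rw [Units.val_mul]; noncomm_ring
  rw [e, Matrix.sub_apply, Matrix.add_apply, Matrix.add_apply, Matrix.one_apply_ne hab, sub_zero,
    ((GW.gap hg).mul (GW.gap hh)).zero_apply (by omega), zero_add]

theorem GW.entry_zero {hc : 0 ≤ c} {g : GL ι K} (hg : g ∈ GW K w c hc) {a b : ι} (hab : a ≠ b) (hw : w a < w b + c) :
    (g : Matrix ι ι K) a b = 0 := by
  have := (GW.gap hg).zero_apply hw
  rwa [Matrix.sub_apply, Matrix.one_apply_ne hab, sub_zero] at this

/-- leading entries of commutators -/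
theorem GW.entry_comm {hc : 0 ≤ c} {hd : 0 ≤ d} (hc1 : 1 ≤ c) (hd1 : 1 ≤ d) {hcd : 0 ≤ c + d} {g h : GL ι K} (hg : g ∈ GW K w c hc)
    (hh : h ∈ GW K w d hd) (hgh : g⁻¹ * h⁻¹ * g * h ∈ GW K w (c + d) hcd) {a b : ι} (hab : a ≠ b) (hw : w a < w b + (c + d) + 1) :
    ((g⁻¹ * h⁻¹ * g * h : GL ι K) : Matrix ι ι K) a b =
      (((g : Matrix ι ι K) - 1) * ((h : Matrix ι ι K) - 1) - ((h : Matrix ι ι K) - 1) * ((g : Matrix ι ι K) - 1)) a b := by
  obtain ⟨z, hz⟩ : ∃ z, z = g⁻¹ * h⁻¹ * g * h := ⟨_, rfl⟩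
  have e1 : g * h = h * g * z := by rw [hz]; group
  have e2 : (g : Matrix ι ι K) * (h : Matrix ι ι K) = (h : Matrix ι ι K) * g * z := by
    have := congrArg (fun x : GL ι K => (x : Matrix ι ι K)) e1
    simpa only [Units.val_mul] using this
  rw [← hz] at hgh ⊢
  obtain ⟨A, hA⟩ : ∃ A, A = (g : Matrix ι ι K) - 1 := ⟨_, rfl⟩
  obtain ⟨B, hB⟩ : ∃ B, B = (h : Matrix ι ι K) - 1 := ⟨_, rfl⟩
  obtain ⟨C, hC⟩ : ∃ C, C = (z : Matrix ι ι K) - 1 := ⟨_, rfl⟩
  have gA : (g : Matrix ι ι K) = A + 1 := by rw [hA]; abel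
  have gB : (h : Matrix ι ι K) = B + 1 := by rw [hB]; abel
  have gC : (z : Matrix ι ι K) = C + 1 := by rw [hC]; abel
  have h1 : Gap w c A := by rw [hA]; exact GW.gap hg
  have h2 : Gap w d B := by rw [hB]; exact GW.gap hh
  have h3 : Gap w (c + d) C := by rw [hC]; exact GW.gap hgh
  rw [gA, gB, gC] at e2
  rw [← hA, ← hB]
  have e3 : A * B - B * A = C + (A + B + B * A) * C := by
    have e4 : (A + 1) * (B + 1) = A * B + A + B + 1 := by noncomm_ring
    have e5 : (B + 1) * (A + 1) * (C + 1) = B * A + A + B + 1 + C + (A + B + B * A) * C := by noncomm_ring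
    rw [e4, e5] at e2
    have e6 : A * B = B * A + C + (A + B + B * A) * C := by
      have e7 : A * B + A + B + 1 - (A + B + 1) = B * A + A + B + 1 + C + (A + B + B * A) * C - (A + B + 1) := by rw [e2]
      have e8 : A * B + A + B + 1 - (A + B + 1) = A * B := by abel
      have e9 : B * A + A + B + 1 + C + (A + B + B * A) * C - (A + B + 1) = B * A + C + (A + B + B * A) * C := by abel
      rw [e8, e9] at e7
      exact e7
    rw [e6]; abel
  rw [e3, gC, Matrix.add_apply, Matrix.one_apply_ne hab, add_zero, Matrix.add_apply]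
  have h4 : Gap w 1 (A + B + B * A) := ((h1.mono hc1).add (h2.mono hd1)).add ((h2.mul h1).mono (by omega))
  rw [(h4.mul h3).zero_apply (by omega), add_zero]

end gap

section grp

variable {G : Type*} [Group G]

/-- commutators of closures -/
theorem comm_closure {S T : Set G} {N : Subgroup G} (hS : closure S ≤ normalizer (N : Set G)) (hT : closure T ≤ normalizer (N : Set G))
    (h : ∀ s ∈ S, ∀ t ∈ T, s⁻¹ * t⁻¹ * s * t ∈ N) : ∀ a ∈ closure S, ∀ b ∈ closure T, a⁻¹ * b⁻¹ * a * b ∈ N := by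
  have cS : ∀ a ∈ closure S, ∀ n ∈ N, a * n * a⁻¹ ∈ N := fun a ha n hn => (mem_normalizer_iff.mp (hS ha) n).mp hn
  have cT : ∀ a ∈ closure T, ∀ n ∈ N, a * n * a⁻¹ ∈ N := fun a ha n hn => (mem_normalizer_iff.mp (hT ha) n).mp hn
  have h1 : ∀ s ∈ S, ∀ b ∈ closure T, s⁻¹ * b⁻¹ * s * b ∈ N := by
    intro s hs b hb
    induction hb using closure_induction with
    | mem x hx => exact h s hs x hx
    | one => simp
    | mul x y hx hy ihx ihy =>
      have : s⁻¹ * (x * y)⁻¹ * s * (x * y) = (s⁻¹ * y⁻¹ * s * y) * (y⁻¹ * (s⁻¹ * x⁻¹ * s * x) * y) := by group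
      rw [this]
      have h2 := cT y⁻¹ (inv_mem hy) _ ihx
      rw [inv_inv] at h2
      exact mul_mem ihy h2
    | inv x hx ih =>
      have : s⁻¹ * x⁻¹⁻¹ * s * x⁻¹ = x * (s⁻¹ * x⁻¹ * s * x)⁻¹ * x⁻¹ := by group
      rw [this]
      exact cT x hx _ (inv_mem ih)
  intro a ha b hb
  induction ha using closure_induction with
  | mem x hx => exact h1 x hx b hb
  | one => simp
  | mul x y hx hy ihx ihy =>
    have : (x * y)⁻¹ * b⁻¹ * (x * y) * b = (y⁻¹ * (x⁻¹ * b⁻¹ * x * b) * y) * (y⁻¹ * b⁻¹ * y * b) := by group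
    rw [this]
    have h2 := cS y⁻¹ (inv_mem hy) _ ihx
    rw [inv_inv] at h2
    exact mul_mem h2 ihy
  | inv x hx ih =>
    have : x⁻¹⁻¹ * b⁻¹ * x⁻¹ * b = x * (x⁻¹ * b⁻¹ * x * b)⁻¹ * x⁻¹ := by group
    rw [this]
    exact cS x hx _ (inv_mem ih)

end grp

variable {D : ChevalleyDatum} (R : RootFacts D) (f : ℕ → ℤ) {F : Type*} [Field F] (G : Chev.Good D)

/-- the value of an integral functional on a root -/
def fz (r : ℕ) : ℤ := ∑ j ∈ Finset.range D.rank, R.vec r j * f j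

theorem fz_ev (r : ℕ) : R.ev (fun j => (f j : ℝ)) r = (fz R f r : ℝ) := by
  unfold RootFacts.ev fz
  push_cast
  rfl

theorem fz_lin {k r s : ℕ} {a b : ℤ} (h : ∀ j, R.vec k j = a * R.vec r j + b * R.vec s j) : fz R f k = a * fz R f r + b * fz R f s := by
  unfold fz
  rw [Finset.mul_sum, Finset.mul_sum, ← Finset.sum_add_distrib]
  refine Finset.sum_congr rfl fun i _ => ?_
  rw [h i]; ring

theorem fz_neg {r : ℕ} (hr : r < D.nroots) : fz R f (D.neg r) = - fz R f r := by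
  rw [fz_lin R f (k := D.neg r) (r := r) (s := r) (a := -1) (b := 0) (fun j => by rw [R.vec_neg' hr]; ring)]
  ring

/-- the integral weights -/
def wz : D.Idx → ℤ
  | Sum.inl _ => 0
  | Sum.inr s => fz R f s

theorem wz_wt (a : D.Idx) : R.wt (fun j => (f j : ℝ)) a = (wz R f a : ℝ) := by
  rcases a with i | s
  · show (0 : ℝ) = ((0 : ℤ) : ℝ); simp
  · exact fz_ev R f s

theorem xr_gap {r : ℕ} (hr : r < D.nroots) {c : ℤ} (hc : 0 ≤ c) (h : c ≤ fz R f r) (t : F) :
    xr R (elemOfGood G F) r t ∈ GW F (wz R f) c hc := by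
  have key : ∀ t : F, Gap (wz R f) c (D.x F r t - 1) := by
    intro t a b hab
    obtain ⟨k, hk, h1⟩ := R.entry_x (fun j => (f j : ℝ)) hr t hab
    rw [wz_wt, wz_wt, fz_ev] at h1
    have h2 : wz R f a = wz R f b + k * fz R f r := by exact_mod_cast h1
    have h3 : (1 : ℤ) ≤ k := by exact_mod_cast hk
    nlinarith
  exact ⟨key t, by rw [xr_inv]; exact key (-t)⟩

/-- the terms of the filtration -/
def FF (F : Type*) [Field F] (c : ℤ) : Subgroup (GL D.Idx F) := clo D F (fun r => r < D.nroots ∧ R.half ≤ r ∧ c ≤ fz R f r)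

/-- properties of the functional -/
structure FData (R : RootFacts D) (f : ℕ → ℤ) (iT : ℕ → ℕ) : Prop where
  pos : ∀ r, R.half ≤ r → r < D.nroots → 1 ≤ fz R f r
  iT_lt : ∀ r, R.half ≤ r → r < D.nroots → iT r < D.rank
  cor_iT : ∀ r, R.half ≤ r → r < D.nroots → cor D r (iT r) = 1
  lvl : ∀ r s, R.half ≤ r → r < D.nroots → R.half ≤ s → s < D.nroots → r ≠ s → fz R f r = fz R f s → D.commTerms r s = []

variable {R f}

include G in
theorem FF_le_GW {c : ℤ} (hc : 0 ≤ c) : FF R f F c ≤ GW F (wz R f) c hc :=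
  clo_le R (elemOfGood G F) fun s hs t => xr_gap R f G hs.1 hc hs.2.2 t

theorem FF_mono {c d : ℤ} (h : d ≤ c) : FF R f F c ≤ FF R f F d :=
  clo_mono fun s hs => ⟨hs.1, hs.2.1, h.trans hs.2.2⟩

theorem xr_mem_FF {r : ℕ} (hr : r < D.nroots) (hp : R.half ≤ r) {c : ℤ} (hc : c ≤ fz R f r) (t : F) :
    xr R (elemOfGood G F) r t ∈ FF R f F c := xr_mem_clo R _ (P := fun r => r < D.nroots ∧ R.half ≤ r ∧ c ≤ fz R f r) ⟨hr, hp, hc⟩ t

theorem pos_eq_FF {iT : ℕ → ℕ} (Q : FData R f iT) : D.posUnipotent F = FF R f F 1 := by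
  rw [posUnipotent_eq_clo]
  apply le_antisymm
  · exact clo_mono fun s hs => ⟨hs.1, (R.pos_iff s hs.1).mp hs, Q.pos s ((R.pos_iff s hs.1).mp hs) hs.1⟩
  · exact clo_mono fun s hs => (R.pos_iff s hs.1).mpr hs.2.1

variable {iT : ℕ → ℕ} (Q : FData R f iT)
include G Q

theorem commWord_FF {r s : ℕ} (hr : r < D.nroots) (hs : s < D.nroots) (hrp : R.half ≤ r) (hsp : R.half ≤ s) (hne : s ≠ r) (t u : F) :
    wu R.tab (elemOfGood G F) (D.commWord F r s t u) ∈ FF R f F (fz R f r + fz R f s) := by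
  apply wu_mem
  intro p hp
  obtain ⟨c, hc, rfl⟩ := List.mem_map.mp hp
  obtain ⟨h1, h2, h3, h4⟩ := R.commTerms_vec hr hs c hc
  obtain ⟨h5, h6, -, -⟩ := commT_lt R.tab hr hs hrp hsp hne c hc
  refine xr_mem_FF G h1 h6 ?_ _
  rw [fz_lin R f h4]
  have h7 := Q.pos r hrp hr
  have h8 := Q.pos s hsp hs
  have h9 : (1 : ℤ) ≤ c.2.2.1 := by exact_mod_cast h2
  have h10 : (1 : ℤ) ≤ c.2.2.2 := by exact_mod_cast h3
  nlinarith

omit G Q in
theorem ne_neg_of_pos {r s : ℕ} (hr : r < D.nroots) (hrp : R.half ≤ r) (hsp : R.half ≤ s) : s ≠ D.neg r := by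
  rw [R.neg_eq r hr]
  have := R.n_eq
  omega

/-- commutators of root elements -/
theorem comm_xr {r s : ℕ} (hr : r < D.nroots) (hs : s < D.nroots) (hrp : R.half ≤ r) (hsp : R.half ≤ s) (hne : s ≠ r) (t u : F) :
    (xr R (elemOfGood G F) s u)⁻¹ * (xr R (elemOfGood G F) r t)⁻¹ * xr R (elemOfGood G F) s u * xr R (elemOfGood G F) r t =
      wu R.tab (elemOfGood G F) (D.commWord F r s t u) := by
  have h := conj_xu R.tab (elemOfGood G F) hr hs hne (ne_neg_of_pos hr hrp hsp) t u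
  have : (xr R (elemOfGood G F) s u)⁻¹ * (xr R (elemOfGood G F) r t)⁻¹ * xr R (elemOfGood G F) s u * xr R (elemOfGood G F) r t =
      (xr R (elemOfGood G F) s u)⁻¹ * ((xr R (elemOfGood G F) r t)⁻¹ * xr R (elemOfGood G F) s u * xr R (elemOfGood G F) r t) := by group
  rw [this]
  show (xr R (elemOfGood G F) s u)⁻¹ * ((xu R.tab (elemOfGood G F) r t)⁻¹ * xu R.tab (elemOfGood G F) s u * xu R.tab (elemOfGood G F) r t) = _
  rw [h, inv_mul_cancel_left]

theorem comm_xr_mem {r s : ℕ} (hr : r < D.nroots) (hs : s < D.nroots) (hrp : R.half ≤ r) (hsp : R.half ≤ s) (t u : F) :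
    (xr R (elemOfGood G F) s u)⁻¹ * (xr R (elemOfGood G F) r t)⁻¹ * xr R (elemOfGood G F) s u * xr R (elemOfGood G F) r t ∈
      FF R f F (fz R f r + fz R f s) := by
  by_cases hne : s = r
  · subst hne
    have : (xr R (elemOfGood G F) s u)⁻¹ * (xr R (elemOfGood G F) s t)⁻¹ * xr R (elemOfGood G F) s u * xr R (elemOfGood G F) s t = 1 := by
      rw [xr_inv, xr_inv, xr_add, xr_add, xr_add]
      have : -u + -t + u + t = 0 := by ring
      rw [this, xr_zero]
    rw [this]; exact one_mem _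
  · rw [comm_xr G Q hr hs hrp hsp hne]
    exact commWord_FF G Q hr hs hrp hsp hne t u

theorem FF_norm (c : ℤ) : FF R f F 1 ≤ normalizer (FF R f F c : Set (GL D.Idx F)) := by
  unfold FF clo
  apply closure_le_normalizer
  · rintro g ⟨s, u, h1, h2⟩
    rw [← eq_xu_iff R.tab (elemOfGood G F)] at h2
    rw [h2]
    exact ⟨s, -u, h1, by rw [xu_inv]; rfl⟩
  · rintro g ⟨r, t, h1, h2⟩ a ⟨s, u, h3, h4⟩
    rw [← eq_xu_iff R.tab (elemOfGood G F)] at h2 h4
    rw [h2, h4]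
    have h5 : (xr R (elemOfGood G F) r t)⁻¹ * xr R (elemOfGood G F) s u * xr R (elemOfGood G F) r t =
      xr R (elemOfGood G F) s u * ((xr R (elemOfGood G F) s u)⁻¹ * (xr R (elemOfGood G F) r t)⁻¹ * xr R (elemOfGood G F) s u * xr R (elemOfGood G F) r t) := by group
    show (xr R (elemOfGood G F) r t)⁻¹ * xr R (elemOfGood G F) s u * xr R (elemOfGood G F) r t ∈ FF R f F c
    rw [h5]
    refine mul_mem (xr_mem_FF G h3.1 h3.2.1 h3.2.2 u) ?_
    refine FF_mono ?_ (comm_xr_mem G Q h1.1 h3.1 h1.2.1 h3.2.1 t u)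
    have := Q.pos r h1.2.1 h1.1
    have := h3.2.2
    omega

theorem FF_norm' {c d : ℤ} (hc : 1 ≤ c) : FF R f F c ≤ normalizer (FF R f F d : Set (GL D.Idx F)) :=
  (FF_mono hc).trans (FF_norm G Q d)

/-- commutators in the filtration -/
theorem comm_FF {c d : ℤ} (hc : 1 ≤ c) (hd : 1 ≤ d) : ∀ a ∈ FF R f F c, ∀ b ∈ FF R f F d, a⁻¹ * b⁻¹ * a * b ∈ FF R f F (c + d) := by
  have h1 := FF_norm' (F := F) G Q (c := c) (d := c + d) hc
  have h2 := FF_norm' (F := F) G Q (c := d) (d := c + d) hd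
  intro a ha b hb
  refine comm_closure h1 h2 ?_ a ha b hb
  rintro g ⟨s, u, h3, h4⟩ g' ⟨r, t, h5, h6⟩
  rw [← eq_xu_iff R.tab (elemOfGood G F)] at h4 h6
  rw [h4, h6]
  refine FF_mono ?_ (comm_xr_mem G Q h5.1 h3.1 h5.2.1 h3.2.1 t u)
  have := h3.2.2
  have := h5.2.2
  omega

omit G Q in
/-- the leading coordinate -/
def Tc (iT : ℕ → ℕ) (r : ℕ) (g : GL D.Idx F) : F :=
  if h : iT r < D.rank ∧ D.neg r < D.nroots then (g : Matrix D.Idx D.Idx F) (Sum.inl ⟨iT r, h.1⟩) (Sum.inr ⟨D.neg r, h.2⟩) else 0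

theorem Tc_eq {r : ℕ} (hr : r < D.nroots) (hp : R.half ≤ r) (g : GL D.Idx F) :
    Tc iT r g = (g : Matrix D.Idx D.Idx F) (Sum.inl ⟨iT r, Q.iT_lt r hp hr⟩) (Sum.inr ⟨D.neg r, R.neg_lt hr⟩) := by
  unfold Tc
  rw [dif_pos ⟨Q.iT_lt r hp hr, R.neg_lt hr⟩]

theorem Tc_mul {r : ℕ} (hr : r < D.nroots) (hp : R.half ≤ r) {g h : GL D.Idx F} {c : ℤ} (hc : fz R f r < 2 * c) (hc0 : 0 ≤ c)
    (hg : g ∈ FF R f F c) (hh : h ∈ FF R f F c) : Tc iT r (g * h) = Tc iT r g + Tc iT r h := by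
  rw [Tc_eq G Q hr hp, Tc_eq G Q hr hp, Tc_eq G Q hr hp]
  refine GW.entry_mul (FF_le_GW G hc0 hg) (FF_le_GW G hc0 hh) (by simp) ?_
  show (0 : ℤ) < fz R f (D.neg r) + 2 * c
  rw [fz_neg R f hr]
  omega

theorem Tc_zero {r : ℕ} (hr : r < D.nroots) (hp : R.half ≤ r) {g : GL D.Idx F} {c : ℤ} (hc : fz R f r < c) (hg : g ∈ FF R f F c) :
    Tc iT r g = 0 := by
  have h0 := Q.pos r hp hr
  rw [Tc_eq G Q hr hp]
  refine GW.entry_zero (FF_le_GW G (show 0 ≤ c by omega) hg) (by simp) ?_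
  show (0 : ℤ) < fz R f (D.neg r) + c
  rw [fz_neg R f hr]
  omega

theorem Tc_one {r : ℕ} (hr : r < D.nroots) (hp : R.half ≤ r) : Tc iT r (1 : GL D.Idx F) = 0 := by
  rw [Tc_eq G Q hr hp, Units.val_one, Matrix.one_apply_ne (by simp)]

theorem Tc_inv {r : ℕ} (hr : r < D.nroots) (hp : R.half ≤ r) {g : GL D.Idx F} {c : ℤ} (hc : fz R f r < 2 * c) (hc0 : 0 ≤ c)
    (hg : g ∈ FF R f F c) : Tc iT r g⁻¹ = - Tc iT r g := by
  have h1 := Tc_mul G Q hr hp hc hc0 hg (inv_mem hg)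
  rw [mul_inv_cancel, Tc_one G Q hr hp] at h1
  linear_combination -h1

theorem Tc_xr {r s : ℕ} (hr : r < D.nroots) (hp : R.half ≤ r) (hs : s < D.nroots) (hsp : R.half ≤ s) (t : F) :
    Tc iT r (xr R (elemOfGood G F) s t) = if s = r then t else 0 := by
  rw [Tc_eq G Q hr hp, coe_xr, x_of_lt F hs, xMat_inl_inr]
  have h1 : (⟨D.neg r, R.neg_lt hr⟩ : Fin D.nroots) ≠ ⟨s, hs⟩ := by
    intro h
    have h2 : D.neg r = s := congrArg Fin.val h
    exact ne_neg_of_pos (R := R) hr hp hsp h2.symm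
  rw [if_neg h1]
  by_cases h2 : s = r
  · subst h2
    rw [if_pos rfl]
    have h3 : ((D.coroot.getD s #[]).getD (iT s) 0 : ℤ) = 1 := Q.cor_iT s hp hr
    have h4 : (⟨D.neg s, R.neg_lt hr⟩ : Fin D.nroots).val = D.negIdx.getD (⟨s, hs⟩ : Fin D.nroots).val 0 := rfl
    rw [if_pos h4]
    show (((D.coroot.getD s #[]).getD (iT s) 0 : ℤ) : F) * t = t
    rw [h3, Int.cast_one, one_mul]
  · rw [if_neg h2, if_neg]
    intro h3
    apply h2
    have h4 : D.neg r = D.neg s := h3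
    rw [← R.neg_neg hr, h4, R.neg_neg hs]

/-- leading coordinates of commutators -/
theorem Tc_comm_mul_left {r : ℕ} (hr : r < D.nroots) (hp : R.half ≤ r) {c d : ℤ} (hc : 1 ≤ c) (hd : 1 ≤ d) (hcd : fz R f r = c + d)
    {g g' h : GL D.Idx F} (hg : g ∈ FF R f F c) (hg' : g' ∈ FF R f F c) (hh : h ∈ FF R f F d) :
    Tc iT r ((g * g')⁻¹ * h⁻¹ * (g * g') * h) = Tc iT r (g⁻¹ * h⁻¹ * g * h) + Tc iT r (g'⁻¹ * h⁻¹ * g' * h) := by
  have e : (g * g')⁻¹ * h⁻¹ * (g * g') * h = (g⁻¹ * h⁻¹ * g * h) * (((g⁻¹ * h⁻¹ * g * h)⁻¹ * g'⁻¹ * (g⁻¹ * h⁻¹ * g * h) * g')) * (g'⁻¹ * h⁻¹ * g' * h) := by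
    group
  have h1 := comm_FF G Q hc hd g hg h hh
  have h2 := comm_FF G Q hc hd g' hg' h hh
  have h3 := comm_FF G Q (show 1 ≤ c + d by omega) hc _ h1 g' hg'
  rw [e, Tc_mul G Q hr hp (c := c + d) (by omega) (by omega) (mul_mem h1 (FF_mono (by omega) h3)) h2,
    Tc_mul G Q hr hp (c := c + d) (by omega) (by omega) h1 (FF_mono (by omega) h3),
    Tc_zero G Q hr hp (c := c + d + c) (by omega) h3, add_zero]

theorem Tc_comm_mul_right {r : ℕ} (hr : r < D.nroots) (hp : R.half ≤ r) {c d : ℤ} (hc : 1 ≤ c) (hd : 1 ≤ d) (hcd : fz R f r = c + d)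
    {g h h' : GL D.Idx F} (hg : g ∈ FF R f F c) (hh : h ∈ FF R f F d) (hh' : h' ∈ FF R f F d) :
    Tc iT r (g⁻¹ * (h * h')⁻¹ * g * (h * h')) = Tc iT r (g⁻¹ * h⁻¹ * g * h) + Tc iT r (g⁻¹ * h'⁻¹ * g * h') := by
  have e : g⁻¹ * (h * h')⁻¹ * g * (h * h') = (g⁻¹ * h'⁻¹ * g * h') * ((g⁻¹ * h⁻¹ * g * h) * ((g⁻¹ * h⁻¹ * g * h)⁻¹ * h'⁻¹ * (g⁻¹ * h⁻¹ * g * h) * h')) := by
    group
  have h1 := comm_FF G Q hc hd g hg h hh
  have h2 := comm_FF G Q hc hd g hg h' hh'
  have h3 := comm_FF G Q (show 1 ≤ c + d by omega) hd _ h1 h' hh'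
  rw [e, Tc_mul G Q hr hp (c := c + d) (by omega) (by omega) h2 (mul_mem h1 (FF_mono (by omega) h3)),
    Tc_mul G Q hr hp (c := c + d) (by omega) (by omega) h1 (FF_mono (by omega) h3),
    Tc_zero G Q hr hp (c := c + d + d) (by omega) h3, add_zero, add_comm]

omit G Q in
/-- the coefficient of the commutator word at a root -/
def cf (D : ChevalleyDatum) (r s v : ℕ) : ℤ := match D.commTerms r s with
  | [(w, n, 1, 1)] => if w = v then n else 0
  | _ => 0

/-- the leading coordinate of the commutator of two root elements -/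
theorem Tc_comm_xr {r s v : ℕ} (hr : r < D.nroots) (hrp : R.half ≤ r) (hs : s < D.nroots) (hsp : R.half ≤ s) (hv : v < D.nroots) (hvp : R.half ≤ v)
    (hne : s ≠ r) (h : D.commTerms r s = [] ∨ ∃ w n, w < D.nroots ∧ R.half ≤ w ∧ D.commTerms r s = [(w, n, 1, 1)]) (t u : F) :
    Tc iT v ((xr R (elemOfGood G F) s u)⁻¹ * (xr R (elemOfGood G F) r t)⁻¹ * xr R (elemOfGood G F) s u * xr R (elemOfGood G F) r t) =
      (cf D r s v : F) * (-t) * u := by
  rw [comm_xr G Q hr hs hrp hsp hne]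
  rcases h with h | ⟨w, n, hw, hwp, h⟩
  · unfold ChevalleyDatum.commWord cf
    rw [h]
    simp only [List.map_nil, wu, List.prod_nil, Tc_one G Q hv hvp]
    simp
  · unfold ChevalleyDatum.commWord cf
    rw [h]
    simp only [List.map_cons, List.map_nil, wu, List.prod_cons, List.prod_nil, mul_one, pow_one]
    have := Tc_xr G Q hv hvp hw hwp ((n : F) * -t * u)
    rw [this]
    split_ifs <;> simp

omit Q in
/-- products over lists of roots -/
noncomputable def pl (R : RootFacts D) (G : Chev.Good D) (L : List ℕ) (t : ℕ → F) : GL D.Idx F := (L.map fun r => xr R (elemOfGood G F) r (t r)).prod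

omit Q in
theorem pl_nil (t : ℕ → F) : pl R G [] t = 1 := rfl
omit Q in
theorem pl_cons (a : ℕ) (L : List ℕ) (t : ℕ → F) : pl R G (a :: L) t = xr R (elemOfGood G F) a (t a) * pl R G L t := by
  simp [pl]

omit Q in
theorem pl_mem {L : List ℕ} {c : ℤ} (hL : ∀ r ∈ L, r < D.nroots ∧ R.half ≤ r ∧ c ≤ fz R f r) (t : ℕ → F) : pl R G L t ∈ FF R f F c := by
  apply Subgroup.list_prod_mem
  intro x hx
  obtain ⟨r, hr, rfl⟩ := List.mem_map.mp hx
  obtain ⟨h1, h2, h3⟩ := hL r hr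
  exact xr_mem_FF G h1 h2 h3 _

theorem Tc_pl {L : List ℕ} {c : ℤ} (hc : 0 ≤ c) (hL : ∀ r ∈ L, r < D.nroots ∧ R.half ≤ r ∧ c ≤ fz R f r) (t : ℕ → F) {v : ℕ} (hv : v < D.nroots)
    (hvp : R.half ≤ v) (hvc : fz R f v < 2 * c) : Tc iT v (pl R G L t) = (L.map fun r => if r = v then t r else 0).sum := by
  induction L with
  | nil => rw [pl_nil, Tc_one G Q hv hvp]; simp
  | cons a L ih =>
    have h1 := hL a List.mem_cons_self
    have h2 := fun r hr => hL r (List.mem_cons_of_mem _ hr)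
    rw [pl_cons, Tc_mul G Q hv hvp hvc hc (xr_mem_FF G h1.1 h1.2.1 h1.2.2 _) (pl_mem G h2 t), Tc_xr G Q hv hvp h1.1 h1.2.1, ih h2]
    simp

theorem Tc_pl_self {L : List ℕ} (hnd : L.Nodup) {c : ℤ} (hc : 0 ≤ c) (hL : ∀ r ∈ L, r < D.nroots ∧ R.half ≤ r ∧ c ≤ fz R f r) (t : ℕ → F) {v : ℕ}
    (hvL : v ∈ L) (hvc : fz R f v < 2 * c) : Tc iT v (pl R G L t) = t v := by
  rw [Tc_pl G Q hc hL t (hL v hvL).1 (hL v hvL).2.1 hvc]
  clear hL
  induction L with
  | nil => simp at hvL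
  | cons a L ih =>
    rw [List.nodup_cons] at hnd
    rw [List.map_cons, List.sum_cons]
    by_cases h : a = v
    · subst h
      rw [if_pos rfl]
      have : (L.map fun r => if r = a then t r else 0).sum = 0 := by
        apply List.sum_eq_zero
        intro x hx
        obtain ⟨r, hr, rfl⟩ := List.mem_map.mp hx
        rw [if_neg]
        rintro rfl
        exact hnd.1 hr
      rw [this, add_zero]
    · rw [if_neg h, zero_add]
      refine ih hnd.2 ?_
      rcases List.mem_cons.mp hvL with h1 | h1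
      · exact absurd h1.symm h
      · exact h1

/-- root elements in one level commute -/
theorem comm_lvl {r s : ℕ} (hr : r < D.nroots) (hrp : R.half ≤ r) (hs : s < D.nroots) (hsp : R.half ≤ s) (h : fz R f r = fz R f s) (t u : F) :
    Commute (xr R (elemOfGood G F) s u) (xr R (elemOfGood G F) r t) := by
  by_cases hne : s = r
  · subst hne
    show _ * _ = _ * _
    rw [xr_add, xr_add, add_comm]
  · have h1 := comm_xu R.tab (elemOfGood G F) hr hs hne (ne_neg_of_pos hr hrp hsp) t u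
    have h2 := Q.lvl r s hrp hr hsp hs (Ne.symm hne) h
    unfold ChevalleyDatum.commWord at h1
    rw [h2] at h1
    simp only [List.map_nil, wu, List.prod_nil, mul_one] at h1
    exact h1

theorem comm_pl {L : List ℕ} {c : ℤ} (hL : ∀ r ∈ L, r < D.nroots ∧ R.half ≤ r ∧ fz R f r = c) (t : ℕ → F) {r : ℕ} (hr : r < D.nroots)
    (hrp : R.half ≤ r) (h : fz R f r = c) (u : F) : Commute (xr R (elemOfGood G F) r u) (pl R G L t) := by
  induction L with
  | nil => rw [pl_nil]; exact Commute.one_right _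
  | cons a L ih =>
    rw [pl_cons]
    obtain ⟨h1, h2, h3⟩ := hL a List.mem_cons_self
    exact (comm_lvl G Q h1 h2 hr hrp (h3.trans h.symm) _ _).mul_right (ih fun r hr => hL r (List.mem_cons_of_mem _ hr))

theorem pl_add {L : List ℕ} {c : ℤ} (hL : ∀ r ∈ L, r < D.nroots ∧ R.half ≤ r ∧ fz R f r = c) (t t' : ℕ → F) :
    pl R G L t * pl R G L t' = pl R G L (fun r => t r + t' r) := by
  induction L with
  | nil => rw [pl_nil, pl_nil, pl_nil, one_mul]
  | cons a L ih =>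
    obtain ⟨h1, h2, h3⟩ := hL a List.mem_cons_self
    have h4 := fun r hr => hL r (List.mem_cons_of_mem _ hr)
    rw [pl_cons, pl_cons, pl_cons, ← ih h4, ← xr_add]
    have := (comm_pl G Q h4 t h1 h2 h3 (t' a)).eq
    calc xr R (elemOfGood G F) a (t a) * pl R G L t * (xr R (elemOfGood G F) a (t' a) * pl R G L t')
        = xr R (elemOfGood G F) a (t a) * (pl R G L t * xr R (elemOfGood G F) a (t' a)) * pl R G L t' := by group
      _ = _ := by rw [← this]; group

omit Q in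
theorem pl_zero (L : List ℕ) : pl R G L (fun _ => (0 : F)) = 1 := by
  induction L with
  | nil => rfl
  | cons a L ih => rw [pl_cons, ih, xr_zero, one_mul]

theorem pl_inv {L : List ℕ} {c : ℤ} (hL : ∀ r ∈ L, r < D.nroots ∧ R.half ≤ r ∧ fz R f r = c) (t : ℕ → F) :
    (pl R G L t)⁻¹ = pl R G L (fun r => - t r) := by
  rw [inv_eq_iff_mul_eq_one, pl_add G Q hL]
  have : (fun r => t r + - t r) = fun _ => (0 : F) := by funext r; ring
  rw [this, pl_zero]

/-- elements of the filtration modulo the next term -/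
theorem exists_pl {L : List ℕ} {c : ℤ} (hc : 1 ≤ c) (hnd : L.Nodup) (hL : ∀ r, r ∈ L ↔ r < D.nroots ∧ R.half ≤ r ∧ fz R f r = c) {g : GL D.Idx F} (hg : g ∈ FF R f F c) :
    ∃ t : ℕ → F, ∃ v ∈ FF R f F (c + 1), g = pl R G L t * v := by
  have hL' := fun r hr => (hL r).mp hr
  have hpl : ∀ t : ℕ → F, pl R G L t ∈ FF R f F 1 := fun t => pl_mem G (fun r hr => ⟨(hL' r hr).1, (hL' r hr).2.1, by rw [(hL' r hr).2.2]; exact hc⟩) t
  have hn := FF_norm (F := F) G Q (c + 1)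
  have hcj : ∀ a ∈ FF R f F 1, ∀ v ∈ FF R f F (c + 1), a⁻¹ * v * a ∈ FF R f F (c + 1) := by
    intro a ha v hv
    have := (mem_normalizer_iff.mp (hn (inv_mem ha)) v).mp hv
    rwa [inv_inv] at this
  unfold FF clo at hg
  induction hg using closure_induction with
  | mem x hx =>
    obtain ⟨s, u, h1, h2⟩ := hx
    rw [← eq_xu_iff R.tab (elemOfGood G F)] at h2
    rw [h2]
    by_cases hs : fz R f s = c
    · have hsL : s ∈ L := (hL s).mpr ⟨h1.1, h1.2.1, hs⟩
      refine ⟨fun r => if r = s then u else 0, 1, one_mem _, ?_⟩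
      rw [mul_one]
      clear hpl hL' hL
      induction L with
      | nil => simp at hsL
      | cons a L ih =>
        rw [List.nodup_cons] at hnd
        rw [pl_cons]
        by_cases h : a = s
        · subst h
          rw [if_pos rfl]
          have : pl R G L (fun r => if r = a then u else 0) = 1 := by
            unfold pl
            apply List.prod_eq_one
            intro x hx
            obtain ⟨r, hr, rfl⟩ := List.mem_map.mp hx
            show xr R (elemOfGood G F) r (if r = a then u else 0) = 1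
            rw [if_neg, xr_zero]
            rintro rfl
            exact hnd.1 hr
          rw [this, mul_one]
        · rw [if_neg h, xr_zero, one_mul]
          refine ih hnd.2 ?_
          rcases List.mem_cons.mp hsL with h3 | h3
          · exact absurd h3.symm h
          · exact h3
    · refine ⟨fun _ => 0, _, xr_mem_FF G h1.1 h1.2.1 ?_ u, ?_⟩
      · have := h1.2.2; omega
      · rw [pl_zero, one_mul]
  | one => exact ⟨fun _ => 0, 1, one_mem _, by rw [pl_zero, one_mul]⟩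
  | mul x y _ _ ihx ihy =>
    obtain ⟨t, v, hv, rfl⟩ := ihx
    obtain ⟨t', v', hv', rfl⟩ := ihy
    refine ⟨fun r => t r + t' r, ((pl R G L t')⁻¹ * v * pl R G L t') * v', mul_mem (hcj _ (hpl t') _ hv) hv', ?_⟩
    rw [← pl_add G Q hL']; group
  | inv x _ ih =>
    obtain ⟨t, v, hv, rfl⟩ := ih
    refine ⟨fun r => - t r, pl R G L t * v⁻¹ * (pl R G L t)⁻¹, ?_, ?_⟩
    · have := hcj _ (inv_mem (hpl t)) _ (inv_mem hv)
      rwa [inv_inv] at this
    · rw [← pl_inv G Q hL']; group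

/-- the coordinates -/
theorem Tc_decomp {L : List ℕ} {c : ℤ} (hc : 1 ≤ c) (hnd : L.Nodup) (hL : ∀ r, r ∈ L ↔ r < D.nroots ∧ R.half ≤ r ∧ fz R f r = c)
    (t : ℕ → F) {v : GL D.Idx F} (hv : v ∈ FF R f F (c + 1)) {r : ℕ} (hr : r ∈ L) : Tc iT r (pl R G L t * v) = t r := by
  have h1 := (hL r).mp hr
  have hL' : ∀ r ∈ L, r < D.nroots ∧ R.half ≤ r ∧ c ≤ fz R f r := fun r hr => by
    have := (hL r).mp hr
    exact ⟨this.1, this.2.1, this.2.2.ge⟩
  rw [Tc_mul G Q h1.1 h1.2.1 (c := c) (by omega) (by omega) (pl_mem G hL' t) (FF_mono (by omega) hv),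
    Tc_pl_self G Q hnd (by omega) hL' t hr (by omega), Tc_zero G Q h1.1 h1.2.1 (c := c + 1) (by omega) hv, add_zero]

omit Q in
theorem pl_congr {L : List ℕ} {t t' : ℕ → F} (h : ∀ r ∈ L, t r = t' r) : pl R G L t = pl R G L t' := by
  unfold pl
  congr 1
  apply List.map_congr_left
  intro r hr
  rw [h r hr]

end Cfsg.Agent.ChevU
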