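import Cfsg.Agent.ChevU.SubTwD

set_option autoImplicit false
set_option linter.unusedSectionVars false
set_option linter.unusedVariables false

/-!
# Twisted groups: criteria for pushing up (helper17)
-/

namespace Cfsg.Agent.ChevU

open Cfsg.Lie Cfsg.Agent.Chev Cfsg.Agent.ChevGrp Cfsg.Agent.ChevWeyl Cfsg.Agent.ChevTw Matrix

/-- sum of the coefficients -/
def kap (D : ChevalleyDatum) (B : List ℕ) (v r : ℕ) : ℤ := (B.map fun s => cf D s r v).sum

theorem cs_kap {D : ChevalleyDatum} {F : Type*} [Field F] (L B : List ℕ) (v : ℕ) (t : ℕ → F) :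
    cs D L B v t (fun _ => 1) = (L.map fun r => -((kap D B v r : ℤ) : F) * t r).sum := by
  unfold cs
  congr 1
  apply List.map_congr_left
  intro r _
  unfold kap
  induction B with
  | nil => simp
  | cons s B ih =>
    simp only [List.map_cons, List.sum_cons] at ih ⊢
    rw [ih]
    push_cast
    ring

section

variable {D : ChevalleyDatum} {K : Type*} [Field K] {l' n' : ℕ} {Dr : RootPerm l' n'} {Γ : Subgroup (GL D.Idx K)}
variable {A : TwInst D K Dr.wsys Γ} {R : RootFacts D} {φ : K ≃+* K} {f : ℕ → ℤ} {iT sr : ℕ → ℕ} {ε : ℕ → K} (C : TwC A R φ f iT sr ε)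

namespace TwC

/-- a class with one contribution -/
theorem push_one {a b : Fin n'} {v : ℕ} (hb : Dr.Pos b) (hv : v < D.nroots) (hvp : R.half ≤ v) (hvf : fz R f v = C.T.fr a + C.T.fr b)
    (hεb : ∀ r ∈ TwF.lvL R f (C.T.fr b), ε r = 1) (hab : a ≠ b) (r0 : ℕ) (hr0 : r0 ∈ TwF.lvL R f (C.T.fr a))
    (hgen : ∀ r ∈ TwF.lvL R f (C.T.fr a), ∃ k : ℕ, r = sr^[k] r0)
    (hk : ∀ r ∈ TwF.lvL R f (C.T.fr a), r ≠ r0 → kap D (TwF.lvL R f (C.T.fr b)) v r = 0)
    (hk0 : kap D (TwF.lvL R f (C.T.fr b)) v r0 = 1 ∨ kap D (TwF.lvL R f (C.T.fr b)) v r0 = -1) : C.Push a := by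
  refine ⟨b, v, hb, hv, hvp, hvf, hεb, hab, ?_⟩
  intro t ht hφ
  rw [cs_kap] at hφ
  have key : ∀ L : List ℕ, L.Nodup → (∀ r ∈ L, r ∈ TwF.lvL R f (C.T.fr a)) → r0 ∈ L →
      (L.map fun r => -((kap D (TwF.lvL R f (C.T.fr b)) v r : ℤ) : K) * t r).sum = -((kap D (TwF.lvL R f (C.T.fr b)) v r0 : ℤ) : K) * t r0 := by
    intro L
    induction L with
    | nil => intro _ _ h; simp at h
    | cons s L ih =>
      intro hnd hL hr
      rw [List.nodup_cons] at hnd
      rw [List.map_cons, List.sum_cons]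
      by_cases hs : s = r0
      · subst hs
        have : (L.map fun r => -((kap D (TwF.lvL R f (C.T.fr b)) v r : ℤ) : K) * t r).sum = 0 := by
          apply List.sum_eq_zero
          intro x hx
          obtain ⟨r, hr', rfl⟩ := List.mem_map.mp hx
          rw [hk r (hL r (List.mem_cons_of_mem _ hr')) (by rintro rfl; exact hnd.1 hr')]
          simp
        rw [this, add_zero]
      · rw [ih hnd.2 (fun r hr => hL r (List.mem_cons_of_mem _ hr)) ?_, hk s (hL s List.mem_cons_self) hs]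
        · simp
        · rcases List.mem_cons.mp hr with h | h
          · exact absurd h.symm hs
          · exact h
  rw [key _ TwF.nodup_lvL (fun r hr => hr) hr0] at hφ
  have h0 : φ (t r0) = t r0 := by
    rcases hk0 with h | h
    · rw [h] at hφ; simpa using hφ
    · rw [h] at hφ; simpa using hφ
  have key2 : ∀ k : ℕ, sr^[k] r0 ∈ TwF.lvL R f (C.T.fr a) ∧ φ (t (sr^[k] r0)) = t (sr^[k] r0) := by
    intro k
    induction k with
    | zero => exact ⟨hr0, h0⟩
    | succ k ih =>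
      rw [Function.iterate_succ_apply']
      refine ⟨C.T.perm_sr.mem_iff.mp (List.mem_map_of_mem ih.1), ?_⟩
      rw [ht _ ih.1, map_mul, ih.2, C.T.Z.εφ, ih.2]
  intro r hr
  obtain ⟨k, rfl⟩ := hgen r hr
  exact (key2 k).2

end TwC

end

end Cfsg.Agent.ChevU
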