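import Cfsg.Agent.ChevU.SubAbs
import Cfsg.Agent.ChevGrp.DData

set_option autoImplicit false
set_option linter.unusedSectionVars false
set_option linter.unusedVariables false

/-!
# Weyl group facts on the highest root (helper17)
-/

namespace Cfsg.Agent.ChevGrp

open Cfsg.Agent.ChevWeyl

namespace SubW

variable {l n : ℕ} (D : RootPerm l n)

theorem wsys_W : D.wsys.W = D.W := rfl

/-- the set of the images of `ρ` -/
theorem orbit_le {ρ : Fin n} {Q : Fin n → Prop} (hρ : Q ρ) (hw : ∀ i r, Q r → Q (D.w i r)) {u : Equiv.Perm (Fin n)} (hu : u ∈ D.W) :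
    Q (u ρ) := by
  have : u ∈ D.wsys.W := hu
  refine D.wsys.W_induction (Q := fun u => Q (u ρ)) hρ ?_ this
  intro i u _ ih
  rw [Equiv.Perm.mul_apply]
  exact hw i _ ih

theorem W1 {ρ : Fin n} {j0 : Fin l} (h0 : ∀ j, j ≠ j0 → D.w j ρ = ρ) (hP : 0 < D.P ρ (D.p j0))
    (hmax : ∀ u ∈ D.W, ∀ k, D.c (u ρ) k ≤ D.c ρ k) {w : Equiv.Perm (Fin n)} (hw : w ∈ D.W) (hwρ : w ρ = ρ)
    (j : Fin l) (hj : ¬ D.Pos (w (D.p j))) : D.w j ρ = ρ := by
  by_contra hne
  have hjj : j = j0 := by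
    by_contra h
    exact hne (h0 j h)
  subst hjj
  rw [D.not_pos_iff] at hj
  obtain ⟨k, hk⟩ := D.nz (w (D.p j))
  have hk' : D.c (w (D.p j)) k < 0 := lt_of_le_of_ne (hj k) hk
  have h1 := D.lin hw (D.w j ρ) k
  have h2 := D.lin hw ρ k
  have h3 : D.c (w (D.w j ρ)) k = D.c (w ρ) k - D.P ρ (D.p j) * D.c (w (D.p j)) k := by
    rw [h1, h2]
    have : ∀ i, D.c (D.w j ρ) i * D.c (w (D.p i)) k = D.c ρ i * D.c (w (D.p i)) k - (if i = j then D.P ρ (D.p j) * D.c (w (D.p i)) k else 0) := by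
      intro i
      rw [D.c_w']
      split_ifs <;> ring
    rw [Finset.sum_congr rfl fun i _ => this i, Finset.sum_sub_distrib, Finset.sum_ite_eq' Finset.univ j, if_pos (Finset.mem_univ _)]
  have h4 := hmax (w * D.w j) (mul_mem hw (D.w_mem j)) k
  rw [Equiv.Perm.mul_apply, h3, hwρ] at h4
  nlinarith

theorem W2 {j0 : Fin l} {w : Equiv.Perm (Fin n)} (hw : w ∈ D.W) (h : ∀ j, j ≠ j0 → D.Pos (w (D.p j))) {s : Fin n} (hs : D.Pos s)
    (hs0 : D.c s j0 = 0) : D.Pos (w s) := by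
  intro k
  rw [D.lin hw]
  refine Finset.sum_nonneg fun i _ => ?_
  by_cases hi : i = j0
  · rw [hi, hs0, zero_mul]
  · exact mul_nonneg (hs i) (h i hi k)

theorem W3 {j0 : Fin l} {w : Equiv.Perm (Fin n)} (hw : w ∈ D.W) (h : ∀ j, j ≠ j0 → ¬ D.Pos (w (D.p j))) {s : Fin n} (hs : D.Pos s)
    (hs0 : D.c s j0 = 0) : ¬ D.Pos (w s) := by
  rw [D.not_pos_iff]
  intro k
  rw [D.lin hw]
  refine Finset.sum_nonpos fun i _ => ?_
  by_cases hi : i = j0
  · rw [hi, hs0, zero_mul]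
  · exact mul_nonpos_of_nonneg_of_nonpos (hs i) ((D.not_pos_iff _).1 (h i hi) k)

/-- an element of the Weyl group fixing a spanning set of roots is trivial -/
theorem C4 {w : Equiv.Perm (Fin n)} (hw : w ∈ D.W) (m : ℕ) (γ : ℕ → Fin n) (hγ : ∀ i < m, w (γ i) = γ i)
    (hs : ∀ a : Fin l, ∃ (d : ℤ) (b : ℕ → ℤ), d ≠ 0 ∧ ∀ j, d * D.c (D.p a) j = ∑ i ∈ Finset.range m, b i * D.c (γ i) j) : w = 1 := by
  have key : ∀ a, w (D.p a) = D.p a := by
    intro a
    apply D.c_inj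
    funext k
    obtain ⟨d, b, hd, hb⟩ := hs a
    apply mul_left_cancel₀ hd
    rw [hb k, D.lin hw (D.p a) k, Finset.mul_sum]
    have h1 : ∀ i, d * (D.c (D.p a) i * D.c (w (D.p i)) k) = ∑ t ∈ Finset.range m, b t * D.c (γ t) i * D.c (w (D.p i)) k := by
      intro i
      rw [← mul_assoc, hb i, Finset.sum_mul]
    rw [Finset.sum_congr rfl fun i _ => h1 i, Finset.sum_comm]
    refine Finset.sum_congr rfl fun t ht => ?_
    have h2 := D.lin hw (γ t) k
    rw [hγ t (Finset.mem_range.1 ht)] at h2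
    rw [h2, Finset.mul_sum]
    exact Finset.sum_congr rfl fun i _ => by ring
  by_contra h1
  obtain ⟨j, hj⟩ := D.wsys.descent w hw h1
  apply hj
  have h2 : w (D.wsys.p j) = D.p j := key j
  rw [h2]
  exact D.pos_p j

end SubW

end Cfsg.Agent.ChevGrp
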