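import Cfsg.Agent.ChevU.SubFil
import Cfsg.Agent.ChevU.SubW
import Cfsg.Agent.ChevU.Over
import Cfsg.Agent.ChevU.CentU
import Cfsg.Agent.ChevU.HCard
import Cfsg.Agent.ChevU.OddA
import Cfsg.Agent.ChevTw.Abs

set_option autoImplicit false
set_option linter.unusedSectionVars false
set_option linter.unusedVariables false

/-!
# Twisted groups: filtration of the unipotent subgroup, field automorphism (helper17)
-/

namespace Cfsg.Agent.ChevU

open Cfsg.Lie Cfsg.Agent.Chev Cfsg.Agent.ChevGrp Cfsg.Agent.ChevWeyl Cfsg.Agent.ChevTw Matrix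

section twA

variable {D : ChevalleyDatum} {K : Type*} [Field K] {l' n' : ℕ} {S' : WSys l' n'} {Γ : Subgroup (GL D.Idx K)}

/-- the ring homomorphism acting entrywise -/
noncomputable abbrev thet (D : ChevalleyDatum) (φ : K ≃+* K) : GL D.Idx K →* GL D.Idx K := glMap D.Idx (φ : K →+* K)

theorem thet_xr (R : RootFacts D) (H : Good D) (φ : K ≃+* K) (r : ℕ) (t : K) :
    thet D φ (xr R (elemOfGood H K) r t) = xr R (elemOfGood H K) r (φ t) := by
  apply Units.ext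
  rw [glMap_coe, coe_xr, coe_xr, x_map]
  rfl

theorem thet_apply (φ : K ≃+* K) (g : GL D.Idx K) (a b : D.Idx) : (thet D φ g : Matrix D.Idx D.Idx K) a b = φ ((g : Matrix D.Idx D.Idx K) a b) := rfl

theorem thet_clo (φ : K ≃+* K) {P : ℕ → Prop} {g : GL D.Idx K} (hg : g ∈ clo D K P) : thet D φ g ∈ clo D K P := by
  have : clo D K P ≤ (clo D K P).comap (thet D φ) := by
    unfold clo
    rw [Subgroup.closure_le]
    rintro x ⟨s, t, h1, h2⟩
    refine Subgroup.subset_closure ⟨s, φ t, h1, ?_⟩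
    rw [glMap_coe, h2, x_map]
    rfl
  exact this hg

theorem thet_diag (H : Good D) (φ : K ≃+* K) {g : GL D.Idx K} (hg : g ∈ D.diagonalSubgroup K) : thet D φ g ∈ D.diagonalSubgroup K := by
  have : D.diagonalSubgroup K ≤ (D.diagonalSubgroup K).comap (thet D φ) := by
    unfold ChevalleyDatum.diagonalSubgroup
    rw [Subgroup.closure_le]
    rintro x ⟨r, c, h1, h2, h3⟩
    refine Subgroup.subset_closure ⟨r, φ c, h1, by simpa using h2, ?_⟩
    have e : x = (hG H.toGood2 r c : GL D.Idx K) := Units.ext (by rw [h3, hG_coe])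
    have e2 : thet D φ (hG H.toGood2 r c : GL D.Idx K) = (hG H.toGood2 r (φ c) : GL D.Idx K) := by
      have h4 : fAut D φ (hG H.toGood2 r c) = hG H.toGood2 r (φ c) := by
        unfold hG nG
        simp only [map_mul, fAut_xG, map_neg, map_inv₀, map_one, inv_neg]
      exact congrArg Subtype.val h4
    rw [e, e2, hG_coe]
  exact this hg

theorem thet_Tc (φ : K ≃+* K) (iT : ℕ → ℕ) (r : ℕ) (g : GL D.Idx K) : Tc iT r (thet D φ g) = φ (Tc iT r g) := by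
  unfold Tc
  split_ifs with h
  · rfl
  · exact (map_zero φ).symm

theorem thet_UW (φ : K ≃+* K) (w : D.Idx → ℝ) {g : GL D.Idx K} (hg : g ∈ UW K w) : thet D φ g ∈ UW K w := by
  have key : ∀ (M : Matrix D.Idx D.Idx K) a b, φ (M a b) ≠ 0 → M a b ≠ 0 := by
    intro M a b h h1; apply h; rw [h1, map_zero]
  obtain ⟨⟨h1, h2⟩, h3⟩ := hg
  refine ⟨⟨fun a b h => h1 a b (key _ _ _ h), fun a b h => h2 a b ?_⟩, fun a b h => h3 a b ?_⟩
  · rw [← map_inv] at h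
    exact key _ _ _ h
  · intro h4
    apply h
    rw [Matrix.sub_apply, sub_eq_zero] at h4 ⊢
    rw [thet_apply, h4]
    by_cases hab : a = b
    · rw [hab, Matrix.one_apply_eq, map_one]
    · rw [Matrix.one_apply_ne hab, map_zero]

theorem thet_LW (φ : K ≃+* K) (w : D.Idx → ℝ) {g : GL D.Idx K} (hg : g ∈ LW K w) : thet D φ g ∈ LW K w := by
  have key : ∀ (M : Matrix D.Idx D.Idx K) a b, φ (M a b) ≠ 0 → M a b ≠ 0 := by
    intro M a b h h1; apply h; rw [h1, map_zero]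
  obtain ⟨h1, h2⟩ := hg
  refine ⟨fun a b h => h1 a b (key _ _ _ h), fun a b h => h2 a b ?_⟩
  rw [← map_inv] at h
  exact key _ _ _ h

variable (A : TwInst D K S' Γ) (R : RootFacts D)

theorem xG_coe' (r : ℕ) (t : K) : ((xG A.H.toGood2 r t : ↥(D.group K)) : GL D.Idx K) = xr R (elemOfGood A.H K) r t := Units.ext rfl

/-- membership in `clo` of elements of `gen` -/
theorem gen_clo {P : Fin D.nroots → Prop} {Q : ℕ → Prop} (h : ∀ r, P r → Q (r : ℕ)) {x : ↥(D.group K)} (hx : x ∈ gen A.I.R.X P) :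
    (x : GL D.Idx K) ∈ clo D K Q := by
  have : gen A.I.R.X P ≤ (clo D K Q).comap (D.group K).subtype := by
    rw [gen_le]
    intro r hr y hy
    obtain ⟨t, rfl⟩ := (A.I.mem_X r y).1 hy
    exact Subgroup.subset_closure ⟨r, t, h r hr, rfl⟩
  exact this hx

theorem clo_gen {P : Fin D.nroots → Prop} {Q : ℕ → Prop} (h : ∀ r, Q r → ∃ hr : r < D.nroots, P ⟨r, hr⟩) {g : GL D.Idx K} (hg : g ∈ clo D K Q) :
    ∃ x : ↥(D.group K), x ∈ gen A.I.R.X P ∧ (x : GL D.Idx K) = g := by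
  have : clo D K Q ≤ (gen A.I.R.X P).map (D.group K).subtype := by
    unfold clo
    rw [Subgroup.closure_le]
    rintro y ⟨s, t, h1, h2⟩
    obtain ⟨hs, h3⟩ := h s h1
    exact ⟨xG A.H.toGood2 s t, mem_gen h3 ((A.I.mem_X _ _).2 ⟨t, rfl⟩), Units.ext h2.symm⟩
  obtain ⟨x, hx, hx'⟩ := this hg
  exact ⟨x, hx, hx'⟩

theorem mem_RX {a : Fin n'} {y : GL D.Idx K} : y ∈ A.R.X a ↔
    y ∈ Γ ∧ y ∈ clo D K (fun r => ∃ hr : r < D.nroots, A.T.cls ⟨r, hr⟩ = a) := by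
  constructor
  · intro hy
    obtain ⟨x, hx, rfl⟩ := hy
    refine ⟨?_, gen_clo A (fun r hr => ⟨r.2, hr⟩) hx.1⟩
    have h1 : x ∈ A.T.G1 := TwData.X'_le_G1 a hx
    rw [A.eq] at h1
    exact h1
  · rintro ⟨h1, h2⟩
    obtain ⟨x, hx, rfl⟩ := clo_gen A (P := fun r => A.T.cls r = a) (fun r hr => hr) h2
    refine ⟨x, ⟨hx, ?_⟩, rfl⟩
    apply A.T.G1_le_Fx
    rw [A.eq]; exact h1

/-- elements of `Γ` are fixed -/
theorem fix_of_mem {g : ↥(D.group K)} (hg : (g : GL D.Idx K) ∈ Γ) : A.T.σ g = g := by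
  have : g ∈ A.T.Fx := A.T.G1_le_Fx (by rw [A.eq]; exact hg)
  exact this

theorem mem_of_fix {a : Fin n'} {g : ↥(D.group K)} (hg : g ∈ gen A.I.R.X (fun r => A.T.cls r = a)) (hf : A.T.σ g = g) : (g : GL D.Idx K) ∈ A.R.X a :=
  ⟨g, ⟨hg, hf⟩, rfl⟩

variable (φ : K ≃+* K)

/-- description of the automorphism -/
structure SigX (sr : ℕ → ℕ) (ε : ℕ → K) : Prop where
  sr_eq : ∀ r : Fin D.nroots, ((A.T.ρ r : Fin D.nroots) : ℕ) = sr r
  σx : ∀ (r : Fin D.nroots) (t : K), A.T.σ (xG A.H.toGood2 (r : ℕ) t) = xG A.H.toGood2 (sr r) (ε r * φ t)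
  εφ : ∀ r, φ (ε r) = ε r
  εε : ∀ r, ε r * ε r = 1
  nnφ : ∀ j, fAut D φ (A.T.nj j) = A.T.nj j

variable {A φ} {sr : ℕ → ℕ} {ε : ℕ → K} (Z : SigX A φ sr ε)
include Z

theorem SigX.comm (g : ↥(D.group K)) : A.T.σ (fAut D φ g) = fAut D φ (A.T.σ g) := by
  have h1 : ∀ g : GL D.Idx K, g ∈ D.group K → ∀ h : g ∈ D.group K, A.T.σ (fAut D φ ⟨g, h⟩) = fAut D φ (A.T.σ ⟨g, h⟩) := by
    have h2 : D.group K ≤ (Subgroup.map (D.group K).subtype (MonoidHom.eqLocus ((A.T.σ.toMonoidHom).comp (fAut D φ).toMonoidHom) (((fAut D φ).toMonoidHom).comp A.T.σ.toMonoidHom))) := by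
      apply group_le_of_x
      intro g r t hr hg
      refine ⟨xG A.H.toGood2 r t, ?_, Units.ext hg.symm⟩
      show A.T.σ (fAut D φ (xG A.H.toGood2 r t)) = fAut D φ (A.T.σ (xG A.H.toGood2 r t))
      have e1 := Z.σx ⟨r, hr⟩ t
      have e2 := Z.σx ⟨r, hr⟩ (φ t)
      simp only at e1 e2
      rw [fAut_xG, e1, e2, fAut_xG, map_mul, Z.εφ]
    intro g hg h
    obtain ⟨x, hx, rfl⟩ := h2 hg
    exact hx
  exact h1 g g.2 g.2

theorem SigX.thet_X {a : Fin n'} {x : GL D.Idx K} (hx : x ∈ A.R.X a) : thet D φ x ∈ A.R.X a := by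
  obtain ⟨y, hy, rfl⟩ := hx
  obtain ⟨h1, h2⟩ := hy
  have h3 := thet_clo φ (gen_clo A (Q := fun r => ∃ hr : r < D.nroots, A.T.cls ⟨r, hr⟩ = a) (fun r hr => ⟨r.2, hr⟩) h1)
  obtain ⟨z, hz, hz'⟩ := clo_gen A (P := fun r => A.T.cls r = a) (fun r hr => hr) h3
  have e : z = fAut D φ y := Subtype.ext hz'
  refine ⟨z, ⟨hz, ?_⟩, hz'⟩
  show A.T.σ z = z
  rw [e, Z.comm, show A.T.σ y = y from h2]

theorem SigX.thet_Γ {g : GL D.Idx K} (hg : g ∈ Γ) : thet D φ g ∈ Γ := by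
  have h1 : A.T.G1 ≤ A.T.G1.comap (fAut D φ).toMonoidHom := by
    conv_lhs => rw [A.T.G1_eq']
    refine iSup_le fun j => sup_le ?_ ?_
    · intro x hx
      have h2 := Z.thet_X (x := (x : GL D.Idx K)) ⟨x, hx, rfl⟩
      obtain ⟨y, hy, hy'⟩ := h2
      have : y = fAut D φ x := Subtype.ext hy'
      show fAut D φ x ∈ A.T.G1
      rw [← this]; exact TwData.X'_le_G1 _ hy
    · intro x hx
      have h2 := Z.thet_X (x := (x : GL D.Idx K)) ⟨x, hx, rfl⟩
      obtain ⟨y, hy, hy'⟩ := h2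
      have : y = fAut D φ x := Subtype.ext hy'
      show fAut D φ x ∈ A.T.G1
      rw [← this]; exact TwData.X'_le_G1 _ hy
  have h2 : (⟨g, A.le hg⟩ : ↥(D.group K)) ∈ A.T.G1 := by rw [A.eq]; exact hg
  have h3 := h1 h2
  rw [A.eq] at h3
  exact h3

theorem SigX.thet_nn (j : Fin l') : thet D φ (A.R.nn j) = A.R.nn j := by
  have := Z.nnφ j
  exact congrArg Subtype.val this

theorem SigX.thet_H {h : GL D.Idx K} (hh : h ∈ A.R.H) : thet D φ h ∈ A.R.H := by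
  rw [A.R_H] at hh ⊢
  exact ⟨thet_diag A.H φ hh.1, Z.thet_Γ hh.2⟩

end twA

end Cfsg.Agent.ChevU
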