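import Cfsg.Agent.ChevU.SubTwA

set_option autoImplicit false
set_option linter.unusedSectionVars false
set_option linter.unusedVariables false

/-!
# Twisted groups: filtration of the unipotent subgroup (helper17)
-/

namespace Cfsg.Agent.ChevU

open Cfsg.Lie Cfsg.Agent.Chev Cfsg.Agent.ChevGrp Cfsg.Agent.ChevWeyl Cfsg.Agent.ChevTw Matrix

section twB

variable {D : ChevalleyDatum} {K : Type*} [Field K] {l' n' : ℕ} {S' : WSys l' n'} {Γ : Subgroup (GL D.Idx K)}

/-- the data on the functional -/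
structure TwF (A : TwInst D K S' Γ) (R : RootFacts D) (φ : K ≃+* K) (f : ℕ → ℤ) (iT : ℕ → ℕ) (sr : ℕ → ℕ) (ε : ℕ → K) where
  Q : FData R f iT
  Z : SigX A φ sr ε
  fr : Fin n' → ℤ
  fr_cls : ∀ r : Fin D.nroots, R.half ≤ (r : ℕ) → fz R f r = fr (A.T.cls r)
  fr_inj : ∀ a b, S'.Pos a → S'.Pos b → fr a = fr b → a = b

variable {A : TwInst D K S' Γ} {R : RootFacts D} {φ : K ≃+* K} {f : ℕ → ℤ} {iT sr : ℕ → ℕ} {ε : ℕ → K} (T : TwF A R φ f iT sr ε)

include T

namespace TwF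

theorem pos_iff (r : Fin D.nroots) : S'.Pos (A.T.cls r) ↔ R.half ≤ (r : ℕ) := by
  rw [← A.T.pos_cls r]
  have h1 : A.E.rp.wsys.Pos r ↔ D.IsPosRoot r := (A.E.isPosRoot_iff r).symm
  rw [h1, R.pos_iff _ r.2]

theorem sr_lt {r : ℕ} (hr : r < D.nroots) : sr r < D.nroots := by
  have := T.Z.sr_eq ⟨r, hr⟩
  simp only at this
  rw [← this]; exact Fin.isLt _

theorem cls_sr (r : Fin D.nroots) : A.T.cls ⟨sr r, T.sr_lt r.2⟩ = A.T.cls r := by
  have h1 := A.T.cls_ρ r
  have h2 : A.T.ρ r = ⟨sr r, T.sr_lt r.2⟩ := Fin.ext (T.Z.sr_eq r)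
  rw [h2] at h1
  exact h1

theorem sr_pos {r : ℕ} (hr : r < D.nroots) (hp : R.half ≤ r) : R.half ≤ sr r := by
  have := T.pos_iff ⟨sr r, T.sr_lt hr⟩
  rw [T.cls_sr ⟨r, hr⟩, T.pos_iff ⟨r, hr⟩] at this
  exact this.1 hp

theorem fz_sr {r : ℕ} (hr : r < D.nroots) (hp : R.half ≤ r) : fz R f (sr r) = fz R f r := by
  have h1 := T.fr_cls ⟨sr r, T.sr_lt hr⟩ (T.sr_pos hr hp)
  have h2 := T.fr_cls ⟨r, hr⟩ hp
  rw [T.cls_sr ⟨r, hr⟩] at h1
  exact h1.trans h2.symm

theorem sr_inj {r s : ℕ} (hr : r < D.nroots) (hs : s < D.nroots) (h : sr r = sr s) : r = s := by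
  have h1 : A.T.ρ ⟨r, hr⟩ = A.T.ρ ⟨s, hs⟩ := Fin.ext (by rw [T.Z.sr_eq, T.Z.sr_eq]; exact h)
  have h2 := A.T.ρ.injective h1
  exact congrArg Fin.val h2

/-- the automorphism on the filtration -/
theorem σ_FF {c : ℤ} {g : ↥(D.group K)} (hg : (g : GL D.Idx K) ∈ FF R f K c) : (A.T.σ g : GL D.Idx K) ∈ FF R f K c := by
  have h1 : FF R f K c ≤ (((FF R f K c).subgroupOf (D.group K)).comap A.T.σ.toMonoidHom).map (D.group K).subtype := by
    unfold FF clo
    rw [Subgroup.closure_le]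
    rintro y ⟨s, t, ⟨h1, h2, h3⟩, h4⟩
    refine ⟨xG A.H.toGood2 s t, ?_, Units.ext h4.symm⟩
    show ((A.T.σ (xG A.H.toGood2 s t) : ↥(D.group K)) : GL D.Idx K) ∈ FF R f K c
    have e := T.Z.σx ⟨s, h1⟩ t
    simp only at e
    rw [e, xG_coe' A R]
    exact xr_mem_FF A.H (T.sr_lt h1) (T.sr_pos h1 h2) (by rw [T.fz_sr h1 h2]; exact h3) _
  obtain ⟨x, hx, hx'⟩ := h1 hg
  have : x = g := Subtype.ext hx'
  rw [← this]; exact hx

/-- products as elements of the group -/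
noncomputable def plG (A : TwInst D K S' Γ) (L : List ℕ) (t : ℕ → K) : ↥(D.group K) := (L.map fun r => xG A.H.toGood2 r (t r)).prod

omit T in
theorem plG_coe (L : List ℕ) (t : ℕ → K) : ((plG A L t : ↥(D.group K)) : GL D.Idx K) = pl R A.H L t := by
  induction L with
  | nil => rfl
  | cons a L ih =>
    have h1 : plG A (a :: L) t = xG A.H.toGood2 a (t a) * plG A L t := by simp [plG]
    rw [h1, pl_cons, Subgroup.coe_mul, ih, xG_coe' A R]

/-- the inverse of `sr` on a list -/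
theorem σ_plG {L : List ℕ} (hL : ∀ r ∈ L, r < D.nroots) (t t' : ℕ → K) (h : ∀ r ∈ L, t' (sr r) = ε r * φ (t r)) :
    A.T.σ (plG A L t) = plG A (L.map sr) t' := by
  induction L with
  | nil => simp [plG]
  | cons a L ih =>
    have h1 : plG A (a :: L) t = xG A.H.toGood2 a (t a) * plG A L t := by simp [plG]
    have h2 : plG A ((a :: L).map sr) t' = xG A.H.toGood2 (sr a) (t' (sr a)) * plG A (L.map sr) t' := by simp [plG]
    have e := T.Z.σx ⟨a, hL a List.mem_cons_self⟩ (t a)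
    simp only at e
    rw [h1, h2, map_mul, e, h a List.mem_cons_self, ih (fun r hr => hL r (List.mem_cons_of_mem _ hr)) (fun r hr => h r (List.mem_cons_of_mem _ hr))]

/-- the list of the roots of a level -/
def lvL (R : RootFacts D) (f : ℕ → ℤ) (c : ℤ) : List ℕ := (List.range D.nroots).filter (fun r => decide (R.half ≤ r ∧ fz R f r = c))

omit T in
theorem mem_lvL {c : ℤ} (r : ℕ) : r ∈ lvL R f c ↔ r < D.nroots ∧ R.half ≤ r ∧ fz R f r = c := by
  unfold lvL
  rw [List.mem_filter, List.mem_range, decide_eq_true_iff]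

omit T in
theorem nodup_lvL {c : ℤ} : (lvL R f c).Nodup := List.Nodup.filter _ List.nodup_range

theorem perm_sr {c : ℤ} : ((lvL R f c).map sr).Perm (lvL R f c) := by
  have hinj : ∀ a ∈ lvL R f c, ∀ b ∈ lvL R f c, sr a = sr b → a = b := fun a ha b hb h =>
    T.sr_inj ((mem_lvL a).1 ha).1 ((mem_lvL b).1 hb).1 h
  have hnd : ((lvL R f c).map sr).Nodup := List.Nodup.map_on hinj nodup_lvL
  refine List.Subperm.perm_of_length_le ?_ (by rw [List.length_map])
  apply hnd.subperm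
  intro x hx
  obtain ⟨r, hr, rfl⟩ := List.mem_map.mp hx
  obtain ⟨h1, h2, h3⟩ := (mem_lvL r).1 hr
  exact (mem_lvL _).2 ⟨T.sr_lt h1, T.sr_pos h1 h2, by rw [T.fz_sr h1 h2]; exact h3⟩

/-- relation between the coordinates of fixed elements -/
theorem coord {c : ℤ} (hc : 1 ≤ c) {u : GL D.Idx K} (hu : u ∈ Γ) (huF : u ∈ FF R f K c) {r : ℕ} (hr : r ∈ lvL R f c) :
    Tc iT (sr r) u = ε r * φ (Tc iT r u) := by
  obtain ⟨t, v, hv, e⟩ := exists_pl A.H T.Q hc nodup_lvL (fun r => mem_lvL r) huF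
  have ht : ∀ r ∈ lvL R f c, Tc iT r u = t r := fun r hr => by
    rw [e]; exact Tc_decomp A.H T.Q hc nodup_lvL (fun r => mem_lvL r) t hv hr
  have hplG : pl R A.H (lvL R f c) t ∈ D.group K := by rw [← plG_coe (A := A)]; exact Subtype.mem _
  have hvG : v ∈ D.group K := by
    have : v = (pl R A.H (lvL R f c) t)⁻¹ * u := by rw [e]; group
    rw [this]; exact mul_mem (inv_mem hplG) (A.le hu)
  have e1 : (⟨u, A.le hu⟩ : ↥(D.group K)) = plG A (lvL R f c) t * ⟨v, hvG⟩ := by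
    apply Subtype.ext
    rw [Subgroup.coe_mul, plG_coe (R := R)]
    exact e
  have e2 := fix_of_mem A (g := ⟨u, A.le hu⟩) hu
  rw [e1, map_mul] at e2
  -- the inverse of `sr`
  let t' : ℕ → K := fun s => if h : s < D.nroots then (fun r => ε r * φ (t r)) ((A.T.ρ.symm ⟨s, h⟩ : Fin D.nroots) : ℕ) else 0
  have ht' : ∀ r ∈ lvL R f c, t' (sr r) = ε r * φ (t r) := by
    intro r hr
    have h1 := ((mem_lvL r).1 hr).1
    show (if h : sr r < D.nroots then (fun r => ε r * φ (t r)) ((A.T.ρ.symm ⟨sr r, h⟩ : Fin D.nroots) : ℕ) else 0) = _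
    rw [dif_pos (T.sr_lt h1)]
    have h2 : A.T.ρ.symm ⟨sr r, T.sr_lt h1⟩ = ⟨r, h1⟩ := by
      rw [Equiv.symm_apply_eq]
      exact Fin.ext (T.Z.sr_eq ⟨r, h1⟩).symm
    rw [h2]
  have h3 := T.σ_plG (fun r hr => ((mem_lvL r).1 hr).1) t t' ht'
  rw [h3] at e2
  have e3 := congrArg (fun x : ↥(D.group K) => (x : GL D.Idx K)) e2
  simp only [Subgroup.coe_mul, plG_coe (R := R)] at e3
  obtain ⟨h4, h5, h6⟩ := (mem_lvL r).1 hr
  have hmem : sr r ∈ (lvL R f c).map sr := List.mem_map_of_mem hr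
  have hmem' : sr r ∈ lvL R f c := T.perm_sr.mem_iff.mp hmem
  have hnd : ((lvL R f c).map sr).Nodup := T.perm_sr.nodup_iff.mpr nodup_lvL
  have hvσ := T.σ_FF (g := ⟨v, hvG⟩) (c := c + 1) hv
  have e4 := congrArg (Tc iT (sr r)) e3
  rw [← e] at e4
  rw [Tc_decomp A.H T.Q hc hnd (fun s => by rw [T.perm_sr.mem_iff, mem_lvL]) t' hvσ hmem, ht' r hr, ← ht r hr] at e4
  exact e4.symm

/-- products with related coordinates are in the group -/
theorem pl_mem_RX {c : ℤ} {a : Fin n'} (ha : S'.Pos a) (hac : T.fr a = c) (t : ℕ → K) (ht : ∀ r ∈ lvL R f c, t (sr r) = ε r * φ (t r)) :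
    pl R A.H (lvL R f c) t ∈ A.R.X a := by
  rw [← plG_coe (A := A)]
  apply mem_of_fix
  · apply Subgroup.list_prod_mem
    intro x hx
    obtain ⟨r, hr, rfl⟩ := List.mem_map.mp hx
    obtain ⟨h1, h2, h3⟩ := (mem_lvL r).1 hr
    refine mem_gen (r := ⟨r, h1⟩) ?_ ((A.I.mem_X _ _).2 ⟨t r, rfl⟩)
    apply T.fr_inj _ _ ((T.pos_iff ⟨r, h1⟩).2 h2) ha
    rw [← T.fr_cls ⟨r, h1⟩ h2, hac]; exact h3
  · rw [T.σ_plG (fun r hr => ((mem_lvL r).1 hr).1) t t ht]
    apply Subtype.ext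
    rw [plG_coe (R := R), plG_coe (R := R)]
    unfold pl
    apply List.Perm.prod_eq' (T.perm_sr.map _)
    rw [List.pairwise_map]
    have h1 : ∀ r ∈ (lvL R f c).map sr, ∀ s ∈ (lvL R f c).map sr, Commute (xr R (elemOfGood A.H K) r (t r)) (xr R (elemOfGood A.H K) s (t s)) := by
      intro r hr s hs
      rw [T.perm_sr.mem_iff, mem_lvL] at hr hs
      exact comm_lvl A.H T.Q hs.1 hs.2.1 hr.1 hr.2.1 (hs.2.2.trans hr.2.2.symm) _ _
    exact List.Pairwise.imp_of_mem (fun {a b} ha hb _ => h1 a ha b hb) (List.pairwise_of_forall (l := (lvL R f c).map sr) (R := fun _ _ => True) fun _ _ => trivial)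

/-- elements of the root subgroups -/
theorem RX_pl {a : Fin n'} (ha : S'.Pos a) {z : GL D.Idx K} (hz : z ∈ A.R.X a) : ∃ t : ℕ → K, z = pl R A.H (lvL R f (T.fr a)) t ∧
    ∀ r ∈ lvL R f (T.fr a), t (sr r) = ε r * φ (t r) := by
  have hL : ∀ r, r ∈ lvL R f (T.fr a) ↔ r < D.nroots ∧ R.half ≤ r ∧ fz R f r = T.fr a := fun r => mem_lvL r
  obtain ⟨h1, h2⟩ := (mem_RX A).1 hz
  have h3 : ∃ t : ℕ → K, z = pl R A.H (lvL R f (T.fr a)) t := by
    clear hz h1
    unfold clo at h2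
    induction h2 using Subgroup.closure_induction with
    | mem x hx =>
      obtain ⟨s, u, ⟨hs, hs'⟩, h5⟩ := hx
      rw [← eq_xu_iff R.tab (elemOfGood A.H K)] at h5
      have hp : R.half ≤ s := (T.pos_iff ⟨s, hs⟩).1 (by rw [hs']; exact ha)
      have hsL : s ∈ lvL R f (T.fr a) := (hL s).2 ⟨hs, hp, by
        have := T.fr_cls ⟨s, hs⟩ hp
        simp only at this
        rw [this, hs']⟩
      refine ⟨fun r => if r = s then u else 0, ?_⟩
      rw [h5]
      have key : ∀ L : List ℕ, L.Nodup → s ∈ L → xu R.tab (elemOfGood A.H K) s u = pl R A.H L (fun r => if r = s then u else 0) := by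
        intro L
        induction L with
        | nil => intro _ h; simp at h
        | cons b L ih =>
          intro hnd hsL
          rw [List.nodup_cons] at hnd
          rw [pl_cons]
          by_cases h : b = s
          · subst h
            rw [if_pos rfl]
            have : pl R A.H L (fun r => if r = b then u else 0) = 1 := by
              unfold pl
              apply List.prod_eq_one
              intro x hx
              obtain ⟨r, hr, rfl⟩ := List.mem_map.mp hx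
              show xr R (elemOfGood A.H K) r (if r = b then u else 0) = 1
              rw [if_neg, xr_zero]
              rintro rfl
              exact hnd.1 hr
            rw [this, mul_one]
          · rw [if_neg h, xr_zero, one_mul]
            refine ih hnd.2 ?_
            rcases List.mem_cons.mp hsL with h3 | h3
            · exact absurd h3.symm h
            · exact h3
      exact key _ nodup_lvL hsL
    | one => exact ⟨fun _ => 0, by rw [pl_zero]⟩
    | mul x y _ _ ihx ihy =>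
      obtain ⟨t, rfl⟩ := ihx
      obtain ⟨t', rfl⟩ := ihy
      exact ⟨fun r => t r + t' r, by rw [pl_add A.H T.Q (fun r hr => (hL r).1 hr)]⟩
    | inv x _ ih =>
      obtain ⟨t, rfl⟩ := ih
      exact ⟨fun r => - t r, by rw [pl_inv A.H T.Q (fun r hr => (hL r).1 hr)]⟩
  obtain ⟨t, rfl⟩ := h3
  refine ⟨t, rfl, fun r hr => ?_⟩
  have hr' := (hL r).1 hr
  have hc : 1 ≤ T.fr a := by rw [← hr'.2.2]; exact T.Q.pos r hr'.2.1 hr'.1
  have hL' : ∀ r ∈ lvL R f (T.fr a), r < D.nroots ∧ R.half ≤ r ∧ T.fr a ≤ fz R f r := fun r hr => by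
    have := (hL r).1 hr
    exact ⟨this.1, this.2.1, this.2.2.ge⟩
  have h4 := T.coord hc h1 (pl_mem A.H hL' t) hr
  have h5 : sr r ∈ lvL R f (T.fr a) := T.perm_sr.mem_iff.mp (List.mem_map_of_mem hr)
  rw [Tc_pl_self A.H T.Q nodup_lvL (c := T.fr a) (by omega) hL' t h5 (by rw [((hL _).1 h5).2.2]; omega),
    Tc_pl_self A.H T.Q nodup_lvL (c := T.fr a) (by omega) hL' t hr (by rw [hr'.2.2]; omega)] at h4
  exact h4

theorem RX_FF {a : Fin n'} (ha : S'.Pos a) {z : GL D.Idx K} (hz : z ∈ A.R.X a) : z ∈ FF R f K (T.fr a) := by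
  obtain ⟨t, rfl, -⟩ := T.RX_pl ha hz
  exact pl_mem A.H (fun r hr => by
    have := (mem_lvL r).1 hr
    exact ⟨this.1, this.2.1, this.2.2.ge⟩) t

theorem RX_Γ {a : Fin n'} {z : GL D.Idx K} (hz : z ∈ A.R.X a) : z ∈ Γ := ((mem_RX A).1 hz).1

/-- the splitting of elements of the filtration -/
theorem split {c : ℤ} (hc : 1 ≤ c) {u : GL D.Idx K} (hu : u ∈ Γ) (huF : u ∈ FF R f K c) :
    u ∈ FF R f K (c + 1) ∨ ∃ a, S'.Pos a ∧ T.fr a = c ∧ ∃ z ∈ A.R.X a, ∃ v ∈ Γ, v ∈ FF R f K (c + 1) ∧ u = z * v := by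
  obtain ⟨t, v, hv, e⟩ := exists_pl A.H T.Q hc nodup_lvL (fun r => mem_lvL r) huF
  rcases (lvL R f c).eq_nil_or_concat with h0 | ⟨L', r0, h0⟩
  · left
    rw [h0, pl_nil, one_mul] at e
    rw [e]; exact hv
  · right
    have hr0 : r0 ∈ lvL R f c := by rw [h0]; simp
    obtain ⟨h1, h2, h3⟩ := (mem_lvL r0).1 hr0
    have ha : S'.Pos (A.T.cls ⟨r0, h1⟩) := (T.pos_iff ⟨r0, h1⟩).2 h2
    have hac : T.fr (A.T.cls ⟨r0, h1⟩) = c := by rw [← T.fr_cls ⟨r0, h1⟩ h2]; exact h3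
    have ht : ∀ r ∈ lvL R f c, Tc iT r u = t r := fun r hr => by
      rw [e]; exact Tc_decomp A.H T.Q hc nodup_lvL (fun r => mem_lvL r) t hv hr
    have hrel : ∀ r ∈ lvL R f c, t (sr r) = ε r * φ (t r) := by
      intro r hr
      have h5 : sr r ∈ lvL R f c := T.perm_sr.mem_iff.mp (List.mem_map_of_mem hr)
      rw [← ht r hr, ← ht _ h5]
      exact T.coord hc hu huF hr
    have hz := T.pl_mem_RX ha hac t hrel
    refine ⟨_, ha, hac, _, hz, v, ?_, hv, e⟩
    have : v = (pl R A.H (lvL R f c) t)⁻¹ * u := by rw [e]; group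
    rw [this]; exact mul_mem (inv_mem (T.RX_Γ hz)) hu

/-- elements of high level are trivial -/
theorem FF_bot {c : ℤ} (h : ∀ r, r < D.nroots → R.half ≤ r → fz R f r < c) {u : GL D.Idx K} (hu : u ∈ FF R f K c) : u = 1 := by
  have : FF R f K c ≤ ⊥ := by
    refine clo_le R (elemOfGood A.H K) fun s hs t => ?_
    have := h s hs.1 hs.2.1
    have := hs.2.2
    omega
  exact Subgroup.mem_bot.1 (this hu)

/-- there is an upper bound -/
theorem exists_max : ∃ c : ℕ, ∀ r, r < D.nroots → R.half ≤ r → fz R f r < c := by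
  refine ⟨(∑ r ∈ Finset.range D.nroots, (fz R f r).natAbs) + 1, fun r hr _ => ?_⟩
  have h1 : (fz R f r).natAbs ≤ ∑ r ∈ Finset.range D.nroots, (fz R f r).natAbs :=
    Finset.single_le_sum (f := fun r => (fz R f r).natAbs) (fun _ _ => Nat.zero_le _) (Finset.mem_range.2 hr)
  have h2 : fz R f r ≤ (fz R f r).natAbs := Int.le_natAbs
  push_cast
  push_cast at h1
  zify at h1
  have h3 : (((fz R f r).natAbs : ℕ) : ℤ) = |fz R f r| := Int.natCast_natAbs _
  rw [h3] at h2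
  omega

/-- descending induction on the filtration -/
theorem fil_induct {P : GL D.Idx K → Prop} (h1 : P 1)
    (hs : ∀ a, S'.Pos a → ∀ z ∈ A.R.X a, ∀ v ∈ Γ, v ∈ FF R f K (T.fr a + 1) →
      (∀ v' ∈ Γ, v' ∈ FF R f K (T.fr a + 1) → P v') → P (z * v)) : ∀ u ∈ Γ, u ∈ FF R f K 1 → P u := by
  obtain ⟨M, hM⟩ := T.exists_max
  have key : ∀ k : ℕ, ∀ c : ℤ, 1 ≤ c → (M : ℤ) - c ≤ k → ∀ u ∈ Γ, u ∈ FF R f K c → P u := by
    intro k
    induction k with
    | zero =>
      intro c _ hk u _ hu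
      rw [T.FF_bot (c := c) (fun r hr hp => lt_of_lt_of_le (hM r hr hp) (by push_cast at hk; omega)) hu]
      exact h1
    | succ k ih =>
      intro c hc hk u hu huF
      rcases T.split hc hu huF with h2 | ⟨a, ha, hac, z, hz, v, hv, hvF, rfl⟩
      · exact ih (c + 1) (by omega) (by push_cast at hk; omega) u hu h2
      · subst hac
        exact hs a ha z hz v hv hvF (fun v' hv' hvF' => ih (T.fr a + 1) (by omega) (by push_cast at hk; omega) v' hv' hvF')
  intro u hu huF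
  exact key M 1 le_rfl (by omega) u hu huF

/-- generation of the terms of the filtration -/
theorem FF_gen {c : ℤ} (hc : 1 ≤ c) {u : GL D.Idx K} (hu : u ∈ Γ) (huF : u ∈ FF R f K c) :
    u ∈ gen A.R.X (fun a => S'.Pos a ∧ c ≤ T.fr a) := by
  obtain ⟨M, hM⟩ := T.exists_max
  have key : ∀ k : ℕ, ∀ c : ℤ, 1 ≤ c → (M : ℤ) - c ≤ k → ∀ u ∈ Γ, u ∈ FF R f K c → u ∈ gen A.R.X (fun a => S'.Pos a ∧ c ≤ T.fr a) := by
    intro k
    induction k with
    | zero =>
      intro c _ hk u _ hu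
      rw [T.FF_bot (c := c) (fun r hr hp => lt_of_lt_of_le (hM r hr hp) (by push_cast at hk; omega)) hu]
      exact one_mem _
    | succ k ih =>
      intro c hc hk u hu huF
      rcases T.split hc hu huF with h2 | ⟨a, ha, hac, z, hz, v, hv, hvF, rfl⟩
      · exact gen_mono (fun b hb => ⟨hb.1, by have := hb.2; omega⟩) (ih (c + 1) (by omega) (by push_cast at hk; omega) u hu h2)
      · refine mul_mem (mem_gen (r := a) ⟨ha, hac.ge⟩ hz) ?_
        exact gen_mono (fun b hb => ⟨hb.1, by have := hb.2; omega⟩) (ih (c + 1) (by omega) (by push_cast at hk; omega) v hv hvF)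
  exact key M.succ c hc (by push_cast; omega) u hu huF

theorem gen_FF {c : ℤ} {P : Fin n' → Prop} (hP : ∀ a, P a → S'.Pos a ∧ c ≤ T.fr a) {u : GL D.Idx K} (hu : u ∈ gen A.R.X P) : u ∈ FF R f K c := by
  have : gen A.R.X P ≤ FF R f K c := by
    rw [gen_le]
    intro a ha z hz
    exact FF_mono (hP a ha).2 (T.RX_FF (hP a ha).1 hz)
  exact this hu

theorem gen_Γ {P : Fin n' → Prop} {u : GL D.Idx K} (hu : u ∈ gen A.R.X P) : u ∈ Γ := by
  have : gen A.R.X P ≤ Γ := by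
    rw [gen_le]
    intro a ha z hz
    exact T.RX_Γ hz
  exact this hu

theorem U_iff {u : GL D.Idx K} : u ∈ A.R.U ↔ u ∈ FF R f K 1 ∧ u ∈ Γ := by
  rw [A.R_U, ← pos_eq_FF T.Q]
  exact Iff.rfl

end TwF

end twB

end Cfsg.Agent.ChevU
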