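import Cfsg.Agent.ChevU.SubTwB

set_option autoImplicit false
set_option linter.unusedSectionVars false
set_option linter.unusedVariables false

/-!
# Twisted groups: the hypotheses on overgroups of the subfield subgroup (helper17)
-/

namespace Cfsg.Agent.ChevU

open Cfsg.Lie Cfsg.Agent.Chev Cfsg.Agent.ChevGrp Cfsg.Agent.ChevWeyl Cfsg.Agent.ChevTw Matrix

section twC

variable {D : ChevalleyDatum} {K : Type*} [Field K] {l' n' : ℕ} {Dr : RootPerm l' n'} {Γ : Subgroup (GL D.Idx K)}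

/-- the data on long roots, the highest root and the chain -/
structure TwC (A : TwInst D K Dr.wsys Γ) (R : RootFacts D) (φ : K ≃+* K) (f : ℕ → ℤ) (iT : ℕ → ℕ) (sr : ℕ → ℕ) (ε : ℕ → K) where
  T : TwF A R φ f iT sr ε
  Qr : Fin n' → Prop
  ρ : Fin n'
  ρpos : Dr.Pos ρ
  frmax : ∀ a, Dr.Pos a → T.fr a ≤ T.fr ρ
  Qρ : Qr ρ
  Qw : ∀ i b, Qr b → Qr (Dr.w i b)
  Qmax : ∀ b, Qr b → ∀ k, Dr.c b k ≤ Dr.c ρ k
  Qup : ∀ b, Qr b → b = ρ ∨ ∃ i, (∑ k, Dr.c b k) < ∑ k, Dr.c (Dr.w i b) k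
  uni : ∀ a, Qr a → ∃ r, r < D.nroots ∧ (∀ s : Fin D.nroots, A.T.cls s = a ↔ (s : ℕ) = r) ∧ sr r = r ∧ ε r = 1
  rρ : ℕ
  Z2h : ∀ b, Qr b → b = Dr.neg ρ ∨ ∃ s, s < D.nroots ∧ (∀ r : Fin D.nroots, A.T.cls r = b ↔ (r : ℕ) = s) ∧
    (s = rρ ∨ (s ≠ D.neg rρ ∧ (D.commTerms rρ s = [] ∨ ∃ (v : ℕ) (m : ℤ), ∃ hv : v < D.nroots, D.commTerms rρ s = [(v, m, 1, 1)] ∧
      Qr (A.T.cls ⟨v, hv⟩) ∧ v ≠ s ∧ v ≠ D.neg s ∧ D.commTerms s v = [] ∧ v ≠ rρ ∧ v ≠ D.neg rρ ∧ D.commTerms rρ v = [])))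
  hrρ : rρ < D.nroots ∧ ∀ s : Fin D.nroots, A.T.cls s = ρ ↔ (s : ℕ) = rρ
  j0 : Fin l'
  h0 : ∀ j, j ≠ j0 → Dr.w j ρ = ρ
  hP : 0 < Dr.P ρ (Dr.p j0)
  Qj0 : Qr (Dr.p j0)
  k : ℕ
  γ : ℕ → Fin n'
  γ0 : γ 0 = ρ
  γpos : ∀ i, i ≤ k → Dr.Pos (γ i) ∧ Dr.c (γ i) j0 ≠ 0
  Ctop : ∀ i, i ≤ k → ∀ a, Dr.Pos a → T.fr (γ i) ≤ T.fr a → ∃ m ≤ i, a = γ m
  Cmono : ∀ i, i ≤ k → ∀ m ≤ i, T.fr (γ i) ≤ T.fr (γ m)
  Cspan : ∀ a : Fin l', ∃ (d : ℤ) (b : ℕ → ℤ), d ≠ 0 ∧ ∀ j, d * Dr.c (Dr.p a) j = ∑ i ∈ Finset.range (k + 1), b i * Dr.c (γ i) j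
  i0 : Fin D.rank
  lv : ∀ r : Fin D.nroots, Dr.c (A.T.cls r) j0 = 0 ↔ R.vec r i0 = 0
  pcls : ∀ i : Fin D.rank, ∃ j, A.T.cls (A.E.rp.p i) = Dr.p j
  ε1 : ∀ r : Fin D.nroots, (∃ j, A.T.cls r = Dr.p j) → ε r = 1

variable {A : TwInst D K Dr.wsys Γ} {R : RootFacts D} {φ : K ≃+* K} {f : ℕ → ℤ} {iT sr : ℕ → ℕ} {ε : ℕ → K} (C : TwC A R φ f iT sr ε)

namespace TwC

include C

theorem thet_pl (L : List ℕ) (t : ℕ → K) : thet D φ (pl R A.H L t) = pl R A.H L (fun r => φ (t r)) := by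
  induction L with
  | nil => rw [pl_nil, pl_nil, map_one]
  | cons a L ih => rw [pl_cons, pl_cons, map_mul, ih, thet_xr R A.H]

/-- elements of long root subgroups -/
theorem long_elem {a : Fin n'} {r : ℕ} (hr : r < D.nroots) (hu : ∀ s : Fin D.nroots, A.T.cls s = a ↔ (s : ℕ) = r) {z : GL D.Idx K} (hz : z ∈ A.R.X a) :
    ∃ t : K, z = xr R (elemOfGood A.H K) r t := by
  obtain ⟨h1, h2⟩ := (mem_RX A).1 hz
  clear hz h1
  unfold clo at h2
  induction h2 using Subgroup.closure_induction with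
  | mem x hx =>
    obtain ⟨s, u, ⟨hs, hs'⟩, h5⟩ := hx
    rw [← eq_xu_iff R.tab (elemOfGood A.H K)] at h5
    have : s = r := (hu ⟨s, hs⟩).1 hs'
    rw [this] at h5
    exact ⟨u, h5⟩
  | one => exact ⟨0, (xr_zero R _ r).symm⟩
  | mul x y _ _ ihx ihy =>
    obtain ⟨t, rfl⟩ := ihx
    obtain ⟨t', rfl⟩ := ihy
    exact ⟨t + t', xr_add R _ r t t'⟩
  | inv x _ ih =>
    obtain ⟨t, rfl⟩ := ih
    exact ⟨-t, xr_inv R _ r t⟩

/-- long root elements are fixed -/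
theorem long_fix {a : Fin n'} (ha : C.Qr a) {z : GL D.Idx K} (hz : z ∈ A.R.X a) : thet D φ z = z := by
  obtain ⟨r, hr, hu, hsr, hε⟩ := C.uni a ha
  obtain ⟨t, rfl⟩ := C.long_elem hr hu hz
  have h1 := fix_of_mem A (g := xG A.H.toGood2 r t) (by rw [xG_coe' A R]; exact C.T.RX_Γ hz)
  have h2 := C.T.Z.σx ⟨r, hr⟩ t
  simp only at h2
  rw [h2, hsr, hε, one_mul] at h1
  have h3 : xr R (elemOfGood A.H K) r (φ t) = xr R (elemOfGood A.H K) r t := by
    rw [← xG_coe' A R, h1, xG_coe' A R]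
  rw [thet_xr R A.H]; exact h3

theorem w_j0 : Dr.w C.j0 C.ρ ≠ C.ρ := by
  intro h
  have h1 := Dr.c_w' C.j0 C.ρ C.j0
  rw [h, if_pos rfl] at h1
  have := C.hP
  omega

theorem w_iff (j : Fin l') : Dr.w j C.ρ = C.ρ ↔ j ≠ C.j0 := by
  constructor
  · rintro h rfl; exact C.w_j0 h
  · exact C.h0 j

theorem Q_orbit {b : Fin n'} (hb : C.Qr b) : ∃ v ∈ Dr.wsys.W, v C.ρ = b := by
  have key : ∀ m : ℕ, ∀ b, C.Qr b → (∑ k, Dr.c C.ρ k) - (∑ k, Dr.c b k) ≤ m → ∃ v ∈ Dr.wsys.W, v C.ρ = b := by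
    intro m
    induction m with
    | zero =>
      intro b hb hm
      rcases C.Qup b hb with rfl | ⟨i, hi⟩
      · exact ⟨1, one_mem _, rfl⟩
      · exfalso
        have h1 : ∑ k, Dr.c (Dr.w i b) k ≤ ∑ k, Dr.c C.ρ k := Finset.sum_le_sum fun k _ => C.Qmax _ (C.Qw i b hb) k
        push_cast at hm
        omega
    | succ m ih =>
      intro b hb hm
      rcases C.Qup b hb with rfl | ⟨i, hi⟩
      · exact ⟨1, one_mem _, rfl⟩
      · obtain ⟨v, hv, h1⟩ := ih (Dr.w i b) (C.Qw i b hb) (by push_cast at hm; omega)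
        refine ⟨Dr.wsys.w i * v, mul_mem (Dr.wsys.w_mem i) hv, ?_⟩
        rw [Equiv.Perm.mul_apply, h1]
        exact Dr.w_w i b
  exact key ((∑ k, Dr.c C.ρ k) - (∑ k, Dr.c b k)).toNat b hb (Int.self_le_toNat _)

theorem Q_of_W {w : Equiv.Perm (Fin n')} (hw : w ∈ Dr.wsys.W) : C.Qr (w C.ρ) :=
  SubW.orbit_le Dr C.Qρ C.Qw hw

/-- the weight functional -/
noncomputable def l0 : Fin D.rank → ℝ := fun i => if i = C.i0 then 1 else 0

theorem dom_l0 : Dom C.l0 := by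
  intro i
  unfold l0
  split_ifs <;> norm_num

theorem ev_l0 (r : ℕ) : R.ev (extL D C.l0) r = R.vec r C.i0 := by
  have h1 := evL_eq R C.l0 r
  have h2 : R.ev (extL D C.l0) r = evL R C.l0 r := rfl
  rw [h2, h1]
  unfold l0
  simp

theorem ev_l0_neg (r : ℕ) : R.ev (fun j => - extL D C.l0 j) r = - R.vec r C.i0 := by
  have h : R.ev (fun j => - extL D C.l0 j) r = - R.ev (extL D C.l0) r := by
    unfold RootFacts.ev
    rw [← Finset.sum_neg_distrib]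
    refine Finset.sum_congr rfl fun j _ => ?_
    ring
  rw [h, C.ev_l0]

/-- coordinates one -/
noncomputable def xone (j : Fin l') : GL D.Idx K := pl R A.H (TwF.lvL R f (C.T.fr (Dr.p j))) (fun _ => 1)

theorem xone_mem (j : Fin l') : C.xone j ∈ A.R.X (Dr.p j) := by
  refine C.T.pl_mem_RX (c := C.T.fr (Dr.p j)) (Dr.pos_p j) rfl (fun _ => 1) fun r hr => ?_
  obtain ⟨h1, h2, h3⟩ := (TwF.mem_lvL r).1 hr
  have h4 : A.T.cls ⟨r, h1⟩ = Dr.p j := C.T.fr_inj _ _ ((C.T.pos_iff ⟨r, h1⟩).2 h2) (Dr.pos_p j) (by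
    rw [← C.T.fr_cls ⟨r, h1⟩ h2]; exact h3)
  have h5 : ε r = 1 := C.ε1 ⟨r, h1⟩ ⟨j, h4⟩
  rw [h5, map_one, mul_one]

theorem lvL_ne {a : Fin n'} (ha : Dr.Pos a) : ∃ r, r ∈ TwF.lvL R f (C.T.fr a) := by
  have h1 : A.R.X a ≠ ⊥ := A.R.X_ne_bot a
  by_contra hc
  push Not at hc
  apply h1
  rw [Subgroup.eq_bot_iff_forall]
  intro z hz
  obtain ⟨t, rfl, -⟩ := C.T.RX_pl ha hz
  rw [List.eq_nil_iff_forall_not_mem.mpr hc, pl_nil]

theorem lvL_le {a : Fin n'} : ∀ r ∈ TwF.lvL R f (C.T.fr a), r < D.nroots ∧ R.half ≤ r ∧ C.T.fr a ≤ fz R f r := fun r hr => by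
  have := (TwF.mem_lvL r).1 hr
  exact ⟨this.1, this.2.1, this.2.2.ge⟩

theorem fr_pos {a : Fin n'} (ha : Dr.Pos a) : 1 ≤ C.T.fr a := by
  obtain ⟨r, hr⟩ := C.lvL_ne ha
  have h := (TwF.mem_lvL r).1 hr
  rw [← h.2.2]
  exact C.T.Q.pos r h.2.1 h.1

theorem Tc_RX {a : Fin n'} (ha : Dr.Pos a) (t : ℕ → K) {r : ℕ} (hr : r ∈ TwF.lvL R f (C.T.fr a)) : Tc iT r (pl R A.H (TwF.lvL R f (C.T.fr a)) t) = t r := by
  have := C.fr_pos ha
  exact Tc_pl_self A.H C.T.Q TwF.nodup_lvL (c := C.T.fr a) (by omega) C.lvL_le t hr (by rw [((TwF.mem_lvL _).1 hr).2.2]; omega)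

theorem comm_X {a : Fin n'} (ha : Dr.Pos a) {z z' : GL D.Idx K} (hz : z ∈ A.R.X a) (hz' : z' ∈ A.R.X a) : z * z' = z' * z := by
  obtain ⟨t, rfl, -⟩ := C.T.RX_pl ha hz
  obtain ⟨t', rfl, -⟩ := C.T.RX_pl ha hz'
  rw [pl_add A.H C.T.Q (fun r hr => (TwF.mem_lvL r).1 hr), pl_add A.H C.T.Q (fun r hr => (TwF.mem_lvL r).1 hr)]
  congr 1
  funext r
  ring

theorem comm_xr_of {r s : ℕ} (hr : r < D.nroots) (hs : s < D.nroots) (h1 : s ≠ r) (h2 : s ≠ D.neg r) (h : D.commTerms r s = []) (t u : K) :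
    xr R (elemOfGood A.H K) s u * xr R (elemOfGood A.H K) r t = xr R (elemOfGood A.H K) r t * xr R (elemOfGood A.H K) s u := by
  have h3 := comm_xu R.tab (elemOfGood A.H K) hr hs h1 h2 t u
  unfold ChevalleyDatum.commWord at h3
  rw [h] at h3
  simp only [List.map_nil, wu, List.prod_nil, mul_one] at h3
  exact h3

theorem tor_pl (χ : ℕ → Kˣ) {L : List ℕ} (hL : ∀ r ∈ L, r < D.nroots) (t : ℕ → K) :
    torHom D K χ * pl R A.H L t * (torHom D K χ)⁻¹ = pl R A.H L (fun r => ((chr D χ r : Kˣ) : K) * t r) := by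
  induction L with
  | nil => rw [pl_nil, pl_nil]; group
  | cons a L ih =>
    rw [pl_cons, pl_cons, ← ih (fun r hr => hL r (List.mem_cons_of_mem _ hr)), ← torHom_conj R A.H χ (hL a List.mem_cons_self)]
    group

theorem gen_le_W {a : Fin n'} {P : ℕ → Prop} (h : ∀ s (hs : s < D.nroots), A.T.cls ⟨s, hs⟩ = a → P s) : A.R.X a ≤ clo D K P := by
  intro z hz
  refine clo_mono ?_ ((mem_RX A).1 hz).2
  rintro s ⟨hs, hs'⟩
  exact h s hs hs'

/-- the hypotheses for the abstract theorem -/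
noncomputable def subHyp {Y : Subgroup (GL D.Idx K)} (YG : Y ≤ Γ) (FY : ∀ g ∈ Γ, thet D φ g = g → g ∈ Y)
    (YU : ∀ u ∈ Y, u ∈ A.R.U → thet D φ u = u) : RGrp.SubHyp A.R (thet D φ) Y where
  θX r x hx := C.T.Z.thet_X hx
  θn := C.T.Z.thet_nn
  θH h hh := C.T.Z.thet_H hh
  YG := by rw [A.R_Grp]; exact YG
  FY := by rw [A.R_Grp]; exact FY
  YU := YU
  x := C.xone
  xX := C.xone_mem
  x1 j := by
    intro h
    obtain ⟨r, hr⟩ := C.lvL_ne (Dr.pos_p j)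
    have h1 := C.Tc_RX (Dr.pos_p j) (fun _ => (1 : K)) hr
    have h2 : C.xone j = pl R A.H (TwF.lvL R f (C.T.fr (Dr.p j))) (fun _ => 1) := rfl
    rw [← h2, h, Tc_one A.H C.T.Q ((TwF.mem_lvL r).1 hr).1 ((TwF.mem_lvL r).1 hr).2.1] at h1
    exact zero_ne_one h1
  θx j := by
    unfold xone
    rw [C.thet_pl]
    simp
  xc j z hz := C.comm_X (Dr.pos_p j) hz (C.xone_mem j)
  xT h hh hx := by
    rw [A.R_H] at hh
    obtain ⟨χ, hχ⟩ := diag_le_range R A.H hh.1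
    have h1 : ∀ i : Fin D.rank, chr D χ (A.E.rp.p i : Fin D.nroots) = 1 := by
      intro i
      obtain ⟨j, hj⟩ := C.pcls i
      have h2 := hx j
      unfold xone at h2
      rw [← hχ, C.tor_pl χ (fun r hr => ((TwF.mem_lvL r).1 hr).1)] at h2
      have hp : R.half ≤ ((A.E.rp.p i : Fin D.nroots) : ℕ) := (C.T.pos_iff _).1 (by rw [hj]; exact Dr.pos_p j)
      have hr : ((A.E.rp.p i : Fin D.nroots) : ℕ) ∈ TwF.lvL R f (C.T.fr (Dr.p j)) := by
        rw [TwF.mem_lvL]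
        exact ⟨(A.E.rp.p i).2, hp, by rw [C.T.fr_cls _ hp, hj]⟩
      have h3 := congrArg (Tc iT ((A.E.rp.p i : Fin D.nroots) : ℕ)) h2
      rw [C.Tc_RX (Dr.pos_p j) _ hr, C.Tc_RX (Dr.pos_p j) _ hr, mul_one] at h3
      exact Units.ext h3
    have h2 : torHom D K χ = torHom D K 1 := by
      apply torHom_congr
      intro i hi
      have h3 := h1 ⟨i, hi⟩
      rw [A.E.hp ⟨i, hi⟩] at h3
      rw [← ChevU.chr_simple A.H χ hi, h3]; rfl
    rw [← hχ, h2, map_one]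
  ρ := C.ρ
  ρpos := C.ρpos
  Z1 u hu z hz := by
    have hu' := (C.T.U_iff).1 hu
    have hz' := C.T.RX_FF C.ρpos hz
    have h1 := comm_FF A.H C.T.Q le_rfl (C.fr_pos C.ρpos) _ (inv_mem hu'.1) _ (inv_mem hz')
    rw [inv_inv, inv_inv] at h1
    have h2 := C.T.FF_bot (c := 1 + C.T.fr C.ρ) (fun r hr hp => by
      rw [C.T.fr_cls ⟨r, hr⟩ hp]
      have := C.frmax (A.T.cls ⟨r, hr⟩) ((C.T.pos_iff ⟨r, hr⟩).2 hp)
      omega) h1
    exact mul_inv_eq_one.1 h2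
  Lv a := Dr.c a C.j0 = 0
  VV := UW K (R.wt (extL D C.l0))
  LL := LW K (R.wt (extL D C.l0))
  NN := UW K (R.wt (fun j => - extL D C.l0 j))
  PP := PW K (R.wt (extL D C.l0))
  V1 a ha hl := by
    refine (C.gen_le_W (P := fun s => s < D.nroots ∧ 0 < R.ev (extL D C.l0) s) fun s hs h => ⟨hs, ?_⟩).trans
      (clo_le_UW R (elemOfGood A.H K) _ fun s hs => hs)
    have hp : R.half ≤ s := (C.T.pos_iff ⟨s, hs⟩).1 (by rw [h]; exact ha)
    have h1 := R.vec_nonneg s hp hs C.i0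
    have h2 : R.vec s C.i0 ≠ 0 := by
      intro h3
      apply hl
      rw [← h]
      exact (C.lv ⟨s, hs⟩).2 h3
    rw [C.ev_l0]
    have : 0 < R.vec s C.i0 := lt_of_le_of_ne h1 (Ne.symm h2)
    exact_mod_cast this
  V2 a ha := by
    refine (C.gen_le_W (P := fun s => s < D.nroots ∧ R.ev (extL D C.l0) s = 0) fun s hs h => ⟨hs, ?_⟩).trans
      (clo_le_LW R (elemOfGood A.H K) _ fun s hs => hs)
    rw [C.ev_l0, (C.lv ⟨s, hs⟩).1 (by rw [h]; exact ha)]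
    simp
  V3 a ha hl := by
    refine (C.gen_le_W (P := fun s => s < D.nroots ∧ 0 < R.ev (fun j => - extL D C.l0 j) s) fun s hs h => ⟨hs, ?_⟩).trans
      (clo_le_UW R (elemOfGood A.H K) _ fun s hs => hs)
    have hp : s < R.half := by
      by_contra hc
      apply ha
      rw [← h]
      exact (C.T.pos_iff ⟨s, hs⟩).2 (by simpa using hc)
    have h1 := R.vec_nonpos hs hp C.i0
    have h2 : R.vec s C.i0 ≠ 0 := by
      intro h3
      apply hl
      rw [← h]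
      exact (C.lv ⟨s, hs⟩).2 h3
    rw [C.ev_l0_neg]
    have : 0 < - R.vec s C.i0 := by omega
    exact_mod_cast this
  VH := by
    rw [A.R_H]
    exact inf_le_left.trans (diag_le_LW R A.H _)
  Vn j hj := by
    have hj' : j ≠ C.j0 := (C.w_iff j).1 hj
    have h1 : Subgroup.closure {x | A.T.σ x = x ∧
        (x ∈ gen A.I.R.X (fun r => A.T.cls r = Dr.wsys.p j) ∨ x ∈ gen A.I.R.X (fun r => A.T.cls r = Dr.wsys.neg (Dr.wsys.p j)))} ≤
        (LW K (R.wt (extL D C.l0))).comap (D.group K).subtype := by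
      rw [Subgroup.closure_le]
      have h0 : Dr.c (Dr.p j) C.j0 = 0 := by rw [Dr.c_p, if_neg (Ne.symm hj')]
      rintro x ⟨-, hx | hx⟩
      · refine clo_le_LW R (elemOfGood A.H K) (P := fun s => s < D.nroots ∧ R.ev (extL D C.l0) s = 0) _ (fun s hs => hs)
          (gen_clo A (fun r hr => ⟨r.2, ?_⟩) hx)
        have h3 : Dr.c (A.T.cls r) C.j0 = 0 := by rw [hr]; exact h0
        rw [C.ev_l0, (C.lv r).1 h3]; simp
      · refine clo_le_LW R (elemOfGood A.H K) (P := fun s => s < D.nroots ∧ R.ev (extL D C.l0) s = 0) _ (fun s hs => hs)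
          (gen_clo A (fun r hr => ⟨r.2, ?_⟩) hx)
        have h3 : Dr.c (A.T.cls r) C.j0 = 0 := by
          rw [hr]
          have : Dr.c (Dr.neg (Dr.p j)) C.j0 = 0 := by rw [Dr.c_neg, h0, neg_zero]
          exact this
        rw [C.ev_l0, (C.lv r).1 h3]; simp
    exact h1 (A.T.nj_mem j)
  VP := UW_le_PW _
  LP := LW_le_PW _
  LV a ha v hv := conj_mem_UW (LW_le_PW _ ha) hv
  LVi g hg hg' := by
    have : g ∈ UW K (R.wt (extL D C.l0)) ⊓ LW K (R.wt (extL D C.l0)) := ⟨hg', hg⟩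
    rw [UW_inf_LW] at this
    exact Subgroup.mem_bot.1 this
  PN g hg hg' := by
    have e : R.wt (fun j => - extL D C.l0 j) = fun a => - R.wt (extL D C.l0) a := by
      funext a
      rcases a with i | s
      · show (0 : ℝ) = -(0 : ℝ); ring
      · show R.ev _ _ = - R.ev _ _
        rw [C.ev_l0, C.ev_l0_neg]
    rw [e] at hg'
    have : g ∈ PW K (R.wt (extL D C.l0)) ⊓ UW K (fun a => - R.wt (extL D C.l0) a) := ⟨hg, hg'⟩
    rw [PW_inf_UW_neg] at this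
    exact Subgroup.mem_bot.1 this
  V6 g hg hg' := by
    rw [A.R_Grp] at hg
    rw [A.R_U]
    refine ⟨?_, hg⟩
    have h1 : g ∈ D.group K ⊓ PW K (wtL R C.l0) := ⟨A.le hg, hg'.1⟩
    rw [stab_dom R A.H A.E C.dom_l0] at h1
    have h2 : g ∈ D.parabolicSubgroup K (zeros C.l0) ⊓ UW K (wtL R C.l0) := ⟨h1, hg'⟩
    rw [stab_unip R A.H C.dom_l0] at h2
    exact radical_le_pos (F := K) _ h2
  θV g hg := thet_UW φ _ hg
  θL g hg := thet_LW φ _ hg
  Lp j hj := by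
    show Dr.c (Dr.p j) C.j0 = 0
    rw [Dr.c_p, if_neg (Ne.symm ((C.w_iff j).1 hj))]
  Lp' j hj := by
    apply (C.w_iff j).2
    rintro rfl
    have h1 : Dr.c (Dr.p C.j0) C.j0 = 0 := hj
    rw [Dr.c_p, if_pos rfl] at h1
    exact one_ne_zero h1
  Ln r := by
    show Dr.c r C.j0 = 0 ↔ Dr.c (Dr.neg r) C.j0 = 0
    rw [Dr.c_neg, neg_eq_zero]
  W1 w hw hwρ j hj := SubW.W1 Dr C.h0 C.hP (fun u hu k => C.Qmax _ (C.Q_of_W hu) k) hw hwρ j hj
  W2 w hw h s hs hs0 := SubW.W2 Dr (j0 := C.j0) hw (fun j hj => h j ((C.w_iff j).2 hj)) hs hs0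
  W3 w hw h s hs hs0 := SubW.W3 Dr (j0 := C.j0) hw (fun j hj => h j ((C.w_iff j).2 hj)) hs hs0
  k := C.k
  γ := C.γ
  γ0 := C.γ0
  γV i hi := C.γpos i hi
  C2 i hi hik u hu z hz := by
    have hu' := (C.T.U_iff).1 hu
    have hpos := (C.γpos i hik).1
    have hz' := C.T.RX_FF hpos hz
    have h1 := comm_FF A.H C.T.Q le_rfl (C.fr_pos hpos) _ (inv_mem hu'.1) _ (inv_mem hz')
    rw [inv_inv, inv_inv] at h1
    have h2 : u * z * u⁻¹ * z⁻¹ ∈ Γ := mul_mem (mul_mem (mul_mem hu'.2 (C.T.RX_Γ hz)) (inv_mem hu'.2)) (inv_mem (C.T.RX_Γ hz))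
    have := C.fr_pos hpos
    refine gen_mono ?_ (C.T.FF_gen (c := 1 + C.T.fr (C.γ i)) (by omega) h2 h1)
    rintro a ⟨ha, ha'⟩
    obtain ⟨m, hm, rfl⟩ := C.Ctop i hik a ha (by omega)
    refine ⟨m, lt_of_le_of_ne hm ?_, rfl⟩
    rintro rfl
    omega
  C3 i hi hik a ha z hz z' hz' ζ hζ e := by
    have hpos := (C.γpos i hik).1
    have h1 : z ∈ FF R f K (C.T.fr (C.γ i)) := by
      rw [e]
      refine mul_mem (C.T.RX_FF hpos hz') (C.T.gen_FF ?_ hζ)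
      rintro b ⟨m, hm, rfl⟩
      exact ⟨(C.γpos m (by omega)).1, C.Cmono i hik m hm.le⟩
    have h2 : z ∈ A.R.U := by
      rw [C.T.U_iff]
      exact ⟨FF_mono (C.fr_pos hpos) h1, C.T.RX_Γ hz⟩
    by_cases hp : Dr.Pos a
    · have h3 : C.T.fr a < C.T.fr (C.γ i) := by
        by_contra hc
        obtain ⟨m, hm, h4⟩ := C.Ctop i hik a hp (by omega)
        exact ha m hm h4
      obtain ⟨t, ht, -⟩ := C.T.RX_pl hp hz
      have h4 : ∀ r ∈ TwF.lvL R f (C.T.fr a), t r = (fun _ => (0 : K)) r := by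
        intro r hr
        obtain ⟨h5, h6, h7⟩ := (TwF.mem_lvL r).1 hr
        have h8 := Tc_zero A.H C.T.Q h5 h6 (c := C.T.fr (C.γ i)) (by omega) h1
        rw [ht, C.Tc_RX hp t hr] at h8
        exact h8
      rw [ht, pl_congr A.H h4, pl_zero]
    · exact A.R.U_inf_V h2 (A.R.X_le_V hp hz)
  C4 w hw h := by
    refine SubW.C4 Dr hw (C.k + 1) C.γ (fun i hi => h i (by omega)) C.Cspan
  Z2 w hw := by
    have hQ := C.Q_of_W hw
    obtain ⟨hρlt, hρu⟩ := C.hrρ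
    rcases C.Z2h _ hQ with h1 | ⟨s, hs, hsu, h1⟩
    · left; exact h1
    · right
      rcases h1 with h1 | ⟨h1, h2 | ⟨v, m, hv, h2, h3, h4, h5, h6, h7, h8, h9⟩⟩
      · left
        intro z hz z' hz'
        obtain ⟨t, rfl⟩ := C.long_elem hs hsu hz
        obtain ⟨t', rfl⟩ := C.long_elem hρlt hρu hz'
        rw [h1, xr_add, xr_add, add_comm]
      · left
        intro z hz z' hz'
        obtain ⟨t, rfl⟩ := C.long_elem hs hsu hz
        obtain ⟨t', rfl⟩ := C.long_elem hρlt hρu hz'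
        by_cases hsr : s = C.rρ
        · rw [hsr, xr_add, xr_add, add_comm]
        · exact C.comm_xr_of hρlt hs hsr h1 h2 t' t
      · by_cases hsr : s = C.rρ
        · left
          intro z hz z' hz'
          obtain ⟨t, rfl⟩ := C.long_elem hs hsu hz
          obtain ⟨t', rfl⟩ := C.long_elem hρlt hρu hz'
          rw [hsr, xr_add, xr_add, add_comm]
        right
        obtain ⟨w', hw', hw'v⟩ := C.Q_orbit h3
        refine ⟨w', hw', ?_⟩
        intro z hz z' hz'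
        have hzΓ := C.T.RX_Γ hz
        have hz'Γ := C.T.RX_Γ hz'
        obtain ⟨t, ht⟩ := C.long_elem hs hsu hz
        obtain ⟨t', ht'⟩ := C.long_elem hρlt hρu hz'
        have e1 := comm_xu R.tab (elemOfGood A.H K) hρlt hs hsr h1 t' t
        unfold ChevalleyDatum.commWord at e1
        rw [h2] at e1
        simp only [List.map_cons, List.map_nil, wu, List.prod_cons, List.prod_nil, mul_one, pow_one] at e1
        set c : GL D.Idx K := xu R.tab (elemOfGood A.H K) v ((m : K) * -t' * t) with hc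
        have e2 : z * z' = z' * z * c := by rw [ht, ht']; exact e1
        have hcz : c * z = z * c := by
          rw [ht]; exact C.comm_xr_of hs hv h4 h5 h6 _ _
        have hcz' : c * z' = z' * c := by
          rw [ht']; exact C.comm_xr_of hρlt hv h7 h8 h9 _ _
        have e3 : z' * z * z'⁻¹ * z⁻¹ = c⁻¹ := by
          have h10 : z' * z = z * z' * c⁻¹ := by rw [e2]; group
          have h11 : c⁻¹ * z'⁻¹ = z'⁻¹ * c⁻¹ := by
            have := congrArg (fun x => x⁻¹) hcz'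
            simp only [_root_.mul_inv_rev] at this
            exact this.symm
          have h12 : c⁻¹ * z⁻¹ = z⁻¹ * c⁻¹ := by
            have := congrArg (fun x => x⁻¹) hcz
            simp only [_root_.mul_inv_rev] at this
            exact this.symm
          calc z' * z * z'⁻¹ * z⁻¹ = z * z' * (c⁻¹ * z'⁻¹) * z⁻¹ := by rw [h10]; group
            _ = z * (c⁻¹ * z⁻¹) := by rw [h11]; group
            _ = c⁻¹ := by rw [h12]; group
        have hcX : c ∈ A.R.X (A.T.cls ⟨v, hv⟩) := by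
          rw [mem_RX A]
          constructor
          · have : c = (z' * z)⁻¹ * (z * z') := by rw [e2]; group
            rw [this]
            exact mul_mem (inv_mem (mul_mem hz'Γ hzΓ)) (mul_mem hzΓ hz'Γ)
          · exact xr_mem_clo R (elemOfGood A.H K) (P := fun r => ∃ hr : r < D.nroots, A.T.cls ⟨r, hr⟩ = A.T.cls ⟨v, hv⟩) ⟨hv, rfl⟩ _
        rw [hw'v]
        refine ⟨by rw [e3]; exact inv_mem hcX, ?_⟩
        intro x hx
        have hxe : ∃ a, x = xr R (elemOfGood A.H K) v a := by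
          obtain ⟨r, hr, hru, -⟩ := C.uni _ h3
          have hrv : v = r := (hru ⟨v, hv⟩).1 rfl
          subst hrv
          exact C.long_elem hv hru hx
        obtain ⟨a, rfl⟩ := hxe
        constructor
        · rw [ht]; exact C.comm_xr_of hs hv h4 h5 h6 _ _
        · rw [ht']; exact C.comm_xr_of hρlt hv h7 h8 h9 _ _
  j0 := C.j0
  J1 z hz := C.long_fix C.Qj0 hz
  J2 := C.w_j0
  J3 h := by
    apply C.w_j0
    have h1 : Dr.w C.j0 (Dr.neg C.ρ) = Dr.neg C.ρ := h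
    rw [Dr.w_neg] at h1
    have := congrArg Dr.neg h1
    rwa [Dr.neg_neg, Dr.neg_neg] at this

end TwC

end twC

end Cfsg.Agent.ChevU
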