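import Cfsg.Agent.ChevU.SubTwC

set_option autoImplicit false
set_option linter.unusedSectionVars false
set_option linter.unusedVariables false

/-!
# Twisted groups: the dichotomy for overgroups of the subfield subgroup (helper17)
-/

namespace Cfsg.Agent.ChevU

open Cfsg.Lie Cfsg.Agent.Chev Cfsg.Agent.ChevGrp Cfsg.Agent.ChevWeyl Cfsg.Agent.ChevTw Matrix

section plcomm

variable {D : ChevalleyDatum} {F : Type*} [Field F] {R : RootFacts D} {f : ℕ → ℤ} (G : Chev.Good D) {iT : ℕ → ℕ} (Q : FData R f iT)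

/-- the commutator words of positive roots have at most one letter -/
def SLaced (R : RootFacts D) : Prop := ∀ r s, r < D.nroots → R.half ≤ r → s < D.nroots → R.half ≤ s → s ≠ r →
  D.commTerms r s = [] ∨ ∃ w n, w < D.nroots ∧ R.half ≤ w ∧ D.commTerms r s = [(w, n, 1, 1)]

/-- the leading coordinate of a commutator -/
def cs (D : ChevalleyDatum) {F : Type*} [Field F] (L B : List ℕ) (v : ℕ) (t b : ℕ → F) : F :=
  (L.map fun r => (B.map fun s => (cf D s r v : F) * (-b s) * t r).sum).sum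

include G Q in
theorem Tc_comm_pl (hSL : SLaced R) {L B : List ℕ} {c d : ℤ} (hc : 1 ≤ c) (hd : 1 ≤ d) (hL : ∀ r ∈ L, r < D.nroots ∧ R.half ≤ r ∧ fz R f r = c)
    (hB : ∀ r ∈ B, r < D.nroots ∧ R.half ≤ r ∧ fz R f r = d) (hne : ∀ r ∈ L, ∀ s ∈ B, r ≠ s) {v : ℕ} (hv : v < D.nroots) (hvp : R.half ≤ v)
    (hvc : fz R f v = c + d) (t b : ℕ → F) :
    Tc iT v ((pl R G L t)⁻¹ * (pl R G B b)⁻¹ * pl R G L t * pl R G B b) = cs D L B v t b := by
  have hL' : ∀ L' : List ℕ, (∀ r ∈ L', r ∈ L) → ∀ r ∈ L', r < D.nroots ∧ R.half ≤ r ∧ c ≤ fz R f r := fun L' h r hr =>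
    ⟨(hL r (h r hr)).1, (hL r (h r hr)).2.1, (hL r (h r hr)).2.2.ge⟩
  have hB' : ∀ L' : List ℕ, (∀ r ∈ L', r ∈ B) → ∀ r ∈ L', r < D.nroots ∧ R.half ≤ r ∧ d ≤ fz R f r := fun L' h r hr =>
    ⟨(hB r (h r hr)).1, (hB r (h r hr)).2.1, (hB r (h r hr)).2.2.ge⟩
  -- one root
  have h1 : ∀ r ∈ L, ∀ B' : List ℕ, (∀ s ∈ B', s ∈ B) →
      Tc iT v ((xr R (elemOfGood G F) r (t r))⁻¹ * (pl R G B' b)⁻¹ * xr R (elemOfGood G F) r (t r) * pl R G B' b) =
        (B'.map fun s => (cf D s r v : F) * (-b s) * t r).sum := by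
    intro r hr B'
    have hr' := hL r hr
    induction B' with
    | nil =>
      intro _
      rw [pl_nil]
      simp only [inv_one, mul_one, inv_mul_cancel, List.map_nil, List.sum_nil]
      exact Tc_one G Q hv hvp
    | cons s B' ih =>
      intro hs
      have hs1 := hB s (hs s List.mem_cons_self)
      rw [pl_cons, Tc_comm_mul_right G Q hv hvp hc hd hvc (xr_mem_FF G hr'.1 hr'.2.1 hr'.2.2.ge _) (xr_mem_FF G hs1.1 hs1.2.1 hs1.2.2.ge _)
        (pl_mem G (hB' B' fun s' hs' => hs s' (List.mem_cons_of_mem _ hs')) b), ih (fun s' hs' => hs s' (List.mem_cons_of_mem _ hs')),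
        Tc_comm_xr G Q hs1.1 hs1.2.1 hr'.1 hr'.2.1 hv hvp (hne r hr s (hs s List.mem_cons_self))
          (hSL s r hs1.1 hs1.2.1 hr'.1 hr'.2.1 (hne r hr s (hs s List.mem_cons_self)))]
      simp
  have h2 : ∀ L' : List ℕ, (∀ r ∈ L', r ∈ L) → Tc iT v ((pl R G L' t)⁻¹ * (pl R G B b)⁻¹ * pl R G L' t * pl R G B b) = cs D L' B v t b := by
    intro L'
    induction L' with
    | nil =>
      intro _
      rw [pl_nil]
      simp only [inv_one, one_mul, mul_one, inv_mul_cancel, cs, List.map_nil, List.sum_nil]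
      exact Tc_one G Q hv hvp
    | cons r L' ih =>
      intro hr
      have hr1 := hL r (hr r List.mem_cons_self)
      rw [pl_cons, Tc_comm_mul_left G Q hv hvp hc hd hvc (xr_mem_FF G hr1.1 hr1.2.1 hr1.2.2.ge _)
        (pl_mem G (hL' L' fun s' hs' => hr s' (List.mem_cons_of_mem _ hs')) t) (pl_mem G (hB' B fun s hs => hs) b),
        ih (fun s' hs' => hr s' (List.mem_cons_of_mem _ hs')), h1 r (hr r List.mem_cons_self) B (fun s hs => hs)]
      simp [cs]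
  exact h2 L (fun r hr => hr)

end plcomm

section twD

variable {D : ChevalleyDatum} {K : Type*} [Field K] {l' n' : ℕ} {Dr : RootPerm l' n'} {Γ : Subgroup (GL D.Idx K)}
variable {A : TwInst D K Dr.wsys Γ} {R : RootFacts D} {φ : K ≃+* K} {f : ℕ → ℤ} {iT sr : ℕ → ℕ} {ε : ℕ → K} (C : TwC A R φ f iT sr ε)

namespace TwC

/-- short root elements can be pushed up -/
def Push (C : TwC A R φ f iT sr ε) (a : Fin n') : Prop := ∃ (b : Fin n') (v : ℕ), Dr.Pos b ∧ v < D.nroots ∧ R.half ≤ v ∧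
  fz R f v = C.T.fr a + C.T.fr b ∧ (∀ r ∈ TwF.lvL R f (C.T.fr b), ε r = 1) ∧ a ≠ b ∧
  ∀ t : ℕ → K, (∀ r ∈ TwF.lvL R f (C.T.fr a), t (sr r) = ε r * φ (t r)) →
    φ (cs D (TwF.lvL R f (C.T.fr a)) (TwF.lvL R f (C.T.fr b)) v t (fun _ => 1)) =
      cs D (TwF.lvL R f (C.T.fr a)) (TwF.lvL R f (C.T.fr b)) v t (fun _ => 1) → ∀ r ∈ TwF.lvL R f (C.T.fr a), φ (t r) = t r

include C

theorem fix_gen {P : Fin n' → Prop} (h : ∀ a, P a → C.Qr a) {u : GL D.Idx K} (hu : u ∈ gen A.R.X P) : thet D φ u = u := by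
  have : gen A.R.X P ≤ MonoidHom.eqLocus (thet D φ) (MonoidHom.id _) := by
    rw [gen_le]
    intro a ha z hz
    exact C.long_fix (h a ha) hz
  exact this hu

variable {Y : Subgroup (GL D.Idx K)} (YG : Y ≤ Γ) (FY : ∀ g ∈ Γ, thet D φ g = g → g ∈ Y)

include YG FY in
theorem dich (hSL : SLaced R) (a0 : Fin n') (hpush : ∀ a, Dr.Pos a → C.Qr a ∨ (a = a0 ∧ ∀ b, Dr.Pos b → C.T.fr a0 < C.T.fr b → C.Qr b) ∨ C.Push a) :
    (∀ u ∈ Y, u ∈ A.R.U → thet D φ u = u) ∨ ∃ z ∈ Y, z ∈ A.R.X a0 ∧ thet D φ z ≠ z := by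
  by_cases hcl : ∃ z ∈ Y, z ∈ A.R.X a0 ∧ thet D φ z ≠ z
  · exact Or.inr hcl
  left
  have key : ∀ u ∈ Γ, u ∈ FF R f K 1 → (u ∈ Y → thet D φ u = u) := by
    apply C.T.fil_induct (P := fun u => u ∈ Y → thet D φ u = u)
    · intro _; exact map_one _
    intro a ha z hz v hv hvF ih hzv
    by_cases hzf : thet D φ z = z
    · have hzY := FY z (C.T.RX_Γ hz) hzf
      have hvY : v ∈ Y := by
        have := mul_mem (inv_mem hzY) hzv
        rwa [inv_mul_cancel_left] at this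
      rw [map_mul, hzf, ih v hv hvF hvY]
    exfalso
    rcases hpush a ha with h1 | ⟨rfl, h1⟩ | ⟨b, w, hb, hw, hwp, hwc, hεb, hab, h1⟩
    · exact hzf (C.long_fix h1 hz)
    · have hvf : thet D φ v = v := by
        have h2 := C.T.FF_gen (c := C.T.fr a + 1) (by have := C.fr_pos ha; omega) hv hvF
        exact C.fix_gen (fun b hb => h1 b hb.1 (by have := hb.2; omega)) h2
      have hvY := FY v hv hvf
      have hzY : z ∈ Y := by
        have := mul_mem hzv (inv_mem hvY)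
        rwa [mul_inv_cancel_right] at this
      exact hcl ⟨z, hzY, hz, hzf⟩
    · obtain ⟨t, rfl, ht⟩ := C.T.RX_pl ha hz
      have hm := C.T.pl_mem_RX (c := C.T.fr b) hb rfl (fun _ => 1) (fun r hr => by rw [hεb r hr, map_one, mul_one])
      set m := pl R A.H (TwF.lvL R f (C.T.fr b)) (fun _ => (1 : K)) with hmd
      have hmΓ := C.T.RX_Γ hm
      have hmf : thet D φ m = m := by rw [hmd, C.thet_pl]; simp
      have hmY := FY m hmΓ hmf
      have hca := C.fr_pos ha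
      have hcb := C.fr_pos hb
      have hzF := C.T.RX_FF ha hz
      have hmF := C.T.RX_FF hb hm
      set z := pl R A.H (TwF.lvL R f (C.T.fr a)) t with hzd
      have hu'Y : (z * v)⁻¹ * m⁻¹ * (z * v) * m ∈ Y := mul_mem (mul_mem (mul_mem (inv_mem hzv) (inv_mem hmY)) hzv) hmY
      have hu'F := comm_FF A.H C.T.Q hca hcb (z * v) (mul_mem hzF (FF_mono (by omega) hvF)) m hmF
      have hu'f := ih _ (YG hu'Y) (FF_mono (by omega) hu'F) hu'Y
      have hT := Tc_comm_mul_left A.H C.T.Q hw hwp hca hcb hwc hzF (FF_mono (by omega) hvF) hmF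
      have hvm := comm_FF A.H C.T.Q (show 1 ≤ C.T.fr a + 1 by omega) hcb v hvF m hmF
      rw [Tc_zero A.H C.T.Q hw hwp (c := C.T.fr a + 1 + C.T.fr b) (by omega) hvm, add_zero, hzd, hmd,
        Tc_comm_pl A.H C.T.Q hSL hca hcb (fun r hr => (TwF.mem_lvL r).1 hr) (fun r hr => (TwF.mem_lvL r).1 hr) (by
          intro r hr s hs hrs
          apply hab
          have h2 := ((TwF.mem_lvL r).1 hr).2.2
          have h3 := ((TwF.mem_lvL s).1 hs).2.2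
          rw [hrs, h3] at h2
          exact C.T.fr_inj a b ha hb h2.symm) hw hwp hwc] at hT
      have h2 := thet_Tc φ iT w ((z * v)⁻¹ * m⁻¹ * (z * v) * m)
      rw [hu'f, hT] at h2
      have h3 := h1 t ht h2.symm
      apply hzf
      rw [hzd, C.thet_pl]
      exact pl_congr A.H h3
  intro u hu huU
  exact key u (YG hu) ((C.T.U_iff).1 huU).1 hu

theorem thet_nd (L : List (Fin l')) : thet D φ (A.R.nd L) = A.R.nd L := by
  induction L with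
  | nil => rw [RGrp.nd_nil, map_one]
  | cons i L ih => rw [RGrp.nd_cons, map_mul, C.T.Z.thet_nn, ih]

theorem nd_Γ (L : List (Fin l')) : A.R.nd L ∈ Γ := by
  have h : A.R.nd L ∈ A.R.Grp := RGrp.N_le_Grp (RGrp.nd_mem_N L)
  rwa [A.R_Grp] at h

/-- moving between roots in one orbit -/
theorem conj_word {w : Equiv.Perm (Fin n')} (hw : w ∈ Dr.wsys.W) : ∃ g ∈ Γ, thet D φ g = g ∧ A.R.Act g w := by
  obtain ⟨L, rfl⟩ := Dr.wsys.exists_wd hw
  exact ⟨A.R.nd L, C.nd_Γ L, C.thet_nd L, RGrp.act_nd L⟩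

include FY in
theorem X_le_of_orbit {a b : Fin n'} {w : Equiv.Perm (Fin n')} (hw : w ∈ Dr.wsys.W) (hab : w a = b) (h : A.R.X a ≤ Y) : A.R.X b ≤ Y := by
  obtain ⟨g, hg, hgf, hga⟩ := C.conj_word hw
  have hgY := FY g hg hgf
  intro z hz
  have h1 := hga.conj' hz
  have h2 : w⁻¹ b = a := by rw [← hab]; simp
  rw [h2] at h1
  have : z = g * (g⁻¹ * z * g) * g⁻¹ := by group
  rw [this]
  exact mul_mem (mul_mem hgY (h h1)) (inv_mem hgY)

include FY in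
theorem top_of_X {j1 : Fin l'} (hX : A.R.X (Dr.p j1) ≤ Y) (hsh : ∀ j, C.Qr (Dr.p j) ∨ ∃ w ∈ Dr.wsys.W, w (Dr.p j1) = Dr.p j) : Γ ≤ Y := by
  have h1 : ∀ j, A.R.X (Dr.p j) ≤ Y := by
    intro j
    rcases hsh j with h | ⟨w, hw, h⟩
    · intro z hz
      exact FY z (C.T.RX_Γ hz) (C.long_fix h hz)
    · exact C.X_le_of_orbit FY hw h hX
  have h2 : ∀ j, A.R.X (Dr.neg (Dr.p j)) ≤ Y := fun j => C.X_le_of_orbit FY (Dr.wsys.w_mem j) (Dr.w_p j) (h1 j)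
  have h3 : A.T.G1 ≤ Y.subgroupOf (D.group K) := by
    rw [A.T.G1_eq']
    refine iSup_le fun j => sup_le ?_ ?_
    · intro x hx
      exact h1 j ⟨x, hx, rfl⟩
    · intro x hx
      exact h2 j ⟨x, hx, rfl⟩
  intro g hg
  have h4 : (⟨g, A.le hg⟩ : ↥(D.group K)) ∈ A.T.G1 := by rw [A.eq]; exact hg
  exact h3 h4

/-- elements of root subgroups are determined by one coordinate -/
theorem det_coord {a : Fin n'} (ha : Dr.Pos a) {r0 : ℕ} (hr0 : r0 ∈ TwF.lvL R f (C.T.fr a)) (hgen : ∀ r ∈ TwF.lvL R f (C.T.fr a), ∃ k : ℕ, r = sr^[k] r0)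
    {z z' : GL D.Idx K} (hz : z ∈ A.R.X a) (hz' : z' ∈ A.R.X a) (h : Tc iT r0 z = Tc iT r0 z') : z = z' := by
  obtain ⟨t, rfl, ht⟩ := C.T.RX_pl ha hz
  obtain ⟨t', rfl, ht'⟩ := C.T.RX_pl ha hz'
  rw [C.Tc_RX ha t hr0, C.Tc_RX ha t' hr0] at h
  have key : ∀ k : ℕ, sr^[k] r0 ∈ TwF.lvL R f (C.T.fr a) ∧ t (sr^[k] r0) = t' (sr^[k] r0) := by
    intro k
    induction k with
    | zero => exact ⟨hr0, h⟩
    | succ k ih =>
      rw [Function.iterate_succ_apply']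
      refine ⟨C.T.perm_sr.mem_iff.mp (List.mem_map_of_mem ih.1), ?_⟩
      rw [ht _ ih.1, ht' _ ih.1, ih.2]
  apply pl_congr
  intro r hr
  obtain ⟨k, rfl⟩ := hgen r hr
  exact (key k).2

/-- the set of coordinates of the elements of `Y` -/
noncomputable def AS (C : TwC A R φ f iT sr ε) (Y : Subgroup (GL D.Idx K)) (a : Fin n') (r0 : ℕ) : Set K := {s | ∃ z ∈ Y, z ∈ A.R.X a ∧ Tc iT r0 z = s}

theorem AS_add {a : Fin n'} (ha : Dr.Pos a) {r0 : ℕ} (hr0 : r0 ∈ TwF.lvL R f (C.T.fr a)) {s s' : K} (h : s ∈ C.AS Y a r0) (h' : s' ∈ C.AS Y a r0) :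
    s + s' ∈ C.AS Y a r0 := by
  obtain ⟨z, hz, hzX, rfl⟩ := h
  obtain ⟨z', hz', hzX', rfl⟩ := h'
  obtain ⟨h1, h2, h3⟩ := (TwF.mem_lvL r0).1 hr0
  have := C.fr_pos ha
  exact ⟨z * z', mul_mem hz hz', mul_mem hzX hzX', Tc_mul A.H C.T.Q h1 h2 (c := C.T.fr a) (by omega) (by omega) (C.T.RX_FF ha hzX) (C.T.RX_FF ha hzX')⟩

theorem AS_neg {a : Fin n'} (ha : Dr.Pos a) {r0 : ℕ} (hr0 : r0 ∈ TwF.lvL R f (C.T.fr a)) {s : K} (h : s ∈ C.AS Y a r0) :
    -s ∈ C.AS Y a r0 := by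
  obtain ⟨z, hz, hzX, rfl⟩ := h
  obtain ⟨h1, h2, h3⟩ := (TwF.mem_lvL r0).1 hr0
  have := C.fr_pos ha
  exact ⟨z⁻¹, inv_mem hz, inv_mem hzX, Tc_inv A.H C.T.Q h1 h2 (c := C.T.fr a) (by omega) (by omega) (C.T.RX_FF ha hzX)⟩

theorem X_le_of_AS {a : Fin n'} (ha : Dr.Pos a) {r0 : ℕ} (hr0 : r0 ∈ TwF.lvL R f (C.T.fr a)) (hgen : ∀ r ∈ TwF.lvL R f (C.T.fr a), ∃ k : ℕ, r = sr^[k] r0)
    (h : ∀ s : K, s ∈ C.AS Y a r0) : A.R.X a ≤ Y := by
  intro z hz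
  obtain ⟨z', hz', hzX', e⟩ := h (Tc iT r0 z)
  rw [← C.det_coord ha hr0 hgen hzX' hz e]
  exact hz'

include FY in
theorem AS_fix {a : Fin n'} (ha : Dr.Pos a) {r0 : ℕ} (hr0 : r0 ∈ TwF.lvL R f (C.T.fr a)) (hε : ∀ r ∈ TwF.lvL R f (C.T.fr a), ε r = 1) {c : K} (hc : φ c = c) :
    c ∈ C.AS Y a r0 := by
  have h1 := C.T.pl_mem_RX (c := C.T.fr a) ha rfl (fun _ => c) (fun r hr => by rw [hε r hr, hc, one_mul])
  refine ⟨_, FY _ (C.T.RX_Γ h1) ?_, h1, C.Tc_RX ha _ hr0⟩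
  rw [C.thet_pl]
  congr 1
  funext r
  exact hc

/-- long root elements with fixed parameter -/
theorem long_mem {a : Fin n'} (ha : C.Qr a) {r : ℕ} (hr : r < D.nroots) (hru : A.T.cls ⟨r, hr⟩ = a) {t : K} (ht : φ t = t) :
    xr R (elemOfGood A.H K) r t ∈ A.R.X a ∧ thet D φ (xr R (elemOfGood A.H K) r t) = xr R (elemOfGood A.H K) r t := by
  refine ⟨?_, by rw [thet_xr R A.H, ht]⟩
  obtain ⟨r', hr', hu, hsr, hε⟩ := C.uni a ha
  have : r = r' := (hu ⟨r, hr⟩).1 hru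
  subst this
  rw [← xG_coe' A R]
  apply mem_of_fix
  · exact mem_gen (r := ⟨r, hr⟩) hru ((A.I.mem_X _ _).2 ⟨t, rfl⟩)
  · have h2 := C.T.Z.σx ⟨r, hr⟩ t
    simp only at h2
    rw [h2, hsr, hε, one_mul, ht]

include FY in
/-- scalars -/
theorem AS_smul {a b : Fin n'} (ha : Dr.Pos a) {r0 : ℕ} (hr0 : r0 ∈ TwF.lvL R f (C.T.fr a)) (hb : C.Qr b) (hb' : C.Qr (Dr.neg b)) {r1 : ℕ} (hr1 : r1 < D.nroots)
    (hrb : A.T.cls ⟨r1, hr1⟩ = b) (hrb' : A.T.cls ⟨D.neg r1, R.neg_lt hr1⟩ = Dr.neg b) (hpr : ∀ r ∈ TwF.lvL R f (C.T.fr a), pr D r1 r = -1)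
    {c : K} (hc : φ c = c) {s : K} (hs : s ∈ C.AS Y a r0) : c * s ∈ C.AS Y a r0 := by
  by_cases hc0 : c = 0
  · rw [hc0, zero_mul]
    exact ⟨1, one_mem _, one_mem _, Tc_one A.H C.T.Q ((TwF.mem_lvL r0).1 hr0).1 ((TwF.mem_lvL r0).1 hr0).2.1⟩
  obtain ⟨z, hz, hzX, rfl⟩ := hs
  have hY1 : ∀ t : K, φ t = t → xr R (elemOfGood A.H K) r1 t ∈ Y := fun t ht => by
    have := C.long_mem hb hr1 hrb ht
    exact FY _ (C.T.RX_Γ this.1) this.2
  have hY2 : ∀ t : K, φ t = t → xr R (elemOfGood A.H K) (D.neg r1) t ∈ Y := fun t ht => by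
    have := C.long_mem hb' (R.neg_lt hr1) hrb' ht
    exact FY _ (C.T.RX_Γ this.1) this.2
  have hn : ∀ t : K, φ t = t → Inst.nU A.H r1 t ∈ Y := by
    intro t ht
    have e : Inst.nU A.H r1 t = xr R (elemOfGood A.H K) r1 t * xr R (elemOfGood A.H K) (D.neg r1) (-t⁻¹) * xr R (elemOfGood A.H K) r1 t := by
      apply Units.ext
      have h1 : ((nG A.H.toGood2 r1 t : GL D.Idx K) : Matrix D.Idx D.Idx K) = D.nMat K r1 t := nG_coe A.H.toGood2 r1 t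
      have h2 : ((Inst.nU A.H r1 t : GL D.Idx K) : Matrix D.Idx D.Idx K) = D.nMat K r1 t := rfl
      rw [h2, ← h1]
      rfl
    rw [e]
    exact mul_mem (mul_mem (hY1 t ht) (hY2 _ (by rw [map_neg, map_inv₀, ht]))) (hY1 t ht)
  have hc' : φ c⁻¹ = c⁻¹ := by rw [map_inv₀, hc]
  have hh : Inst.hU A.H r1 c⁻¹ ∈ Y := mul_mem (hn _ hc') (hn (-1) (by simp))
  obtain ⟨t, ht, hrel⟩ := C.T.RX_pl ha hzX
  have hconj : Inst.hU A.H r1 c⁻¹ * z * (Inst.hU A.H r1 c⁻¹)⁻¹ = pl R A.H (TwF.lvL R f (C.T.fr a)) (fun r => c * t r) := by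
    rw [ht]
    have key : ∀ L : List ℕ, (∀ r ∈ L, r ∈ TwF.lvL R f (C.T.fr a)) →
        Inst.hU A.H r1 c⁻¹ * pl R A.H L t * (Inst.hU A.H r1 c⁻¹)⁻¹ = pl R A.H L (fun r => c * t r) := by
      intro L
      induction L with
      | nil => intro _; rw [pl_nil, pl_nil]; group
      | cons r L ih =>
        intro hr
        have h1 := (TwF.mem_lvL r).1 (hr r List.mem_cons_self)
        have h2 := Inst.hU_xU A.H hr1 (inv_ne_zero hc0) h1.1 (t r)
        rw [hpr r (hr r List.mem_cons_self), _root_.zpow_neg, _root_.zpow_one, inv_inv] at h2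
        rw [pl_cons, pl_cons, ← ih (fun s hs => hr s (List.mem_cons_of_mem _ hs)), xr_eq_xU R A.H, xr_eq_xU R A.H, ← h2]
        group
    exact key _ (fun r hr => hr)
  refine ⟨Inst.hU A.H r1 c⁻¹ * z * (Inst.hU A.H r1 c⁻¹)⁻¹, mul_mem (mul_mem hh hz) (inv_mem hh), ?_, ?_⟩
  · rw [hconj]
    refine C.T.pl_mem_RX (c := C.T.fr a) ha rfl _ fun r hr => ?_
    rw [map_mul, hc, hrel r hr]; ring
  · rw [hconj, C.Tc_RX ha _ hr0, ht, C.Tc_RX ha _ hr0]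

end TwC

end twD

end Cfsg.Agent.ChevU
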