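import Cfsg.Agent.ChevU.CertG2
import Cfsg.Agent.ChevU.SepAlg

set_option autoImplicit false
set_option linter.unusedSectionVars false
set_option linter.unusedVariables false

/-!
# Weakly closed unipotent subgroups (helper17)
-/

namespace Cfsg.Agent.ChevU

open Cfsg.Lie Matrix Subgroup
open scoped commutatorElement

variable {D : ChevalleyDatum} {F : Type*} [Field F] (R : RootFacts D) (G : Chev.Good D) (E : ChevGrp.DData D)

/-- the coefficients at the simple roots -/
def tau (R : RootFacts D) (g : GL D.Idx F) : Fin D.rank → F :=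
  fun k => (g : Matrix D.Idx D.Idx F) (Sum.inl k) (Sum.inr ⟨D.neg (D.simple k), R.neg_lt (R.simple_lt k k.2)⟩)

theorem ht_simple {k : ℕ} (hk : k < D.rank) : R.ht (D.simple k) = 1 := by
  show R.ev (fun _ => 1) (D.simple k) = 1
  rw [ev_simple R _ hk]

theorem hw_simple (k : Fin D.rank) :
    R.hw (Sum.inl k) = R.hw (Sum.inr ⟨D.neg (D.simple k), R.neg_lt (R.simple_lt k k.2)⟩) + 1 := by
  rw [hw_neg R (R.simple_lt k k.2) k, ht_simple R k.2]

include G in
theorem tau_mul {g h : GL D.Idx F} (hg : g ∈ D.posUnipotent F) (hh : h ∈ D.posUnipotent F) : tau R (g * h) = tau R g + tau R h := by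
  funext k
  exact Lv.lead_mul one_pos (lv_pos R G hg) (lv_pos R G hh) (hw_simple R k)

theorem tau_one : tau R (1 : GL D.Idx F) = 0 := by
  funext k
  show ((1 : GL D.Idx F) : Matrix D.Idx D.Idx F) _ _ = 0
  rw [Units.val_one, Matrix.one_apply_ne (by simp)]

include G in
theorem tau_inv {g : GL D.Idx F} (hg : g ∈ D.posUnipotent F) : tau R g⁻¹ = - tau R g := by
  funext k
  exact Lv.lead_inv one_pos (lv_pos R G hg) (hw_simple R k)

theorem tau_xr {s : ℕ} (hs : s < D.nroots) (t : F) (k : Fin D.rank) :
    tau R (xr R (elemOfGood G F) s t) k = if s = D.simple k then t else 0 := by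
  unfold tau
  rw [coe_xr, entry_cartan R (R.simple_lt k k.2) hs]
  by_cases h : s = D.simple k
  · rw [if_pos h, if_pos h, R.cor_simple k k.2 k k.2, if_pos rfl]; simp
  · rw [if_neg h, if_neg h]

include R in
theorem simple_inj {i j : ℕ} (hi : i < D.rank) (hj : j < D.rank) (h : D.simple i = D.simple j) : i = j := by
  have h1 := R.vec_simple i hi i
  have h2 := R.vec_simple j hj i
  rw [h, h2, if_pos rfl] at h1
  by_contra hne
  rw [if_neg hne] at h1
  omega

theorem tau_simple (k : Fin D.rank) (t : F) : tau R (xr R (elemOfGood G F) (D.simple k) t) = Pi.single k t := by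
  funext j
  rw [tau_xr R G (R.simple_lt k k.2)]
  by_cases h : k = j
  · subst h; rw [if_pos rfl, Pi.single_eq_same]
  · rw [if_neg (fun he => h (Fin.ext (simple_inj R k.2 j.2 he))), Pi.single_eq_of_ne (Ne.symm h)]

include G in
/-- the torus action on the coefficients -/
theorem tau_conj (c : Fin D.rank → Fˣ) {g : GL D.Idx F} (hg : g ∈ D.posUnipotent F) :
    hHom D F c * g * (hHom D F c)⁻¹ ∈ D.posUnipotent F ∧
    tau R (hHom D F c * g * (hHom D F c)⁻¹) = fun k : Fin D.rank => ((∏ i : Fin D.rank, c i ^ D.cartan i (D.simple k) : Fˣ) : F) * tau R g k := by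
  have hmem : ∀ g ∈ D.posUnipotent F, hHom D F c * g * (hHom D F c)⁻¹ ∈ D.posUnipotent F := by
    intro g hg
    have h1 : hHom D F c ∈ D.diagonalSubgroup F := by rw [diag_eq_range R G]; exact ⟨c, rfl⟩
    exact (mem_normalizer_iff.mp ((borel_semidirect R G).1 h1) g).mp hg
  refine ⟨hmem g hg, ?_⟩
  rw [posUnipotent_eq_clo] at hg
  unfold clo at hg
  induction hg using closure_induction with
  | mem x hx =>
    obtain ⟨s, t, hs, hx⟩ := hx
    have h1 : x = xr R (elemOfGood G F) s t := Units.ext hx
    rw [h1, hHom_conj R G c hs.1]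
    funext k
    rw [tau_xr R G hs.1, tau_xr R G hs.1]
    by_cases h : s = D.simple k
    · rw [if_pos h, if_pos h, h]
    · rw [if_neg h, if_neg h, mul_zero]
  | one =>
    rw [mul_one, mul_inv_cancel, tau_one]
    funext k
    rw [Pi.zero_apply, mul_zero]
  | mul x y hx hy ihx ihy =>
    have e : hHom D F c * (x * y) * (hHom D F c)⁻¹ = (hHom D F c * x * (hHom D F c)⁻¹) * (hHom D F c * y * (hHom D F c)⁻¹) := by group
    rw [e, tau_mul R G (hmem x hx) (hmem y hy), ihx, ihy, tau_mul R G hx hy]
    funext k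
    simp only [Pi.add_apply]
    ring
  | inv x hx ih =>
    have e : hHom D F c * x⁻¹ * (hHom D F c)⁻¹ = (hHom D F c * x * (hHom D F c)⁻¹)⁻¹ := by group
    rw [e, tau_inv R G (hmem x hx), ih, tau_inv R G hx]
    funext k
    simp only [Pi.neg_apply]
    ring

include G in
theorem tau_comm {g h : GL D.Idx F} (hg : g ∈ D.posUnipotent F) (hh : h ∈ D.posUnipotent F) : tau R (g * h * g⁻¹ * h⁻¹) = 0 := by
  rw [tau_mul R G (mul_mem (mul_mem hg hh) (inv_mem hg)) (inv_mem hh), tau_mul R G (mul_mem hg hh) (inv_mem hg),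
    tau_mul R G hg hh, tau_inv R G hg, tau_inv R G hh]
  abel

include G in
/-- `U` is the product of `U_{k}` and `X_{p_k}` -/
theorem mem_radical_of_tau {k : Fin D.rank} {x : GL D.Idx F} (hx : x ∈ D.posUnipotent F) (h : tau R x k = 0) :
    x ∈ D.unipotentRadical F {(k : ℕ)} := by
  have hs := R.simple_lt k k.2
  have h1 : D.posUnipotent F ≤ D.unipotentRadical F {(k : ℕ)} ⊔ D.rootSubgroup F (D.simple k) := by
    rw [posUnipotent_eq_clo]
    apply clo_le R (elemOfGood G F)
    intro s hs' t
    by_cases h2 : D.InRootSub {(k : ℕ)} s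
    · apply mem_sup_right
      have h3 : s = D.simple k := by
        rw [inRootSub_iff R hs'.1] at h2
        rcases R.red k k.2 s hs'.1 (fun j hj => by
          by_cases hj' : j < D.rank
          · exact h2 j hj' (by simpa using hj)
          · exact R.vec_out s j (by omega)) with h3 | h3
        · exact h3
        · exfalso
          have h4 := (R.pos_iff s hs'.1).mp hs'
          have h5 := R.half_le_simple k.2
          have h6 := R.n_eq
          omega
      rw [rootSubgroup_eq, h3]
      exact xr_mem_clo R (elemOfGood G F) (P := fun s => s = D.simple k) rfl t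
    · exact mem_sup_left (xr_mem_radical R G ⟨hs', h2⟩ t)
  have h2 : D.rootSubgroup F (D.simple k) ≤ normalizer (D.unipotentRadical F {(k : ℕ)} : Set (GL D.Idx F)) := by
    refine le_trans ?_ (parabolic_le_normalizer R G {(k : ℕ)})
    refine le_trans ?_ le_sup_left
    refine le_trans ?_ le_sup_left
    rw [rootSubgroup_eq, posUnipotent_eq_clo]
    apply clo_mono
    rintro s rfl
    exact (R.pos_iff _ hs).mpr (R.half_le_simple k.2)
  obtain ⟨u, hu, y, hy, rfl⟩ := mem_sup_of_le_normalizer h2 (h1 hx)
  have hy' : ∃ t : F, y = xr R (elemOfGood G F) (D.simple k) t := by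
    obtain ⟨t, ht⟩ := (ChevGrp.Inst.mem_rootSubgroup G.toGood2 hs).1 hy
    exact ⟨t, ht⟩
  obtain ⟨t, rfl⟩ := hy'
  have huU := radical_le_pos {(k : ℕ)} hu
  have hu0 : tau R u k = 0 := by
    have : ∀ u ∈ D.unipotentRadical F {(k : ℕ)}, tau R u k = 0 := by
      intro u hu
      rw [unipotentRadical_eq_clo] at hu
      unfold clo at hu
      have hsub : Subgroup.closure {g : GL D.Idx F | ∃ (s : ℕ) (t : F), (D.IsPosRoot s ∧ ¬ D.InRootSub {(k : ℕ)} s) ∧ (g : Matrix D.Idx D.Idx F) = D.x F s t} ≤ D.posUnipotent F :=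
        clo_mono (P := fun s => D.IsPosRoot s ∧ ¬ D.InRootSub {(k : ℕ)} s) (Q := D.IsPosRoot) fun s hs => hs.1
      induction hu using closure_induction with
      | mem x hx =>
        obtain ⟨s, t, hs', hx⟩ := hx
        have h1 : x = xr R (elemOfGood G F) s t := Units.ext hx
        rw [h1, tau_xr R G hs'.1.1, if_neg]
        rintro rfl
        apply hs'.2
        rw [inRootSub_iff R hs]
        intro i hi hik
        rw [R.vec_simple k k.2, if_neg (by simpa using hik)]
      | one => rw [tau_one]; rfl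
      | mul x y hx hy ihx ihy => rw [tau_mul R G (hsub hx) (hsub hy), Pi.add_apply, ihx, ihy, add_zero]
      | inv x hx ih => rw [tau_inv R G (hsub hx), Pi.neg_apply, ih, neg_zero]
    exact this u hu
  rw [tau_mul R G huU (xr_mem_pos R G hs (R.half_le_simple k.2) t), Pi.add_apply, hu0, zero_add, tau_simple R G, Pi.single_eq_same] at h
  rw [h, xr_zero, mul_one]
  exact hu

section main

/-- commutator closure data -/
def RootMem (R : RootFacts D) (G : Chev.Good D) (F : Type*) [Field F] : Prop :=
  ∀ (J : Set ℕ) (Y : Subgroup (GL D.Idx F)),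
    (∀ a ∈ D.unipotentRadical F J, ∀ b ∈ D.posUnipotent F, a * b * a⁻¹ * b⁻¹ ∈ Y) →
    (D.posUnipotent F ≤ normalizer (Y : Set (GL D.Idx F))) →
    ∀ r < D.nroots, Out D J r → (∀ i < D.rank, r ≠ D.simple i) → ∀ t : F, xr R (elemOfGood G F) r t ∈ Y

/-- separation of the simple roots by the torus -/
def SepT (D : ChevalleyDatum) (F : Type*) [Field F] : Prop :=
  ∀ k k' : Fin D.rank, k ≠ k' → ∃ j j' : Fin D.rank, ∃ t : Fˣ,
    t ^ (D.cartan j' (D.simple k') * D.cartan j (D.simple k) + -D.cartan j (D.simple k') * D.cartan j' (D.simple k)) ≠ 1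

variable {J : Set ℕ} {Y : Subgroup (GL D.Idx F)}

include G in
/-- the kernel of `tau` on `U_J` -/
theorem mem_of_tau_zero (hM : RootMem R G F)
    (hY0 : Y ≤ D.posUnipotent F)
    (hY1 : ∀ a ∈ D.unipotentRadical F J, ∀ b ∈ D.posUnipotent F, a * b * a⁻¹ * b⁻¹ ∈ Y)
    (hY2 : D.posUnipotent F ≤ normalizer (Y : Set (GL D.Idx F))) (hY3 : ∀ y ∈ Y, tau R y = 0)
    {u : GL D.Idx F} (hu : u ∈ D.unipotentRadical F J) (hu0 : tau R u = 0) : u ∈ Y := by
  classical
  let W : Finset (Fin D.rank) → Subgroup (GL D.Idx F) := fun K => clo D F (fun s => ∃ k ∈ K, s = D.simple (k : Fin D.rank)) ⊔ Y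
  have hWU : ∀ K, W K ≤ D.posUnipotent F := by
    intro K
    refine sup_le ?_ hY0
    rw [posUnipotent_eq_clo]
    apply clo_mono
    rintro s ⟨k, -, rfl⟩
    exact (R.pos_iff _ (R.simple_lt k k.2)).mpr (R.half_le_simple k.2)
  have key : ∀ K : Finset (Fin D.rank), (∀ k ∈ K, (k : ℕ) ∉ J) → ∀ u ∈ W K, (∀ k ∈ K, tau R u k = 0) → u ∈ Y := by
    intro K
    induction K using Finset.induction_on with
    | empty =>
      intro _ u hu _
      have h1 : clo D F (fun s => ∃ k ∈ (∅ : Finset (Fin D.rank)), s = D.simple (k : Fin D.rank)) = ⊥ := by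
        rw [eq_bot_iff]
        apply clo_le R (elemOfGood G F)
        rintro s ⟨k, hk, -⟩
        simp at hk
      have h2 : W ∅ = Y := by
        show clo D F (fun s => ∃ k ∈ (∅ : Finset (Fin D.rank)), s = D.simple (k : Fin D.rank)) ⊔ Y = Y
        rw [h1, bot_sup_eq]
      rw [h2] at hu
      exact hu
    | insert k K hk ih =>
      intro hKJ u hu hu0
      have hs := R.simple_lt k k.2
      have hkJ : (k : ℕ) ∉ J := hKJ k (Finset.mem_insert_self _ _)
      have h1 : W (insert k K) ≤ W K ⊔ D.rootSubgroup F (D.simple k) := by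
        refine sup_le ?_ (le_trans le_sup_right le_sup_left)
        apply clo_le R (elemOfGood G F)
        rintro s ⟨j, hj, rfl⟩ t
        rw [Finset.mem_insert] at hj
        rcases hj with rfl | hj
        · apply mem_sup_right
          rw [rootSubgroup_eq]
          exact xr_mem_clo R (elemOfGood G F) (P := fun s => s = D.simple (j : Fin D.rank)) rfl t
        · apply mem_sup_left
          apply mem_sup_left
          exact xr_mem_clo R (elemOfGood G F) (P := fun s => ∃ k ∈ K, s = D.simple (k : Fin D.rank)) ⟨j, hj, rfl⟩ t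
      have hXJ : D.rootSubgroup F (D.simple k) ≤ D.unipotentRadical F J := by
        rw [rootSubgroup_eq]
        apply clo_le R (elemOfGood G F)
        rintro s rfl t
        exact xr_mem_radical R G (out_simple R k.2 hkJ) t
      have hnorm : D.rootSubgroup F (D.simple k) ≤ normalizer (W K : Set (GL D.Idx F)) := by
        have h2 : ∀ a ∈ D.rootSubgroup F (D.simple k), ∀ w ∈ W K, a * w * a⁻¹ ∈ W K := by
          intro a ha w hw
          have h3 : a * w * a⁻¹ * w⁻¹ ∈ W K := mem_sup_right (hY1 a (hXJ ha) w (hWU K hw))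
          have := mul_mem h3 hw
          rwa [inv_mul_cancel_right] at this
        intro a ha
        rw [mem_normalizer_iff]
        intro w
        refine ⟨h2 a ha w, fun h => ?_⟩
        have := h2 a⁻¹ (inv_mem ha) _ h
        have e : a⁻¹ * (a * w * a⁻¹) * a⁻¹⁻¹ = w := by group
        rwa [e] at this
      obtain ⟨w, hw, y, hy, rfl⟩ := mem_sup_of_le_normalizer hnorm (h1 hu)
      obtain ⟨t, ht⟩ := (ChevGrp.Inst.mem_rootSubgroup G.toGood2 hs).1 hy
      have ht' : y = xr R (elemOfGood G F) (D.simple k) t := ht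
      subst ht'
      have hwk : tau R w k = 0 := by
        have h3 : ∀ w ∈ W K, tau R w k = 0 := by
          -- the elements of `U` with vanishing `k`-th coefficient form a subgroup
          let Z : Subgroup (GL D.Idx F) :=
            { carrier := {g | g ∈ D.posUnipotent F ∧ tau R g k = 0}
              one_mem' := ⟨one_mem _, by rw [tau_one]; rfl⟩
              mul_mem' := by
                rintro a b ⟨ha, ha0⟩ ⟨hb, hb0⟩
                exact ⟨mul_mem ha hb, by rw [tau_mul R G ha hb, Pi.add_apply, ha0, hb0, add_zero]⟩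
              inv_mem' := by
                rintro a ⟨ha, ha0⟩
                exact ⟨inv_mem ha, by rw [tau_inv R G ha, Pi.neg_apply, ha0, neg_zero]⟩ }
          have h4 : W K ≤ Z := by
            refine sup_le ?_ ?_
            · apply clo_le R (elemOfGood G F)
              rintro s ⟨j, hj, rfl⟩ t
              refine ⟨xr_mem_pos R G (R.simple_lt j j.2) (R.half_le_simple j.2) t, ?_⟩
              rw [tau_simple R G, Pi.single_eq_of_ne]
              rintro rfl
              exact hk hj
            · intro y hy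
              exact ⟨hY0 hy, by rw [hY3 y hy]; rfl⟩
          intro w hw
          exact (h4 hw).2
        exact h3 w hw
      have h5 := hu0 k (Finset.mem_insert_self _ _)
      rw [tau_mul R G (hWU K hw) (xr_mem_pos R G hs (R.half_le_simple k.2) t), Pi.add_apply, hwk, zero_add, tau_simple R G,
        Pi.single_eq_same] at h5
      rw [h5, xr_zero, mul_one] at hu0 ⊢
      exact ih (fun j hj => hKJ j (Finset.mem_insert_of_mem hj)) w hw fun j hj => hu0 j (Finset.mem_insert_of_mem hj)
  refine key (Finset.univ.filter fun k : Fin D.rank => (k : ℕ) ∉ J) (fun k hk => (Finset.mem_filter.mp hk).2) u ?_ fun k _ => by rw [hu0]; rfl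
  have h6 : D.unipotentRadical F J ≤ W (Finset.univ.filter fun k : Fin D.rank => (k : ℕ) ∉ J) := by
    rw [unipotentRadical_eq_clo]
    apply clo_le R (elemOfGood G F)
    intro s hs t
    by_cases h7 : ∃ i < D.rank, s = D.simple i
    · obtain ⟨i, hi, rfl⟩ := h7
      apply mem_sup_left
      refine xr_mem_clo R (elemOfGood G F) (P := fun s => ∃ k ∈ Finset.univ.filter fun k : Fin D.rank => (k : ℕ) ∉ J, s = D.simple (k : Fin D.rank)) ?_ t
      refine ⟨⟨i, hi⟩, ?_, rfl⟩
      rw [Finset.mem_filter]
      refine ⟨Finset.mem_univ _, fun hiJ => hs.2 ?_⟩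
      rw [inRootSub_iff R (R.simple_lt i hi)]
      intro j hj hjJ
      rw [R.vec_simple i hi, if_neg]
      rintro rfl
      exact hjJ hiJ
    · push Not at h7
      exact mem_sup_right (hM J Y hY1 hY2 s hs.1.1 hs h7 t)
  exact h6 hu

end main

end Cfsg.Agent.ChevU
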