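import Cfsg.Agent.ChevU.WeakMain
import Cfsg.Agent.ChevU.Cert
import Cfsg.Agent.ChevU.All

set_option autoImplicit false
set_option linter.unusedSectionVars false
set_option linter.unusedVariables false

/-!
# Weakly closed unipotent subgroups: the seven types (helper17)
-/

namespace Cfsg.Agent.ChevU

open Cfsg.Lie Matrix Subgroup

theorem rootMem_of_cert {D : ChevalleyDatum} {F : Type*} [Field F] (R : RootFacts D) (G : Chev.Good D)
    (hcert : ∀ r < D.nroots, D.nroots / 2 ≤ r → HasCert D r) (ha : ∃ a : F, a ≠ 0 ∧ a ≠ 1) : RootMem R G F := by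
  intro J Y hY1 hY2 r hr hout hns t
  exact xr_mem_of_cert R G hY1 hcert ha _ r rfl hr hout hns t

theorem rootMem_G2 {F : Type*} [Field F] (R : RootFacts chevG2) (G : Chev.Good chevG2)
    (ha : ∃ a : F, a ≠ 0 ∧ a ^ 2 ≠ 1) : RootMem R G F := by
  intro J Y hY1 hY2 r hr hout hns t
  have hn := g2n
  have hrk := g2rank
  have hJ : ∃ i < 2, i ∉ J := by
    obtain ⟨i, hi, hiJ, -⟩ := (out_iff R hr).mp hout
    exact ⟨i, by omega, hiJ⟩
  obtain ⟨h8, h9, h10, h11⟩ := g2_mem R G hY1 hY2 ha hJ t
  have h1 := (R.pos_iff r hr).mp hout.1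
  have h2 := R.n_eq
  have h3 : r ≠ 7 := by have := hns 0 (by omega); rwa [g2s0] at this
  have h4 : r ≠ 6 := by have := hns 1 (by omega); rwa [g2s1] at this
  have h5 : r = 8 ∨ r = 9 ∨ r = 10 ∨ r = 11 := by omega
  rcases h5 with rfl | rfl | rfl | rfl <;> assumption

/-- check that the torus separates simple roots, with exponents `± 1` -/
def sepCheck (D : ChevalleyDatum) (l : List ℤ) : Bool :=
  (List.range D.rank).all fun k => (List.range D.rank).all fun k' => k == k' ||
    (List.range D.rank).any fun j => (List.range D.rank).any fun j' =>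
      l.contains (D.cartan j' (D.simple k') * D.cartan j (D.simple k) + -D.cartan j (D.simple k') * D.cartan j' (D.simple k))

theorem sep_E6 : sepCheck chevE6 [1, -1] = true := by decide +kernel
theorem sep_E7 : sepCheck chevE7 [1, -1] = true := by decide +kernel
theorem sep_E8 : sepCheck chevE8 [1, -1] = true := by decide +kernel
theorem sep_D4 : sepCheck chevD4 [1, -1, 2, -2] = true := by decide +kernel
theorem sep_F4 : sepCheck chevF4 [1, -1, 2, -2] = true := by decide +kernel
theorem sep_B2 : sepCheck chevB2 [1, -1, 2, -2] = true := by decide +kernel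
theorem sep_G2 : sepCheck chevG2 [1, -1, 2, -2] = true := by decide +kernel

theorem sepT_of_check {D : ChevalleyDatum} {F : Type*} [Field F] {l : List ℤ} (h : sepCheck D l = true)
    (t : Fˣ) (ht : ∀ a ∈ l, t ^ a ≠ 1) : SepT D F := by
  intro k k' hkk
  unfold sepCheck at h
  rw [List.all_eq_true] at h
  have h1 := h k (List.mem_range.mpr k.2)
  rw [List.all_eq_true] at h1
  have h2 := h1 k' (List.mem_range.mpr k'.2)
  rw [Bool.or_eq_true, beq_iff_eq, List.any_eq_true] at h2
  rcases h2 with h2 | ⟨j, hj, h2⟩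
  · exact absurd (Fin.ext h2) hkk
  · rw [List.any_eq_true] at h2
    obtain ⟨j', hj', h2⟩ := h2
    exact ⟨⟨j, List.mem_range.mp hj⟩, ⟨j', List.mem_range.mp hj'⟩, t, ht _ (List.contains_iff_mem.mp h2)⟩

end Cfsg.Agent.ChevU
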