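import Cfsg.Agent.ChevU.Weak

set_option autoImplicit false
set_option linter.unusedSectionVars false
set_option linter.unusedVariables false

/-!
# Weakly closed unipotent subgroups: main theorem (helper17)
-/

namespace Cfsg.Agent.ChevU

open Cfsg.Lie Matrix Subgroup
open scoped commutatorElement

/-- a Frattini type argument in nilpotent groups -/
theorem le_of_le_sup_commutator {Γ : Type*} [Group Γ] [Group.IsNilpotent Γ] (X V : Subgroup Γ) [X.Normal]
    (h : V ≤ X ⊔ ⁅V, (⊤ : Subgroup Γ)⁆) : V ≤ X := by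
  set π := QuotientGroup.mk' X with hπ
  have hsurj : Function.Surjective π := QuotientGroup.mk'_surjective X
  have h1 : V.map π ≤ ⁅V.map π, (⊤ : Subgroup (Γ ⧸ X))⁆ := by
    have h2 := Subgroup.map_mono (f := π) h
    rw [Subgroup.map_sup, Subgroup.map_commutator, Subgroup.map_top_of_surjective π hsurj] at h2
    have h3 : X.map π = ⊥ := by
      rw [Subgroup.map_eq_bot_iff, hπ, QuotientGroup.ker_mk']
    rwa [h3, bot_sup_eq] at h2
  have h4 : ∀ m, V.map π ≤ (⊤ : Subgroup (Γ ⧸ X)).lowerCentralSeries m := by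
    intro m
    induction m with
    | zero => exact le_top
    | succ m ih =>
      refine h1.trans ?_
      exact Subgroup.commutator_mono ih le_rfl
  obtain ⟨m, hm⟩ := Subgroup.nilpotent_iff_lowerCentralSeries.mp (inferInstance : Group.IsNilpotent (Γ ⧸ X))
  have h5 := h4 m
  rw [hm] at h5
  have h6 : V.map π = ⊥ := le_bot_iff.mp h5
  rw [Subgroup.map_eq_bot_iff, hπ, QuotientGroup.ker_mk'] at h6
  exact h6

variable {D : ChevalleyDatum} {F : Type*} [Field F] (R : RootFacts D) (G : Chev.Good D) (E : ChevGrp.DData D)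

include R G E in
theorem weakly_closed [Fintype F] (hM : RootMem R G F) (hS : SepT D F) {X : Subgroup (GL D.Idx F)}
    (hXU : X ≤ D.posUnipotent F)
    (hwc : ∀ g ∈ D.group F, X.map (MulAut.conj g).toMonoidHom ≤ D.posUnipotent F → X.map (MulAut.conj g).toMonoidHom = X) :
    ∃ J : Set ℕ, (∀ j ∈ J, j < D.rank) ∧ X = D.unipotentRadical F J := by
  classical
  obtain ⟨p, hpc⟩ := CharP.exists F
  have : Fact p.Prime := ⟨CharP.char_is_prime F p⟩
  have hUB : D.posUnipotent F ≤ D.borelSubgroup F := le_sup_left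
  have hBG : D.borelSubgroup F ≤ D.group F := (borel_monomial R (elemOfGood G F)).1
  have hUG : D.posUnipotent F ≤ D.group F := hUB.trans hBG
  -- elements conjugating `X` into `U` normalise `X`
  have hN : ∀ g ∈ D.group F, (∀ x ∈ X, g * x * g⁻¹ ∈ D.posUnipotent F) → g ∈ normalizer (X : Set (GL D.Idx F)) := by
    intro g hg h
    have h1 : X.map (MulAut.conj g).toMonoidHom ≤ D.posUnipotent F := by
      rintro _ ⟨x, hx, rfl⟩
      exact h x hx
    have h2 := hwc g hg h1
    rw [mem_normalizer_iff]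
    intro x
    constructor
    · intro hx
      rw [← h2]
      exact ⟨x, hx, rfl⟩
    · intro hx
      rw [← h2] at hx
      obtain ⟨y, hy, he⟩ := hx
      have he' : g * y * g⁻¹ = g * x * g⁻¹ := he
      have : y = x := by
        have := congrArg (fun z => g⁻¹ * z * g) he'
        simpa [mul_assoc] using this
      rw [← this]
      exact hy
  have hHN : D.diagonalSubgroup F ≤ normalizer (D.posUnipotent F : Set (GL D.Idx F)) := (borel_semidirect R G).1
  have hBN : D.borelSubgroup F ≤ normalizer (X : Set (GL D.Idx F)) := by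
    refine sup_le ?_ ?_
    · intro g hg
      exact hN g (hUG hg) fun x hx => mul_mem (mul_mem hg (hXU hx)) (inv_mem hg)
    · intro g hg
      exact hN g (hBG (mem_sup_right hg)) fun x hx => (mem_normalizer_iff.mp (hHN hg) x).mp (hXU hx)
  set M : Subgroup (GL D.Idx F) := normalizer (X : Set (GL D.Idx F)) ⊓ D.group F with hMdef
  have hM1 : D.borelSubgroup F ≤ M := le_inf hBN hBG
  have hM2 : M ≤ D.group F := inf_le_right
  set J : Set ℕ := {i | i < D.rank ∧ nU R (elemOfGood G F) (D.simple i) 1 ∈ M} with hJdef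
  have hMJ : M = D.parabolicSubgroup F J := overgroup R G E hM1 hM2
  have hJ : ∀ j ∈ J, j < D.rank := fun j hj => hj.1
  refine ⟨J, hJ, ?_⟩
  have hXp : IsPGroup p ↥X := (posUnipotent_isPGroup R G p).to_le hXU
  have hXJ : X ≤ D.unipotentRadical F J :=
    le_radical_of_normal R G E p hJ (hXU.trans hUG) hXp (by rw [← hMJ]; exact inf_le_left)
  apply le_antisymm hXJ
  -- simple roots outside `J` occur in `X`
  have hocc : ∀ k : Fin D.rank, (k : ℕ) ∉ J → ∃ x ∈ X, tau R x k ≠ 0 := by
    intro k hk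
    by_contra hcon
    push Not at hcon
    have h1 : X ≤ D.unipotentRadical F {(k : ℕ)} := fun x hx => mem_radical_of_tau R G (hXU hx) (hcon x hx)
    have hnP : nU R (elemOfGood G F) (D.simple k) 1 ∈ D.parabolicSubgroup F {(k : ℕ)} :=
      mem_sup_right (Subgroup.subset_closure ⟨(k : ℕ), rfl, k.2, coe_nU R _ _ _⟩)
    have hn1 := parabolic_le_normalizer R G {(k : ℕ)} hnP
    have hn2 : nU R (elemOfGood G F) (D.simple k) 1 ∈ D.group F := parabolic_le_group R G _ hnP
    refine hk ⟨k.2, hN _ hn2 fun x hx => ?_, hn2⟩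
    exact radical_le_pos _ ((mem_normalizer_iff.mp hn1 x).mp (h1 hx))
  -- the set of coefficient vectors
  let S : AddSubgroup (Fin D.rank → F) :=
    { carrier := {v | ∃ x ∈ X, tau R x = v}
      zero_mem' := ⟨1, one_mem _, tau_one R⟩
      add_mem' := by
        rintro a b ⟨x, hx, rfl⟩ ⟨y, hy, rfl⟩
        exact ⟨x * y, mul_mem hx hy, tau_mul R G (hXU hx) (hXU hy)⟩
      neg_mem' := by
        rintro a ⟨x, hx, rfl⟩
        exact ⟨x⁻¹, inv_mem hx, tau_inv R G (hXU hx)⟩ }
  have hSing : ∀ k : Fin D.rank, (k : ℕ) ∉ J → ∀ y : F, Pi.single k y ∈ S := by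
    intro k hk y
    obtain ⟨x, hx, hxk⟩ := hocc k hk
    refine isolate S (fun i k => D.cartan i (D.simple k)) (fun k => R.cartan_self k k.2) ?_ hS k (tau R x) ⟨x, hx, rfl⟩ hxk y
    rintro c v ⟨x, hx, rfl⟩
    have hc : hHom D F c ∈ D.borelSubgroup F := by
      apply mem_sup_right
      rw [diag_eq_range R G]
      exact ⟨c, rfl⟩
    exact ⟨hHom D F c * x * (hHom D F c)⁻¹, (mem_normalizer_iff.mp (hBN hc) x).mp hx, (tau_conj R G c (hXU hx)).2⟩
  -- the commutator subgroup
  set V := D.unipotentRadical F J with hV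
  set Γ : Subgroup (GL D.Idx F) := ⁅V, D.posUnipotent F⁆ with hΓ
  have hVU : V ≤ D.posUnipotent F := radical_le_pos J
  have hUP : D.posUnipotent F ≤ D.parabolicSubgroup F J := hUB.trans (by rw [← hMJ]; exact hM1)
  have hUNV : D.posUnipotent F ≤ normalizer (V : Set (GL D.Idx F)) := hUP.trans (parabolic_le_normalizer R G J)
  have hY1 : ∀ a ∈ V, ∀ b ∈ D.posUnipotent F, a * b * a⁻¹ * b⁻¹ ∈ Γ := fun a ha b hb => commutator_mem_commutator ha hb
  have hY2 : D.posUnipotent F ≤ normalizer (Γ : Set (GL D.Idx F)) := by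
    have key : ∀ u ∈ D.posUnipotent F, ∀ y ∈ Γ, u * y * u⁻¹ ∈ Γ := by
      intro u hu y hy
      have h1 : Γ.map (MulAut.conj u).toMonoidHom ≤ Γ := by
        rw [hΓ, Subgroup.map_commutator]
        apply commutator_mono
        · rintro _ ⟨x, hx, rfl⟩
          exact (mem_normalizer_iff.mp (hUNV hu) x).mp hx
        · rintro _ ⟨x, hx, rfl⟩
          exact mul_mem (mul_mem hu hx) (inv_mem hu)
      exact h1 ⟨y, hy, rfl⟩
    intro u hu
    rw [mem_normalizer_iff]
    intro y
    refine ⟨key u hu y, fun h => ?_⟩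
    have := key u⁻¹ (inv_mem hu) _ h
    have e : u⁻¹ * (u * y * u⁻¹) * u⁻¹⁻¹ = y := by group
    rwa [e] at this
  have hΓ0 : Γ ≤ D.posUnipotent F ∧ ∀ y ∈ Γ, tau R y = 0 := by
    let Z : Subgroup (GL D.Idx F) :=
      { carrier := {g | g ∈ D.posUnipotent F ∧ tau R g = 0}
        one_mem' := ⟨one_mem _, tau_one R⟩
        mul_mem' := by
          rintro a b ⟨ha, ha0⟩ ⟨hb, hb0⟩
          exact ⟨mul_mem ha hb, by rw [tau_mul R G ha hb, ha0, hb0, add_zero]⟩
        inv_mem' := by
          rintro a ⟨ha, ha0⟩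
          exact ⟨inv_mem ha, by rw [tau_inv R G ha, ha0, neg_zero]⟩ }
    have h1 : Γ ≤ Z := by
      rw [hΓ, commutator_le]
      intro a ha b hb
      refine ⟨?_, tau_comm R G (hVU ha) hb⟩
      exact mul_mem (mul_mem (mul_mem (hVU ha) hb) (inv_mem (hVU ha))) (inv_mem hb)
    exact ⟨fun y hy => (h1 hy).1, fun y hy => (h1 hy).2⟩
  -- `V ≤ X Γ`
  have hVX : V ≤ X ⊔ Γ := by
    rw [hV, unipotentRadical_eq_clo]
    apply clo_le R (elemOfGood G F)
    intro s hs t
    by_cases h7 : ∃ i < D.rank, s = D.simple i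
    · obtain ⟨i, hi, rfl⟩ := h7
      have hiJ : i ∉ J := by
        intro hiJ
        refine hs.2 ?_
        rw [inRootSub_iff R (R.simple_lt i hi)]
        intro j hj hjJ
        rw [R.vec_simple i hi, if_neg]
        rintro rfl
        exact hjJ hiJ
      obtain ⟨x, hx, hxt⟩ := hSing ⟨i, hi⟩ hiJ t
      have hxi : xr R (elemOfGood G F) (D.simple i) t ∈ V := by
        rw [hV]
        exact xr_mem_radical R G (out_simple R hi hiJ) t
      have h1 : x⁻¹ * xr R (elemOfGood G F) (D.simple i) t ∈ Γ := by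
        refine mem_of_tau_zero R G hM hΓ0.1 hY1 hY2 hΓ0.2 (mul_mem (inv_mem (hXJ hx)) hxi) ?_
        rw [tau_mul R G (inv_mem (hXU hx)) (hVU hxi), tau_inv R G (hXU hx), hxt, tau_simple R G ⟨i, hi⟩ t, neg_add_cancel]
      have h2 := mul_mem (mem_sup_left (T := Γ) hx) (mem_sup_right (S := X) h1)
      rwa [mul_inv_cancel_left] at h2
    · push Not at h7
      exact mem_sup_right (hM J Γ hY1 hY2 s hs.1.1 hs h7 t)
  -- nilpotency
  have : Group.IsNilpotent ↥(D.posUnipotent F) := (posUnipotent_isPGroup R G p).isNilpotent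
  set U := D.posUnipotent F with hU
  have : (X.subgroupOf U).Normal := by
    refine ⟨fun x hx g => ?_⟩
    rw [mem_subgroupOf] at hx ⊢
    exact (mem_normalizer_iff.mp (hBN (hUB g.2)) x).mp hx
  have h8 : V.subgroupOf U ≤ X.subgroupOf U := by
    apply le_of_le_sup_commutator
    intro x hx
    rw [mem_subgroupOf] at hx
    have h9 := hVX hx
    have h10 : (X.subgroupOf U ⊔ ⁅V.subgroupOf U, (⊤ : Subgroup ↥U)⁆).map U.subtype = X ⊔ Γ := by
      rw [Subgroup.map_sup, Subgroup.map_commutator, subgroupOf_map_subtype, subgroupOf_map_subtype, inf_eq_left.mpr hXU,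
        inf_eq_left.mpr hVU, ← MonoidHom.range_eq_map, range_subtype]
    rw [← h10] at h9
    obtain ⟨y, hy, he⟩ := h9
    have : y = x := Subtype.ext he
    rwa [← this]
  intro x hx
  exact h8 (x := ⟨x, hVU hx⟩) hx

end Cfsg.Agent.ChevU
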